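import Cfsg.Agent.H0.SimSpec
import Cfsg.Agent.H14.Comp

/-! Tower SIM (S3694), chapter OUT: specification and kit. Proofs: `blueprints/SIMOUT.md`. -/

set_option autoImplicit false

namespace H58.SO

open Subgroup Cfsg H98 Matrix H0.Sim
open scoped commutatorElement

/-- No component, and abelian or of order divisible by `p`. -/
def Cn (p : ℕ) (C : Type) [Group C] : Prop :=
  ¬ HasComponent C ∧ ((∀ a b : C, a * b = b * a) ∨ p ∣ Nat.card C)

def JobRED : Prop := ∀ (X : Type) [Group X] [Finite X] (N G H A D : Subgroup X) (p : ℕ) (g : X),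
  Am N G H A p g → D.Normal → ⁅(⊤ : Subgroup X), (⊤ : Subgroup X)⁆ ≤ D → ⁅D, D⁆ ≤ N → ¬ A ≤ D →
  ∃ x : X, x ∉ D ∧ orderOf x = p ∧
    Nat.card H ≤ Nat.card ↥(D ⊓ centralizer ({x} : Set X)) * D.index ∧
    Cn p ↥(D ⊓ centralizer ({x} : Set X))

def JobGL : Prop := ∀ (n : ℕ) (F : Type) [Field F] [Fintype F], 2 ≤ n →
  HasComponent (ProjGenLinGroup (Fin n) F) ∨ (n = 2 ∧ Fintype.card F ≤ 3 ∧
    Nat.card (ProjGenLinGroup (Fin n) F) ∣ 48 ∧
    ¬ ∀ a b : ProjGenLinGroup (Fin n) F, a * b = b * a)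

def JobGU : Prop := ∀ (n : ℕ) (F : Type) [Field F] [Fintype F] (q : ℕ), Fintype.card F = q ^ 2 →
  3 ≤ n → HasComponent (PGU n F q) ∨ (n = 3 ∧ q = 2 ∧ Nat.card (PGU n F q) ∣ 648 ∧
    ¬ ∀ a b : PGU n F q, a * b = b * a)

def JobSp : Prop := ∀ (m : ℕ) (F : Type) [Field F] [Fintype F], 2 ≤ m → 3 ≤ Fintype.card F →
  HasComponent (PGSp m F)

def JobO : Prop := ∀ (ι : Type) [Fintype ι] [DecidableEq ι] (F : Type) [Field F] [Fintype F]
  (Q : (ι → F) → F), (HasComponent (POmega F Q) → HasComponent (PGO F Q)) ∧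
    Nat.card (PGO F Q) ≤ (Fintype.card F - 1) * Nat.card (isometryGroup F Q)

def JobOo : Prop := ∀ (m : ℕ) (F : Type) [Field F] [Fintype F], Odd (Fintype.card F) → 1 ≤ m →
  HasComponent (POmega F (quadFormOdd m F)) ∨
    (Fintype.card F = 3 ∧ Nat.card (isometryGroup F (quadFormOdd m F)) = 48)

def JobOp : Prop := ∀ (m : ℕ) (F : Type) [Field F] [Fintype F], Odd (Fintype.card F) → 2 ≤ m →
  HasComponent (POmega F (quadFormPlus m F)) ∨
    (Fintype.card F = 3 ∧ Nat.card (isometryGroup F (quadFormPlus m F)) = 1152)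

def JobOm : Prop := ∀ (m : ℕ) (F : Type) [Field F] [Fintype F] (a b : F), 2 ≤ m →
  (∀ z₁ z₂ : F, z₁ ^ 2 + a * z₁ * z₂ + b * z₂ ^ 2 = 0 → z₁ = 0 ∧ z₂ = 0) →
  HasComponent (POmega F (quadFormMinus (m - 1) F a b))

/-! ### Kit -/

section Kit

variable {Y Y₀ : Type*} [Group Y] [Group Y₀]

/-- central quotients -/
theorem hc_quot (f : Y →* Y₀) (hf : Function.Surjective f) (hk : f.ker ≤ center Y)
    (h : HasComponent Y) : HasComponent Y₀ := by
  obtain ⟨L, hL⟩ := h
  refine ⟨L.map f, H14.comp_map_of_surjective hL f hf fun e => ?_⟩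
  exact H14.comp_not_le_centralizer hL
    (((map_eq_bot_iff L).1 e).trans (hk.trans (center_le_centralizer _)))

theorem hc_equiv (e : Y ≃* Y₀) (h : HasComponent Y) : HasComponent Y₀ := by
  obtain ⟨L, hL⟩ := h
  exact ⟨_, H14.comp_map_mulEquiv hL e⟩

/-- normal subgroups -/
theorem hc_normal (ψ : Y →* Y₀) (hψ : Function.Injective ψ) (hn : ψ.range.Normal)
    (h : HasComponent Y) : HasComponent Y₀ := by
  obtain ⟨L, hL⟩ := hc_equiv (MonoidHom.ofInjective hψ) h
  exact ⟨_, H14.comp_map_subtype hn.isSubnormal hL⟩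

theorem hc_prod (h : HasComponent Y) : HasComponent (Y × Y₀) := by
  refine hc_normal (MonoidHom.inl Y Y₀) (fun a b e => congrArg Prod.fst e) ?_ h
  constructor
  rintro _ ⟨a, rfl⟩ g
  exact ⟨g.1 * a * g.1⁻¹, Prod.ext rfl (by simp)⟩

/-- central extensions -/
theorem hc_ext (f : Y →* Y₀) (hf : Function.Surjective f) (hk : f.ker ≤ center Y)
    (h : HasComponent Y₀) : HasComponent Y := by
  obtain ⟨K, hK⟩ := h
  have hm : (K.comap f).map f = K := map_comap_eq_self_of_surjective hf K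
  have h1 : (⁅K.comap f, K.comap f⁆ : Subgroup Y).map f = K := by
    rw [map_commutator, hm, H14.comp_perfect hK]
  have hle : (⁅K.comap f, K.comap f⁆ : Subgroup Y) ≤ K.comap f := map_le_iff_le_comap.1 h1.le
  have hp : ⁅(⁅K.comap f, K.comap f⁆ : Subgroup Y), ⁅K.comap f, K.comap f⁆⁆ =
      ⁅K.comap f, K.comap f⁆ := by
    refine le_antisymm (commutator_mono hle hle) (commutator_le.2 fun a ha b hb => ?_)
    obtain ⟨a', ha', ea⟩ := h1.ge (mem_comap.1 ha)
    obtain ⟨b', hb', eb⟩ := h1.ge (mem_comap.1 hb)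
    have za : a'⁻¹ * a ∈ center Y := hk (by rw [MonoidHom.mem_ker, map_mul, map_inv, ea]; simp)
    have zb : b'⁻¹ * b ∈ center Y := hk (by rw [MonoidHom.mem_ker, map_mul, map_inv, eb]; simp)
    have e : ⁅a, b⁆ = ⁅a', b'⁆ := by
      obtain ⟨s, rfl⟩ : ∃ s, a = a' * s := ⟨a'⁻¹ * a, by group⟩
      obtain ⟨t, rfl⟩ : ∃ t, b = b' * t := ⟨b'⁻¹ * b, by group⟩
      rw [inv_mul_cancel_left] at za zb
      have c1 := mem_center_iff.1 za
      have c2 := mem_center_iff.1 zb
      calc ⁅a' * s, b' * t⁆ = a' * (s * (b' * t) * s⁻¹) * a'⁻¹ * (b' * t)⁻¹ := by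
            rw [commutatorElement_def]; group
        _ = a' * b' * (t * a'⁻¹ * t⁻¹) * b'⁻¹ := by rw [← c1]; group
        _ = ⁅a', b'⁆ := by rw [← c2, commutatorElement_def]; group
    rw [e]
    exact commutator_mem_commutator ha' hb'
  have hsub : (⁅K.comap f, K.comap f⁆ : Subgroup Y).IsSubnormal := by
    refine IsSubnormal.trans hle ?_ (hK.1.comap f)
    have : (⁅K.comap f, K.comap f⁆ : Subgroup Y).subgroupOf (K.comap f) =
        commutator (K.comap f) := by
      rw [← map_subtype_commutator, subgroupOf, comap_map_eq_self_of_injective (subtype_injective _)]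
    rw [this]
    exact Normal.isSubnormal inferInstance
  refine ⟨_, hsub, ?_⟩
  have : Group.IsPerfect ↥(⁅K.comap f, K.comap f⁆ : Subgroup Y) := isPerfect_iff.2 hp
  refine H14.quasi_of_ker_le_center
    ((f.comp (Subgroup.subtype _)).codRestrict K fun x => hle x.2) ?_ ?_ hK.2
  · rintro ⟨y, hy⟩
    obtain ⟨x, hx, e⟩ := h1.ge hy
    exact ⟨⟨x, hx⟩, Subtype.ext e⟩
  · intro x hx
    have hz : (x : Y) ∈ center Y := hk (congrArg Subtype.val hx)
    exact mem_center_iff.2 fun y => Subtype.ext (mem_center_iff.1 hz y)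

/-- a simple central factor group is not abelian -/
theorem hc_simple (h : IsSimpleGroup (Y ⧸ center Y)) : HasComponent (Y ⧸ center Y) := by
  refine ⟨⊤, H14.comp_top_iff.2 (H14.quasi_of_simple fun hc => ?_)⟩
  have : IsCyclic (Y ⧸ center Y) := by
    let _ : CommGroup (Y ⧸ center Y) := { mul_comm := fun a b => hc.is_comm.comm a b }
    infer_instance
  have h1 := (MonoidHom.isMulCommutative_of_isCyclic_of_ker_le_center
    (QuotientGroup.mk' (center Y)) (QuotientGroup.ker_mk' _).le).is_comm.comm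
  obtain ⟨a, ha⟩ := exists_ne (1 : Y ⧸ center Y)
  obtain ⟨y, rfl⟩ := QuotientGroup.mk_surjective a
  exact ha ((QuotientGroup.eq_one_iff y).2 (mem_center_iff.2 fun g => h1 g y))

/-- From `S / Z(S)` to a matrix group modulo scalars. -/
theorem hc_proj {ι : Type} [Fintype ι] [DecidableEq ι] {F : Type*} [Field F] (H : Subgroup (GL ι F))
    (ψ : Y →* H) (hψ : Function.Injective ψ) (hn : ψ.range.Normal)
    (h : HasComponent (Y ⧸ center Y)) : HasComponent (projQuot H) := by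
  refine hc_quot (QuotientGroup.mk' _) (QuotientGroup.mk'_surjective _) ?_ (hc_normal ψ hψ hn
    (hc_ext (QuotientGroup.mk' _) (QuotientGroup.mk'_surjective _) (QuotientGroup.ker_mk' _).le h))
  rw [QuotientGroup.ker_mk']
  intro g hg
  obtain ⟨c, hc⟩ := (Geo.mem_scalars_iff _).1 (mem_subgroupOf.1 hg)
  refine mem_center_iff.2 fun y => Subtype.ext (Units.ext ?_)
  simp [hc]

end Kit

theorem Cn.equiv {p : ℕ} {C C' : Type} [Group C] [Group C'] (h : Cn p C) (e : C ≃* C') : Cn p C' :=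
  ⟨fun c => h.1 (hc_equiv e.symm c), h.2.imp
    (fun c a b => e.symm.injective (by rw [map_mul, map_mul, c]))
    fun c => Nat.card_congr e.toEquiv ▸ c⟩

end H58.SO
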