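import Cfsg.Agent.H40.E7Spec

/-! Tower E7S, the linear algebra jobs `JobPart`, `JobFrob`, `JobTri`, `JobPar`, `JobScott`. -/

set_option autoImplicit false

namespace H58.E7

open Module H40.E7S Finset

section kit

variable {V W : Type*} [AddCommGroup V] [Module (ZMod 2) V] [AddCommGroup W] [Module (ZMod 2) W]

theorem aa (v : V) : v + v = 0 := by
  rw [← two_smul (ZMod 2), show (2 : ZMod 2) = 0 from rfl, zero_smul]

theorem dm_le [Module.Finite (ZMod 2) W] (f : V →ₗ[ZMod 2] W) {M : Submodule (ZMod 2) V}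
    {N : Submodule (ZMod 2) W} (h : ∀ v ∈ M, f v ∈ N) (hi : ∀ v ∈ M, f v = 0 → v = 0) : dm M ≤ dm N :=
  LinearMap.finrank_le_finrank_of_injective (f := f.restrict h) ((injective_iff_map_eq_zero _).2
    fun v hv => Subtype.ext (hi _ v.2 (congrArg Subtype.val hv)))

theorem dm_prod [Module.Finite (ZMod 2) V] [Module.Finite (ZMod 2) W] (M : Submodule (ZMod 2) V)
    (N : Submodule (ZMod 2) W) : dm (M.prod N) = dm M + dm N :=
  (LinearEquiv.finrank_eq (show M.prod N ≃ₗ[ZMod 2] M × N from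
    { toFun := fun x => (⟨x.1.1, x.2.1⟩, ⟨x.1.2, x.2.2⟩), invFun := fun x => ⟨(x.1.1, x.2.1), x.1.2, x.2.2⟩,
      map_add' := fun _ _ => rfl, map_smul' := fun _ _ => rfl })).trans finrank_prod

theorem dm_split [Module.Finite (ZMod 2) V] {M : Submodule (ZMod 2) V} {e : End (ZMod 2) V}
    (h : ∀ v ∈ M, e v ∈ M) (h2 : ∀ v ∈ M, e (e v) = e v) :
    dm M = dm (M ⊓ LinearMap.ker e) + dm (M ⊓ kf e) := by
  rw [← Submodule.finrank_sup_add_finrank_inf_eq, show M ⊓ LinearMap.ker e ⊓ (M ⊓ kf e) = ⊥ from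
    eq_bot_iff.2 fun v hv => (mem_kf.1 hv.2.2).symm.trans hv.1.2, finrank_bot, add_zero]
  refine congrArg dm (le_antisymm (fun v hv => Submodule.mem_sup.2
    ⟨v - e v, Submodule.mem_inf.2 ⟨sub_mem hv (h v hv), by simp [h2 v hv]⟩, e v,
      Submodule.mem_inf.2 ⟨h v hv, mem_kf.2 (h2 v hv)⟩, by simp⟩)
    (sup_le inf_le_left inf_le_left))

theorem dm_sum [Module.Finite (ZMod 2) V] {ι : Type*} [Fintype ι] {N : Submodule (ZMod 2) V}
    {U : ι → Submodule (ZMod 2) V} (e : ι → End (ZMod 2) V) (h0 : ∀ i, U i ≤ N) (h1 : ∀ i, ∀ v ∈ N, e i v ∈ U i)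
    (h2 : ∀ v ∈ N, ∑ i, e i v = v) (h3 : ∀ i, ∀ u ∈ U i, e i u = u)
    (h4 : ∀ i j, i ≠ j → ∀ u ∈ U i, e j u = 0) : dm N = ∑ i, dm (U i) := by
  let f : N →ₗ[ZMod 2] ∀ i, U i := LinearMap.pi fun i => (e i).restrict (h1 i)
  have hf : ∀ v i, (f v i).1 = e i v := fun _ _ => rfl
  refine (LinearEquiv.finrank_eq (LinearEquiv.ofBijective f ⟨(injective_iff_map_eq_zero _).2 fun v hv =>
    Subtype.ext ?_, fun u => ⟨⟨∑ i, (u i).1, sum_mem fun i _ => h0 i (u i).2⟩, funext fun j =>
      Subtype.ext ?_⟩⟩)).trans (finrank_pi_fintype _)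
  · rw [← h2 _ v.2]
    exact sum_eq_zero fun i _ => by rw [← hf, hv]; rfl
  · rw [hf, map_sum, sum_eq_single j (fun i _ hij => h4 i j hij _ (u i).2) (by simp), h3 j _ (u j).2]

/-- the sum over the cyclic group generated by `g` -/
def avg (p : ℕ) (g : End (ZMod 2) V) : End (ZMod 2) V := ∑ i ∈ range p, g ^ i

variable {p : ℕ} {g h S A B : End (ZMod 2) V} {v : V}

theorem pow_fix (hv : g v = v) (k : ℕ) : (g ^ k) v = v := by
  induction k with
  | zero => rfl
  | succ k ih => rw [pow_succ, End.mul_apply, hv, ih]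

theorem avg_fix (hp : Odd p) (hv : g v = v) : avg p g v = v := by
  obtain ⟨k, rfl⟩ := hp
  simp only [avg, LinearMap.sum_apply, pow_fix hv, sum_const, card_range]
  rw [succ_nsmul, mul_nsmul, two_nsmul, aa, nsmul_zero, zero_add]

theorem fix_avg (hg : g ^ p = 1) (v : V) : g (avg p g v) = avg p g v := by
  have := mul_geom_sum g p
  rw [hg, sub_self, sub_mul, one_mul, sub_eq_zero] at this
  exact congr($this v)

theorem avg_fix' (hg : g ^ p = 1) (v : V) : avg p g (g v) = avg p g v := by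
  have := geom_sum_mul g p
  rw [hg, sub_self, mul_sub, mul_one, sub_eq_zero] at this
  exact congr($this v)

theorem avg_semi (e : S * g = h * S) (v : V) : S (avg p g v) = avg p h (S v) := by
  have : SemiconjBy S (avg p g) (avg p h) := by
    simp only [avg, SemiconjBy, mul_sum, sum_mul]
    exact sum_congr rfl fun i _ => SemiconjBy.pow_right e i
  exact congr($this v)

theorem avg_comm (e : Commute g h) (v : V) : avg p g (avg p h v) = avg p h (avg p g v) :=
  avg_semi ((Commute.sum_left _ _ _ fun i _ => e.pow_left i).eq) v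

theorem fix_of_pow (hp : p.Prime) (hg : g ^ p = 1) {k : ℕ} (hk : ¬ p ∣ k) (hv : (g ^ k) v = v) : g v = v := by
  obtain ⟨m, -, hm⟩ := Nat.exists_mul_mod_eq_one_of_coprime ((hp.coprime_iff_not_dvd.2 hk).symm) hp.one_lt
  have := pow_fix hv m
  rwa [← pow_mul, pow_eq_pow_mod _ hg, hm, pow_one] at this

theorem avg_pow (hp : p.Prime) (ho : Odd p) (hg : g ^ p = 1) {k : ℕ} (hk : ¬ p ∣ k) (v : V) :
    avg p (g ^ k) v = avg p g v := by
  have h1 : (g ^ k) ^ p = 1 := by rw [← pow_mul, mul_comm, pow_mul, hg, one_pow]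
  rw [← avg_fix ho (fix_of_pow hp hg hk (fix_avg h1 v)), avg_comm (Commute.refl g |>.pow_right k),
    avg_fix ho (pow_fix (fix_avg hg v) k)]

theorem dm_avg [Module.Finite (ZMod 2) V] (ho : Odd p) (hg : g ^ p = 1) {M : Submodule (ZMod 2) V}
    (h : ∀ v ∈ M, g v ∈ M) : dm M = dm (M ⊓ LinearMap.ker (avg p g)) + dm (M ⊓ kf g) := by
  rw [dm_split (e := avg p g) (fun v hv => by
    rw [avg, LinearMap.sum_apply]
    exact sum_mem fun i _ => End.pow_apply_mem_of_forall_mem i h v hv) fun v _ => avg_fix ho (fix_avg hg v)]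
  congr 3
  ext v
  rw [mem_kf, mem_kf]
  exact ⟨fun e => by rw [← e, fix_avg hg], avg_fix ho⟩

theorem fix_line (c : Commute A B) (i : ℕ) (ha : A v = v) : (A ^ i * B) v = B v := by
  rw [(c.pow_left i).eq, End.mul_apply, pow_fix ha]

theorem line_pow (hA : A ^ p = 1) (hB : B ^ p = 1) (c : Commute A B) (i : ℕ) : (A ^ i * B) ^ p = 1 := by
  rw [(c.pow_left i).mul_pow, ← pow_mul, mul_comm, pow_mul, hA, hB, one_pow, one_mul]

theorem two_lines (hp : p.Prime) (hA : A ^ p = 1) {i j : ℕ} (hi : i < p) (hj : j < p) (hij : i ≠ j)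
    (h1 : (A ^ i * B) v = v) (h2 : (A ^ j * B) v = v) : A v = v := by
  wlog h : i < j generalizing i j
  · exact this hj hi hij.symm h2 h1 (by omega)
  refine fix_of_pow hp hA (k := j - i) (Nat.not_dvd_of_pos_of_lt (by omega) (by omega)) ?_
  rwa [← Nat.sub_add_cancel h.le, pow_add, mul_assoc, End.mul_apply, h1] at h2

theorem sum_lines (hp : p.Prime) (ho : Odd p) (hA : A ^ p = 1) (c : Commute A B) (hv : avg p A v = 0) :
    ∑ i ∈ range p, avg p (A ^ i * B) v = v := by
  have e : ∀ k, ∑ i ∈ range p, ((A ^ i * B) ^ k) v = avg p (A ^ k) ((B ^ k) v) := fun k => by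
    simp only [avg, LinearMap.sum_apply, (c.pow_left _).mul_pow, ← pow_mul, mul_comm k, End.mul_apply]
  simp only [avg, LinearMap.sum_apply]
  rw [sum_comm, sum_congr rfl fun k _ => e k, sum_eq_single 0 (fun k hk h0 => by
    rw [avg_pow hp ho hA (Nat.not_dvd_of_pos_of_lt (by omega) (mem_range.1 hk)),
      ← avg_semi (c.pow_right k).symm.eq, hv, map_zero]) (by simp [hp.ne_zero])]
  exact avg_fix ho rfl

theorem part0 [Module.Finite (ZMod 2) V] (hp : p.Prime) (ho : Odd p) (hA : A ^ p = 1) (hB : B ^ p = 1)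
    (c : Commute A B) : finrank (ZMod 2) V + p * dm (kf A ⊓ kf B) =
      dm (kf A) + ∑ i ∈ range p, dm (kf (A ^ i * B)) := by
  let N := LinearMap.ker (avg p A)
  let U := fun i : Fin p => kf (A ^ i.1 * B) ⊓ N
  have ci : ∀ i, Commute A (A ^ i * B) := fun i => ((Commute.refl A).pow_right i).mul_right c
  have h1 := dm_avg ho hA (M := ⊤) fun _ _ => trivial
  have h2 : ∀ i : Fin p, dm (kf (A ^ i.1 * B)) = dm (U i) + dm (kf A ⊓ kf B) := fun i => by
    rw [dm_avg ho hA (M := kf (A ^ i.1 * B)) fun v hv => mem_kf.2 (by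
      rw [← End.mul_apply, ← (ci i).eq, End.mul_apply, mem_kf.1 hv])]
    congr 2
    ext v
    simp only [Submodule.mem_inf, mem_kf]
    exact ⟨fun ⟨a, b⟩ => ⟨b, fix_line c i b ▸ a⟩, fun ⟨a, b⟩ => ⟨(fix_line c i a).trans b, a⟩⟩
  have hU : ∀ (i : Fin p), ∀ v ∈ N, avg p (A ^ i.1 * B) v ∈ U i := fun i v hv =>
    ⟨mem_kf.2 (fix_avg (line_pow hA hB c i) v), by
      change avg p A _ = 0
      rw [avg_comm (ci i), show avg p A v = 0 from hv, map_zero]⟩
  have h3 : dm N = ∑ i, dm (U i) := dm_sum (fun i : Fin p => avg p (A ^ i.1 * B)) (fun _ => inf_le_right) hU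
    (fun v hv => (sum_range fun i => avg p (A ^ i * B) v).symm.trans (sum_lines hp ho hA c hv))
    (fun j u hu => avg_fix ho (mem_kf.1 hu.1)) fun i j hij u hu => by
      have k := hU j _ hu.2
      refine (avg_fix ho (two_lines hp hA i.2 j.2 (Fin.val_ne_of_ne hij) ?_ (mem_kf.1 k.1))).symm.trans k.2
      rw [avg_semi (h := A ^ j.1 * B) (((ci j).pow_left i).mul_left ((c.symm.pow_right j).mul_right
        (Commute.refl B))).eq, mem_kf.1 hu.1]
  rw [top_inf_eq, top_inf_eq] at h1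
  rw [sum_range, sum_congr rfl fun i _ => h2 i, sum_add_distrib, ← h3, ← finrank_top, show finrank _ _ = _ from h1]
  simp [N]
  ring

end kit

theorem jobPart : JobPart := by
  intro V _ _ _ p hp h2 M A B hA hB c a b
  have tr : ∀ (C : End (ZMod 2) V) (C' : End (ZMod 2) M), (∀ v : M, (C' v : V) = C v) →
      (kf C').map M.subtype = M ⊓ kf C := fun C C' h => by
    ext v
    simp only [Submodule.mem_map, Submodule.mem_inf, mem_kf]
    exact ⟨by rintro ⟨w, hw, rfl⟩; exact ⟨w.2, (h w).symm.trans (congrArg _ hw)⟩,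
      fun ⟨h1, h2⟩ => ⟨⟨v, h1⟩, Subtype.ext ((h _).trans h2), rfl⟩⟩
  have pw : ∀ (C : End (ZMod 2) V) (hC : ∀ v ∈ M, C v ∈ M) (k : ℕ) (v : M),
      ((C.restrict hC ^ k) v : V) = (C ^ k) v := fun C hC k v => by rw [End.pow_restrict]; rfl
  have := part0 (A := A.restrict hA) (B := B.restrict hB) hp (hp.odd_of_ne_two h2)
    (LinearMap.ext fun v => Subtype.ext ((pw A hA p v).trans (a _ v.2)))
    (LinearMap.ext fun v => Subtype.ext ((pw B hB p v).trans (b _ v.2)))
    (LinearMap.ext fun v => Subtype.ext (c _ v.2))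
  rw [inf_assoc, inf_inf_distrib_left, ← tr A (A.restrict hA) fun _ => rfl, ← tr B (B.restrict hB) fun _ => rfl,
    ← Submodule.map_inf _ M.injective_subtype, sum_congr rfl fun i _ => congrArg dm
      (tr (A ^ i * B) (A.restrict hA ^ i * B.restrict hB) fun v => pw A hA i _).symm]
  simpa only [dm, Submodule.finrank_map_subtype_eq] using this

theorem jobFrob : JobFrob := by
  intro V _ _ _ A B S hA hB hS c s1 s2
  have hp : Nat.Prime 5 := Nat.prime_five
  have ho : Odd 5 := by decide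
  replace c : Commute A B := c
  have hL := line_pow hA hB c
  have ci : ∀ i, Commute A (A ^ i * B) := fun i => ((Commute.refl A).pow_right i).mul_right c
  have sm : ∀ i j, S * (A ^ i * B ^ j) = A ^ (4 * j % 5) * B ^ ((i + 4 * j) % 5) * S := fun i j => by
    rw [← mul_assoc, (SemiconjBy.pow_right s1 i).eq, mul_assoc, (SemiconjBy.pow_right s2 j).eq, ← pow_mul,
      c.mul_pow, ← pow_eq_pow_mod _ hA, ← pow_eq_pow_mod _ hB, pow_add, ← mul_assoc, ← mul_assoc,
      ← (c.pow_pow _ _).eq, mul_assoc (A ^ _)]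
  have t0 : S * A = A ^ 0 * B * S := by simpa using s1
  have t1 : S * (A ^ 0 * B) = (A ^ 1 * B) ^ 4 * S := by simpa using s2
  have t3 : S * (A ^ 3 * B) = (A ^ 2 * B) ^ 2 * S := by
    simpa [(c.pow_left 2).mul_pow, ← pow_mul] using sm 3 1
  have t2 : S * (A ^ 2 * B) = A ^ 4 * B * S := by simpa using sm 2 1
  have mv : ∀ {g h : End (ZMod 2) V} {v : V}, S * g = h * S → g v = v → h (S v) = S v := fun e hv => by
    rw [← End.mul_apply, ← e, End.mul_apply, hv]
  have cl : ∀ i j, Commute (A ^ i * B) (A ^ j * B) := fun i j =>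
    ((ci j).pow_left i).mul_left ((c.symm.pow_right j).mul_right (Commute.refl B))
  have pA : ∀ (i : ℕ) {t : V}, (A ^ i * B) t = t → avg 5 A t ∈ kf A ⊓ kf B := fun i t h =>
    ⟨mem_kf.2 (fix_avg hA t), mem_kf.2 (by
      rw [← fix_line c i (fix_avg hA t), avg_semi (ci i).symm.eq, h])⟩
  have pL : ∀ (i : ℕ) {t : V}, A t = t ∨ (∃ j < 5, j ≠ i ∧ (A ^ j * B) t = t) → i < 5 →
      avg 5 (A ^ i * B) t ∈ kf A ⊓ kf B := fun i t h hi => by
    have k : A (avg 5 (A ^ i * B) t) = avg 5 (A ^ i * B) t := by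
      rcases h with h | ⟨j, hj, hji, h⟩
      · rw [avg_semi (ci i).eq, h]
      · exact two_lines hp hA hj hi hji (by rw [avg_semi (cl j i).eq, h]) (fix_avg (hL i) t)
    exact ⟨mem_kf.2 k, mem_kf.2 ((fix_line c i k).symm.trans (fix_avg (hL i) t))⟩
  have fl : ∀ i {t : V}, t ∈ kf A ⊓ kf B → (A ^ i * B) t = t := fun i t h =>
    (fix_line c i (mem_kf.1 h.1)).trans (mem_kf.1 h.2)
  constructor
  · rw [two_mul, ← dm_prod, ← dm_prod, ← dm_prod]
    refine dm_le (((avg 3 S).comp (.fst _ _ _ + .snd _ _ _)).prod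
      (((avg 5 (A ^ 0 * B)).comp (.fst _ _ _)).prod ((avg 5 A).comp (.snd _ _ _)))) (fun v hv =>
        ⟨mem_kf.2 (fix_avg hS _), pL 0 (.inl (mem_kf.1 hv.1)) (by omega), pA 3 (mem_kf.1 hv.2)⟩) ?_
    rintro ⟨u, w⟩ ⟨hu, hw⟩ h
    replace hu : A u = u := mem_kf.1 hu
    replace hw : (A ^ 3 * B) w = w := mem_kf.1 hw
    have e : u + (S u + (S (S u) + (w + (S w + S (S w))))) = 0 := by
      have : avg 3 S (u + w) = 0 := congrArg Prod.fst h
      simp only [avg, sum_range_succ, sum_range_zero, LinearMap.add_apply, sq, End.mul_apply, map_add] at this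
      rw [← this]
      simp
      abel
    have u1 := mv t0 hu
    have u2 := fix_of_pow hp (hL 1) (by decide) (mv t1 u1)
    have w1 := fix_of_pow hp (hL 2) (by decide) (mv t3 hw)
    have w2 := mv t2 w1
    have e1 := congrArg (avg 5 A) e
    have e2 := congrArg (avg 5 (A ^ 3 * B)) e
    simp only [map_add, map_zero, avg_fix ho hu, avg_fix ho hw] at e1 e2
    have a1 : u ∈ kf A ⊓ kf B := eq_neg_of_add_eq_zero_left e1 ▸ neg_mem (add_mem (pA 0 u1) (add_mem (pA 1 u2)
      (add_mem (pA 3 hw) (add_mem (pA 2 w1) (pA 4 w2)))))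
    have a2 : w ∈ kf A ⊓ kf B := by
      rw [← add_assoc, ← add_assoc, add_left_comm] at e2
      exact eq_neg_of_add_eq_zero_left e2 ▸ neg_mem (add_mem (add_mem (add_mem (pL 3 (.inl hu) (by omega))
        (pL 3 (.inr ⟨0, by omega, by omega, u1⟩) (by omega))) (pL 3 (.inr ⟨1, by omega, by omega, u2⟩) (by omega)))
        (add_mem (pL 3 (.inr ⟨2, by omega, by omega, w1⟩) (by omega))
          (pL 3 (.inr ⟨4, by omega, by omega, w2⟩) (by omega))))
    exact Prod.ext ((avg_fix ho (fl 0 a1)).symm.trans (congrArg (fun x => x.2.1) h))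
      ((avg_fix ho (mem_kf.1 a2.1)).symm.trans (congrArg (fun x => x.2.2) h))
  · rw [← dm_prod, ← dm_prod]
    refine dm_le (((avg 5 A).comp (.fst _ _ _) + .snd _ _ _).prod ((avg 5 (A ^ 3 * B)).comp (.fst _ _ _)))
      (fun v hv => ⟨add_mem (mem_kf.2 (fix_avg hA _)) hv.2.1, mem_kf.2 (fix_avg (hL 3) _)⟩) ?_
    rintro ⟨v, w⟩ ⟨hv, hw⟩ h
    replace hv : S v = v := mem_kf.1 hv
    have e1 : avg 5 A v + w = 0 := congrArg Prod.fst h
    have e3 : avg 5 (A ^ 3 * B) v = 0 := congrArg Prod.snd h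
    have w0 : w = 0 := by
      have := congrArg (avg 5 (A ^ 3 * B)) e1
      rwa [map_add, ← avg_comm (ci 3), e3, map_zero, zero_add, avg_fix ho (fl 3 hw), map_zero] at this
    rw [w0, add_zero] at e1
    have z : ∀ {g h : End (ZMod 2) V}, S * g = h * S → avg 5 g v = 0 → avg 5 h v = 0 := fun e k => by
      rw [← hv, ← avg_semi e, k, map_zero]
    have e0 := z t0 e1
    have e2 := (avg_pow hp ho (hL 2) (by decide) v).symm.trans (z t3 e3)
    refine Prod.ext ((sum_lines hp ho hA c e1).symm.trans ?_) w0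
    simp only [sum_range_succ, sum_range_zero, e0, e2, e3, z t2 e2,
      (avg_pow hp ho (hL 1) (by decide) v).symm.trans (z t1 e0), add_zero]
    rfl

theorem jobTri : JobTri := by
  intro V _ _ _ M T Y hM hT hY h
  refine dm_le (avg 3 T) (fun v hv => ⟨?_, mem_kf.2 (fix_avg hT v)⟩) fun v hv e => ?_
  · rw [avg, LinearMap.sum_apply]
    exact sum_mem fun i _ => End.pow_apply_mem_of_forall_mem i hM v hv.1
  · have y : Y v = v := mem_kf.1 hv.2
    have k : Y * T * Y = T ^ 2 := by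
      rw [← one_mul (Y * T * Y), ← hT, ← mul_one (T ^ 2), ← h, pow_succ, sq (T * Y)]
      simp only [mul_assoc]
    have k2 : (T ^ 2) v = Y (T v) := by rw [← k, End.mul_apply, y, End.mul_apply]
    have := congrArg (avg 5 Y) e
    simp only [avg, sum_range_succ (n := 2), sum_range_succ (n := 1), sum_range_one, LinearMap.add_apply,
      map_add, k2] at this
    change avg 5 Y v + avg 5 Y ((T ^ 1) v) + avg 5 Y (Y (T v)) = avg 5 Y 0 at this
    rwa [avg_fix' hY, avg_fix (by decide) y, pow_one, add_assoc, aa, add_zero, map_zero] at this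

theorem jobScott : JobScott := by
  intro V _ _ _ X Y _ _
  have rk : ∀ X : End (ZMod 2) V, dm (LinearMap.range (X - 1)) + dm (kf X) = finrank (ZMod 2) V :=
    fun X => LinearMap.finrank_range_add_finrank_ker _
  refine ⟨fun h => ?_, fun h1 h2 => ?_⟩
  · have : dm (LinearMap.range (X - 1)) ≤ dm (kf X) := Submodule.finrank_mono (by
      rintro _ ⟨v, rfl⟩
      have e : X (X v) = v := by rw [← End.mul_apply, ← sq, h, End.one_apply]
      rw [mem_kf, LinearMap.sub_apply, map_sub, End.one_apply, e, sub_eq_sub_iff_add_eq_add, aa, aa])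
    have := rk X
    omega
  · have e : LinearMap.range (X - 1) ⊔ LinearMap.range (Y - 1) = ⊤ := by
      by_contra k
      obtain ⟨f, f0, hf⟩ := Submodule.exists_le_ker_of_lt_top _ (lt_top_iff_ne_top.2 k)
      exact f0 (h2 f (fun v => by simpa [sub_eq_zero] using hf (Submodule.mem_sup_left ⟨v, rfl⟩))
        fun v => by simpa [sub_eq_zero] using hf (Submodule.mem_sup_right ⟨v, rfl⟩))
    have a := Submodule.finrank_sup_add_finrank_inf_eq (LinearMap.range (X - 1)) (LinearMap.range (Y - 1))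
    rw [e, finrank_top] at a
    have b : dm (kf (X * Y)) ≤ dm (LinearMap.range (X - 1) ⊓ LinearMap.range (Y - 1)) :=
      dm_le (Y - 1) (fun v hv => ⟨⟨-Y v, by simp [show X (Y v) = v from mem_kf.1 hv, neg_add_eq_sub]⟩, v, rfl⟩) fun v hv k => by
        have y : Y v = v := mem_kf.1 k
        exact h1 v (by simpa [y] using mem_kf.1 hv) y
    have := rk X
    have := rk Y
    simp only [dm] at *
    omega

theorem jobPar : JobPar := by
  intro V _ _ _ Z T W W' hZ hT c w hw wt
  replace c : Commute Z T := c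
  let M := LinearMap.ker (avg 5 Z) ⊓ LinearMap.ker (avg 3 T)
  have st : ∀ {g : End (ZMod 2) V}, (∀ v, g (avg 5 Z v) = avg 5 Z (g v)) → (∀ v, g (avg 3 T v) = avg 3 T (g v)) →
      ∀ v ∈ M, g v ∈ M := fun a b v hv => ⟨by
    change avg _ _ _ = 0
    rw [← a, show avg 5 Z v = 0 from hv.1, map_zero], by
    change avg _ _ _ = 0
    rw [← b, show avg 3 T v = 0 from hv.2, map_zero]⟩
  have sZ := st (avg_semi (Commute.refl Z).eq) (avg_semi c.eq)
  have sT := st (avg_semi c.symm.eq) (avg_semi (Commute.refl T).eq)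
  have sW := st (fun v => by
    rcases hw with hw | hw
    · exact avg_semi hw v
    · exact (avg_semi hw v).trans (avg_pow Nat.prime_five (by decide) hZ (by decide) _))
    fun v => (avg_semi wt v).trans (avg_pow Nat.prime_three (by decide) hT (by decide) _)
  have h1 := dm_avg (by decide) hZ (M := ⊤) fun _ _ => trivial
  have h2 := dm_avg (by decide) hT (M := LinearMap.ker (avg 5 Z)) fun v hv => by
    change avg _ _ _ = 0
    rw [← avg_semi c.symm.eq, show avg 5 Z v = 0 from hv, map_zero]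
  have h3 := dm_avg (by decide) hZ (M := kf T) fun v hv => mem_kf.2 (by
    rw [← End.mul_apply, ← c.eq, End.mul_apply, mem_kf.1 hv])
  have a2 : ∀ x : End (ZMod 2) V, x + x = 0 := aa
  let θ := Z + Z ^ 4
  have cθ : Commute θ T := c.add_left (c.pow_left 4)
  have wθ : W * θ = θ * W := by
    rcases hw with hw | hw
    · exact (Commute.add_right hw (Commute.pow_right hw 4)).eq
    · rw [mul_add, hw, (SemiconjBy.pow_right hw 4).eq, ← pow_mul, pow_eq_pow_mod (4 * 4) hZ, add_mul, add_comm]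
      simp
  have wt2 : W * T ^ 2 = T * W := by
    rw [(SemiconjBy.pow_right wt 2).eq, ← pow_mul, pow_eq_pow_mod (2 * 2) hT, pow_one]
  have eT : avg 3 T = 1 + T + T ^ 2 := by simp [avg, sum_range_succ]
  have ee : (T + θ) * (T + θ) = T + θ + (avg 3 T + avg 5 Z) := by
    have z5 : Z * Z ^ 4 = 1 := by rw [← pow_succ', hZ]
    have z5' : Z ^ 4 * Z = 1 := by rw [← pow_succ, hZ]
    have z8 : Z ^ 4 * Z ^ 4 = Z ^ 3 := by rw [← pow_add, pow_eq_pow_mod _ hZ]
    have q : θ * θ = Z ^ 2 + Z ^ 3 := by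
      rw [mul_add, add_mul, add_mul, z5, z5', z8, sq, add_assoc, ← add_assoc 1, a2, zero_add]
    rw [mul_add, add_mul T θ T, add_mul T θ θ, q, cθ.eq, eT, show avg 5 Z = 1 + Z + Z ^ 2 + Z ^ 3 + Z ^ 4 by
      simp [avg, sum_range_succ], sq T]
    simp only [θ]
    linear_combination (norm := abel) a2 (T * (Z + Z ^ 4)) - a2 T - a2 Z - a2 (Z ^ 4) - a2 1
  have se : ∀ v ∈ M, (T + θ) v ∈ M := fun v hv =>
    add_mem (sT v hv) (add_mem (sZ v hv) (End.pow_apply_mem_of_forall_mem 4 sZ v hv))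
  have h4 := dm_split se fun v hv => by
    rw [← End.mul_apply, ee, LinearMap.add_apply, LinearMap.add_apply (avg 3 T), show avg 5 Z v = 0 from hv.1,
      show avg 3 T v = 0 from hv.2, add_zero, add_zero]
  have wi : ∀ v, W v = 0 → v = 0 := fun v h => by
    rw [← End.one_apply (R := ZMod 2) v, ← mul_eq_one_comm.1 w, End.mul_apply, h, map_zero]
  have we : ∀ v ∈ M, (T + θ) (W v) = W ((T + θ) v + v) := fun v hv => by
    have : (T ^ 2) v = T v + v := by
      have k : avg 3 T v = 0 := hv.2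
      rw [eT, LinearMap.add_apply, LinearMap.add_apply, End.one_apply] at k
      linear_combination (norm := abel) k - aa v - aa (T v)
    rw [LinearMap.add_apply, ← End.mul_apply, ← End.mul_apply, ← wt2, ← wθ, End.mul_apply, End.mul_apply, this,
      ← map_add, LinearMap.add_apply T θ, add_right_comm]
  have h5 : dm (M ⊓ LinearMap.ker (T + θ)) ≤ dm (M ⊓ kf (T + θ)) := dm_le W (fun v hv => ⟨sW v hv.1,
    mem_kf.2 (by rw [we v hv.1, show (T + θ) v = 0 from hv.2, zero_add])⟩) fun v _ => wi v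
  have h6 : dm (M ⊓ kf (T + θ)) ≤ dm (M ⊓ LinearMap.ker (T + θ)) := dm_le W (fun v hv => ⟨sW v hv.1, by
    change (T + θ) _ = 0
    rw [we v hv.1, mem_kf.1 hv.2, aa, map_zero]⟩) fun v _ => wi v
  have h7 : dm (M ⊓ LinearMap.ker (T + θ)) % 4 = 0 := by
    have s : ∀ v ∈ M ⊓ LinearMap.ker (T + θ), Z v ∈ M ⊓ LinearMap.ker (T + θ) := fun v hv => ⟨sZ v hv.1, by
      change (T + θ) _ = 0
      rw [← End.mul_apply, ← (c.add_right ((Commute.refl Z).add_right ((Commute.refl Z).pow_right 4))).eq,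
        End.mul_apply, show (T + θ) v = 0 from hv.2, map_zero]⟩
    have z : ∀ v ∈ M ⊓ LinearMap.ker (T + θ), Z v = v → v = 0 := fun v hv k =>
      (avg_fix (by decide) k).symm.trans hv.1.1
    generalize M ⊓ LinearMap.ker (T + θ) = N at s z
    classical
    have := Module.finite_of_finite (ZMod 2) (M := N)
    have := Fintype.ofFinite N
    have := Fact.mk Nat.prime_five
    have k := Equiv.Perm.card_fixedPoints_modEq (f := (Z.restrict s : N → N)) (p := 5) (n := 1)
      (funext fun v => Subtype.ext (congr($hZ v.1) : (Z ^ 5) v.1 = v.1))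
    rw [(Fintype.card_eq_one_iff (α := Function.fixedPoints (Z.restrict s))).2 ⟨⟨0, map_zero (Z.restrict s)⟩, fun v => Subtype.ext (Subtype.ext
      (z _ v.1.2 (congrArg Subtype.val v.2)))⟩, Module.card_eq_pow_finrank (K := ZMod 2), ZMod.card,
      ← Nat.div_add_mod (finrank _ _) 4, pow_add, pow_mul, Nat.ModEq, Nat.mul_mod, Nat.pow_mod] at k
    have : dm N % 4 < 4 := Nat.mod_lt _ (by decide)
    change _ * (2 ^ (dm N % 4) % 5) % 5 = _ at k
    generalize dm N % 4 = r at *
    interval_cases r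
    · rfl
    all_goals norm_num at k
  rw [top_inf_eq, top_inf_eq] at h1
  rw [inf_comm (kf T), inf_comm (kf T)] at h3
  rw [← finrank_top]
  simp only [dm, M] at *
  omega

end H58.E7
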