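/- U4 tower (row S5210), slot A1: automorphisms of `Q`. -/
import Cfsg.Agent.H28.U4Gen

set_option autoImplicit false
set_option linter.unusedSectionVars false

open Subgroup H90.RF H28.U4
open H90.U5 (BF)

universe v

namespace H58.U4A1

variable {K : Type v} [Field K] [Finite K] {T : BF K} {β : Co T → Co T} {u w u' w' : Co T}

theorem cm_iff (hu : u ∈ sQ T) (hw : w ∈ sQ T) (hu' : u' ∈ sQ T) (hw' : w' ∈ sQ T) :
    cm u w = cm u' w' ↔ bf T u.π w.π = bf T u'.π w'.π :=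
  ⟨fun h => by rw [← cm_dQ hu hw, h, cm_dQ hu' hw'],
    fun h => eq_of_Z (cm_Q hu hw) (cm_Q hu' hw') (by rw [cm_dQ hu hw, h, cm_dQ hu' hw'])⟩

theorem bf_au (a : Au (sQ T) β) (hu : u ∈ sQ T) (hw : w ∈ sQ T) (hu' : u' ∈ sQ T) (hw' : w' ∈ sQ T) :
    bf T (β u).π (β w).π = bf T (β u').π (β w').π ↔ bf T u.π w.π = bf T u'.π w'.π := by
  rw [← cm_iff (a.mem u hu) (a.mem w hw) (a.mem u' hu') (a.mem w' hw'), ← a.cm hu hw, ← a.cm hu' hw',
    ← cm_iff hu hw hu' hw']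
  exact ⟨a.eq (Z_le_Q (cm_Q hu hw)) (Z_le_Q (cm_Q hu' hw')), congrArg β⟩

theorem bf_left {l : K} (h : T.σ l = l) (x y : K × K) : bf T (l • x) y = l * bf T x y := by
  rw [bf_swap, bf_smul h, bf_swap]; ring

theorem jobA1 : H28.U4.JobA1.{v} := fun _ _ K _ _ _ T β a l hl => by
  have key : ∀ u ∈ sQ T, ∀ w ∈ sQ T, w.π = l • u.π → ∀ u' ∈ sQ T, ∀ w' ∈ sQ T, w'.π = l • u'.π →
      ∀ x ∈ sQ T, ∀ x' ∈ sQ T, bf T (β u).π x.π = bf T (β u').π x'.π →
        bf T (β w).π x.π = bf T (β w').π x'.π := by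
    intro u hu w hw h1 u' hu' w' hw' h2 y hy y' hy' h
    obtain ⟨x, hx, rfl⟩ := a.sur y hy
    obtain ⟨x', hx', rfl⟩ := a.sur y' hy'
    rw [bf_au a hw hx hw' hx', h1, h2, bf_left hl, bf_left hl, (bf_au a hu hx hu' hx').1 h]
  obtain ⟨u0, h0, e0⟩ := a.sur (xa T 1) rfl
  obtain ⟨t, ht⟩ := exists_tr_ne (T := T) one_ne_zero
  rw [map_one, mul_one, mul_one] at ht
  have k1 : bf T (xa T 1).π (0, t / (t + T.σ t)) = 1 := by
    simp only [bf, Co.π, xa, map_one, map_zero, map_div₀, map_add, T.sq, add_comm (T.σ t)]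
    field_simp
    ring
  generalize ((0, t / (t + T.σ t)) : K × K) = e at k1
  refine ⟨bf T (β (w1 T (l • u0.π))).π e, bf_fix _ _, fun u hu w hw h => sub_eq_zero.1 (bf_nondeg (T := T) fun x => ?_)⟩
  have m := bf_fix (T := T) (β u).π x
  have := key u0 h0 _ (w1_mem _) (w1_π _) u hu w hw h _ (w1_mem (bf T (β u).π x • e)) _ (w1_mem x)
    (by rw [w1_π, w1_π, e0, bf_smul m, k1, mul_one])
  rw [w1_π, w1_π, bf_smul m] at this
  rw [bf_swap, sub_eq_add_neg, bf_add, ← neg_smul, bf_smul (by rw [map_neg, bf_fix]), bf_swap x, bf_swap x,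
    ← this]
  ring

theorem jobIn : H28.U4.JobIn.{v} := fun _ _ K _ _ _ T pm β a h => by
  have hz : ∀ z ∈ sZ T, β z = z := fun z hz => by
    obtain ⟨t, rfl⟩ := Z_cm hz
    rw [a.cm rfl rfl, cm_iff (a.mem _ rfl) (a.mem _ rfl) rfl rfl, h _ rfl, h _ rfl]
  have ha : ∀ u ∈ sQ T, (β u).a = u.a := fun u hu => congrArg Prod.fst (h u hu)
  have hc : ∀ u ∈ sQ T, (β u).c = u.c := fun u hu => congrArg Prod.snd (h u hu)
  have add : ∀ u ∈ sQ T, ∀ w ∈ sQ T, (β (u * w)).d - (u * w).d = (β u).d - u.d + ((β w).d - w.d) :=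
    fun u hu w hw => by
      rw [a.mul u hu w hw, Co.mul_d, Co.mul_d, ha u hu, hc u hu, ha w hw, hc w hw,
        show (β w).b = 0 from a.mem w hw, show w.b = 0 from hw]
      ring
  have tr : ∀ x : K → Co T, (∀ t, x t ∈ sQ T) → (∀ s t, x (s + t) = x s * x t) →
      ∃ γ, ∀ t, (β (x t)).d - (x t).d = t * T.σ γ + T.σ t * γ := fun x m e => by
    have k : ∀ s t, (β (x (s + t))).d - (x (s + t)).d = (β (x s)).d - (x s).d + ((β (x t)).d - (x t).d) :=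
      fun s t => by rw [e, add _ (m s) _ (m t)]
    refine exists_tr_form _ k (fun l t hl => ?_) fun t => ?_
    · obtain ⟨n, rfl⟩ := pm l hl
      have := map_nsmul (AddMonoidHom.mk' (fun t => (β (x t)).d - (x t).d) k) n t
      rwa [nsmul_eq_mul, nsmul_eq_mul] at this
    · rw [map_sub, Co.σd, Co.σd, ha _ (m t), hc _ (m t)]; ring
  obtain ⟨γ, e1⟩ := tr (xa T) (fun _ => rfl) xa_add
  obtain ⟨δ, e2⟩ := tr (xc T) (fun _ => rfl) xc_add
  refine ⟨w1 T (δ, -γ), w1_mem _, fun u hu => ?_⟩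
  have k := cj_QQ (w1_mem (δ, -γ)) hu
  refine eq_of_Q (a.mem u hu) ((nQ (T := T)).conj_mem u hu _) ((h u hu).trans k.1.symm) ?_
  have m : xa T u.a * xc T u.c ∈ sQ T := mul_mem rfl rfl
  have z : (xa T u.a * xc T u.c)⁻¹ * u ∈ sZ T := (Q_mod m hu).2 (by simp [Co.π, xa, xc])
  have := add _ m _ (Z_le_Q z)
  rw [mul_inv_cancel_left, hz _ z, add _ rfl _ rfl, e1, e2] at this
  rw [k.2, w1_π]
  simp only [bf, Co.π, map_neg]
  linear_combination this

end H58.U4A1
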