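/- Row S3384, part M, slot N1: the normaliser of the torus permutes the coordinates. -/
import Cfsg.Agent.H86.M8.Def

set_option autoImplicit false

namespace H58.O84N1

open H6 (F4)
open H56 H86.M8 Subgroup

theorem zt_ne : ∀ c : ZMod 5, c ≠ 0 → zt c + 1 ≠ 0 := by decide +kernel

theorem tt_single (i : Fin 4) (c : ZMod 5) (y : V) :
    tt (Pi.single i c) y + y = Pi.single i ((zt c + 1) * y i) := funext fun k => by
  rw [Pi.add_apply, tt_apply]
  by_cases h : k = i
  · subst h
    rw [Pi.single_eq_same, Pi.single_eq_same, add_mul, one_mul]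
  · rw [Pi.single_eq_of_ne h, Pi.single_eq_of_ne h, zt_zero, one_mul, e_add_self]

theorem pair_ne (g : O Q) {k l : Fin 4} (h : k ≠ l) (i : Fin 4) (x : E) :
    g (Pi.single k 1 + Pi.single l 1) ≠ Pi.single i x := fun e => by
  have h0 : Q (Pi.single k (1 : E) + Pi.single l (1 : E)) = 0 := by
    have p := polar_single (Pi.single k (1 : E)) l 1
    rw [Pi.single_eq_of_ne h.symm, zero_mul, tr_zero] at p
    have := QuadraticMap.polar.eq_1 Q (Pi.single k (1 : E)) (Pi.single l (1 : E))
    rw [p, Q_single, Q_single, nr_one] at this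
    linear_combination H6.F4.add_self 1 - this
  have h1 : Q (g (Pi.single k 1 + Pi.single l 1)) = 0 := by rw [O.map_Q, h0]
  rw [e, Q_single, nr_eq_zero] at h1
  rw [h1, Pi.single_zero, ← map_zero g] at e
  have := congrFun (g.1.injective e) k
  simp [Pi.single_eq_of_ne h] at this

theorem exists_pi {g : O Q} (hg : g ∈ normalizer (T0 : Set (O Q))) (i : Fin 4) :
    ∃ k c, c ≠ 0 ∧ g * tt (Pi.single i 1) * g⁻¹ = tt (Pi.single k c) := by
  obtain ⟨b, hb⟩ := (mem_normalizer_iff.1 hg (tt (Pi.single i 1))).1 ⟨_, rfl⟩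
  change tt b.toAdd = _ at hb
  have h0 : ∃ k, b.toAdd k ≠ 0 := by
    by_contra hc
    push Not at hc
    rw [show b.toAdd = 0 from funext hc, show tt 0 = 1 from map_one tau, eq_comm,
      mul_inv_eq_one, mul_eq_left] at hb
    have : (Pi.single i 1 : Fin 4 → ZMod 5) i = 0 :=
      congrFun (tau_inj (hb.trans (map_one tau).symm)) i
    rw [Pi.single_eq_same] at this
    exact absurd this (by decide)
  obtain ⟨k, hk⟩ := h0
  refine ⟨k, b.toAdd k, hk, ?_⟩
  rw [← hb]
  congr 1
  funext l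
  by_cases hl : l = k
  · rw [hl, Pi.single_eq_same]
  rw [Pi.single_eq_of_ne hl]
  by_contra hb'
  set y : V := Pi.single k (zt (b.toAdd k) + 1)⁻¹ + Pi.single l (zt (b.toAdd l) + 1)⁻¹ with hy
  have e1 : tt b.toAdd y + y = Pi.single k 1 + Pi.single l 1 := funext fun m => by
    rw [Pi.add_apply, tt_apply, ← add_one_mul, hy, Pi.add_apply, Pi.add_apply]
    by_cases h1 : m = k
    · subst h1
      simp [Pi.single_eq_of_ne (Ne.symm hl), mul_inv_cancel₀ (zt_ne _ hk)]
    by_cases h2 : m = l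
    · subst h2
      simp [Pi.single_eq_of_ne h1, mul_inv_cancel₀ (zt_ne _ hb')]
    simp [Pi.single_eq_of_ne h1, Pi.single_eq_of_ne h2]
  refine pair_ne g⁻¹ (Ne.symm hl) i ((zt 1 + 1) * (g⁻¹ y) i) ?_
  rw [← e1, map_add, ← tt_single, hb, ← O.mul_apply, ← O.mul_apply (tt _)]
  simp only [← mul_assoc, inv_mul_cancel, one_mul]

theorem map_single {g : O Q} {i k : Fin 4} {c : ZMod 5}
    (h : g * tt (Pi.single i 1) * g⁻¹ = tt (Pi.single k c)) (x : E) :
    ∃ y, g (Pi.single i x) = Pi.single k y := by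
  have e := tt_single i 1 (Pi.single i ((zt 1 + 1)⁻¹ * x))
  rw [Pi.single_eq_same, mul_inv_cancel_left₀ (zt_ne 1 (by decide))] at e
  exact ⟨_, by
    rw [← e, map_add, ← O.mul_apply g, mul_inv_eq_iff_eq_mul.1 h, O.mul_apply, tt_single]⟩

theorem jN1 : N1 := by
  intro g hg
  choose p c hc h using exists_pi hg
  have hp : Function.Injective p := fun i j e => by
    by_contra hij
    obtain ⟨y, hy⟩ := map_single (h i) 1
    obtain ⟨z, hz⟩ := map_single (h j) 1
    refine pair_ne g hij (p j) (y + z) ?_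
    rw [map_add, hy, hz, e, Pi.single_add]
  exact ⟨Equiv.ofBijective p (Finite.injective_iff_bijective.1 hp), fun i =>
    ⟨⟨c i, hc i, h i⟩, map_single (h i)⟩⟩

end H58.O84N1
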