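import Cfsg.Agent.H42.IVSpec

/-! Slot DR of the IV tower: the centralizer of an involution modulo an abelian normal subgroup. -/

set_option autoImplicit false

namespace H58.IVDR

open Subgroup H42.IV

universe u

variable {P : Type u} [Group P]

/-- The norm map `y ↦ y * a y a⁻¹` on an abelian normal subgroup. -/
def normHom (A : Subgroup P) [hA : A.Normal] [IsMulCommutative A] (a : P) : A →* P where
  toFun y := (y : P) * (a * y * a⁻¹)
  map_one' := by simp
  map_mul' x y := by
    have hc : (y : P) * (a * x * a⁻¹) = (a * x * a⁻¹) * y := by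
      have h := mul_comm' y (⟨a * x * a⁻¹, hA.conj_mem _ x.2 a⟩ : A)
      exact congrArg Subtype.val h
    simp only [coe_mul]
    calc (x : P) * y * (a * (x * y) * a⁻¹)
        = x * (y * (a * x * a⁻¹)) * (a * y * a⁻¹) := by group
      _ = x * ((a * x * a⁻¹) * y) * (a * y * a⁻¹) := by rw [hc]
      _ = x * (a * x * a⁻¹) * (y * (a * y * a⁻¹)) := by group

theorem range_normHom (A : Subgroup P) [A.Normal] [IsMulCommutative A] (a : P) :
    ((normHom A a).range : Set P) = nrm A a := by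
  ext v
  constructor
  · rintro ⟨y, rfl⟩
    exact ⟨y, y.2, rfl⟩
  · rintro ⟨y, hy, rfl⟩
    exact ⟨⟨y, hy⟩, rfl⟩

theorem card_le [Finite P] (A : Subgroup P) [A.Normal] [IsMulCommutative A] (a : P)
    (ha : a * a = 1) :
    Nat.card ((centralizer ({(a : P ⧸ A)} : Set (P ⧸ A))).comap (QuotientGroup.mk' A)) ≤
      Nat.card (centralizer ({a} : Set P)) * Nat.card (normHom A a).ker := by
  classical
  set K := (centralizer ({(a : P ⧸ A)} : Set (P ⧸ A))).comap (QuotientGroup.mk' A) with hK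
  have hmem : ∀ k : K, (k : P) * a * (k : P)⁻¹ * a⁻¹ ∈ A := by
    intro k
    have h1 : ((k : P) : P ⧸ A) * (a : P ⧸ A) = (a : P ⧸ A) * ((k : P) : P ⧸ A) :=
      mem_centralizer_singleton_iff.mp k.2
    rw [← QuotientGroup.eq_one_iff]
    simp only [QuotientGroup.mk_mul, QuotientGroup.mk_inv]
    rw [h1]
    group
  have hker : ∀ k : K, (⟨_, hmem k⟩ : A) ∈ (normHom A a).ker := by
    intro k
    rw [MonoidHom.mem_ker]
    show ((k : P) * a * (k : P)⁻¹ * a⁻¹) * (a * ((k : P) * a * (k : P)⁻¹ * a⁻¹) * a⁻¹) = 1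
    calc ((k : P) * a * (k : P)⁻¹ * a⁻¹) * (a * ((k : P) * a * (k : P)⁻¹ * a⁻¹) * a⁻¹)
        = (k : P) * (a * a) * (k : P)⁻¹ * (a * a)⁻¹ := by group
      _ = 1 := by rw [ha]; group
  let φ : K → (normHom A a).ker := fun k => ⟨⟨_, hmem k⟩, hker k⟩
  let s : (normHom A a).ker → K := fun v => if h : ∃ k, φ k = v then h.choose else 1
  have hs : ∀ k, φ (s (φ k)) = φ k := by
    intro k
    have h : ∃ k', φ k' = φ k := ⟨k, rfl⟩
    simp only [s, dif_pos h]
    exact h.choose_spec
  have hcen : ∀ k : K, ((s (φ k) : K) : P)⁻¹ * (k : P) ∈ centralizer ({a} : Set P) := by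
    intro k
    have h1 : ((s (φ k) : K) : P) * a * ((s (φ k) : K) : P)⁻¹ * a⁻¹ =
        (k : P) * a * (k : P)⁻¹ * a⁻¹ :=
      congrArg (fun z : (normHom A a).ker => ((z : A) : P)) (hs k)
    rw [mem_centralizer_singleton_iff]
    set t : P := ((s (φ k) : K) : P)
    have h2 : t * a * t⁻¹ = (k : P) * a * (k : P)⁻¹ := mul_right_cancel h1
    calc t⁻¹ * (k : P) * a = t⁻¹ * ((k : P) * a * (k : P)⁻¹) * k := by group
      _ = t⁻¹ * (t * a * t⁻¹) * k := by rw [h2]
      _ = a * (t⁻¹ * (k : P)) := by group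
  rw [← Nat.card_prod]
  refine Nat.card_le_card_of_injective
    (fun k : K => ((⟨_, hcen k⟩ : centralizer ({a} : Set P)), φ k)) ?_
  intro k k' h
  have h2 : φ k = φ k' := congrArg Prod.snd h
  have h1 : ((s (φ k) : K) : P)⁻¹ * (k : P) = ((s (φ k') : K) : P)⁻¹ * (k' : P) :=
    congrArg (fun z => ((Prod.fst z : centralizer ({a} : Set P)) : P)) h
  rw [h2] at h1
  exact Subtype.ext (mul_left_cancel h1)

theorem jobDR : JobDR.{u} := by
  intro P _ _ A _ _ a ha
  have h1 := card_le A a ha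
  have h2 : Nat.card ((centralizer ({(a : P ⧸ A)} : Set (P ⧸ A))).comap (QuotientGroup.mk' A)) =
      Nat.card A * Nat.card (centralizer ({(a : P ⧸ A)} : Set (P ⧸ A))) :=
    (QuotientGroup.card_preimage_mk A
      (centralizer ({(a : P ⧸ A)} : Set (P ⧸ A)) : Set (P ⧸ A)))
  have h3 : Nat.card (normHom A a).ker * (nrm A a).ncard = Nat.card A := by
    rw [← range_normHom, ← Nat.card_coe_set_eq]
    have := (normHom A a).ker.card_mul_index
    rw [index_ker] at this
    exact this
  have hpos : 0 < Nat.card (normHom A a).ker := Nat.card_pos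
  rw [h2, ← h3] at h1
  refine Nat.le_of_mul_le_mul_left ?_ hpos
  calc _ = Nat.card (normHom A a).ker * (nrm A a).ncard *
        Nat.card (centralizer ({(a : P ⧸ A)} : Set (P ⧸ A))) := by ring
    _ ≤ _ := h1
    _ = _ := by ring

end H58.IVDR
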