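import Cfsg.Agent.H48.DP1Spec

/-! S3275, chapter (1), slot UQ3: `Q / H` is abelian and `t ∉ T₁' H`. -/

set_option autoImplicit false
set_option linter.unusedSectionVars false

namespace H58.UQ3

open Subgroup Cfsg H98 H48.DP
open scoped commutatorElement

universe u

variable {G : Type u} [Group G]

theorem four {c d w : G} (hc : c * c = 1) (hd : d * d = 1) (h : Commute c d)
    (hw : w ∈ closure ({c, d} : Set G)) : w = 1 ∨ w = c ∨ w = d ∨ w = c * d := by
  have e1 : ∀ g, c * (c * g) = g := fun g => by rw [← mul_assoc, hc, one_mul]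
  have e3 : ∀ g, d * (c * g) = c * (d * g) := fun g => by rw [← mul_assoc, ← h.eq, mul_assoc]
  induction hw using closure_induction with
  | mem g hg => rcases hg with rfl | rfl <;> simp
  | one => simp
  | mul g k _ _ h1 h2 =>
    rcases h1 with rfl | rfl | rfl | rfl <;> rcases h2 with rfl | rfl | rfl | rfl <;>
      simp [mul_assoc, hc, hd, e1, e3, ← h.eq]
  | inv g _ h1 =>
    rcases h1 with rfl | rfl | rfl | rfl <;>
      simp [inv_eq_of_mul_eq_one_right hc, inv_eq_of_mul_eq_one_right hd, ← h.eq]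

theorem mem_zpowers_of_mul_self {X : Type*} [Group X] {c w : X} (hc : c * c = 1) :
    w ∈ zpowers c ↔ w = 1 ∨ w = c := by
  refine ⟨fun hw => ?_, by rintro (rfl | rfl); exacts [one_mem _, mem_zpowers _]⟩
  rw [zpowers_eq_closure] at hw
  induction hw using closure_induction with
  | mem g hg => exact .inr hg
  | one => simp
  | mul g k _ _ h1 h2 => rcases h1 with rfl | rfl <;> rcases h2 with rfl | rfl <;> simp [hc]
  | inv g _ h1 => rcases h1 with rfl | rfl <;> simp [inv_eq_of_mul_eq_one_right hc]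

theorem no_cl [Finite G] {g : G} {S : Set G} (h : ∀ u ∈ S, g * u * g⁻¹ ∈ closure S) :
    g ∈ No (closure S) :=
  mem_normalizer_of_cj_le (by
    rw [cj, MonoidHom.map_closure, closure_le]
    rintro _ ⟨u, hu, rfl⟩
    exact h u hu)

theorem exists_quot (H : Subgroup G) : ∃ (X : Type u) (_ : Group X) (p : G → X),
    (∀ g ∈ No H, ∀ k ∈ No H, p (g * k) = p g * p k) ∧ (∀ g ∈ No H, p g⁻¹ = (p g)⁻¹) ∧
      ∀ g ∈ No H, p g = 1 ↔ g ∈ H := by
  classical
  refine ⟨No H ⧸ H.subgroupOf (No H), inferInstance,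
    fun g => if h : g ∈ No H then QuotientGroup.mk ⟨g, h⟩ else 1, fun g hg k hk => ?_,
    fun g hg => ?_, fun g hg => ?_⟩
  · simp only [dif_pos hg, dif_pos hk, dif_pos (mul_mem hg hk)]; rfl
  · simp only [dif_pos hg, dif_pos (inv_mem hg)]; rfl
  · simp only [dif_pos hg, QuotientGroup.eq_one_iff, mem_subgroupOf]

variable [Finite G] {L : Subgroup G} {a b s x y r t : G} (h : UQ1 L a b s x y r t)
include h

theorem kl {k l : G} (hk : k ∈ zpowers r) (hl : l ∈ L) : Commute k l := by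
  obtain ⟨i, rfl⟩ := hk
  exact Commute.zpow_left (mem_centralizer_iff.1 h.rc l hl).symm i

theorem tz : t ∈ zpowers r := by
  rcases h.tr with e | e <;> rw [e]
  exacts [mem_zpowers r, npow_mem_zpowers r 2]

theorem tl {l : G} (hl : l ∈ L) : Commute t l := kl h (tz h) hl

theorem tt : t * t = 1 := by rw [← pow_two, ← h.t2, pow_orderOf_eq_one]

theorem aa : a ^ 2 * a ^ 2 = 1 := by rw [← pow_add]; exact h.a4
theorem bb : b ^ 2 * b ^ 2 = 1 := by rw [← pow_add]; exact h.b4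
theorem ab2 : Commute (a ^ 2) (b ^ 2) := Commute.pow_pow h.ab 2 2

theorem sb : s * b * s⁻¹ = a := by
  rw [← h.sa]
  calc s * (s * a * s⁻¹) * s⁻¹ = (s * s) * a * (s * s)⁻¹ := by group
    _ = a := by rw [h.s2]; group

theorem sa2 : s * a ^ 2 * s⁻¹ = b ^ 2 := by rw [← conj_pow, h.sa]
theorem sb2 : s * b ^ 2 * s⁻¹ = a ^ 2 := by rw [← conj_pow, sb h]

theorem HL : Hs a b ≤ L := by
  rw [closure_le]; rintro _ (rfl | rfl); exacts [h.aL, h.bL]

omit h [Finite G] in
theorem VH : V0 a b ≤ Hs a b := by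
  rw [closure_le]
  rintro _ (rfl | rfl) <;> exact pow_mem (subset_closure (by simp)) 2

theorem kt {k : G} (hk : k ∈ zpowers r) (k2 : k * k = 1) : k = 1 ∨ k = t := by
  have t1 : t ≠ 1 := fun e => by have := h.t2; rw [e, orderOf_one] at this; omega
  obtain ⟨i, rfl⟩ := hk
  have e : r ^ i = r ^ (i % 4) := zpow_eq_zpow_emod i (by exact_mod_cast h.r4)
  simp only [e] at k2 ⊢
  have r4 := h.r4
  have r2 := tt h
  have : i % 4 = 0 ∨ i % 4 = 1 ∨ i % 4 = 2 ∨ i % 4 = 3 := by omega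
  have e3 : r ^ (3 : ℤ) = r⁻¹ := by
    rw [eq_inv_iff_mul_eq_one, ← r4]; group
  rcases h.tr with e | e <;> rcases this with c | c | c | c <;> rw [c] at k2 ⊢
  · simp
  · exact .inr (by rw [e, zpow_one])
  · exact .inl (by rw [← r2, e, zpow_two])
  · exact .inr (by rw [e3, e, inv_eq_of_mul_eq_one_right (e ▸ r2)])
  · simp
  · exact absurd (by rw [e, ← k2, zpow_one, pow_two]) t1
  · exact .inr (by rw [e]; group)
  · exact absurd (by rw [e, ← inv_eq_one, ← k2, e3]; group) t1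

/-- An involution of `C(t)` lies in `L` or is conjugate to `t`. -/
theorem invol {g : G} (hg : Commute g t) (g2 : g * g = 1) : g ∈ L ∨ ∃ u, u * t * u⁻¹ = g := by
  obtain ⟨l, hl, k, hk, rfl⟩ := h.ct g hg
  have c := kl h hk hl
  have e : l * l * (k * k) = 1 := by rw [← g2, mul_assoc, mul_assoc, ← mul_assoc k, c.eq, mul_assoc]
  have k2 : k * k = 1 := by
    refine mem_bot.1 (h.cen ▸ mem_inf.2 ⟨?_, mem_centralizer_iff.2 fun m hm => ?_⟩)
    · rw [eq_inv_of_mul_eq_one_right e]; exact inv_mem (mul_mem hl hl)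
    · exact (kl h (mul_mem hk hk) hm).eq.symm
  rcases kt h hk k2 with rfl | rfl
  · exact .inl (mul_mem hl (one_mem _))
  right
  by_cases l1 : l = 1
  · exact ⟨1, by rw [l1]; group⟩
  rw [k2, mul_one] at e
  obtain ⟨m, hm, e1⟩ := h.one l hl (orderOf_eq_prime (by rw [pow_two, e]) l1)
  obtain ⟨u, hu⟩ := h.tz
  refine ⟨m⁻¹ * u, ?_⟩
  calc m⁻¹ * u * k * (m⁻¹ * u)⁻¹ = m⁻¹ * (u * k * u⁻¹) * m := by group
    _ = m⁻¹ * (k * m) * l := by rw [hu, ← e1]; group
    _ = l * k := by rw [(tl h hm).eq, ← c.eq]; group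

omit h [Finite G] in
theorem qV {q w : G} (hq : q ∈ Qs a b t) (hw : w ∈ V0 a b) : Commute q w :=
  (mem_centralizer_iff.1 hq.2 w hw).symm

omit h [Finite G] in
theorem aV : a ^ 2 ∈ V0 a b := subset_closure (by simp)
omit h [Finite G] in
theorem bV : b ^ 2 ∈ V0 a b := subset_closure (by simp)

theorem sQ {q : G} (hq : q ∈ Qs a b t) : s * q * s⁻¹ ∈ Qs a b t := by
  have sE : s ∈ No (Es a b t) := no_cl (by
    rintro _ (rfl | rfl | rfl)
    · rw [← (tl h h.sL).eq, mul_inv_cancel_right]; exact subset_closure (by simp)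
    · rw [sa2 h]; exact subset_closure (by simp)
    · rw [sb2 h]; exact subset_closure (by simp))
  have sV : s ∈ No (V0 a b) := no_cl (by
    rintro _ (rfl | rfl)
    · rw [sa2 h]; exact bV
    · rw [sb2 h]; exact aV)
  exact mem_inf.2 ⟨mul_mem (mul_mem sE (mem_inf.1 hq).1) (inv_mem sE),
    conj_mem_of_mem_normalizer (normalizer_le_normalizer_centralizer _ sV) hq.2⟩

theorem QK {q : G} (hq : q ∈ Qs a b t) : q ∈ No (Hs a b) := no_cl fun u hu => by
  have := mul_mem (VH (h.nH q hq u (subset_closure hu))) (subset_closure hu)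
  rwa [inv_mul_cancel_right] at this

theorem sK : s ∈ No (Hs a b) := no_cl (by
  rintro _ (rfl | rfl)
  · rw [h.sa]; exact subset_closure (by simp)
  · rw [sb h]; exact subset_closure (by simp))

theorem kK {k : G} (hk : k ∈ zpowers r) : k ∈ No (Hs a b) := no_cl fun u hu => by
  rw [(kl h hk (HL h (subset_closure hu))).eq, mul_inv_cancel_right]; exact subset_closure hu

/-- `v(q) = w`. -/
def Vq (t q w : G) : Prop := q * t * q⁻¹ = t * w

omit h [Finite G] in
theorem Vq.mul {q q' w w' : G} (h1 : Vq t q w) (h2 : Vq t q' w') (c : Commute q w') :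
    Vq t (q * q') (w * w') :=
  calc q * q' * t * (q * q')⁻¹ = q * (q' * t * q'⁻¹) * q⁻¹ := by group
    _ = q * t * (w' * q⁻¹) := by rw [h2]; group
    _ = t * (w * w') := by rw [← c.inv_left.eq, ← mul_assoc, h1, mul_assoc]

omit h [Finite G] in
theorem Vq.inv {q w : G} (h1 : Vq t q w) (c : Commute q w) (w2 : w * w = 1) : Vq t q⁻¹ w :=
  calc q⁻¹ * t * q⁻¹⁻¹ = q⁻¹ * (t * w) * (w * q) := by
        rw [mul_assoc, mul_assoc, mul_assoc, ← mul_assoc w, w2]; group
    _ = q⁻¹ * (q * t * q⁻¹) * (q * w) := by rw [h1, c.eq]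
    _ = t * w := by group

theorem Vq.cj {q w : G} (h1 : Vq t q w) : Vq t (s * q * s⁻¹) (s * w * s⁻¹) := by
  have e : s * t * s⁻¹ = t := by rw [← (tl h h.sL).eq, mul_inv_cancel_right]
  calc s * q * s⁻¹ * t * (s * q * s⁻¹)⁻¹ = s * (q * (s⁻¹ * (s * t * s⁻¹) * s) * q⁻¹) * s⁻¹ := by
        rw [e]; group
    _ = s * (q * t * q⁻¹) * s⁻¹ := by group
    _ = (s * t * s⁻¹) * (s * w * s⁻¹) := by rw [h1]; group
    _ = _ := by rw [e]

theorem vcases {q : G} (hq : q ∈ Qs a b t) :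
    Vq t q 1 ∨ Vq t q (a ^ 2) ∨ Vq t q (b ^ 2) ∨ Vq t q (a ^ 2 * b ^ 2) := by
  have m := (h.nE q hq.1).1
  have e : Vq t q (q * t * q⁻¹ * t) := by
    rw [Vq, (tl h (HL h (VH m))).eq, mul_assoc _ t t, tt h, mul_one]
  rcases four (aa h) (bb h) (ab2 h) m with c | c | c | c <;> rw [c] at e <;> simp [e]

omit h [Finite G] in
theorem Vq.comm {q : G} (h1 : Vq t q 1) : Commute q t := by
  rw [Vq, mul_one, mul_inv_eq_iff_eq_mul] at h1; exact h1

theorem ker {q : G} (hq : q ∈ Qs a b t) (h1 : Vq t q 1) :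
    ∃ l ∈ Hs a b, ∃ k ∈ zpowers r, q = l * k := by
  obtain ⟨l, hl, k, hk, e⟩ := h.ct q h1.comm
  have e' : l = q * k⁻¹ := by rw [e, mul_inv_cancel_right]
  refine ⟨l, h.cV l hl ?_ ?_, k, hk, e⟩ <;> rw [e']
  · exact (qV hq aV).mul_left (kl h (inv_mem hk) (pow_mem h.aL 2))
  · exact (qV hq bV).mul_left (kl h (inv_mem hk) (pow_mem h.bL 2))

theorem stepA {q : G} (hq : q ∈ Qs a b t) (h1 : Vq t q 1 ∨ Vq t q (a ^ 2 * b ^ 2)) :
    q * (s * q⁻¹ * s⁻¹) ∈ Hs a b := by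
  have m := mul_mem hq (sQ h (inv_mem hq))
  have z2 : a ^ 2 * b ^ 2 * (a ^ 2 * b ^ 2) = 1 := by
    rw [mul_assoc, ← mul_assoc (b ^ 2), ← (ab2 h).eq, mul_assoc, bb h, mul_one, aa h]
  have v : Vq t (q * (s * q⁻¹ * s⁻¹)) 1 := by
    rcases h1 with c | c
    · simpa using c.mul (Vq.cj h (c.inv (Commute.one_right _) (one_mul 1))) (by simp)
    · have e : s * (a ^ 2 * b ^ 2) * s⁻¹ = a ^ 2 * b ^ 2 := by
        rw [← conj_mul, sa2 h, sb2 h, (ab2 h).eq]
      have k := Vq.cj h (c.inv (qV hq (mul_mem aV bV)) z2)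
      rw [e] at k
      exact z2 ▸ c.mul k (qV hq (mul_mem aV bV))
  have c : Commute (q * s * q⁻¹) t := by
    have := v.comm.mul_left (tl h h.sL).symm
    rwa [show q * (s * q⁻¹ * s⁻¹) * s = q * s * q⁻¹ by group] at this
  rcases invol h c (by rw [conj_mul, h.s2]; group) with k | ⟨u, k⟩
  · refine h.cV _ ?_ (qV m aV) (qV m bV)
    have := mul_mem k (inv_mem h.sL)
    rwa [show q * s * q⁻¹ * s⁻¹ = q * (s * q⁻¹ * s⁻¹) by group] at this
  · have e : q⁻¹ * u * t * (q⁻¹ * u)⁻¹ = s :=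
      calc q⁻¹ * u * t * (q⁻¹ * u)⁻¹ = q⁻¹ * (u * t * u⁻¹) * q := by group
        _ = s := by rw [k]; group
    exact absurd h.sL (e ▸ h.nz (q⁻¹ * u))

theorem der (ψ : Psi a b r t) : Der a b s t := by
  obtain ⟨X, _, p, pm, pi, p1⟩ := exists_quot (Hs a b)
  obtain ⟨q2, m2, v2⟩ := h.ex
  replace v2 : Vq t q2 (a ^ 2) := v2
  have m3 := sQ h m2
  have v3 := Vq.cj h v2
  rw [sa2 h] at v3
  have sk := sK h
  have ps : ∀ q ∈ Qs a b t, p (s * q * s⁻¹) = p s * p q * (p s)⁻¹ := fun q hq => by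
    rw [pm _ (mul_mem sk (QK h hq)) _ (inv_mem sk), pm _ sk _ (QK h hq), pi _ sk]
  have pA : ∀ q ∈ Qs a b t, Vq t q 1 ∨ Vq t q (a ^ 2 * b ^ 2) → p s * p q * (p s)⁻¹ = p q :=
    fun q hq c => by
      have := (p1 _ (QK h (mul_mem hq (sQ h (inv_mem hq))))).2 (stepA h hq c)
      rw [pm _ (QK h hq) _ (QK h (sQ h (inv_mem hq))), ps _ (inv_mem hq), pi _ (QK h hq)] at this
      rw [eq_inv_of_mul_eq_one_left this]
      conv_lhs => rw [← inv_inv (p s * _ * _)]
      congr 1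
      rw [eq_inv_of_mul_eq_one_right this]
      calc (p s * (p q)⁻¹⁻¹ * (p s)⁻¹)⁻¹ = p s * (p q)⁻¹ * (p s)⁻¹ := by group
        _ = (p q)⁻¹ := eq_inv_of_mul_eq_one_right this
  have s2 : p s * p s = 1 := by rw [← pm _ sk _ sk, h.s2, p1 _ (one_mem _)]; exact one_mem _
  set q3 := s * q2 * s⁻¹ with hq3
  have e2 : p s * p q2 * (p s)⁻¹ = p q3 := (ps _ m2).symm
  have e3 : p s * p q3 * (p s)⁻¹ = p q2 := by
    rw [← e2]
    calc _ = (p s * p s) * p q2 * (p s * p s)⁻¹ := by group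
      _ = _ := by rw [s2]; group
  have c23 : Commute (p q2) (p q3) := by
    have := pA _ (mul_mem m2 m3) (.inr (v2.mul v3 (qV m2 bV)))
    rw [pm _ (QK h m2) _ (QK h m3), ← conj_mul, e2, e3] at this
    exact this.symm
  have rk := kK h (mem_zpowers r)
  have cr : ∀ q ∈ Qs a b t, Commute (p q) (p r) := fun q hq => by
    have k := QK h hq
    have := (p1 _ (mul_mem (mul_mem (mul_mem k rk) (inv_mem k)) (inv_mem rk))).2 (ψ.1 q hq)
    rw [pm _ (mul_mem (mul_mem k rk) (inv_mem k)) _ (inv_mem rk), pm _ (mul_mem k rk) _ (inv_mem k),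
      pm _ k _ rk, pi _ k, pi _ rk] at this
    exact commutatorElement_eq_one_iff_commute.1 this
  have pk : ∀ k ∈ zpowers r, p k ∈ zpowers (p r) := fun k hk => by
    rw [zpowers_eq_closure] at hk
    induction hk using closure_induction with
    | mem g hg => rw [hg]; exact mem_zpowers _
    | one => rw [(p1 _ (one_mem _)).2 (one_mem _)]; exact one_mem _
    | mul g k hg hk h1 h2 =>
      rw [← zpowers_eq_closure] at hg hk
      rw [pm _ (kK h hg) _ (kK h hk)]; exact mul_mem h1 h2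
    | inv g hg h1 =>
      rw [← zpowers_eq_closure] at hg
      rw [pi _ (kK h hg)]; exact inv_mem h1
  have cen : ∀ U : X, Commute U (p q2) → Commute U (p q3) → Commute U (p r) →
      ∀ q ∈ Qs a b t, Commute U (p q) := fun U c2 c3 c4 => by
    have k0 : ∀ q ∈ Qs a b t, Vq t q 1 → Commute U (p q) := fun q hq c => by
      obtain ⟨l, hl, k, hk, rfl⟩ := ker h hq c
      rw [pm _ (le_normalizer hl) _ (kK h hk), (p1 _ (le_normalizer hl)).2 hl, one_mul]
      obtain ⟨i, e⟩ := pk k hk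
      exact e ▸ c4.zpow_right i
    have k1 : ∀ q ∈ Qs a b t, ∀ q' ∈ Qs a b t, Commute U (p q') → Commute U (p (q * q')) →
        Commute U (p q) := fun q hq q' hq' c c' => by
      rw [pm _ (QK h hq) _ (QK h hq')] at c'
      simpa using c'.mul_right c.inv_right
    have ka : ∀ q ∈ Qs a b t, Vq t q (a ^ 2) → Commute U (p q) := fun q hq c =>
      k1 q hq q2 m2 c2 (k0 _ (mul_mem hq m2) (aa h ▸ c.mul v2 (qV hq aV)))
    intro q hq
    rcases vcases h hq with c | c | c | c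
    · exact k0 q hq c
    · exact ka q hq c
    · exact k1 q hq q3 m3 c3 (k0 _ (mul_mem hq m3) (bb h ▸ c.mul v3 (qV hq bV)))
    · refine k1 q hq q3 m3 c3 (ka _ (mul_mem hq m3) ?_)
      simpa only [mul_assoc, bb h, mul_one] using c.mul v3 (qV hq bV)
  have cq : ∀ q ∈ Qs a b t, ∀ q' ∈ Qs a b t, Commute (p q) (p q') := fun q hq =>
    cen _ (cen _ (Commute.refl _) c23 (cr _ m2) q hq).symm
      (cen _ c23.symm (Commute.refl _) (cr _ m3) q hq).symm (cr q hq)
  have pc : ∀ g ∈ No (Hs a b), ∀ k ∈ No (Hs a b), p ⁅g, k⁆ = ⁅p g, p k⁆ := fun g hg k hk => by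
    rw [commutatorElement_def, commutatorElement_def, pm _ (mul_mem (mul_mem hg hk) (inv_mem hg)) _
      (inv_mem hk), pm _ (mul_mem hg hk) _ (inv_mem hg), pm _ hg _ hk, pi _ hg, pi _ hk]
  have cK : ∀ g ∈ No (Hs a b), ∀ k ∈ No (Hs a b), ⁅g, k⁆ ∈ No (Hs a b) := fun g hg k hk =>
    mul_mem (mul_mem (mul_mem hg hk) (inv_mem hg)) (inv_mem hk)
  refine ⟨fun q hq q' hq' => (p1 _ (cK _ (QK h hq) _ (QK h hq'))).1 (by
    rw [pc _ (QK h hq) _ (QK h hq')]
    exact commutatorElement_eq_one_iff_commute.2 (cq q hq q' hq')), ?_⟩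
  have vi := v2.inv (qV m2 aV) (aa h)
  have m' := mul_mem (inv_mem m2) m3
  have v' := vi.mul v3 (qV (inv_mem m2) bV)
  set q' := q2⁻¹ * q3 with hq'
  have e' : p q' = (p q2)⁻¹ * p q3 := by rw [pm _ (QK h (inv_mem m2)) _ (QK h m3), pi _ (QK h m2)]
  have w2 : p q' * p q' = 1 := by
    have := pA _ m' (.inr v')
    nth_rw 1 [← this]
    rw [e', ← conj_mul, ← conj_inv, e2, e3]
    group
  let D : Subgroup G :=
    { carrier := {g | g ∈ No (Hs a b) ∧ p g ∈ zpowers (p q')}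
      mul_mem' := fun h1 h2 => ⟨mul_mem h1.1 h2.1, pm _ h1.1 _ h2.1 ▸ mul_mem h1.2 h2.2⟩
      one_mem' := ⟨one_mem _, (p1 _ (one_mem _)).2 (one_mem _) ▸ one_mem _⟩
      inv_mem' := fun h1 => ⟨inv_mem h1.1, pi _ h1.1 ▸ inv_mem h1.2⟩ }
  have cs : ∀ q ∈ Qs a b t, ∃ o ∈ zpowers (p q'), p s * p q * (p s)⁻¹ = p q * o := fun q hq => by
    have k : Vq t (q * q2⁻¹) 1 ∨ Vq t (q * q2⁻¹) (a ^ 2 * b ^ 2) →
        ∃ o ∈ zpowers (p q'), p s * p q * (p s)⁻¹ = p q * o := fun c => by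
      have := pA _ (mul_mem hq (inv_mem m2)) c
      rw [pm _ (QK h hq) _ (QK h (inv_mem m2)), pi _ (QK h m2), ← conj_mul, ← conj_inv, e2,
        mul_inv_eq_iff_eq_mul, mul_assoc (p q), ← e'] at this
      exact ⟨_, mem_zpowers _, this⟩
    rcases vcases h hq with c | c | c | c
    · exact ⟨1, one_mem _, by rw [pA q hq (.inl c), mul_one]⟩
    · exact k (.inl (aa h ▸ c.mul vi (qV hq aV)))
    · exact k (.inr ((ab2 h).eq ▸ c.mul vi (qV hq aV)))
    · exact ⟨1, one_mem _, by rw [pA q hq (.inr c), mul_one]⟩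
  have sN : zpowers s ≤ No (Qs a b t) := zpowers_le.2 (mem_normalizer_of_cj_le (by
    rintro _ ⟨q, hq, rfl⟩; exact sQ h hq))
  have tc : ∀ g ∈ Ts a b s t, g ∈ No (Hs a b) ∧ ∃ q ∈ Qs a b t, ∃ S : X, p g = p q * S ∧
      (S = 1 ∨ S = p s) := fun g hg => by
    obtain ⟨q, hq, k, hk, rfl⟩ := (mem_sup_right_norm sN).1 hg
    have k0 : k ∈ No (Hs a b) := zpowers_le.2 sk hk
    refine ⟨mul_mem (QK h hq) k0, q, hq, p k, pm _ (QK h hq) _ k0, ?_⟩
    rcases (mem_zpowers_of_mul_self h.s2).1 hk with rfl | rfl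
    · exact .inl ((p1 _ (one_mem _)).2 (one_mem _))
    · exact .inr rfl
  have oc : ∀ o ∈ zpowers (p q'), ∀ q ∈ Qs a b t, Commute o (p q) := by
    rintro _ ⟨i, rfl⟩ q hq; exact (cq _ m' q hq).zpow_left i
  refine ⟨D, commutator_le.2 fun g hg k hk => ?_, fun w hw => ⟨le_normalizer (VH hw), ?_⟩, ?_⟩
  · obtain ⟨g0, q, hq, S, e1, hS⟩ := tc g hg
    obtain ⟨k0, n, hn, U, e4, hU⟩ := tc k hk
    refine ⟨cK _ g0 _ k0, ?_⟩
    obtain ⟨o, ho, e5⟩ : ∃ o ∈ zpowers (p q'), S * p n * S⁻¹ = p n * o := by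
      rcases hS with rfl | rfl
      exacts [⟨1, one_mem _, by group⟩, cs n hn]
    obtain ⟨o', ho', e6⟩ : ∃ o ∈ zpowers (p q'), U * p q * U⁻¹ = p q * o := by
      rcases hU with rfl | rfl
      exacts [⟨1, one_mem _, by group⟩, cs q hq]
    have c : Commute S U := by rcases hS with rfl | rfl <;> rcases hU with rfl | rfl <;> simp
    have : ⁅p g, p k⁆ = o * o'⁻¹ :=
      calc ⁅p g, p k⁆ = p q * (S * p n * S⁻¹) * (S * U * S⁻¹ * U⁻¹) * (U * p q * U⁻¹)⁻¹ * (p n)⁻¹ := by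
            rw [e1, e4, commutatorElement_def]; group
        _ = p q * p n * (o * o'⁻¹) * (p n * p q)⁻¹ := by rw [e5, e6, c.eq]; group
        _ = o * o'⁻¹ := by
            have c1 := mul_mem ho (inv_mem ho')
            rw [← (cq q hq n hn).eq, ← ((oc _ c1 q hq).mul_right (oc _ c1 n hn)).eq]
            group
    rw [pc _ g0 _ k0, this]
    exact mul_mem ho (inv_mem ho')
  · rw [(p1 _ (le_normalizer (VH hw))).2 (VH hw)]; exact one_mem _
  · rintro ⟨t0, ht⟩
    rcases (mem_zpowers_of_mul_self w2).1 ht with e | e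
    · exact h.nz 1 (by simpa using HL h ((p1 _ t0).1 e))
    · have m : q' * t⁻¹ ∈ Hs a b := (p1 _ (mul_mem (QK h m') (inv_mem t0))).1 (by
        rw [pm _ (QK h m') _ (inv_mem t0), pi _ t0, e, mul_inv_cancel])
      have c : Commute q' t := by
        simpa using (tl h (HL h m)).symm.mul_left (Commute.refl t)
      rw [Vq, c.eq, mul_inv_cancel_right, left_eq_mul] at v'
      have := (h.ind 2 2 (by exact_mod_cast v')).1
      omega

omit h [Finite G] in
theorem jobUQ3 : JobUQ3.{u} := fun _ _ _ _ _ _ _ _ _ _ _ h ψ => der h ψ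

end H58.UQ3
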