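import Cfsg.Agent.H98.Basic

/-! A group `H` which is dihedral modulo `Q = O₂(H)`, and an element `y` normalizing a Sylow
2-subgroup `P` of `H` but no nontrivial normal subgroup of `H` inside `P`: edges and distances. -/

set_option autoImplicit false

namespace H58.DA

open Subgroup H98
open scoped commutatorElement

variable {G : Type*} [Group G] {A B C D H P Q X : Subgroup G} {a a' c c' e g k m r s u v x y : G}

abbrev nor (X : Subgroup G) : Subgroup G := normalizer (X : Set G)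
abbrev cen (X : Subgroup G) : Subgroup G := centralizer (X : Set G)

/-- The involutions of the centre. -/
def Om (A : Subgroup G) : Subgroup G where
  carrier := {x | x ∈ A ∧ x ∈ cen A ∧ x * x = 1}
  one_mem' := ⟨one_mem _, one_mem _, mul_one _⟩
  mul_mem' := fun {a b} ha hb => ⟨mul_mem ha.1 hb.1, mul_mem ha.2.1 hb.2.1, by
    calc a * b * (a * b) = a * (b * a) * b := by group
      _ = a * a * (b * b) := by rw [ha.2.1 b hb.1]; group
      _ = 1 := by rw [ha.2.2, hb.2.2, mul_one]⟩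
  inv_mem' := fun {a} ha => ⟨inv_mem ha.1, inv_mem ha.2.1, by rw [← mul_inv_rev, ha.2.2, inv_one]⟩

theorem Om_le : Om A ≤ A := fun _ h => h.1

theorem Om_cen : Om A ≤ cen A := fun _ h => h.2.1

theorem cj_Om (g : G) (A : Subgroup G) : cj g (Om A) = Om (cj g A) := by
  ext x
  rw [mem_cj]
  refine and_congr mem_cj.symm (and_congr ?_ ?_)
  · rw [cen, cen, ← cj_centralizer, mem_cj]
  · rw [show g⁻¹ * x * g * (g⁻¹ * x * g) = g⁻¹ * (x * x) * g⁻¹⁻¹ by group, conj_eq_one_iff]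

theorem nor_Om (h : X ≤ nor A) : X ≤ nor (Om A) := fun g hg =>
  cj_eq_self_iff.1 (by rw [cj_Om, cj_eq_self (h hg)])

theorem nor_cj (h : X ≤ nor A) (g : G) : cj g X ≤ nor (cj g A) := by
  rw [nor, ← cj_normalizer]; exact cj_mono g h

/-- `X` is generated by `u` modulo the centralizer of `D`. -/
def I2 (X D : Subgroup G) : Prop := ∀ v ∈ X, ∀ w ∈ X, v ∉ cen D → w ∉ cen D → v * w ∈ cen D

theorem I2.cj (h : I2 X D) (g : G) : I2 (cj g X) (cj g D) := fun v hv w hw h1 h2 => by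
  rw [cen, ← cj_centralizer, mem_cj] at h1 h2 ⊢
  have := h _ (mem_cj.1 hv) _ (mem_cj.1 hw) h1 h2
  rwa [show g⁻¹ * v * g * (g⁻¹ * w * g) = g⁻¹ * (v * w) * g by group] at this

theorem I2.comm (h : I2 X D) (hu : u ∈ X) (h1 : u ∉ cen D) (hx : x ∈ D) (e : Commute x u)
    (hv : v ∈ X) : Commute x v := by
  by_cases h2 : v ∈ cen D
  · exact h2 x hx
  · have : Commute x (v * u) := h v hv u hu h2 h1 x hx
    simpa using this.mul_right e.inv_right

/-- An edge seen from one end. -/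
structure Ed (A B : Subgroup G) : Prop where
  n : B ≤ nor A
  idx : ∀ x ∈ B, ∀ y ∈ B, x ∉ A → y ∉ A → x * y ∈ A
  cn : ∀ x ∈ B, x ∈ cen (Om A) → x ∈ A

namespace Ed

theorem mono (h : Ed A B) (l : X ≤ B) : Ed A X :=
  ⟨l.trans h.n, fun x hx y hy => h.idx x (l hx) y (l hy), fun x hx => h.cn x (l hx)⟩

theorem cj (h : Ed A B) (g : G) : Ed (cj g A) (cj g B) := by
  refine ⟨nor_cj h.n g, fun x hx y hy h1 h2 => ?_, fun x hx h1 => ?_⟩
  · rw [mem_cj] at hx hy h1 h2 ⊢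
    have := h.idx _ hx _ hy h1 h2
    rwa [show g⁻¹ * x * g * (g⁻¹ * y * g) = g⁻¹ * (x * y) * g by group] at this
  · rw [← cj_Om, cen, ← cj_centralizer] at h1
    exact mem_cj.2 (h.cn _ (mem_cj.1 hx) (mem_cj.1 h1))

theorem le_of (h : Ed A B) (hx : x ∈ B) (hA : x ∉ A) (l : A ≤ X) (hX : x ∈ X) : B ≤ X :=
  fun y hy => by
    by_cases h1 : y ∈ A
    · exact l h1
    · exact (mul_mem_cancel_left hX).1 (l (h.idx x hx y hy hA h1))

theorem com (h : Ed A B) (l : X ≤ B) (hX : ¬ X ≤ A) : ⁅Om A, B⁆ = ⁅Om A, X⁆ := by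
  refine le_antisymm (commutator_le.2 fun v hv b hb => ?_) (commutator_mono le_rfl l)
  obtain ⟨x, hx, hA⟩ := SetLike.not_le_iff_exists.1 hX
  by_cases h1 : b ∈ A
  · rw [commutatorElement_eq_one_iff_mul_comm.2 (hv.2.1 b h1).symm]; exact one_mem _
  have h2 := h.idx b hb _ (inv_mem (l hx)) h1 fun e => hA (inv_mem_iff.1 e)
  have h3 := (conj_mem_of_mem_normalizer (nor_Om h.n (l hx)) (inv_mem hv)).2.1 _ h2
  have : ⁅v, b⁆ = ⁅v, x⁆ := by
    calc ⁅v, b⁆ = v * (b * x⁻¹ * (x * v⁻¹ * x⁻¹)) * (b * x⁻¹)⁻¹ := by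
          rw [commutatorElement_def]; group
      _ = ⁅v, x⁆ := by rw [h3, commutatorElement_def]; group
  rw [this]; exact commutator_mem_commutator hv hx

theorem com_ne (h : Ed A B) (hB : ¬ B ≤ A) : ⁅Om A, B⁆ ≠ ⊥ := fun e =>
  hB fun x hx => h.cn x hx (le_centralizer_iff.1 (commutator_eq_bot_iff_le_centralizer.1 e) hx)

/-- A critical pair. -/
theorem crit (h : Ed A B) (h' : Ed C D) (l : Om C ≤ B) (l' : Om A ≤ D) (hn : ¬ Om A ≤ C) :
    ¬ Om C ≤ A ∧ ⁅Om A, B⁆ = ⁅Om C, D⁆ ∧ I2 (Om A) B := by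
  have h1 : ¬ Om C ≤ A := fun e =>
    hn fun x hx => h'.cn x (l' hx) (centralizer_anti e hx.2.1)
  refine ⟨h1, by rw [h.com l h1, h'.com l' hn, Subgroup.commutator_comm], ?_⟩
  obtain ⟨x, hx, hA⟩ := SetLike.not_le_iff_exists.1 h1
  have h2 : ∀ v ∈ Om A, v ∈ C → v ∈ cen B := fun v hv hC b hb =>
    (mem_centralizer_singleton_iff.1 (h.le_of (l hx) hA (X := centralizer {v})
      (fun a ha => mem_centralizer_singleton_iff.2 (hv.2.1 a ha))
      (mem_centralizer_singleton_iff.2 (hx.2.1 v hC).symm) hb))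
  exact fun v hv w hw h3 h4 => h2 _ (mul_mem hv hw)
    (h'.idx v (l' hv) w (l' hw) (fun e => h3 (h2 v hv e)) fun e => h4 (h2 w hw e))

theorem com_cen (h : Ed A B) (i : I2 (Om A) B) : ⁅Om A, B⁆ ≤ cen B :=
  commutator_le.2 fun v hv b hb => by
    by_cases h1 : v ∈ cen B
    · rw [commutatorElement_eq_one_iff_mul_comm.2 (h1 b hb).symm]; exact one_mem _
    rw [commutatorElement_def, mul_assoc, mul_assoc, ← mul_assoc b]
    refine i v hv _ (conj_mem_of_mem_normalizer (nor_Om h.n hb) (inv_mem hv)) h1 fun e => h1 ?_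
    have := conj_mem_of_mem_normalizer' (le_normalizer_centralizer (le_normalizer_of_le le_rfl) hb) e
    rwa [show b⁻¹ * (b * v⁻¹ * b⁻¹) * b = v⁻¹ by group, inv_mem_iff] at this

end Ed

/-- Adjacent cosets. -/
def Nb (H : Subgroup G) (y a c : G) : Prop :=
  ∃ h ∈ H, ∃ e, (e = y ∨ e = y⁻¹) ∧ ∃ h' ∈ H, c = a * h * e * h'

theorem Nb.symm (h : Nb H y a c) : Nb H y c a := by
  obtain ⟨h, hh, e, he, h', hh', rfl⟩ := h
  exact ⟨_, inv_mem hh', e⁻¹, by rcases he with rfl | rfl <;> simp, _, inv_mem hh, by group⟩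

theorem Nb.tr (h : Nb H y a c) (g : G) : Nb H y (g * a) (g * c) := by
  obtain ⟨h, hh, e, he, h', hh', rfl⟩ := h
  exact ⟨h, hh, e, he, h', hh', by group⟩

theorem Nb.left (h : Nb H y a c) (l : a'⁻¹ * a ∈ H) : Nb H y a' c := by
  obtain ⟨h, hh, e, he, h', hh', rfl⟩ := h
  exact ⟨_, mul_mem l hh, e, he, h', hh', by group⟩

theorem Nb.right (h : Nb H y a c) (l : c⁻¹ * c' ∈ H) : Nb H y a c' :=
  (h.symm.left (by simpa using inv_mem l)).symm

theorem nb_one (hk : k ∈ H) (he : e = y ∨ e = y⁻¹) : Nb H y 1 (k * e) :=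
  ⟨k, hk, e, he, 1, one_mem _, by group⟩

/-- Walks of length `n`. -/
def Ds (H : Subgroup G) (y : G) : ℕ → G → G → Prop
  | 0, a, c => a⁻¹ * c ∈ H
  | n + 1, a, c => ∃ m, Nb H y a m ∧ Ds H y n m c

theorem Ds.tr {n : ℕ} (h : Ds H y n a c) (g : G) : Ds H y n (g * a) (g * c) := by
  induction n generalizing a with
  | zero => simpa [Ds, mul_assoc] using h
  | succ n ih => obtain ⟨m, h1, h2⟩ := h; exact ⟨_, h1.tr g, ih h2⟩

theorem Ds.left {n : ℕ} (h : Ds H y n a c) (l : a'⁻¹ * a ∈ H) : Ds H y n a' c := by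
  cases n with
  | zero => simpa [Ds, mul_assoc] using mul_mem l h
  | succ n => obtain ⟨m, h1, h2⟩ := h; exact ⟨m, h1.left l, h2⟩

theorem Ds.snoc {n : ℕ} (h : Ds H y n a m) (h' : Nb H y m c) : Ds H y (n + 1) a c := by
  induction n generalizing a with
  | zero => exact ⟨c, h'.left h, by simp [Ds]⟩
  | succ n ih => obtain ⟨m', h1, h2⟩ := h; exact ⟨m', h1, ih h2⟩

theorem Ds.symm {n : ℕ} (h : Ds H y n a c) : Ds H y n c a := by
  induction n generalizing a with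
  | zero => simpa [Ds] using inv_mem h
  | succ n ih => obtain ⟨m, h1, h2⟩ := h; exact (ih h2).snoc h1.symm

theorem Ds.unsnoc {n : ℕ} (h : Ds H y (n + 1) a c) : ∃ m, Ds H y n a m ∧ Nb H y m c := by
  obtain ⟨m, h1, h2⟩ := h.symm
  exact ⟨m, h2.symm, h1.symm⟩

/-- The standing hypotheses. -/
structure Am (H P Q : Subgroup G) (y r : G) : Prop where
  QP : Q ≤ P
  PH : P ≤ H
  two : IsPGroup 2 P
  nQ : H ≤ nor Q
  idx : ∀ a ∈ P, ∀ b ∈ P, a ∉ Q → b ∉ Q → a * b ∈ Q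
  rH : r ∈ H
  odd : (orderOf r).Coprime 2
  inv : ∀ k : ℤ, ∀ s ∈ P, s ∉ Q → r ^ k * s * r ^ k * s⁻¹ ∈ Q
  gen : ∀ h ∈ H, ∃ k : ℤ, ∃ p ∈ P, h = r ^ k * p
  r1 : r ≠ 1
  ny : y ∈ nor P
  y2 : ∀ N ≤ P, P ≤ nor N → cj (y * y) N = N
  triv : ∀ N ≤ P, H ≤ nor N → cj y N = N → N = ⊥
  ne : Q ≠ ⊥

/-- `P` and its conjugate by `k` generate `H`. -/
def Gd (H P : Subgroup G) (k : G) : Prop := k ∈ H ∧ ∀ X, P ≤ X → cj k P ≤ X → H ≤ X

theorem mem_of_sq [Finite G] (ho : (orderOf r).Coprime 2) (k : ℤ) (h : r ^ k * r ^ k ∈ X) :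
    r ^ k ∈ X := by
  have : r ^ k ∈ zpowers ((r ^ k) ^ 2) := mem_zpowers_pow_iff.2
    (Nat.Coprime.coprime_dvd_left (orderOf_dvd_of_mem_zpowers (zpow_mem_zpowers r k)) ho).symm
  exact zpowers_le.2 (pow_two (r ^ k) ▸ h) this

namespace Am

variable [Finite G] (h : Am H P Q y r)
include h

omit [Finite G] in
theorem nP (he : e = y ∨ e = y⁻¹) : cj e P = P := by
  rcases he with rfl | rfl
  exacts [cj_eq_self h.ny, cj_eq_self (inv_mem h.ny)]

omit [Finite G] in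
theorem cj_e (he : e = y ∨ e = y⁻¹) (l : X ≤ P) (n : P ≤ nor X) : cj e X = cj y X := by
  rcases he with rfl | rfl
  · rfl
  · conv_lhs => rw [← h.y2 X l n, cj_cj, inv_mul_cancel_left]

omit [Finite G] in
theorem yy (l : X ≤ P) (n : P ≤ nor X) : cj y (cj y X) = X := by rw [cj_cj, h.y2 X l n]

omit [Finite G] in
theorem nQP : P ≤ nor Q := h.PH.trans h.nQ

omit [Finite G] in
theorem y_le (l : X ≤ P) : cj y X ≤ P := cj_le_of_le l h.ny

omit [Finite G] in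
theorem y_nor (n : P ≤ nor X) : P ≤ nor (cj y X) := by
  have := nor_cj n y
  rwa [cj_eq_self h.ny] at this

omit [Finite G] in
theorem cjQ (l : a⁻¹ * c ∈ H) : cj c Q = cj a Q := by
  rw [← mul_inv_cancel_left a c, ← cj_cj, cj_eq_self (h.nQ l)]

theorem not_le : ¬ Q ≤ cj y Q := fun l =>
  h.ne (h.triv Q h.QP h.nQ (eq_of_le_of_card_ge l (card_cj y Q).le).symm)

theorem not_le' : ¬ cj y Q ≤ Q := fun l =>
  h.ne (h.triv Q h.QP h.nQ (eq_of_le_of_card_ge l (card_cj y Q).ge))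

theorem le_of_sq (l : P ≤ X) (h2 : r * r ∈ X) : H ≤ X := fun x hx => by
  obtain ⟨k, p, hp, rfl⟩ := h.gen x hx
  have := mem_of_sq h.odd 1 (X := X) (by rwa [zpow_one])
  rw [zpow_one] at this
  exact mul_mem (zpow_mem this k) (l hp)

theorem sq_mem (k : ℤ) (l : P ≤ X) (l' : cj (r ^ k) P ≤ X) : r ^ k * r ^ k ∈ X := by
  obtain ⟨s, hs, hQ⟩ := SetLike.not_le_iff_exists.1 h.not_le'
  have hP := h.y_le h.QP hs
  have := mul_mem (inv_mem (l' (conj_mem_cj hP))) (mul_mem (l (h.QP (h.inv k s hP hQ))) (l hP))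
  rwa [show (r ^ k * s * (r ^ k)⁻¹)⁻¹ * (r ^ k * s * r ^ k * s⁻¹ * s) = r ^ k * r ^ k by group]
    at this

theorem gd : Gd H P r :=
  ⟨h.rH, fun X l l' => h.le_of_sq l (by simpa using h.sq_mem 1 l (by rwa [zpow_one]))⟩

theorem gd' : Gd H P r⁻¹ :=
  ⟨inv_mem h.rH, fun X l l' => h.le_of_sq l (by
    have := inv_mem (h.sq_mem (-1) l (by rwa [zpow_neg_one]))
    simpa using this)⟩

theorem gd2 : Gd H P (r * r) :=
  ⟨mul_mem h.rH h.rH, fun X l l' => h.le_of_sq l (by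
    have e : r ^ (2 : ℤ) = r * r := zpow_two r
    exact e ▸ mem_of_sq h.odd 2 (h.sq_mem 2 l (by rwa [e])))⟩

/-- A subgroup with `X ^ r = X ^ r⁻¹` which is normal in `P` is normal in `H`. -/
theorem nor_of (n : P ≤ nor X) (e : cj r X = cj r⁻¹ X) : H ≤ nor X :=
  h.le_of_sq n (cj_eq_self_iff.1 (by rw [← cj_cj, e, cj_cj_inv]))

theorem Om_ne (l : X ≤ P) (n : X ≠ ⊥) : Om X ≠ ⊥ := by
  have : Fact (Nat.Prime 2) := ⟨Nat.prime_two⟩
  have := (nontrivial_iff_ne_bot X).2 n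
  have h1 := (h.two.to_le l).center_nontrivial
  obtain ⟨k, hk⟩ := ((h.two.to_le l).to_subgroup (center X)).nontrivial_iff_card.1 h1
  obtain ⟨⟨⟨z, hz⟩, hc⟩, o⟩ := exists_prime_orderOf_dvd_card' (G := center X) 2
    (hk.2 ▸ dvd_pow_self 2 hk.1.ne')
  rw [← orderOf_coe, ← orderOf_coe] at o
  refine ne_bot_iff_exists_ne_one.2 ⟨⟨z, hz, fun x hx => congrArg Subtype.val
    (mem_center_iff.1 hc ⟨x, hx⟩), ?_⟩, fun e => ?_⟩
  · rw [← pow_two, ← o]; exact pow_orderOf_eq_one z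
  · have : z = 1 := congrArg Subtype.val e
    simp [this] at o

/-- When `r` does not centralize `Q`, the group `Q` is the centralizer in `P` of `Ω₁(Z(Q))`. -/
theorem ed (hr : r ∉ cen Q) : Ed Q P := by
  have nc : H ≤ nor (cen (Om Q)) := le_normalizer_centralizer (nor_Om h.nQ)
  have key : ∀ Y : Subgroup G, H ≤ nor Y → ∀ s ∈ P, s ∉ Q → s ∈ Y → r ∈ Y ⊔ Q := fun Y n s hs hQ hY => by
    have h1 := conj_mem_of_mem_normalizer (n h.rH) hY
    have := mul_mem (inv_mem (mem_sup_left (T := Q) h1))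
      (mul_mem (mem_sup_right (h.inv 1 s hs hQ)) (mem_sup_left hY))
    rw [show (r * s * r⁻¹)⁻¹ * (r ^ (1 : ℤ) * s * r ^ (1 : ℤ) * s⁻¹ * s) = r ^ (1 : ℤ) * r ^ (1 : ℤ) by
      group] at this
    simpa using mem_of_sq h.odd 1 this
  refine ⟨h.nQP, h.idx, fun s hs hc => by_contra fun hQ => ?_⟩
  have h1 : r ∈ cen (Om Q) :=
    sup_le le_rfl (le_centralizer_iff.1 Om_cen) (key _ nc s hs hQ hc)
  have ZQ : Om P ≤ Q := fun z hz => by_contra fun hz' => by
    obtain ⟨d, hd, q, hq, e⟩ := (mem_sup_right_norm (le_normalizer_centralizer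
      (le_normalizer_of_le le_rfl))).1
      (key _ (le_normalizer_centralizer h.nQ) z hz.1 hz' (centralizer_anti h.QP hz.2.1))
    obtain ⟨j, hj⟩ := h.two ⟨q, h.QP hq⟩
    have h2 : r ^ 2 ^ j ∈ cen Q := by
      rw [e, (show Commute d q from (hd q hq).symm).mul_pow,
        show q ^ 2 ^ j = 1 from congrArg Subtype.val hj, mul_one]
      exact pow_mem hd _
    exact hr (zpowers_le.2 h2 (mem_zpowers_pow_iff.2 (h.odd.symm.pow_left j)))
  refine h.Om_ne le_rfl (fun e => h.ne (eq_bot_iff.2 (e ▸ h.QP))) (h.triv _ Om_le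
    (le_normalizer_of_le_centralizer (h.le_of_sq (le_centralizer_iff.1 Om_cen) ?_))
    (by rw [cj_Om, cj_eq_self h.ny]))
  refine centralizer_anti (fun z hz => ?_) (mul_mem h1 h1)
  exact ⟨ZQ hz, centralizer_anti h.QP hz.2.1, hz.2.2⟩

omit [Finite G] in
theorem ed_nb (d : Ed Q P) (n : Nb H y a c) : Ed (cj a Q) (cj c Q) := by
  obtain ⟨k, hk, e, he, k', hk', rfl⟩ := n
  rw [← h.cjQ (a := a) (c := a * k) (by simpa using hk),
    h.cjQ (a := a * k * e) (c := a * k * e * k') (by rwa [inv_mul_cancel_left]), ← cj_cj (a * k) e]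
  exact (d.mono ((cj_mono e h.QP).trans (h.nP he).le)).cj _

/-- Some conjugate of `Ω₁(Z(Q))` does not lie in `Q`. -/
theorem exists_crit : ∃ n a c, Ds H y n a c ∧ ¬ Om (cj a Q) ≤ cj c Q := by
  by_contra! hc
  have key : ∀ k, (∀ n g, Ds H y n 1 g → ∃ n', Ds H y n' 1 (k * g)) →
      k ∈ nor (⨆ g : {g // ∃ n, Ds H y n 1 g}, Om (cj g.1 Q)) := fun k hk =>
    mem_normalizer_of_cj_le (by
      rw [cj, Subgroup.map_iSup]
      refine iSup_le fun ⟨g, n, hg⟩ => le_iSup_of_le ⟨k * g, hk n g hg⟩ ?_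
      exact ((cj_Om k _).trans (by rw [cj_cj])).le)
  have := h.triv _ (iSup_le fun g => ?_) (fun k hk => key k fun n g hg =>
    ⟨n, (hg.tr k).left (by simpa using hk)⟩) (cj_eq_self (key y fun n g hg =>
    ⟨n + 1, _, nb_one (one_mem H) (.inl rfl), by simpa using hg.tr y⟩))
  · refine h.Om_ne h.QP h.ne (eq_bot_iff.2 (this ▸ le_iSup_of_le ⟨1, 0, ?_⟩ ?_))
    · simp [Ds]
    · rw [cj_one]
  · obtain ⟨g, n, hg⟩ := g
    exact (hc n g 1 hg.symm).trans ((cj_one Q).le.trans h.QP)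

end Am

end H58.DA
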