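import Cfsg.Agent.H58.DihAm1

/-! The dihedral amalgam: the critical distance is one. -/

set_option autoImplicit false

namespace H58.DA

open Subgroup H98
open scoped commutatorElement

variable {G : Type*} [Group G] {C D H P Q : Subgroup G} {a c e g k m m' r y : G} {n : ℕ}

/-- No critical pair at distance less than `n`. -/
def Mn (H Q : Subgroup G) (y : G) (n : ℕ) : Prop :=
  ∀ j < n, ∀ a c, Ds H y j a c → Om (cj a Q) ≤ cj c Q

theorem mul_pow_four {u v : G} (hu : u * u = 1) (hv : v * v = 1) :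
    (u * v) ^ 4 = ⁅u, v * u * v⁻¹⁆ := by
  have h1 := eq_inv_of_mul_eq_one_left hu
  have h2 := eq_inv_of_mul_eq_one_left hv
  calc (u * v) ^ 4 = u * (v * u * v) * u * (v * u * v) := by
        simp only [pow_succ, pow_zero, one_mul, mul_assoc]
    _ = u * (v * u * v⁻¹) * u⁻¹ * (v * u⁻¹ * v⁻¹) := by rw [← h1, ← h2]
    _ = _ := by rw [commutatorElement_def]; group

namespace Am

variable [Finite G] (h : Am H P Q y r) (d : Ed Q P)
include h d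

theorem f4 (d' : Ed C D) (l : Om C ≤ P) (l' : Om Q ≤ D) (hn : ¬ Om Q ≤ C) (hk : Gd H P k) :
    ¬ Om (cj (k * y) Q) ≤ D := fun l2 => by
  obtain ⟨h1, h2, -⟩ := d.crit d' l l' hn
  obtain ⟨x, hx, hQ⟩ := SetLike.not_le_iff_exists.1 h1
  have nV : H ≤ nor (Om Q) := nor_Om h.nQ
  have n0 : P ≤ nor (Om (cj y Q) ⊔ Om Q) :=
    le_normalizer_sup (nor_Om (h.y_nor h.nQP)) (h.PH.trans nV)
  have e : cj k (Om (cj y Q) ⊔ Om Q) = Om (cj (k * y) Q) ⊔ Om Q := by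
    rw [cj_sup, cj_Om, cj_cj, cj_eq_self (nV hk.1)]
  have n1 := nor_cj n0 k
  have n2 : Om C ≤ nor (cj k (Om (cj y Q) ⊔ Om Q)) := by
    rw [e]
    refine le_normalizer_of_commutator_le (A := Om (cj (k * y) Q) ⊔ Om Q) ?_ le_rfl
    rw [Subgroup.commutator_comm]
    exact (commutator_mono le_rfl (sup_le l2 l')).trans
      (h2.ge.trans ((commutator_le_left' (h.PH.trans nV)).trans le_sup_right))
  have QN : Q ≤ nor (cj k (Om (cj y Q) ⊔ Om Q)) :=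
    ((cj_eq_self (h.nQ hk.1)).ge.trans (cj_mono k h.QP)).trans n1
  have n3 := nor_cj (hk.2 _ (d.le_of (l hx) hQ QN (n2 hx)) n1) k⁻¹
  rw [cj_inv_cj, cj_eq_self_of_mem (inv_mem hk.1)] at n3
  have := h.triv _ (sup_le (Om_le.trans (h.y_le h.QP)) (Om_le.trans h.QP)) n3 (by
    rw [cj_sup, cj_Om, cj_Om, h.yy h.QP h.nQP, sup_comm])
  exact h.Om_ne h.QP h.ne (eq_bot_iff.2 (this ▸ le_sup_right))

omit [Finite G] d in
theorem Om_le_P {b : ℕ} (hm : Mn H Q y b) (hb : n < b) (he : e = y ∨ e = y⁻¹) (h1 : Ds H y n e c) :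
    Om (cj c Q) ≤ P :=
  (hm _ hb _ _ h1.symm).trans ((cj_mono e h.QP).trans (h.nP he).le)

theorem shift (hm : Mn H Q y (n + 2)) (he : e = y ∨ e = y⁻¹) (h1 : Ds H y n e m)
    (h2 : Nb H y m c) (hn : ¬ Om Q ≤ cj c Q) (hk : Gd H P k) : ¬ Om (cj (k * y) Q) ≤ cj m Q := by
  refine h.f4 d (h.ed_nb d h2.symm) (h.Om_le_P hm n.succ.lt_succ_self he (h1.snoc h2)) ?_ hn hk
  have := hm (n + 1) n.succ.lt_succ_self 1 m ⟨_, nb_one (one_mem H) he, by rwa [one_mul]⟩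
  rwa [cj_one] at this

omit [Finite G] in
theorem com_eq (hm : Mn H Q y (n + 2)) (hk : k ∈ H) (h1 : Ds H y n 1 m') (h2 : Nb H y m' m)
    (hn : ¬ Om (cj (k * y) Q) ≤ cj m Q) :
    cj k ⁅Om (cj y Q), Q⁆ = ⁅Om (cj m Q), cj m' Q⁆ := by
  have nb := (nb_one hk (.inl rfl) : Nb H y 1 (k * y)).symm
  have := ((h.ed_nb d nb).crit (h.ed_nb d h2.symm)
    (hm _ n.succ.lt_succ_self _ _ (h1.snoc h2).symm)
    (hm _ n.succ.lt_succ_self _ _ ⟨_, nb, h1⟩) hn).2.1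
  rw [← this, cj_commutator, cj_Om, cj_cj, cj_one, cj_eq_self (h.nQ hk)]

omit [Finite G] in
theorem edy : Ed (cj y Q) P := by
  have := d.cj y
  rwa [cj_eq_self h.ny] at this

omit [Finite G] d in
theorem nC : P ≤ nor ⁅Om (cj y Q), Q⁆ :=
  le_normalizer_commutator (nor_Om (h.y_nor h.nQP)) h.nQP

omit [Finite G] d in
theorem C_le : ⁅Om (cj y Q), Q⁆ ≤ P := commutator_le_of_le (Om_le.trans (h.y_le h.QP)) h.QP

theorem C_ne : ⁅Om (cj y Q), Q⁆ ≠ ⊥ := ((h.edy d).mono h.QP).com_ne h.not_le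

theorem C_nor (hm : Mn H Q y (n + 2)) (he : e = y ∨ e = y⁻¹) (h1 : Ds H y n e m)
    (h2 : Nb H y m c) (hn : ¬ Om Q ≤ cj c Q) : H ≤ nor ⁅Om (cj y Q), Q⁆ := by
  obtain ⟨m', h3, h4⟩ := Ds.unsnoc (n := n) (a := 1) (c := m)
    ⟨_, nb_one (one_mem H) he, by rwa [one_mul]⟩
  exact h.nor_of h.nC ((h.com_eq d hm h.rH h3 h4 (h.shift d hm he h1 h2 hn h.gd)).trans
    (h.com_eq d hm (inv_mem h.rH) h3 h4 (h.shift d hm he h1 h2 hn h.gd')).symm)

theorem yC_nor (nc : H ≤ nor ⁅Om (cj y Q), Q⁆) : ¬ H ≤ nor (cj y ⁅Om (cj y Q), Q⁆) := fun n' =>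
  h.C_ne d (eq_bot_iff.2 ((h.triv _ (sup_le h.C_le (h.y_le h.C_le)) (le_normalizer_sup nc n')
    (by rw [cj_sup, h.yy h.C_le h.nC, sup_comm])) ▸ le_sup_left))

theorem not_three (hm : Mn H Q y (n + 3)) (he : e = y ∨ e = y⁻¹) (h1 : Ds H y (n + 1) e m)
    (h2 : Nb H y m c) (hn : ¬ Om Q ≤ cj c Q) : False := by
  have nc := h.C_nor d hm he h1 h2 hn
  obtain ⟨m', h3, h4⟩ := Ds.unsnoc (n := n + 1) (a := 1) (c := m)
    ⟨_, nb_one (one_mem H) he, by rwa [one_mul]⟩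
  obtain ⟨m'', h5, h6⟩ := h3.unsnoc
  have key : ∀ k, Gd H P k →
      cj k (cj y ⁅Om (cj y Q), Q⁆) = ⁅Om (cj m' Q), cj m'' Q⁆ := fun k hk => by
    have h7 : ¬ Om Q ≤ cj ((k * y)⁻¹ * m) Q := by
      rw [← cj_cj, le_cj_iff, inv_inv, cj_Om]
      exact h.shift d hm he h1 h2 hn hk
    have h8 := h.shift d hm (.inr rfl)
      ((h3.tr (k * y)⁻¹).left (a' := y⁻¹) (by simpa using hk.1)) (h4.tr _) h7 h.gd
    have nb : Nb H y 1 ((k * y)⁻¹ * 1) := ⟨1, one_mem _, _, .inr rfl, _, inv_mem hk.1, by group⟩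
    have h9 := h.com_eq d hm h.rH (n := n + 1) ⟨_, nb, h5.tr _⟩ (h6.tr _) h8
    rw [cj_eq_self (nc h.rH), ← cj_cj _ m', ← cj_cj _ m'', ← cj_Om (k * y)⁻¹, ← cj_commutator] at h9
    rw [cj_cj, h9, cj_cj_inv]
  exact h.yC_nor d nc (h.nor_of (h.y_nor h.nC) ((key _ h.gd).trans (key _ h.gd').symm))

theorem not_two (hm : Mn H Q y 2) (he : e = y ∨ e = y⁻¹) (h1 : Ds H y 0 e m)
    (h2 : Nb H y m c) (hn : ¬ Om Q ≤ cj c Q) : False := by
  have nc := h.C_nor d hm he h1 h2 hn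
  have em : cj m Q = cj y Q := (h.cjQ h1).trans (h.cj_e he h.QP h.nQP)
  have sh : ∀ k, Gd H P k → ¬ Om (cj (k * y) Q) ≤ cj y Q := fun k hk =>
    em ▸ h.shift d hm he h1 h2 hn hk
  have lQ : ∀ k ∈ H, Om (cj (k * y) Q) ≤ Q := fun k hk => by
    have := hm 1 Nat.one_lt_two _ 1 ⟨1, (nb_one hk (.inl rfl)).symm, by simp [Ds]⟩
    rwa [cj_one] at this
  have l1 : Om (cj y Q) ≤ Q := by simpa using lQ 1 (one_mem H)
  have dy := h.edy d
  have ek : ∀ k ∈ H, Ed (cj (k * y) Q) Q := fun k hk => by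
    have := (dy.mono h.QP).cj k
    rwa [cj_cj, cj_eq_self (h.nQ hk)] at this
  have i2 : ∀ k ∈ H, I2 (Om (cj (k * y) Q)) Q := fun k hk => by
    have := (((ek r h.rH).crit (dy.mono h.QP) l1 (lQ r h.rH) (sh r h.gd)).2.2).cj (k * r⁻¹)
    rwa [cj_Om, cj_cj, cj_eq_self (h.nQ (mul_mem hk (inv_mem h.rH))),
      show k * r⁻¹ * (r * y) = k * y by group] at this
  -- the commutator of the two shifted groups lies in the central subgroup
  have cC : ⁅Om (cj (r * y) Q), Om (cj (r⁻¹ * y) Q)⁆ ≤ ⁅Om (cj y Q), Q⁆ := by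
    rw [← cj_eq_self (nc h.rH), cj_commutator, cj_Om, cj_cj, cj_eq_self (h.nQ h.rH)]
    exact commutator_mono le_rfl (lQ _ (inv_mem h.rH))
  have cP : ⁅Om (cj y Q), Q⁆ ≤ cen P := by
    have i := (i2 1 (one_mem H))
    rw [one_mul] at i
    have i' : I2 (Om (cj y Q)) P := by
      have key : ∀ v ∈ Om (cj y Q), v ∈ cen Q → v ∈ cen P := fun v hv hc x hx => by
        obtain ⟨q, hq, hq'⟩ := SetLike.not_le_iff_exists.1 h.not_le
        exact (mem_centralizer_singleton_iff.1 (dy.le_of (h.QP hq) hq' (X := centralizer {v})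
          (fun a ha => mem_centralizer_singleton_iff.2 (hv.2.1 a ha))
          (mem_centralizer_singleton_iff.2 (hc q hq)) hx))
      exact fun v hv w hw h3 h4 => key _ (mul_mem hv hw)
        (i v hv w hw (fun e => h3 (key v hv e)) fun e => h4 (key w hw e))
    exact (commutator_mono le_rfl h.QP).trans (dy.com_cen i')
  have cH : ⁅Om (cj y Q), Q⁆ ≤ cen H := le_centralizer_iff.1 (h.gd.2 _ (le_centralizer_iff.1 cP) (by
    rw [← cj_eq_self (nc h.rH), ← cj_centralizer]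
    exact cj_mono r (le_centralizer_iff.1 cP)))
  have bot : ⁅Om (cj y Q), Q⁆ ⊓ cj y ⁅Om (cj y Q), Q⁆ = ⊥ :=
    h.triv _ (inf_le_left.trans h.C_le)
      (le_normalizer_of_le_centralizer (le_centralizer_iff.1 (inf_le_left.trans cH)))
      (by rw [cj_inf, h.yy h.C_le h.nC, inf_comm])
  obtain ⟨u, hu, hu'⟩ := SetLike.not_le_iff_exists.1 (sh r h.gd)
  have uP := h.QP (lQ r h.rH hu)
  have cv : ∀ v ∈ P, v ∉ Q → v * u * v⁻¹ ∈ Om (cj (r⁻¹ * y) Q) := fun v hv hQ => by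
    have h3 : r * v * r ∈ P := by
      have := mul_mem (h.QP (h.inv 1 v hv hQ)) hv
      rwa [zpow_one, inv_mul_cancel_right] at this
    have := conj_mem_cj (g := v) hu
    rwa [cj_Om, cj_cj, show v * (r * y) = r⁻¹ * (r * v * r * y) by group, ← cj_cj,
      ← cj_cj _ y, cj_eq_self (h.y_nor h.nQP h3), cj_cj] at this
  have p4 : ∀ v ∈ P, v ∉ Q → v * v = 1 → (u * v) ^ 4 ∈ ⁅Om (cj y Q), Q⁆ := fun v hv hQ h3 => by
    rw [mul_pow_four hu.2.2 h3]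
    exact cC (commutator_mem_commutator hu (cv v hv hQ))
  have cs : ∀ g : G, g * u * g⁻¹ * (g * u * g⁻¹) = 1 := fun g => by
    rw [conj_mul, hu.2.2, mul_one, mul_inv_cancel]
  have vP := conj_mem_of_mem_normalizer h.ny uP
  have vQ : y * u * y⁻¹ ∉ Q := fun e => hu' (by
    rw [← h.cj_e (.inr rfl) h.QP h.nQP, mem_cj, inv_inv]; exact e)
  have h3 : (u * (y * u * y⁻¹)) ^ 4 ∈ cj y ⁅Om (cj y Q), Q⁆ := by
    have := inv_mem (p4 _ (conj_mem_of_mem_normalizer (inv_mem h.ny) uP)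
      (fun e => hu' (mem_cj.2 (by rwa [inv_inv] at e))) (cs _))
    rw [← inv_pow, mul_inv_rev, inv_eq_of_mul_eq_one_right (cs _),
      inv_eq_of_mul_eq_one_right hu.2.2] at this
    have h4 := conj_mem_cj (g := y) this
    rwa [← conj_pow, show y * (y⁻¹ * u * y⁻¹⁻¹ * u) * y⁻¹ = u * (y * u * y⁻¹) by group] at h4
  have h4 : Commute u (y * u * y⁻¹ * u * (y * u * y⁻¹)⁻¹) := by
    rw [← commutatorElement_eq_one_iff_commute, ← mul_pow_four hu.2.2 (cs y), ← mem_bot, ← bot]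
    exact ⟨p4 _ vP vQ (cs y), h3⟩
  have uc : u ∉ cen Q := fun e => hu' (dy.cn u uP (centralizer_anti l1 e))
  have uc' : y * u * y⁻¹ * u * (y * u * y⁻¹)⁻¹ ∉ cen Q := fun e => uc (by
    have := conj_mem_of_mem_normalizer' (le_normalizer_centralizer h.nQP vP) e
    rwa [show (y * u * y⁻¹)⁻¹ * (y * u * y⁻¹ * u * (y * u * y⁻¹)⁻¹) * (y * u * y⁻¹) = u by group]
      at this)
  have h5 : Om (cj (r * y) Q) ≤ cen (Om (cj (r⁻¹ * y) Q)) := fun w hw w' hw' =>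
    (i2 r h.rH).comm hu uc (lQ _ (inv_mem h.rH) hw')
      ((i2 _ (inv_mem h.rH)).comm (cv _ vP vQ) uc' (lQ r h.rH hu) h4 hw').symm hw
  refine sh _ h.gd2 ?_
  have h6 := cj_mono r fun w hw => (ek _ (inv_mem h.rH)).cn w (lQ r h.rH hw) (h5 hw)
  rwa [cj_Om, cj_cj, cj_cj, ← mul_assoc, mul_inv_cancel_left] at h6

theorem one : ¬ Om Q ≤ cj y Q := by
  classical
  have ex := h.exists_crit
  have hm : Mn H Q y (Nat.find ex) := fun j hj a c h1 => by_contra fun h2 =>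
    Nat.find_min ex hj ⟨a, c, h1, h2⟩
  obtain ⟨a, c, h1, h2⟩ := Nat.find_spec ex
  generalize Nat.find ex = b at hm h1
  rcases b with _ | b
  · exact (h2 (Om_le.trans (h.cjQ h1).ge)).elim
  obtain ⟨_, ⟨k, hk, e, he, k', hk', rfl⟩, h3⟩ := h1
  have h4 : Ds H y b e ((a * k)⁻¹ * c) := (h3.tr (a * k)⁻¹).left (by simpa [mul_assoc] using hk')
  have h5 : ¬ Om Q ≤ cj ((a * k)⁻¹ * c) Q := by
    rwa [← cj_cj, le_cj_iff, inv_inv, cj_Om, h.cjQ (a := a) (c := a * k) (by simpa using hk)]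
  rcases b with _ | b
  · rwa [h.cjQ h4, h.cj_e he h.QP h.nQP] at h5
  obtain ⟨m, h6, h7⟩ := h4.unsnoc
  rcases b with _ | b
  exacts [(h.not_two d hm he h6 h7 h5).elim, (h.not_three d hm he h6 h7 h5).elim]

end Am

end H58.DA
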