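import Cfsg.Agent.H58.DihAm2
import Cfsg.Agent.H97.SymFour

/-! The dihedral amalgam: structure of `Q` and `P`. -/

set_option autoImplicit false

namespace H58.DA

open Subgroup H98
open scoped commutatorElement

variable {G : Type*} [Group G] {A B H P Q : Subgroup G} {r y : G}

/-- The subgroup generated by the squares. -/
def Sq (A : Subgroup G) : Subgroup G := closure {x | ∃ a ∈ A, a * a = x}

theorem cj_Sq (g : G) (A : Subgroup G) : cj g (Sq A) = Sq (cj g A) := by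
  rw [Sq, Sq, cj, MonoidHom.map_closure]
  congr 1
  ext x
  constructor
  · rintro ⟨_, ⟨a, ha, rfl⟩, rfl⟩
    exact ⟨_, ⟨a, ha, rfl⟩, (map_mul _ _ _).symm⟩
  · rintro ⟨_, ⟨a, ha, rfl⟩, rfl⟩
    exact ⟨_, ⟨a, ha, rfl⟩, map_mul _ _ _⟩

theorem Sq_le (A : Subgroup G) : Sq A ≤ A :=
  (closure_le _).2 (by rintro _ ⟨a, ha, rfl⟩; exact mul_mem ha ha)

theorem Ed.Sq_le (d : Ed B A) (hn : ¬ Om A ≤ B) : Sq A ≤ Sq B := by
  obtain ⟨v, hv, hB⟩ := SetLike.not_le_iff_exists.1 hn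
  refine (closure_le _).2 ?_
  rintro _ ⟨a, ha, rfl⟩
  by_cases h : a ∈ B
  · exact subset_closure ⟨a, h, rfl⟩
  refine subset_closure ⟨_, d.idx a ha v hv.1 h hB, ?_⟩
  calc a * v * (a * v) = a * (v * a) * v := by group
    _ = a * a * (v * v) := by rw [← hv.2.1 a ha]; group
    _ = a * a := by rw [hv.2.2, mul_one]

namespace Am

variable [Finite G] (h : Am H P Q y r)
include h

theorem card_P : Nat.card P = 2 * Nat.card Q := by
  obtain ⟨s, hs, hQ⟩ := SetLike.not_le_iff_exists.1 h.not_le'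
  exact H97.card_eq_two_mul h.QP (h.y_le h.QP hs) hQ h.idx

theorem caseA (hr : r ∈ cen Q) : Nat.card P = 4 ∧ ∀ p ∈ P, p * p = 1 := by
  have idx : ∀ a ∈ P, ∀ b ∈ P, a ∉ cj y Q → b ∉ cj y Q → a * b ∈ cj y Q := fun a ha b hb h1 h2 => by
    rw [mem_cj] at h1 h2 ⊢
    have := h.idx _ (conj_mem_of_mem_normalizer' h.ny ha) _ (conj_mem_of_mem_normalizer' h.ny hb) h1 h2
    rwa [show y⁻¹ * a * y * (y⁻¹ * b * y) = y⁻¹ * (a * b) * y by group] at this
  have bot : Q ⊓ cj y Q = ⊥ := h.triv _ (inf_le_left.trans h.QP)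
    (h.le_of_sq (le_normalizer_inf h.nQP (h.y_nor h.nQP))
      (centralizer_le_normalizer _ (centralizer_anti inf_le_left (mul_mem hr hr))))
    (by rw [cj_inf, h.yy h.QP h.nQP, inf_comm])
  have c1 := H97.card_le_two_mul (K := cj y Q) (H := Q) fun a ha b hb => idx a (h.QP ha) b (h.QP hb)
  have c2 := (one_lt_card_iff_ne_bot Q).2 h.ne
  rw [bot, card_bot] at c1
  refine ⟨by rw [h.card_P]; omega, fun p hp => ?_⟩
  rw [← mem_bot, ← bot]
  exact ⟨(em (p ∈ Q)).elim (fun e => mul_mem e e) fun e => h.idx p hp p hp e e,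
    (em (p ∈ cj y Q)).elim (fun e => mul_mem e e) fun e => idx p hp p hp e e⟩

variable (d : Ed Q P)
include d

theorem Om_eq : Om Q = Q := by
  have dy := h.edy d
  have h1 := h.one d
  have h2 := (d.crit dy (Om_le.trans (h.y_le h.QP)) (Om_le.trans h.QP) h1).1
  have bot := h.triv (Sq Q) ((Sq_le Q).trans h.QP)
    (fun g hg => cj_eq_self_iff.1 (by rw [cj_Sq, cj_eq_self (h.nQ hg)]))
    ((cj_Sq y Q).trans (le_antisymm ((d.mono (h.y_le h.QP)).Sq_le h2) ((dy.mono h.QP).Sq_le h1)))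
  have sq : ∀ q ∈ Q, q * q = 1 := fun q hq => by
    rw [← mem_bot, ← bot]; exact subset_closure ⟨q, hq, rfl⟩
  refine le_antisymm Om_le fun q hq => ⟨hq, fun a ha => ?_, sq q hq⟩
  rw [← inv_eq_of_mul_eq_one_right (sq _ (mul_mem ha hq)), mul_inv_rev,
    inv_eq_of_mul_eq_one_right (sq _ ha), inv_eq_of_mul_eq_one_right (sq _ hq)]

theorem i2 : I2 Q P := by
  have := (d.crit (h.edy d) (Om_le.trans (h.y_le h.QP)) (Om_le.trans h.QP) (h.one d)).2.2
  rwa [h.Om_eq d] at this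

theorem exists_t : ∃ t ∈ Q ⊓ cen P, t ∉ cen H ∧ ∀ x ∈ ⁅Q, P⁆, x = 1 ∨ x = t := by
  have e := h.Om_eq d
  have nP : ¬ P ≤ Q := fun l => h.not_le' ((h.y_le h.QP).trans l)
  have ne := d.com_ne nP
  have cc := d.com_cen (e.symm ▸ h.i2 d)
  have yR : cj y ⁅Om Q, P⁆ = ⁅Om Q, P⁆ := by
    rw [cj_commutator, cj_Om, cj_eq_self h.ny]
    exact (d.crit (h.edy d) (Om_le.trans (h.y_le h.QP)) (Om_le.trans h.QP) (h.one d)).2.1.symm
  rw [e] at ne cc yR
  obtain ⟨s, hs, hQ⟩ := SetLike.not_le_iff_exists.1 nP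
  obtain ⟨q, hq, hc⟩ := SetLike.not_le_iff_exists.1 fun l : Q ≤ cen P =>
    ne (commutator_eq_bot_iff_le_centralizer.2 l)
  have RQ : ⁅Q, P⁆ ≤ Q := commutator_le_left' h.nQP
  have tR := commutator_mem_commutator hq hs
  have tt : ⁅q, s⁆ * ⁅q, s⁆ = 1 := (e.ge (RQ tR)).2.2
  let N : Subgroup G :=
    { carrier := {x | x = 1 ∨ x = ⁅q, s⁆}
      one_mem' := Or.inl rfl
      mul_mem' := by rintro _ _ (rfl | rfl) (rfl | rfl) <;> simp [tt]
      inv_mem' := by rintro _ (rfl | rfl) <;> simp [inv_eq_of_mul_eq_one_right tt] }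
  have hN : ⁅Q, P⁆ ≤ N := by
    rw [← e, d.com (zpowers_le.2 hs) (fun l => hQ (zpowers_le.1 l)), e]
    refine commutator_closure_right_le (s := {s}) ?_ ?_ |>.trans' (by rw [zpowers_eq_closure])
    · rintro _ rfl
      refine centralizer_le_normalizer _ ?_
      rintro _ (rfl | rfl)
      exacts [(Commute.one_left _).eq, (cc tR _ hs).symm]
    · rintro v hv x hx
      rw [show x = s from hx]
      by_cases h1 : v ∈ cen P
      · exact .inl (commutatorElement_eq_one_iff_mul_comm.2 (h1 _ hs).symm)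
      have h2 := h.i2 d v hv _ (inv_mem hq) h1 fun e => hc (inv_mem_iff.1 e)
      refine .inr ?_
      calc ⁅v, s⁆ = v * q⁻¹ * (q * s * q⁻¹) * (v * q⁻¹)⁻¹ * s⁻¹ := by
            rw [commutatorElement_def]; group
        _ = ⁅q, s⁆ := by
          rw [← h2 _ (mul_mem (mul_mem (h.QP hq) hs) (inv_mem (h.QP hq))), commutatorElement_def]
          group
  refine ⟨_, ⟨RQ tR, cc tR⟩, fun hH => ne (h.triv _ (RQ.trans h.QP)
    (le_normalizer_of_le_centralizer (le_centralizer_iff.1 fun x hx => ?_)) yR), hN⟩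
  rcases hN hx with rfl | rfl
  exacts [one_mem _, hH]

theorem cube : r ^ (3 : ℤ) ∈ cen Q := by
  have e := h.Om_eq d
  obtain ⟨t, ht, hH, hR⟩ := h.exists_t d
  have sq : ∀ q ∈ Q, q * q = 1 := fun q hq => (e.ge hq).2.2
  have ab : Q ≤ cen Q := fun q hq => (e.ge hq).2.1
  have RQ : ⁅Q, P⁆ ≤ Q := commutator_le_left' h.nQP
  have RQ' : cj r ⁅Q, P⁆ ≤ Q := cj_le_of_le RQ (h.nQ h.rH)
  have e' : cj r ⁅Q, P⁆ = ⁅Q, cj r P⁆ := by rw [cj_commutator, cj_eq_self (h.nQ h.rH)]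
  have st : H ≤ stab Q (⁅Q, P⁆ ⊔ cj r ⁅Q, P⁆) := h.gd.2 _
    (le_stab_iff.2 ⟨le_normalizer_of_commutator_le le_sup_left (sup_le RQ RQ'), le_sup_left⟩)
    (le_stab_iff.2 ⟨le_normalizer_of_commutator_le (e'.ge.trans le_sup_right) (sup_le RQ RQ'),
      e'.ge.trans le_sup_right⟩)
  have hW : ∀ w ∈ ⁅Q, P⁆ ⊔ cj r ⁅Q, P⁆,
      w = 1 ∨ w = r * t * r⁻¹ ∨ w = t ∨ w = t * (r * t * r⁻¹) := fun w hw => by
    obtain ⟨a, ha, _, ⟨b, hb, rfl⟩, rfl⟩ := (mem_sup_right_norm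
      (RQ'.trans (h.QP.trans (le_normalizer_commutator h.nQP (le_normalizer_of_le le_rfl))))).1 hw
    rcases hR a ha with rfl | rfl <;> rcases hR b hb with rfl | rfl <;> simp
  have tR : t ∈ ⁅Q, P⁆ := by
    obtain ⟨⟨x, hx⟩, h1⟩ := ne_bot_iff_exists_ne_one.1
      (e ▸ d.com_ne fun l => h.not_le' ((h.y_le h.QP).trans l) : ⁅Q, P⁆ ≠ ⊥)
    exact (hR x hx).resolve_left (fun e => h1 (Subtype.ext e)) ▸ hx
  have nr : r * (r * t * r⁻¹) * r⁻¹ ≠ t := fun e => hH fun x hx =>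
    mem_centralizer_singleton_iff.1 (h.le_of_sq (X := centralizer {t})
      (fun p hp => mem_centralizer_singleton_iff.2 (ht.2 p hp))
      (mem_centralizer_singleton_iff.2 (by
        rw [← mul_inv_eq_iff_eq_mul]; simpa [mul_assoc] using e)) hx)
  have t'Q := RQ' (conj_mem_cj tR)
  have e3 : r ^ (3 : ℤ) = r * (r * r) := by rw [zpow_ofNat, pow_three]
  have h3 : Commute (r ^ (3 : ℤ)) t := by
    rcases hW _ (conj_mem_of_mem_normalizer (st h.rH).1 (mem_sup_right (conj_mem_cj tR))) with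
      e | e | e | e
    · rw [conj_eq_one_iff, conj_eq_one_iff] at e
      exact absurd (e ▸ one_mem _) hH
    · have : r * t * r⁻¹ = t := mul_left_cancel (mul_right_cancel e)
      exact absurd (by rw [this, this]) nr
    · exact absurd e nr
    · refine mul_inv_eq_iff_eq_mul.1 ?_
      calc _ = r * (r * (r * t * r⁻¹) * r⁻¹) * r⁻¹ := by simp [e3, mul_assoc]
        _ = r * t * r⁻¹ * (r * (r * t * r⁻¹) * r⁻¹) := by
          conv_lhs => rw [e]
          simp [mul_assoc]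
        _ = t := by rw [e, ← mul_assoc, ab ht.1 _ t'Q, mul_assoc, sq _ t'Q, mul_one]
  have h4 : Commute (r ^ (3 : ℤ)) (r * t * r⁻¹) :=
    ((Commute.zpow_self r 3).mul_right h3).mul_right (Commute.zpow_self r 3).inv_right
  intro q hq
  have hw := (st (zpow_mem h.rH 3)).2 q hq
  have h5 : Commute (r ^ (3 : ℤ)) ⁅q, r ^ (3 : ℤ)⁆ := by
    rcases hW _ hw with e | e | e | e <;> rw [e]
    exacts [Commute.one_right _, h4, h3, h3.mul_right h4]
  have h6 := sq _ (sup_le RQ RQ' hw)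
  refine (mem_centralizer_singleton_iff.1 (mem_of_sq h.odd 3 (X := centralizer {q})
    (mem_centralizer_singleton_iff.2 ?_))).symm
  generalize r ^ (3 : ℤ) = g at h5 h6
  calc g * g * q = (⁅q, g⁆ * ⁅q, g⁆) * (g * g * q) := by rw [h6, one_mul]
    _ = ⁅q, g⁆ * (⁅q, g⁆ * g) * (g * q) := by simp only [mul_assoc]
    _ = ⁅q, g⁆ * g * (⁅q, g⁆ * g * q) := by
      conv_lhs => rw [← h5.eq]
      simp only [mul_assoc]
    _ = q * (g * g) := by simp [commutatorElement_def, mul_assoc]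

theorem caseB : Nat.card Q = 4 ∨ Nat.card Q = 8 ∧ ∃ c ∈ Q ⊓ cen H, c ≠ 1 ∧
    ∃ N ≤ Q, (∀ p ∈ P, p * p ∈ N) ∧ c ∉ N := by
  have e := h.Om_eq d
  obtain ⟨t, ht, hH, hR⟩ := h.exists_t d
  have i := h.i2 d
  have i' := i.cj r
  rw [cj_eq_self (h.nQ h.rH)] at i'
  have cH : ∀ x ∈ cen P, x ∈ cen (cj r P) → x ∈ cen H := fun x h1 h2 g hg =>
    mem_centralizer_singleton_iff.1 (h.gd.2 (centralizer {x})
      (fun p hp => mem_centralizer_singleton_iff.2 (h1 p hp))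
      (fun p hp => mem_centralizer_singleton_iff.2 (h2 p hp)) hg)
  obtain ⟨q, hq, hc⟩ := SetLike.not_le_iff_exists.1 fun l : Q ≤ cen P =>
    h.not_le' fun x hx => d.cn x (h.y_le h.QP hx) (by
      rw [e]; exact le_centralizer_iff.1 l (h.y_le h.QP hx))
  have c1 : Nat.card Q = 2 * Nat.card (Q ⊓ cen P : Subgroup G) :=
    H97.card_eq_two_mul inf_le_left hq (fun e => hc e.2) fun a ha b hb h1 h2 =>
      ⟨mul_mem ha hb, i a ha b hb (fun e => h1 ⟨ha, e⟩) fun e => h2 ⟨hb, e⟩⟩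
  have ix : ∀ a ∈ Q ⊓ cen P, ∀ b ∈ Q ⊓ cen P, a ∉ Q ⊓ cen H → b ∉ Q ⊓ cen H →
      a * b ∈ Q ⊓ cen H := fun a ha b hb h1 h2 =>
    ⟨mul_mem ha.1 hb.1, cH _ (mul_mem ha.2 hb.2) (i' a ha.1 b hb.1
      (fun e => h1 ⟨ha.1, cH a ha.2 e⟩) fun e => h2 ⟨hb.1, cH b hb.2 e⟩)⟩
  have le : Q ⊓ cen H ≤ Q ⊓ cen P := inf_le_inf_left _ (centralizer_anti h.PH)
  have c2 := H97.card_eq_two_mul le ht (fun e => hH e.2) ix
  have nC : ∀ X ≤ Q ⊓ cen H, H ≤ nor X := fun X l =>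
    le_normalizer_of_le_centralizer (le_centralizer_iff.1 (l.trans inf_le_right))
  have lP : Q ⊓ cen H ≤ P := inf_le_left.trans h.QP
  have ly : cj y (Q ⊓ cen H) ≤ Q ⊓ cen P := by
    have : cj y (Q ⊓ cen H) ≤ cen P := cj_le_of_le (le.trans inf_le_right)
      (normalizer_le_normalizer_centralizer _ h.ny)
    exact le_inf (fun x hx => d.cn x (h.y_le lP hx)
      (centralizer_anti (Om_le.trans h.QP) (this hx))) this
  have c3 := H97.card_le_two_mul (K := Q ⊓ cen H) (H := cj y (Q ⊓ cen H))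
    fun a ha b hb => ix a (ly ha) b (ly hb)
  rw [h.triv (cj y (Q ⊓ cen H) ⊓ (Q ⊓ cen H)) (inf_le_right.trans lP) (nC _ inf_le_right)
    (by rw [cj_inf, h.yy lP (h.PH.trans (nC _ le_rfl)), inf_comm]), card_bot, card_cj] at c3
  by_cases b : Q ⊓ cen H = ⊥
  · rw [b, card_bot] at c2
    exact .inl (by omega)
  have c4 := (one_lt_card_iff_ne_bot _).2 b
  obtain ⟨⟨c, hc⟩, c1⟩ := ne_bot_iff_exists_ne_one.1 b
  have c1 : c ≠ 1 := fun e => c1 (Subtype.ext e)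
  refine .inr ⟨by omega, c, hc, c1, ⁅Q, P⁆, commutator_le_left' h.nQP, fun p hp => ?_,
    fun hc' => hH ((hR c hc').resolve_left c1 ▸ hc.2)⟩
  by_cases hQ : p ∈ Q
  · rw [(e.ge hQ).2.2]; exact one_mem _
  obtain ⟨s, hs, hs'⟩ := SetLike.not_le_iff_exists.1 h.not_le'
  have sP := h.y_le h.QP hs
  have ss : s * s = 1 := by
    rw [← e, cj_Om] at hs
    exact hs.2.2
  have h1 := h.idx p hp s sP hQ hs'
  have := commutator_mem_commutator h1 sP
  rwa [commutatorElement_def, inv_eq_of_mul_eq_one_right (e.ge h1).2.2,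
    inv_eq_of_mul_eq_one_right ss, show p * s * s * (p * s) * s = p * (s * s) * p * (s * s) by
      simp only [mul_assoc], ss, mul_one, mul_one] at this

end Am

end H58.DA
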