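import Cfsg.Agent.H58.DihAm3
import Cfsg.Agent.H98.Core
import Cfsg.Agent.H2.PrimeCore

/-! The dihedral amalgam: identification of `H / O(H)`. -/

set_option autoImplicit false

namespace H58.DA

open Cfsg Subgroup H98
open scoped commutatorElement

variable {G : Type*} [Group G] [Finite G] {H P Q X : Subgroup G} {r y : G}

/-- The projection to `H / O(H)`. -/
abbrev pr (H : Subgroup G) : H →* H ⧸ oddCore H := QuotientGroup.mk' _

/-- The image in `H / O(H)`. -/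
abbrev im (H X : Subgroup G) : Subgroup (H ⧸ oddCore H) := (X.subgroupOf H).map (pr H)

omit [Finite G] in
theorem eq_one_of_two {x : G} {n : ℕ} (hP : IsPGroup 2 P) (hx : x ∈ P) (hn : n.Coprime 2)
    (e : x ^ n = 1) : x = 1 := by
  obtain ⟨j, hj⟩ := hP ⟨x, hx⟩
  exact orderOf_eq_one_iff.1 (Nat.eq_one_of_dvd_coprimes (hn.pow_right j)
    (orderOf_dvd_of_pow_eq_one e) (orderOf_dvd_of_pow_eq_one (congrArg Subtype.val hj)))

namespace Am

variable (h : Am H P Q y r)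
include h

theorem ker {x : H} (hx : x.1 ∈ P) (e : pr H x = 1) : x = 1 :=
  Subtype.ext (eq_one_of_two h.two hx
    (H2.coprime_orderOf_of_mem_pPrimeCore ((QuotientGroup.eq_one_iff x).1 e))
    (congrArg Subtype.val (pow_orderOf_eq_one x)))

theorem card_im (l : X ≤ P) : Nat.card (im H X) = Nat.card X := by
  rw [← Nat.card_congr (subgroupOfEquivOfLe (l.trans h.PH)).toEquiv]
  refine (Nat.card_congr (Equiv.ofBijective ((pr H).subgroupMap (X.subgroupOf H))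
    ⟨(injective_iff_map_eq_one _).2 fun x e => Subtype.ext (h.ker (l x.2) (congrArg Subtype.val e)),
      (pr H).subgroupMap_surjective _⟩)).symm

theorem pr_eq_one (k : ℤ) (hc : r ^ k ∈ cen Q) : pr H ⟨r, h.rH⟩ ^ k = 1 := by
  have o : (orderOf (r ^ k)).Coprime 2 :=
    Nat.Coprime.coprime_dvd_left (orderOf_dvd_of_mem_zpowers (zpow_mem_zpowers r k)) h.odd
  have key : ∀ g, g * r ^ k * g⁻¹ ∈ zpowers (r ^ k) → g ∈ nor (zpowers (r ^ k)) := fun g hg =>
    mem_normalizer_of_cj_le (by rw [cj, MonoidHom.map_zpowers]; exact zpowers_le.2 hg)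
  have n : H ≤ nor (zpowers (r ^ k)) := h.le_of_sq (fun p hp => key p (by
    by_cases hQ : p ∈ Q
    · rw [hc p hQ, mul_inv_cancel_right]; exact mem_zpowers _
    have h1 := h.inv k p hp hQ
    have c : Commute (r ^ k * p * r ^ k * p⁻¹) (r ^ k)⁻¹ := Commute.inv_right (hc _ h1)
    have h2 := eq_one_of_two h.two (h.QP h1) o (by
      have := c.mul_pow (orderOf (r ^ k))
      rw [inv_pow, pow_orderOf_eq_one, inv_one, mul_one] at this
      rw [← this, c.eq, show (r ^ k)⁻¹ * (r ^ k * p * r ^ k * p⁻¹) = p * r ^ k * p⁻¹ by group,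
        conj_pow, pow_orderOf_eq_one, mul_one, mul_inv_cancel])
    rw [eq_inv_of_mul_eq_one_right (show r ^ k * (p * r ^ k * p⁻¹) = 1 by rw [← h2]; group)]
    exact inv_mem (mem_zpowers _))) (key _ (by
      rw [((Commute.self_zpow r k).mul_left (Commute.self_zpow r k)).eq, mul_inv_cancel_right]
      exact mem_zpowers _))
  have l : zpowers (r ^ k) ≤ H := zpowers_le.2 (zpow_mem h.rH k)
  have := (normal_subgroupOf_iff_le_normalizer l).2 n
  rw [← map_zpow]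
  refine (QuotientGroup.eq_one_iff _).2 (H2.le_pPrimeCore (N := (zpowers (r ^ k)).subgroupOf H) ?_
    (mem_zpowers (r ^ k)))
  rwa [Nat.card_congr (subgroupOfEquivOfLe l).toEquiv, Nat.card_zpowers]

theorem cen_of_pr {x : H} (e : pr H x ∈ centralizer (im H Q : Set (H ⧸ oddCore H))) :
    x.1 ∈ cen Q := fun q hq => by
  have hH := h.PH (h.QP hq)
  have := h.ker (x := ⁅(⟨q, hH⟩ : H), x⁆) (h.QP (commutator_le_left' h.nQ
    (commutator_mem_commutator hq x.2))) (by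
      rw [map_commutatorElement]
      exact commutatorElement_eq_one_iff_mul_comm.2 (e _ ⟨⟨q, hH⟩, hq, rfl⟩))
  exact congrArg Subtype.val (commutatorElement_eq_one_iff_mul_comm.1 this)

omit [Finite G] in
theorem gen' (x : H ⧸ oddCore H) : ∃ k : ℤ, ∃ p : H, p.1 ∈ P ∧
    x = pr H (⟨r, h.rH⟩ ^ k * p) := by
  obtain ⟨x, rfl⟩ := QuotientGroup.mk'_surjective _ x
  obtain ⟨k, p, hp, e⟩ := h.gen x x.2
  exact ⟨k, ⟨p, h.PH hp⟩, hp, congrArg _ (Subtype.ext e)⟩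

theorem isoA (hr : r ∈ cen Q) :
    Nonempty (H ⧸ oddCore H ≃* Multiplicative (ZMod 2) × Multiplicative (ZMod 2)) := by
  obtain ⟨c4, sq⟩ := h.caseA hr
  have e1 := h.pr_eq_one 1 (by rwa [zpow_one])
  have top : im H P = ⊤ := eq_top_iff.2 fun x _ => by
    obtain ⟨k, p, hp, rfl⟩ := h.gen' x
    rw [zpow_one] at e1
    rw [map_mul, map_zpow, e1, one_zpow, one_mul]
    exact ⟨p, hp, rfl⟩
  have c : Nat.card (H ⧸ oddCore H) = 4 := by rw [← card_top, ← top, h.card_im le_rfl, c4]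
  have : Nontrivial (H ⧸ oddCore H) := Finite.one_lt_card_iff_nontrivial.1 (by omega)
  have : IsKleinFour (H ⧸ oddCore H) :=
    ⟨c, (Monoid.exponent_eq_prime_iff Nat.prime_two).2 fun x hx => orderOf_eq_prime (by
      obtain ⟨p, hp, rfl⟩ := top.ge (mem_top x)
      rw [pow_two, ← map_mul, show p * p = 1 from Subtype.ext (sq p hp), map_one]) hx⟩
  obtain ⟨e⟩ := IsKleinFour.nonempty_mulEquiv (G₁ := H ⧸ oddCore H)
    (G₂ := Multiplicative (ZMod 2 × ZMod 2))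
  exact ⟨e.trans (MulEquiv.prodMultiplicative _ _)⟩

section B

variable (hr : r ∉ cen Q)
include hr

theorem card_quot : Nat.card (H ⧸ oddCore H) = 3 * Nat.card P := by
  have : Fact (Nat.Prime 3) := ⟨Nat.prime_three⟩
  have o : orderOf (pr H ⟨r, h.rH⟩) = 3 :=
    orderOf_eq_prime (by simpa using h.pr_eq_one 3 (h.cube (h.ed hr))) fun e =>
      hr (h.cen_of_pr (x := ⟨r, h.rH⟩) (e ▸ one_mem _))
  have c1 := Nat.card_le_card_of_surjective
    (fun x : zpowers (pr H ⟨r, h.rH⟩) × im H P => x.1.1 * x.2.1) fun x => by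
      obtain ⟨k, p, hp, rfl⟩ := h.gen' x
      exact ⟨⟨⟨_, zpow_mem_zpowers _ k⟩, ⟨_, p, hp, rfl⟩⟩, by rw [map_mul, map_zpow]⟩
  rw [Nat.card_prod, Nat.card_zpowers, o, h.card_im le_rfl] at c1
  refine le_antisymm c1 (Nat.le_of_dvd Nat.card_pos (Nat.Coprime.mul_dvd_of_dvd_of_dvd ?_
    (o ▸ orderOf_dvd_natCard _) (h.card_im le_rfl ▸ card_subgroup_dvd_card _)))
  have : Fact (Nat.Prime 2) := ⟨Nat.prime_two⟩
  obtain ⟨j, hj⟩ := h.two.exists_card_eq
  rw [hj]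
  exact Nat.Coprime.pow_right j (by norm_num)

theorem cen_im : centralizer (im H Q : Set (H ⧸ oddCore H)) ≤ im H Q := fun x hx => by
  have d := h.ed hr
  have ab : Q ≤ cen Q := (h.Om_eq d).ge.trans Om_cen
  have r2 : r * r ∉ cen Q := fun e => hr (by simpa using mem_of_sq h.odd 1 (by rwa [zpow_one]))
  have n : H ≤ nor (cen Q) := le_normalizer_centralizer h.nQ
  obtain ⟨k, p, hp, rfl⟩ := h.gen' x
  have h1 : r ^ k * p.1 ∈ cen Q := h.cen_of_pr hx
  have hQ : p.1 ∈ Q := by_contra fun hQ => r2 (by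
    have h2 := conj_mem_of_mem_normalizer' (n (zpow_mem h.rH k))
      (mul_mem (conj_mem_of_mem_normalizer (n h.rH) h1) (inv_mem h1))
    have := mul_mem h2 (inv_mem (ab (h.inv (-1) p hp hQ)))
    rwa [show (r ^ k)⁻¹ * (r * (r ^ k * p.1) * r⁻¹ * (r ^ k * p.1)⁻¹) * r ^ k *
      (r ^ (-1 : ℤ) * p.1 * r ^ (-1 : ℤ) * p.1⁻¹)⁻¹ = r * r by rw [← pow_two]; group] at this)
  have h2 := (mul_mem_cancel_right (ab hQ)).1 h1
  have h3 := h.cube d
  obtain ⟨a, rfl | rfl | rfl⟩ : ∃ a, k = 3 * a ∨ k = 3 * a + 1 ∨ k = 3 * a + 2 := ⟨k / 3, by omega⟩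
  · rw [map_mul, map_zpow, h.pr_eq_one _ h2, one_mul]
    exact ⟨p, hQ, rfl⟩
  · rw [zpow_add, zpow_mul, mul_mem_cancel_left (zpow_mem h3 a), zpow_one] at h2
    exact (hr h2).elim
  · rw [zpow_add, zpow_mul, mul_mem_cancel_left (zpow_mem h3 a), zpow_two] at h2
    exact (r2 h2).elim

theorem isoB : Nat.card P = 8 ∧ Nonempty (H ⧸ oddCore H ≃* Equiv.Perm (Fin 4)) ∨
    Nat.card P = 16 ∧ Nonempty (H ⧸ oddCore H ≃* Equiv.Perm (Fin 4) × Multiplicative (ZMod 2)) := by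
  have d := h.ed hr
  have c1 := h.card_quot hr
  have c2 := h.card_P
  have c3 := h.card_im h.QP
  have : (im H Q).Normal := ((normal_subgroupOf_iff_le_normalizer (h.QP.trans h.PH)).2 h.nQ).map _
    (QuotientGroup.mk'_surjective _)
  rcases h.caseB d with c4 | ⟨c8, c, hc, hc1, N, hN, sq, hcN⟩
  · exact .inl ⟨by omega, H97.equiv_perm_four (im H Q) (by omega) (by omega) (h.cen_im hr)⟩
  have cH := h.PH (h.QP hc.1)
  have cc : ∀ g, g * pr H ⟨c, cH⟩ = pr H ⟨c, cH⟩ * g := fun g => by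
    obtain ⟨g, rfl⟩ := QuotientGroup.mk'_surjective _ g
    rw [← map_mul, ← map_mul]
    exact congrArg _ (Subtype.ext (hc.2 g g.2))
  have c2' : pr H ⟨c, cH⟩ * pr H ⟨c, cH⟩ = 1 := by
    rw [← map_mul, show (⟨c, cH⟩ * ⟨c, cH⟩ : H) = 1 from
      Subtype.ext ((h.Om_eq d).ge hc.1).2.2, map_one]
  obtain ⟨K, -, hK, hcK⟩ := H97.exists_index_two_of_central (im H P)
    ((isPGroup_subgroupOf h.two H).map _) (by
      have := (im H P).index_mul_card
      rw [h.card_im le_rfl, c1] at this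
      rw [Nat.eq_of_mul_eq_mul_right Nat.card_pos this]; decide) cc c2' ⟨_, h.QP hc.1, rfl⟩ (im H N)
    (by rintro _ ⟨p, hp, rfl⟩; exact ⟨p * p, sq p hp, map_mul _ _ _⟩) (by
      rintro ⟨m, hm, e⟩
      have := h.ker (x := m⁻¹ * ⟨c, cH⟩) (h.QP (mul_mem (inv_mem (hN hm)) hc.1))
        (by rw [map_mul, map_inv, e, inv_mul_cancel])
      exact hcN (by rw [inv_mul_eq_one.1 this] at hm; exact hm))
  obtain ⟨e⟩ := H97.equiv_two_prod_perm_four (im H Q) (by omega) (by omega) (h.cen_im hr) cc c2'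
    K hK hcK
  exact .inr ⟨by omega, ⟨e.trans MulEquiv.prodComm⟩⟩

end B

end Am

open DihedralGroup in
theorem exists_am (hO : pCore 2 H ≠ ⊥) {n : ℕ} (hn : 2 ≤ n)
    (e : H ⧸ pCore 2 H ≃* DihedralGroup n) (hS : IsSyl 2 P H)
    (hy2 : y ^ 2 ∈ P ⊔ cen P) (hy : cj y P = P)
    (hQ : ∀ Q ≤ P, (Q.subgroupOf H).Normal → cj y Q = Q → Q = ⊥) :
    ∃ r, Am H P (pCoreOf 2 H) y r := by
  have : Fact (Nat.Prime 2) := ⟨Nat.prime_two⟩
  have : NeZero n := ⟨by omega⟩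
  let f : H →* DihedralGroup n := e.toMonoidHom.comp (QuotientGroup.mk' _)
  have fs : Function.Surjective f := e.surjective.comp (QuotientGroup.mk'_surjective _)
  have fk : ∀ x, f x = 1 ↔ x.1 ∈ pCoreOf 2 H := fun x => by
    rw [← mem_subgroupOf, pCoreOf_subgroupOf]
    exact e.map_eq_one_iff.trans (QuotientGroup.eq_one_iff x)
  have on : n.Coprime 2 := (Nat.coprime_two_right.2 (Nat.not_even_iff_odd.1 (by
    rintro ⟨m, hm⟩
    have mm : (m : ZMod n) + m = 0 := by rw [← Nat.cast_add, ← hm, ZMod.natCast_self]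
    have zc : zpowers (r (m : ZMod n)) ≤ center _ := zpowers_le.2 (mem_center_iff.2 fun g => by
      cases g with
      | r i => rw [r_mul_r, r_mul_r, add_comm]
      | sr i => rw [sr_mul_r, r_mul_sr, sub_eq_add_neg, neg_eq_of_add_eq_zero_right mm])
    have : (zpowers (r (m : ZMod n))).Normal :=
      ⟨fun w hw g => by rwa [mem_center_iff.1 (zc hw) g, mul_inv_cancel_right]⟩
    have p2 : IsPGroup 2 (zpowers (r (m : ZMod n))) := fun ⟨w, k, hk⟩ => ⟨1, Subtype.ext (by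
      show w ^ 2 ^ 1 = 1
      rw [← hk, pow_one, ← zpow_natCast, ← zpow_mul, mul_comm, zpow_mul, zpow_natCast, pow_two,
        r_mul_r, mm, r_zero, one_zpow])⟩
    obtain ⟨x, hx⟩ := fs (r m)
    have h1 := H2.le_pCore (p2.comap_of_ker_isPGroup f ((isPGroup_pCore 2 H).to_le fun z hz => by
      rw [← pCoreOf_subgroupOf]; exact (fk z).1 hz)) (show f x ∈ zpowers _ from hx ▸ mem_zpowers _)
    rw [← pCoreOf_subgroupOf, mem_subgroupOf, ← fk, hx, one_def, r.injEq,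
      ZMod.natCast_eq_zero_iff] at h1
    have := Nat.le_of_dvd (by omega) h1
    omega)))
  have rn : ∀ i : ZMod n, r i ^ n = 1 := fun i => by rw [r_pow, ZMod.natCast_self, mul_zero, r_zero]
  have rot : ∀ p : H, p.1 ∈ P → ∀ i, f p = r i → p.1 ∈ pCoreOf 2 H := fun p hp i hi =>
    (fk p).1 (eq_one_of_two ((isPGroup_subgroupOf hS.isPGroup H).map f) ⟨p, hp, rfl⟩ on
      (by rw [hi, rn]))
  have ref : ∀ p : H, p.1 ∈ P → p.1 ∉ pCoreOf 2 H → ∃ i, f p = sr i := fun p hp h => by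
    cases hi : f p with
    | r i => exact (h (rot p hp i hi)).elim
    | sr i => exact ⟨i, rfl⟩
  obtain ⟨x, hx⟩ := fs (r 1)
  obtain ⟨a, m, hm, ho⟩ := Nat.exists_eq_two_pow_mul_odd (orderOf_pos x).ne'
  obtain ⟨u, hu⟩ := ZMod.isUnit_iff_coprime (2 ^ a) n |>.2 (on.symm.pow_left a)
  have fr : ∀ k : ℤ, f ((x ^ 2 ^ a) ^ k) = r ((u : ZMod n) * (k : ZMod n)) := fun k => by
    rw [map_zpow, map_pow, hx, r_one_pow, r_zpow, hu]
  have ri : ∀ i, ∃ k : ℤ, f ((x ^ 2 ^ a) ^ k) = r i := fun i =>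
    ⟨((u⁻¹ : (ZMod n)ˣ) * i : ZMod n).val, by rw [fr]; simp⟩
  have QP := hS.pCoreOf_le
  obtain ⟨s, hs, hs'⟩ : ∃ s : H, s.1 ∈ P ∧ s.1 ∉ pCoreOf 2 H := by
    by_contra! hc
    refine hS.not_dvd_relIndex (Dvd.dvd.trans ?_ (index_dvd_of_le (K := pCore 2 H) fun z hz => by
      rw [← pCoreOf_subgroupOf]; exact hc z hz))
    rw [index, Nat.card_congr e.toEquiv, nat_card]
    exact dvd_mul_right 2 n
  refine ⟨(x ^ 2 ^ a : H), QP, hS.le, hS.isPGroup, self_le_normalizer_pCoreOf H,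
    fun a ha b hb h1 h2 => ?_, Subtype.mem _, ?_, fun k s hs h1 => ?_, fun g hg => ?_, fun e => ?_,
    cj_eq_self_iff.1 hy, fun N l n => cj_eq_self ?_,
    fun N l n => hQ N l ((normal_subgroupOf_iff_le_normalizer (l.trans hS.le)).2 n),
    fun e => hO (pCoreOf_eq_bot_iff.1 e)⟩
  · obtain ⟨i, hi⟩ := ref ⟨a, hS.le ha⟩ ha h1
    obtain ⟨j, hj⟩ := ref ⟨b, hS.le hb⟩ hb h2
    exact rot (⟨a, hS.le ha⟩ * ⟨b, hS.le hb⟩) (mul_mem ha hb) _ (by rw [map_mul, hi, hj, sr_mul_sr])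
  · rw [orderOf_coe]
    exact Nat.Coprime.coprime_dvd_left (orderOf_dvd_of_pow_eq_one (by
      rw [← pow_mul, ← ho, pow_orderOf_eq_one])) (Nat.coprime_two_right.2 hm)
  · obtain ⟨i, hi⟩ := ref ⟨s, hS.le hs⟩ hs h1
    refine (fk ((x ^ 2 ^ a) ^ k * ⟨s, hS.le hs⟩ * (x ^ 2 ^ a) ^ k * ⟨s, hS.le hs⟩⁻¹)).1 ?_
    rw [map_mul, map_mul, map_mul, map_inv, fr, hi]
    simp
  · cases hi : f ⟨g, hg⟩ with
    | r i =>
      obtain ⟨k, hk⟩ := ri i
      exact ⟨k, _, QP ((fk (((x ^ 2 ^ a) ^ k)⁻¹ * ⟨g, hg⟩)).1 (by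
        rw [map_mul, map_inv, hk, hi, inv_mul_cancel])), by simp⟩
    | sr i =>
      obtain ⟨j, hj⟩ := ref s hs hs'
      obtain ⟨k, hk⟩ := ri (j - i)
      exact ⟨k, _, mul_mem (QP ((fk (((x ^ 2 ^ a) ^ k)⁻¹ * ⟨g, hg⟩ * s⁻¹)).1 (by
        rw [map_mul, map_mul, map_inv, map_inv, hk, hi, hj]; simp))) hs, by simp⟩
  · have := fr 1
    rw [show x ^ 2 ^ a = 1 from Subtype.ext e, one_zpow, map_one, one_def, r.injEq, Int.cast_one,
      mul_one] at this
    have _ : Nontrivial (ZMod n) := ZMod.nontrivial_iff.2 (by omega)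
    exact u.ne_zero this.symm
  · exact sup_le n ((centralizer_anti l).trans (centralizer_le_normalizer _)) (pow_two y ▸ hy2)

end H58.DA
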