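import Cfsg.Agent.H36.E7MSpec
import Cfsg.Agent.H94.E7Cnt

/-! E7MAX (S5934), slot E6X: the types `E₆` and `²E₆` lie in no common proper subgroup. -/

set_option autoImplicit false

namespace H58.E7M

open Module

section Gen

variable {G V : Type*} [Group G] [Finite G] [AddCommGroup V] [Module (ZMod 2) V]
  (ρ : G →* (V →ₗ[ZMod 2] V))

theorem inv_closure {S : Set G} {U : Submodule (ZMod 2) V} (h : ∀ g ∈ S, ∀ v ∈ U, ρ g v ∈ U) :
    ∀ g ∈ Subgroup.closure S, ∀ v ∈ U, ρ g v ∈ U := fun g hg => by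
  have hg' : g ∈ Submonoid.closure S := by
    rw [← Subgroup.closure_toSubmonoid_of_finite]; exact hg
  clear hg
  induction hg' using Submonoid.closure_induction with
  | mem a ha => exact h a ha
  | one => intro v hv; rwa [map_one]
  | mul a b _ _ iha ihb => intro v hv; rw [map_mul]; exact iha _ (ihb v hv)

theorem no27 [Module.Finite (ZMod 2) V] {S T : Set G} {h t : G} {U W : Submodule (ZMod 2) V}
    (u27 : finrank (ZMod 2) U = 27) (hU : ∀ g ∈ S, ∀ v ∈ U, ρ g v ∈ U)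
    (hT : ∀ a ∈ T, h * a * h⁻¹ ∈ S) (ht : t ∈ Subgroup.closure T) (t19 : t ^ 19 = 1)
    (hW : ∀ v, ρ t v = v → v ∈ W) (f8 : finrank (ZMod 2) W ≤ 8) : False := by
  have inj : Function.Injective (ρ h⁻¹) := fun u v e => by
    have := congrArg (ρ h) e
    rwa [← Module.End.mul_apply, ← Module.End.mul_apply, ← map_mul, mul_inv_cancel, map_one] at this
  have i1 : ∀ a ∈ T, ∀ v ∈ U.map (ρ h⁻¹), ρ a v ∈ U.map (ρ h⁻¹) := by
    rintro a ha _ ⟨v, hv, rfl⟩
    refine ⟨ρ (h * a * h⁻¹) v, hU _ (hT a ha) v hv, ?_⟩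
    rw [← Module.End.mul_apply, ← Module.End.mul_apply, ← map_mul, ← map_mul]
    simp only [mul_assoc, inv_mul_cancel_left]
  have c := H94.E7.cnt_two (ρ t) (p := 19) (by norm_num) (by norm_num) H94.E7.ord_2_19 _
    (inv_closure ρ i1 t ht) fun v _ => by rw [← map_pow, t19, map_one]; rfl
  have d1 : finrank (ZMod 2) (U.map (ρ h⁻¹)) = 27 :=
    (Submodule.equivMapOfInjective _ inj U).finrank_eq.symm.trans u27
  have d2 : finrank (ZMod 2) ↥(U.map (ρ h⁻¹) ⊓ LinearMap.ker (ρ t - 1)) ≤ 8 := by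
    refine (Submodule.finrank_mono (t := W) fun v hv => hW v ?_).trans f8
    exact sub_eq_zero.1 (LinearMap.mem_ker.1 (Submodule.mem_inf.1 hv).2)
  rw [d1, Nat.ModEq] at c
  omega

end Gen

open H36.E7M

theorem comp_cj {M : Subgroup G} {h b : G} (hz : Commute h z) (hb : b ∈ Comp (cS h⁻¹ M)) :
    cj h b ∈ Comp M := by
  induction hb with
  | refl => rw [cj_eq_iff.2 hz]; exact Relation.ReflTransGen.refl
  | tail _ k ih => exact ih.tail ⟨by simpa only [inv_inv] using mem_cS.1 k.1, k.2.cj h⟩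

theorem cS_ne_top {M : Subgroup G} (hM : M ≠ ⊤) (g : G) : cS g M ≠ ⊤ := fun e =>
  hM (eq_top_iff.2 fun a _ => by
    have : cj g a ∈ cS g M := e ▸ Subgroup.mem_top _
    rwa [mem_cS, cj_inv_cj] at this)

theorem jobE6X : JobE6X := by
  rintro - a3 di Y Y' bY rY gY ⟨U, u27, hU⟩ bY' rY' ⟨t, ht, t19, f8⟩ M g hM h1 h2
  obtain ⟨h, hz, h3, -⟩ := di Y Y' M g bY bY' (.inl gY) hM h1 h2
  have h4 : Y' ≤ cS h⁻¹ M := fun a ha => mem_cS.2 (by
    rw [inv_inv]; exact h3 (mem_cS.2 (by rwa [cj_inv_cj])))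
  have e1 := (a3 Y M bY rY h1 hM).1
  have e2 := (a3 Y' _ bY' rY' h4 (cS_ne_top hM _)).1
  refine no27 ρ (S := orb Y) (T := orb Y') (h := h) u27 hU (fun a ha => ?_) ht t19
    (fun v hv => mem_fixS.2 fun a ha => ?_) f8
  · rw [e1]
    rw [e2] at ha
    exact comp_cj hz ha
  · rw [Set.mem_singleton_iff.1 ha]
    exact hv

end H58.E7M
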