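/- STDO8 tower (S3144), slot WTF: diagonalisation and frames in the Weyl group of type `E8`. -/
import Cfsg.Agent.H11.E8Spec

set_option autoImplicit false

namespace H58.E8W

open H11.E8 Matrix

theorem span_top (A : Set W) (hA : A.Finite) (h2 : ∀ a ∈ A, a * a = 1)
    (hc : ∀ a ∈ A, ∀ b ∈ A, a * b = b * a) :
    ⊤ ≤ Submodule.span ℚ {u : Fin 8 → ℚ | ∀ a ∈ A, a.m *ᵥ u = u ∨ a.m *ᵥ u = -u} := by
  induction A, hA using Set.Finite.induction_on with
  | empty => exact fun u _ => Submodule.subset_span (by simp)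
  | @insert a A _ _ ih =>
    refine (ih (fun b hb => h2 b (Or.inr hb)) fun b hb c hc' => hc b (Or.inr hb) c (Or.inr hc')).trans
      (Submodule.span_le.2 fun u hu => ?_)
    have e2 : a.m *ᵥ (a.m *ᵥ u) = u := by
      rw [mulVec_mulVec, ← m_mul, h2 a (Or.inl rfl), m_one, one_mulVec]
    have ec : ∀ b ∈ A, b.m *ᵥ (a.m *ᵥ u) = a.m *ᵥ (b.m *ᵥ u) := fun b hb => by
      rw [mulVec_mulVec, mulVec_mulVec, ← m_mul, ← m_mul, hc a (Or.inl rfl) b (Or.inr hb)]
    have e : u = (2⁻¹ : ℚ) • (u + a.m *ᵥ u) + (2⁻¹ : ℚ) • (u - a.m *ᵥ u) := by module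
    rw [SetLike.mem_coe, e]
    refine add_mem (Submodule.smul_mem _ _ (Submodule.subset_span ?_))
      (Submodule.smul_mem _ _ (Submodule.subset_span ?_))
    · rintro b (rfl | hb)
      · left; rw [mulVec_add, e2, add_comm]
      · rw [mulVec_add, ec b hb]
        rcases hu b hb with h | h <;> rw [h]
        · exact Or.inl rfl
        · right; rw [mulVec_neg, neg_add]
    · rintro b (rfl | hb)
      · right; rw [mulVec_sub, e2, neg_sub]
      · rw [mulVec_sub, ec b hb]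
        rcases hu b hb with h | h <;> rw [h]
        · exact Or.inl rfl
        · right; rw [mulVec_neg, neg_sub_neg, neg_sub]

theorem jobWT : JobWT := by
  intro A hA h2 hc
  have hsp := span_top A hA h2 hc
  let b := Module.Basis.ofSpan hsp
  have hb : ∀ j, ∀ a ∈ A, a.m *ᵥ b j = b j ∨ a.m *ᵥ b j = -b j :=
    fun j => Module.Basis.ofSpan_subset hsp ⟨j, rfl⟩
  let _ := FiniteDimensional.fintypeBasisIndex b
  have e : _ ≃ Fin 8 := Fintype.equivFinOfCardEq (by rw [← Module.finrank_eq_card_basis b]; simp)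
  have h3 := (Pi.basisFun ℚ (Fin 8)).toMatrix_mul_toMatrix_flip (b.reindex e)
  refine ⟨_, (isUnit_det_of_right_inverse h3).ne_zero, fun a ha => ?_⟩
  have k : ∀ f : Fin 8 → Bool, ∃ y < 256, ∀ i : Fin 8, y.testBit i = f i := fun f =>
    ⟨Nat.ofBits f, Nat.ofBits_lt_two_pow f, fun i => Nat.testBit_ofBits_lt f i i.2⟩
  obtain ⟨y, hy, ey⟩ := k fun j => decide (a.m *ᵥ b (e.symm j) ≠ b (e.symm j))
  refine ⟨y, hy, ?_⟩
  ext i j
  have : (a.m *ᵥ b (e.symm j)) i = b (e.symm j) i * (sg y j : ℚ) := by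
    by_cases h : a.m *ᵥ b (e.symm j) = b (e.symm j)
    · simp [sg, ey, h]
    · rw [sg, ey, if_pos (decide_eq_true h), (hb _ a ha).resolve_left h]
      simp
  rw [m_ep, mul_diagonal]
  simpa [mul_apply, Module.Basis.toMatrix_apply, mulVec, dotProduct] using this

theorem tr_six {x b : ℕ} (hx : x < 256) (hb : b ∈ T64) (h : tr (ep x * pm b) = 6) :
    ∃ j : Fin 8, ep x * pm b = ep (2 ^ (j : ℕ)) := by
  have k : ∀ b ∈ T64, b = idA ∨ (∑ i : Fin 8, if ap b i = i then (1 : ℤ) else 0) ≤ 4 := by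
    decide +kernel
  rcases k b hb with rfl | k
  · rw [pm_id, mul_one] at h ⊢
    rw [tr_ep hx] at h
    have h1 : wt x = 1 := by exact_mod_cast (by linarith : (wt x : ℚ) = 1)
    have k : ∀ x < 256, wt x = 1 → ∃ j : Fin 8, x = 2 ^ (j : ℕ) := by decide +kernel
    obtain ⟨j, rfl⟩ := k x hx h1
    exact ⟨j, rfl⟩
  · rw [tr_ep_pm (ok_T64 b hb)] at h
    have h1 : (∑ i : Fin 8, if ap b i = i then sg x i else 0) = 6 := by exact_mod_cast h
    have : (∑ i : Fin 8, if ap b i = i then sg x i else 0) ≤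
        ∑ i : Fin 8, if ap b i = i then (1 : ℤ) else 0 := Finset.sum_le_sum fun i _ => by
      unfold sg; split_ifs <;> norm_num
    omega

theorem jobF : JobF := by
  intro hS hW A h2 hc
  have : Finite A := Nat.finite_of_card_ne_zero (by omega)
  have hcm : ∀ a ∈ A, ∀ b ∈ A, a * b = b * a := fun a ha b hb => by
    rw [← inv_eq_of_mul_eq_one_right (h2 _ (mul_mem ha hb)), _root_.mul_inv_rev,
      inv_eq_of_mul_eq_one_right (h2 _ ha), inv_eq_of_mul_eq_one_right (h2 _ hb)]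
  obtain ⟨V, hV, h⟩ := hW A (Set.toFinite _) h2 hcm
  choose θ hθ eθ using fun a : A => h a a.2
  have hu : IsUnit V := (isUnit_iff_isUnit_det V).2 (Ne.isUnit hV)
  have inj : Function.Injective fun a : A => (⟨θ a, hθ a⟩ : Fin 256) := fun a b e =>
    Subtype.ext (W.ext (hu.mul_right_cancel (by rw [eθ, eθ, show θ a = θ b from congrArg Fin.val e])))
  have sur := (inj.bijective_of_nat_card_le (by simpa using hc)).2
  have lt : ∀ i : Fin 8, 2 ^ (i : ℕ) < 256 := by decide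
  choose a ha using fun i : Fin 8 => sur ⟨2 ^ (i : ℕ), lt i⟩
  have ha' : ∀ i, θ (a i) = 2 ^ (i : ℕ) := fun i => congrArg Fin.val (ha i)
  obtain ⟨g, hg⟩ := hS A fun a => ⟨1, Subtype.ext (by simpa [sq] using h2 a a.2)⟩
  have t6 : ∀ i, tr (a i) = 6 := fun i => by
    obtain ⟨u, rfl⟩ := hu
    have e : (a i : W).m = u * (ep (2 ^ (i : ℕ))).m * (u⁻¹ : M8ˣ) := by
      rw [← ha', ← eθ, Units.mul_inv_cancel_right]
    have k : ∀ i : Fin 8, wt (2 ^ (i : ℕ)) = 1 := by decide +kernel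
    rw [tr, e, trace_units_conj, ← tr, tr_ep (lt i), k]
    norm_num
  have ex : ∀ i, ∃ j : Fin 8, g * a i * g⁻¹ = ep (2 ^ (j : ℕ)) := fun i => by
    obtain ⟨x, hx, b, hb, e⟩ := hg _ (a i).2
    rw [e]
    exact tr_six hx hb (by rw [← e, tr_conj, t6])
  choose f hf using ex
  have finj : Function.Injective f := fun i j e => by
    have : a i = a j := Subtype.ext (mul_left_cancel (mul_right_cancel (by rw [hf, hf, e])))
    exact Fin.ext (Nat.pow_right_injective le_rfl (by simp only [← ha', this]))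
  have hj : ∀ j : Fin 8, g⁻¹ * ep (2 ^ (j : ℕ)) * g⁻¹⁻¹ ∈ A := fun j => by
    obtain ⟨i, rfl⟩ := Finite.injective_iff_surjective.1 finj j
    rw [← hf]
    simp [mul_assoc]
  refine ⟨g⁻¹, fun y => ?_⟩
  induction y using Nat.strong_induction_on with
  | _ y ih =>
    intro hy
    have k : ∀ y < 256, y = 0 ∨ ∃ j : Fin 8, ∃ z < y, y = z ^^^ 2 ^ (j : ℕ) := by
      have k : ∀ y < 256, y = 0 ∨ ∃ j : Fin 8, y ^^^ 2 ^ (j : ℕ) < y := by decide +kernel
      exact fun y hy => (k y hy).imp id fun ⟨j, h⟩ =>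
        ⟨j, _, h, by rw [Nat.xor_assoc, Nat.xor_self, Nat.xor_zero]⟩
    rcases k y hy with rfl | ⟨j, z, hz, rfl⟩
    · simp [ep_zero]
    · have := mul_mem (ih z hz (hz.trans hy)) (hj j)
      rw [ep_xor]
      convert this using 1
      group

end H58.E8W
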