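/- K64 tower (S4543), slot S16: two-generator groups of order at most 16. -/
import Cfsg.Agent.H34.K6Spec

set_option autoImplicit false

namespace H58.K6

open Subgroup Cfsg H34.Kb H34.K6
open scoped commutatorElement

universe u

variable {E : Type u} [Group E] {x y : E}

theorem cmem (a b : E) : ⁅a, b⁆ ∈ commutator E := commutator_mem_commutator (mem_top a) (mem_top b)

theorem gn_symm (k : Gn x y) : Gn y x := fun K h1 h2 => k K h2 h1

theorem gn_mul (k : Gn x y) : Gn x (x * y) := fun K h1 h2 => k K h1 ((mul_mem_cancel_left h1).1 h2)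

theorem mc_of [Finite E] (k : Gn x y) (h : y * x * y⁻¹ ∈ zpowers x) : IsMetacyclic E := by
  have h1 : ∀ g : E, g * x * g⁻¹ ∈ zpowers x → g ∈ normalizer (zpowers x : Set E) := fun g hg =>
    H92.mem_normalizer_of_finite fun t ht => by
      obtain ⟨n, rfl⟩ := mem_zpowers_iff.1 ht
      rw [← conj_zpow]; exact zpow_mem hg n
  have h2 : (zpowers x).Normal := normalizer_eq_top_iff.1 (k _ (h1 x (by simp)) (h1 y h))
  refine ⟨_, h2, inferInstance, ⟨⟨(y : E ⧸ zpowers x), fun q => ?_⟩⟩⟩
  obtain ⟨g, rfl⟩ := QuotientGroup.mk_surjective q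
  have := k ((zpowers (y : E ⧸ zpowers x)).comap (QuotientGroup.mk' _)) (by
    rw [mem_comap, QuotientGroup.mk'_apply, (QuotientGroup.eq_one_iff x).2 (mem_zpowers x)]
    exact one_mem _) (mem_zpowers _)
  exact (this ▸ mem_top g : g ∈ (zpowers (y : E ⧸ zpowers x)).comap (QuotientGroup.mk' _))

theorem not_phi [Finite E] (k : Gn x y) (h : ¬ IsMetacyclic E) : y ∉ frattini E := fun hy =>
  h (mc_of k (by
    rw [frattini_nongenerating (k (zpowers x ⊔ frattini E) (mem_sup_left (mem_zpowers x))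
      (mem_sup_right hy))]
    exact mem_top _))

theorem card_phi [Finite E] (k : Gn x y) (h : ¬ IsMetacyclic E) (hc : Nat.card E = 16)
    {K : Subgroup E} (hK : K ≤ frattini E) : Nat.card K < 8 := by
  by_contra! h8
  have h1 := K.index_mul_card
  have h2 : K.index = 1 ∨ K.index = 2 := by
    have : K.index ≠ 0 := index_ne_zero_of_finite
    have : K.index ≤ 2 := by nlinarith
    omega
  rcases h2 with h2 | h2
  · exact not_phi k h (hK (index_eq_one.1 h2 ▸ mem_top y))
  · exact not_phi (gn_mul k) h (hK ((mul_mem_iff_of_index_two h2).2 (iff_of_false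
      (fun e => not_phi (gn_symm k) h (hK e)) fun e => not_phi k h (hK e))))

theorem fin16 [Finite E] (k : Gn x y) (h : ¬ IsMetacyclic E) (hc : Nat.card E = 16)
    (h4 : ∀ g : E, g ^ 4 = 1) {c : E} (hd : ∀ g, g ∈ commutator E ↔ g = 1 ∨ g = c)
    (hz : ∀ g, c * g = g * c) (hx : x * x ∉ commutator E) (hy : y * y ∈ commutator E) :
    ∃ x a b : E, TW 2 x a b := by
  have cm : ∀ a b : E, ⁅a, b⁆ = 1 ∨ ⁅a, b⁆ = c := fun a b =>
    (hd _).1 (cmem a b)
  have e1 : y * x * y⁻¹ = c * x := by
    rcases cm y x with e | e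
    · exact (h (mc_of k (by rw [commutatorElement_eq_one_iff_mul_comm.1 e]; simp))).elim
    · rw [← e, commutatorElement_def, inv_mul_cancel_right]
  have c2 : c * c = 1 := ((hd _).1 (mul_mem ((hd c).2 (Or.inr rfl)) ((hd c).2 (Or.inr rfl)))).elim id
    fun e => by rw [mul_eq_left.1 e, one_mul]
  have cx : c ∉ zpowers x := fun e => h (mc_of k (e1 ▸ mul_mem e (mem_zpowers x)))
  have y2 : y * y = 1 := ((hd _).1 hy).resolve_right fun e => h (mc_of (gn_symm k) (by
    have : x * y * x⁻¹ = y * y * y := by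
      calc _ = c * c * x * y * x⁻¹ := by rw [c2, one_mul]
        _ = c * (y * x * y⁻¹) * y * x⁻¹ := by rw [e1]; group
        _ = _ := by rw [← e]; group
    rw [this]
    exact mul_mem (mul_mem (mem_zpowers y) (mem_zpowers y)) (mem_zpowers y)))
  refine ⟨x, x * x * c, y, le_rfl, hc, orderOf_eq_prime_pow (p := 2) (n := 1)
    (fun e => hx (by rw [← sq, ← pow_one 2, e]; exact one_mem _)) (h4 x), ?_, y2,
    fun e => cx ((mul_mem_cancel_left (mul_mem (mem_zpowers x) (mem_zpowers x))).1 e), ?_, ?_,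
    Or.inr (by rw [e1, hz]; group)⟩
  · calc _ = x * x * (c * (x * x)) * c := by group
      _ = x ^ 4 * (c * c) := by rw [hz (x * x)]; simp [pow_succ, mul_assoc]
      _ = 1 := by rw [h4, c2, one_mul]
  · rw [mul_assoc (x * x), hz]; group
  · calc _ = y * x * y⁻¹ * (y * x * y⁻¹) * (y * c) := by group
      _ = c * (x * c) * x * (c * y) := by rw [e1, hz y]; group
      _ = _ := by rw [← hz x, ← mul_assoc c, c2]; group

theorem jobS16 : JobS16.{u} := by
  intro E _ _ x y hP k hc
  by_cases h : IsMetacyclic E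
  · exact Or.inl h
  right
  have nc : ¬ IsMulCommutative E := fun hm => h (mc_of k (by rw [hm.is_comm.comm y x]; simp))
  obtain ⟨n, hn⟩ := IsPGroup.iff_card.1 hP
  have ho : ∀ g : E, 4 * orderOf g ≤ Nat.card E := fun g => by
    have h1 := (zpowers g).index_mul_card
    rw [Nat.card_zpowers] at h1
    obtain ⟨m, -, hm⟩ := (Nat.dvd_prime_pow Nat.prime_two).1 (hn ▸ (zpowers g).index_dvd_card)
    have h2 : 2 ≤ m := by
      by_contra! h2
      exact h (mc_of_index (y := g) (by interval_cases m <;> simp [hm]))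
    rw [← h1, hm]
    exact Nat.mul_le_mul_right _ (Nat.pow_le_pow_right two_pos h2 : 2 ^ 2 ≤ _)
  have hp : ∀ (g : E) m, Nat.card E ≤ 4 * 2 ^ m → g ^ 2 ^ m = 1 := fun g m hm => by
    obtain ⟨j, hj⟩ := (IsPGroup.iff_orderOf.1 hP) g
    have := ho g
    rw [← orderOf_dvd_iff_pow_eq_one, hj]
    exact Nat.pow_dvd_pow 2 ((Nat.pow_le_pow_iff_right one_lt_two).1 (by omega))
  have h16 : Nat.card E = 16 := by
    by_contra h8
    have h3 : n ≤ 3 := by
      by_contra! h3
      have : 2 ^ 4 ≤ 2 ^ n := Nat.pow_le_pow_right two_pos h3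
      omega
    have h5 : Nat.card E ≤ 4 * 2 ^ 1 := hn ▸ (Nat.pow_le_pow_right two_pos h3 : _ ≤ 2 ^ 3)
    exact nc ⟨⟨fun a b => (Commute.of_orderOf_dvd_two
      (fun g => orderOf_dvd_iff_pow_eq_one.2 (hp g 1 h5)) a b).eq⟩⟩
  have h4 : ∀ g : E, g ^ 4 = 1 := fun g => hp g 2 h16.le
  have hphi := H9.commutator_le_frattini hP
  have hd : Nat.card (commutator E) = 2 := by
    have h1 := card_phi k h h16 hphi
    have h2 := (commutator E).index_mul_card
    obtain ⟨m, -, hm⟩ := (Nat.dvd_prime_pow Nat.prime_two).1 (hn ▸ (commutator E).card_subgroup_dvd_card)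
    have h3 : m < 3 := (Nat.pow_lt_pow_iff_right one_lt_two).1 (hm ▸ h1)
    interval_cases m
    · exact (nc ((commutator_eq_bot_iff E).1 (card_eq_one.1 hm))).elim
    · exact hm
    · obtain ⟨m, a, b, d⟩ := H3.exists_dsq_of_index_commutator' hP nc (by rw [hm, h16] at h2; omega)
      have h5 := ho a
      rw [d.ord, d.card, pow_succ, pow_succ, pow_succ] at h5
      have := Nat.two_pow_pos m
      omega
  obtain ⟨⟨c, hc'⟩, c1, hu⟩ := (Nat.card_eq_two_iff' (1 : commutator E)).1 hd
  have hm : ∀ g, g ∈ commutator E ↔ g = 1 ∨ g = c := fun g => ⟨fun hg => by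
    by_cases e : g = 1
    · exact Or.inl e
    · exact Or.inr (congrArg Subtype.val (hu ⟨g, hg⟩ fun e' => e (congrArg Subtype.val e'))),
    by rintro (rfl | rfl); exacts [one_mem _, hc']⟩
  have hz : ∀ g, c * g = g * c := fun g => by
    rcases (hm _).1 ((inferInstance : (commutator E).Normal).conj_mem c hc' g) with e | e
    · exact (c1 (Subtype.ext (conj_eq_one_iff.1 e))).elim
    · exact (mul_inv_eq_iff_eq_mul.1 e).symm
  have nm : ∀ (g : E) {T : Subgroup E}, commutator E ≤ T → ∀ t ∈ T, g * t * g⁻¹ ∈ T :=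
    fun g T hT t ht => by
      simpa [commutatorElement_def] using mul_mem (hT (cmem g t)) ht
  by_cases hx : x * x ∈ commutator E <;> by_cases hy : y * y ∈ commutator E
  · have h1 := dbl (nm x le_rfl) hx
    have h2 := dbl (nm y (le_sup_left : _ ≤ commutator E ⊔ zpowers x)) (mem_sup_left hy)
    rw [k _ (mem_sup_left (mem_sup_right (mem_zpowers x))) (mem_sup_right (mem_zpowers y)),
      card_top] at h2
    omega
  · exact fin16 (gn_symm k) h h16 h4 hm hz hy hx
  · exact fin16 k h h16 h4 hm hz hx hy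
  · refine fin16 (gn_mul k) h h16 h4 hm hz hx ?_
    have x4 : x * x * (x * x) = 1 := by rw [← h4 x]; simp [pow_succ, mul_assoc]
    have sq' : ∀ g : E, zpowers (g * g) ≤ frattini E := fun g =>
      zpowers_le.2 (sq g ▸ H9.pow_mem_frattini hP g)
    have h1 : y * y ∈ commutator E ⊔ zpowers (x * x) := by
      by_contra h1
      have h2 := H9.mul_card_le_of_lt hP (left_lt_sup.2 (mt zpowers_le.1 hx))
      have h3 := H9.mul_card_le_of_lt hP (left_lt_sup.2 (mt zpowers_le.1 h1))
      have h5 := card_phi k h h16 (sup_le (sup_le hphi (sq' x)) (sq' y))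
      omega
    have h2 := ((mem_dbl (nm _ le_rfl) (x4 ▸ one_mem _)).1 h1).resolve_left hy
    rw [inv_eq_of_mul_eq_one_right x4] at h2
    have := mul_mem (nm x le_rfl _ (cmem y x)) h2
    convert this using 1
    rw [commutatorElement_def]
    group

end H58.K6
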