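import Cfsg.Agent.H41.LDSpec
import Cfsg.Agent.H22.Weights
import Cfsg.Agent.H14.Quasi

/-! Tower LD5: weights of five-dimensional representations by simultaneous diagonalisation. -/

set_option autoImplicit false

namespace H58.LD

open Matrix Cfsg H41.LD Subgroup
open scoped MatrixGroups

variable {K : Type*} [Field K] {n : ℕ} {X : Type*} [Group X]

/-- square matrices -/
abbrev Mt (n : ℕ) (K : Type*) : Type _ := Matrix (Fin n) (Fin n) K

theorem exists_diag_mat [IsAlgClosed K] {ι : Type*} (A : ι → Mt n K)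
    (hc : ∀ i j, A i * A j = A j * A i) (hn : ∀ i, ∃ m : ℕ, (m : K) ≠ 0 ∧ A i ^ m = 1) :
    ∃ (B B' : Mt n K) (d : ι → Fin n → K), B * B' = 1 ∧ ∀ i, B' * A i * B = diagonal (d i) := by
  have h := H22.iSup_wt_eq_top (fun i => toLin' (A i)) (fun i j => by
      change toLin' (A i) ∘ₗ toLin' (A j) = toLin' (A j) ∘ₗ toLin' (A i)
      rw [← toLin'_mul, ← toLin'_mul, hc])
    fun i => (hn i).imp fun m h => ⟨h.1, by rw [← toLin'_pow, h.2, toLin'_one]; rfl⟩
  let s : Set (Fin n → K) := {v | ∀ i, ∃ c : K, A i *ᵥ v = c • v}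
  have hsp : ⊤ ≤ Submodule.span K s := by
    rw [← h]
    exact iSup_le fun χ v hv => Submodule.subset_span fun i => ⟨χ i, hv i⟩
  let b := Module.Basis.ofSpan hsp
  have hb : ∀ j, b j ∈ s := fun j => Module.Basis.ofSpan_subset hsp ⟨j, rfl⟩
  let _ := FiniteDimensional.fintypeBasisIndex b
  have e : _ ≃ Fin n := Fintype.equivFinOfCardEq (by rw [← Module.finrank_eq_card_basis b]; simp)
  have h3 := (Pi.basisFun K (Fin n)).toMatrix_mul_toMatrix_flip (b.reindex e)
  have h4 := (b.reindex e).toMatrix_mul_toMatrix_flip (Pi.basisFun K (Fin n))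
  choose d hd using fun i j => hb (e.symm j) i
  refine ⟨_, _, d, h3, fun i => ?_⟩
  rw [mul_assoc, ← one_mul (diagonal (d i)), ← h4, mul_assoc]
  congr 1
  ext a j
  have := congrFun (hd i j) a
  simpa [mul_apply, Module.Basis.toMatrix_apply, mulVec, dotProduct, diagonal_apply, mul_comm]
    using this

/-- similar representations -/
def Sim (ρ ρ' : X →* Mt n K) : Prop := ∃ B B' : Mt n K, B * B' = 1 ∧ ∀ g, ρ' g = B' * ρ g * B

/-- no element acts as a transvection -/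
def NT (ρ : X →* Mt n K) : Prop := ∀ g (x : R n K), x.2 ⬝ᵥ x.1 = 0 → ρ g = 1 + N x → ρ g = 1

variable {ρ ρ' : X →* Mt n K}

theorem exists_sim (ρ : X →* Mt n K) {B B' : Mt n K} (h : B * B' = 1) :
    ∃ ρ' : X →* Mt n K, ∀ g, ρ' g = B' * ρ g * B :=
  ⟨⟨⟨fun g => B' * ρ g * B, by rw [map_one, mul_one, mul_eq_one_comm.1 h]⟩, fun a b => by
    change B' * ρ (a * b) * B = B' * ρ a * B * (B' * ρ b * B)
    rw [map_mul, mul_assoc (B' * ρ a) B, ← mul_assoc B, ← mul_assoc B, h, one_mul]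
    simp only [mul_assoc]⟩, fun _ => rfl⟩

theorem Sim.symm (h : Sim ρ ρ') : Sim ρ' ρ := by
  obtain ⟨B, B', h1, h2⟩ := h
  refine ⟨B', B, mul_eq_one_comm.1 h1, fun g => ?_⟩
  rw [h2, ← mul_assoc, ← mul_assoc, h1, one_mul, mul_assoc, h1, mul_one]

theorem Sim.trans {ρ'' : X →* Mt n K} (h : Sim ρ ρ') (h' : Sim ρ' ρ'') : Sim ρ ρ'' := by
  obtain ⟨B, B', h1, h2⟩ := h
  obtain ⟨C, C', h3, h4⟩ := h'
  refine ⟨B * C, C' * B', by rw [mul_assoc, ← mul_assoc C, h3, one_mul, h1], fun g => ?_⟩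
  simp only [h4, h2, mul_assoc]

theorem Sim.eq (h : Sim ρ ρ') {a b : X} (e : ρ a = ρ b) : ρ' a = ρ' b := by
  obtain ⟨B, B', -, h2⟩ := h
  rw [h2, h2, e]

theorem Sim.eq_one (h : Sim ρ ρ') {a : X} (e : ρ a = 1) : ρ' a = 1 :=
  (h.eq (e.trans (map_one ρ).symm)).trans (map_one _)

theorem Sim.inj (h : Sim ρ ρ') (e : Function.Injective ρ) : Function.Injective ρ' :=
  fun _ _ k => e (h.symm.eq k)

theorem Sim.trace (h : Sim ρ ρ') (g : X) : (ρ' g).trace = (ρ g).trace := by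
  obtain ⟨B, B', h1, h2⟩ := h
  rw [h2, trace_mul_comm, ← mul_assoc, h1, one_mul]

theorem Sim.det (h : Sim ρ ρ') (g : X) : (ρ' g).det = (ρ g).det := by
  obtain ⟨B, B', h1, h2⟩ := h
  rw [h2, det_mul_comm, ← mul_assoc, h1, one_mul]

theorem Sim.nt (h : Sim ρ ρ') (e : NT ρ) : NT ρ' := fun g x hx hg => h.eq_one (by
  obtain ⟨B, B', h1, h2⟩ := h.symm
  refine e g (B' *ᵥ x.1, x.2 ᵥ* B) ?_ ?_
  · rw [← dotProduct_mulVec, mulVec_mulVec, h1, one_mulVec, hx]
  · rw [h2, hg, mul_add, add_mul, mul_one, mul_eq_one_comm.1 h1, N, N, mul_vecMulVec, vecMulVec_mul])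

/-- the matrix form of a representation, pulled back along `f` -/
def pull {Γ : Type*} [Group Γ] (ρ : Γ →* GL (Fin n) K) (f : X →* Γ) : X →* Mt n K :=
  (Units.coeHom _).comp (ρ.comp f)

theorem pull_nt {Γ : Type*} [Group Γ] {ρ : Γ →* GL (Fin 5) K} (h : Rep ρ) (f : X →* Γ) : NT (pull ρ f) :=
  fun g x hx e => by
    rcases h.tv x ⟨hx, _, ⟨f g, rfl⟩, e⟩ with k | k <;> simp [e, N, k]

theorem pull_eq {Γ : Type*} [Group Γ] {ρ : Γ →* GL (Fin 5) K} (h : Rep ρ) (f : X →* Γ) {a b : X} :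
    pull ρ f a = pull ρ f b ↔ f a = f b :=
  ⟨fun e => h.inj (Units.ext e), fun e => congrArg (fun x => (ρ x).val) e⟩

theorem pull_one {Γ : Type*} [Group Γ] {ρ : Γ →* GL (Fin 5) K} (h : Rep ρ) (f : X →* Γ) {a : X} :
    pull ρ f a = 1 ↔ f a = 1 := by rw [← map_one (pull ρ f), pull_eq h, map_one]

theorem exists_diag [IsAlgClosed K] (ρ : X →* Mt n K) {ι : Type*} (s : ι → X)
    (hc : ∀ i j, ρ (s i * s j) = ρ (s j * s i)) (hn : ∀ i, ∃ m : ℕ, (m : K) ≠ 0 ∧ ρ (s i ^ m) = 1) :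
    ∃ (ρ' : X →* Mt n K) (d : ι → Fin n → K), Sim ρ ρ' ∧ ∀ i, ρ' (s i) = diagonal (d i) := by
  obtain ⟨B, B', d, h1, h2⟩ := exists_diag_mat (fun i => ρ (s i))
    (fun i j => by rw [← map_mul, hc, map_mul]) (by simpa only [map_pow] using hn)
  obtain ⟨ρ', h⟩ := exists_sim ρ h1
  exact ⟨ρ', d, ⟨B, B', h1, h⟩, fun i => (h _).trans (h2 i)⟩

theorem exists_reindex (ρ : X →* Mt n K) (e : Equiv.Perm (Fin n)) :
    ∃ ρ' : X →* Mt n K, Sim ρ ρ' ∧ ∀ g d, ρ g = diagonal d → ρ' g = diagonal (d ∘ e) := by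
  have h1 : (e.symm.toPEquiv.toMatrix * e.toPEquiv.toMatrix : Mt n K) = 1 := by
    rw [← PEquiv.toMatrix_trans, ← Equiv.toPEquiv_trans, Equiv.symm_trans_self, Equiv.toPEquiv_refl,
      PEquiv.toMatrix_refl]
  obtain ⟨ρ', h⟩ := exists_sim ρ h1
  refine ⟨ρ', ⟨_, _, h1, h⟩, fun g d hd => ?_⟩
  rw [h, hd, PEquiv.toMatrix_toPEquiv_mul, PEquiv.mul_toMatrix_toPEquiv, submatrix_submatrix]
  exact submatrix_diagonal_equiv d e

theorem det_ne (ρ : X →* Mt n K) (g : X) : (ρ g).det ≠ 0 :=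
  ((isUnit_iff_isUnit_det _).1 ((Group.isUnit g).map ρ)).ne_zero

/-- an element permutes the weights of whatever it normalises -/
theorem exists_perm (ρ : X →* Mt n K) (g : X) : ∃ π : Equiv.Perm (Fin n), ∀ {a b : X} {da db : Fin n → K},
    ρ a = diagonal da → ρ b = diagonal db → ρ (g * a) = ρ (b * g) → ∀ i, db (π i) = da i := by
  obtain ⟨π, h⟩ : ∃ π : Equiv.Perm (Fin n), ∀ i, ρ g (π i) i ≠ 0 := by
    by_contra! hn
    refine det_ne ρ g ((det_apply _).trans (Finset.sum_eq_zero fun σ _ => ?_))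
    obtain ⟨i, hi⟩ := hn σ
    rw [Finset.prod_eq_zero (f := fun i => ρ g (σ i) i) (Finset.mem_univ i) hi, smul_zero]
  refine ⟨π, fun ha hb e i => mul_right_cancel₀ (h i) ?_⟩
  rw [map_mul, map_mul, ha, hb] at e
  have := congrFun₂ e (π i) i
  rwa [mul_diagonal, diagonal_mul, mul_comm, eq_comm] at this

theorem diag_mul {a b : X} {da db : Fin n → K} (ha : ρ a = diagonal da) (hb : ρ b = diagonal db) :
    ρ (a * b) = diagonal fun i => da i * db i := by rw [map_mul, ha, hb, diagonal_mul_diagonal]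

theorem diag_pow {a : X} {da : Fin n → K} (ha : ρ a = diagonal da) (m : ℕ) :
    ρ (a ^ m) = diagonal fun i => da i ^ m := by rw [map_pow, ha, diagonal_pow]; rfl

theorem diag_one {a : X} {da : Fin n → K} (ha : ρ a = diagonal da) : ρ a = 1 ↔ ∀ i, da i = 1 := by
  rw [ha, ← diagonal_one, diagonal_eq_diagonal_iff]

theorem diag_ne {a : X} {da : Fin n → K} (ha : ρ a = diagonal da) (i : Fin n) : da i ≠ 0 := fun h =>
  det_ne ρ a (by rw [ha, det_diagonal]; exact Finset.prod_eq_zero (Finset.mem_univ i) h)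

theorem diag_inv {a : X} {da : Fin n → K} (ha : ρ a = diagonal da) :
    ρ a⁻¹ = diagonal fun i => (da i)⁻¹ := by
  rw [← mul_one (ρ a⁻¹), ← diagonal_one, show (fun _ => 1) = fun i => da i * (da i)⁻¹ from
    funext fun i => (mul_inv_cancel₀ (diag_ne ha i)).symm, ← diagonal_mul_diagonal, ← ha, ← mul_assoc,
    ← map_mul, inv_mul_cancel, map_one, one_mul]

/-- what commutes with a diagonal matrix commutes with the functions of it -/
theorem comm_diag {c g : X} {d : Fin n → K} (hc : ρ c = diagonal d) (h : ρ (g * c) = ρ (c * g))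
    {e : Fin n → K} (he : ∀ i j, d i = d j → e i = e j) : ρ g * diagonal e = diagonal e * ρ g := by
  rw [map_mul, map_mul, hc] at h
  ext i j
  have := congrFun₂ h i j
  rw [mul_diagonal, diagonal_mul] at this ⊢
  by_cases k : ρ g i j = 0
  · rw [k, zero_mul, mul_zero]
  · rw [he i j (mul_right_cancel₀ k (this.symm.trans (mul_comm _ _))), mul_comm]

/-- Heisenberg groups with a real centre have no faithful module of dimension five -/
theorem heis [IsAlgClosed K] (ρ : X →* Mt 5 K) {x y z g : X} {m : ℕ} (hm : (m : K) ≠ 0) (ho : Odd m)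
    (hx : x ^ m = 1) (hz : z ^ m = 1) (h1 : x * z = z * x) (h2 : y * z = z * y) (h3 : y * x = x * z * y)
    (h4 : g * z = z⁻¹ * g) : ρ z = 1 := by
  obtain ⟨ρ, d, hs, hd⟩ := exists_diag ρ ![x, z] (fun i j => by
    fin_cases i <;> fin_cases j <;> simp [-map_mul, h1]) fun i => ⟨m, hm, by fin_cases i <;> simp [-map_pow, hx, hz]⟩
  have ha : ρ x = _ := hd 0
  have hb : ρ z = _ := hd 1
  refine hs.symm.eq_one ((diag_one hb).2 fun i => by_contra fun hi => ?_)
  obtain ⟨π, hπ⟩ := exists_perm ρ y⁻¹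
  obtain ⟨π', hπ'⟩ := exists_perm ρ g⁻¹
  have e1 := hπ (diag_mul ha hb) ha (by rw [show y⁻¹ * (x * z) = x * y⁻¹ by
    rw [inv_mul_eq_iff_eq_mul, ← mul_assoc, h3, mul_inv_cancel_right]])
  have e2 := hπ hb hb (by rw [show y⁻¹ * z = z * y⁻¹ by
    rw [inv_mul_eq_iff_eq_mul, ← mul_assoc, h2, mul_inv_cancel_right]])
  have e3 := hπ' (diag_inv hb) hb (by rw [show g⁻¹ * z⁻¹ = z * g⁻¹ by
    rw [inv_mul_eq_iff_eq_mul, ← mul_assoc, h4, mul_inv_cancel_right]])
  have a0 := diag_ne ha i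
  have b0 := diag_ne hb i
  have b2 : d 1 i * d 1 i ≠ 1 := fun k => hi (by
    obtain ⟨r, rfl⟩ := ho
    have := (diag_one (diag_pow hb (2 * r + 1))).1 (by rw [hz, map_one]) i
    rwa [pow_succ, pow_mul, sq, k, one_pow, one_mul] at this)
  have n1 : π i ≠ i := fun k => hi (by simpa [k, a0] using e1 i)
  have n2 : π (π i) ≠ i := fun k => b2 (mul_left_cancel₀ a0 (by
    have := e1 (π i)
    rw [k, e1, e2] at this
    rw [← mul_assoc, mul_one, ← this]))
  have n3 : ∀ j l, d 1 j = d 1 i → d 1 l = d 1 i → π' j ≠ l := fun j l hj hl k => b2 (by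
    have := e3 j
    rw [k, hj, hl] at this
    nth_rewrite 1 [this]
    exact inv_mul_cancel₀ b0)
  have s1 : d 1 (π i) = d 1 i := e2 i
  have s2 : d 1 (π (π i)) = d 1 i := (e2 _).trans s1
  have n4 : π (π i) ≠ π i := π.injective.ne n1
  have := Finset.card_le_univ ({i, π i, π (π i), π' i, π' (π i), π' (π (π i))} : Finset (Fin 5))
  rw [Finset.card_insert_of_notMem (by simp [n1.symm, n2.symm, (n3 _ _ _ rfl).symm, *]),
    Finset.card_insert_of_notMem (by simp [n4.symm, (n3 _ _ _ s1).symm, *]),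
    Finset.card_insert_of_notMem (by simp [(n3 _ _ _ s2).symm, *]),
    Finset.card_insert_of_notMem (by simp [n1.symm, n2.symm]),
    Finset.card_insert_of_notMem (by simp [n4.symm])] at this
  simp at this

/-- the group `3² : Q₈` has no faithful module of dimension five -/
theorem hess [IsAlgClosed K] (h3 : (3 : K) ≠ 0) (ρ : X →* Mt 5 K) {x y f g : X} (hx : x ^ 3 = 1)
    (hy : y ^ 3 = 1) (hc : ρ (x * y) = ρ (y * x)) (r1 : f * y = x * f) (r2 : f * x ^ 2 = y * f)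
    (r3 : g * (y * x) = x * g) (r4 : g * x ^ 2 = y * x * g) : ρ x = 1 := by
  obtain ⟨ρ, d, hs, hd⟩ := exists_diag ρ ![x, y] (fun i j => by
    fin_cases i <;> fin_cases j <;> simp [-map_mul, hc]) fun i => ⟨3, by exact_mod_cast h3, by
      fin_cases i <;> simp [-map_pow, hx, hy]⟩
  have ha : ρ x = _ := hd 0
  have hb : ρ y = _ := hd 1
  refine hs.symm.eq_one ((diag_one ha).2 fun i => by_contra fun hi => ?_)
  have a3 := (diag_one (diag_pow ha 3)).1 (by rw [hx, map_one])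
  have b3 := (diag_one (diag_pow hb 3)).1 (by rw [hy, map_one])
  have : Fact (Nat.Prime 3) := ⟨Nat.prime_three⟩
  obtain ⟨w, hw⟩ : ∃ w : Kˣ, (w : K) = d 0 i := ⟨Units.mk0 _ (diag_ne ha i), rfl⟩
  have ow : orderOf w = 3 := orderOf_eq_prime (Units.ext (by simp [hw, a3])) fun k => hi (by simp [← hw, k])
  have w3 : (w : K) ^ 3 = 1 := hw ▸ a3 i
  obtain ⟨b, hb'⟩ : ∃ b : ℕ, (w : K) ^ b = d 1 i := by
    have h0 : (w : K) ^ 2 + w + 1 = 0 := mul_left_cancel₀ (sub_ne_zero.2 (hw ▸ hi : (w : K) ≠ 1)) (by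
      linear_combination w3)
    have : (d 1 i - 1) * ((d 1 i - w) * (d 1 i - w ^ 2)) = 0 := by
      linear_combination b3 i + (d 1 i - d 1 i ^ 2) * h0 + (d 1 i - 1) * w3
    rcases mul_eq_zero.1 this with k | k
    · exact ⟨0, by linear_combination -k⟩
    · rcases mul_eq_zero.1 k with k | k
      exacts [⟨1, by linear_combination -k⟩, ⟨2, by linear_combination -k⟩]
  obtain ⟨π, hπ⟩ := exists_perm ρ f
  obtain ⟨π', hπ'⟩ := exists_perm ρ g
  let P : ℕ × ℕ → Fin 5 → Prop := fun v j => d 0 j = w ^ v.1 ∧ d 1 j = w ^ v.2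
  have I : ∀ {a b j}, P (a, b) j → P (b, 2 * a) (π j) := fun {a b j} h =>
    ⟨(hπ hb ha (by rw [r1]) j).trans h.2, (hπ (diag_pow ha 2) hb (by rw [r2]) j).trans (by
      rw [h.1, ← pow_mul, mul_comm])⟩
  have J : ∀ {a b j}, P (a, b) j → P (a + b, a + 2 * b) (π' j) := fun {a b j} h => by
    have e1 := hπ' (diag_mul hb ha) ha (by rw [r3]) j
    have e2 := hπ' (diag_pow ha 2) (diag_mul hb ha) (by rw [r4]) j
    have e3 := a3 j
    have e4 := b3 j
    simp only [P, pow_add, pow_mul' _ 2, ← h.1, ← h.2]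
    refine ⟨e1.trans (mul_comm _ _), ?_⟩
    rw [e1] at e2
    linear_combination d 0 j ^ 2 * d 1 j ^ 2 * e2 + d 0 j * d 1 j ^ 2 * e3 -
      d 1 (π' j) * (d 1 j ^ 3 * e3 + e4)
  have p0 : P (1, b) i := ⟨by simp [hw], hb'.symm⟩
  have U : ∀ {v v' j j'}, P v j → P v' j' → j = j' → v.1 % 3 = v'.1 % 3 ∧ v.2 % 3 = v'.2 % 3 :=
    fun h h' e => by
      subst e
      rw [← ow]
      exact ⟨pow_eq_pow_iff_modEq.1 (Units.ext (by simpa using h.1.symm.trans h'.1)),
        pow_eq_pow_iff_modEq.1 (Units.ext (by simpa using h.2.symm.trans h'.2))⟩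
  obtain ⟨k, l, hkl, e⟩ := Fintype.exists_ne_map_eq_of_card_lt
    ![i, π i, π (π i), π (π (π i)), π' i, π (π' i)] (by simp)
  have q : ∀ k, P (![(1, b), (b, 2 * 1), (2 * 1, 2 * b), (2 * b, 2 * (2 * 1)), (1 + b, 1 + 2 * b),
      (1 + 2 * b, 2 * (1 + b))] k) (![i, π i, π (π i), π (π (π i)), π' i, π (π' i)] k) := fun k => by
    fin_cases k
    exacts [p0, I p0, I (I p0), I (I (I p0)), J p0, I (J p0)]
  have := U (q k) (q l) e
  fin_cases k <;> fin_cases l <;> simp at this hkl <;> omega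

/-- a unipotent element supported on a plane is a transvection -/
theorem NT.eq_one {ρ : X →* Mt 5 K} (h : NT ρ) {u : X} {m : ℕ} (hu : (ρ u - 1) ^ m = 0)
    (h1 : ρ u * diagonal ![0, 0, 1, 1, 1] = diagonal ![0, 0, 1, 1, 1])
    (h2 : ρ u * diagonal ![0, 0, 1, 1, 1] = diagonal ![0, 0, 1, 1, 1] * ρ u) : ρ u = 1 := by
  obtain ⟨A, hA⟩ : ∃ A, ρ u = 1 + A := ⟨ρ u - 1, by abel⟩
  rw [hA, add_sub_cancel_left] at hu
  rw [h1, hA, mul_add, mul_one, left_eq_add] at h2
  rw [hA, add_mul, one_mul, add_eq_left] at h1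
  have c : ∀ i j, j ≠ 0 → j ≠ 1 → A i j = 0 ∧ A j i = 0 := fun i j a b => by
    have e1 := congrFun₂ h1 i j
    have e2 := congrFun₂ h2 j i
    rw [mul_diagonal] at e1
    rw [diagonal_mul] at e2
    fin_cases j <;> simp_all
  have e : A = !![A 0 0, A 0 1, 0, 0, 0; A 1 0, A 1 1, 0, 0, 0; 0, 0, 0, 0, 0; 0, 0, 0, 0, 0; 0, 0, 0, 0, 0] := by
    ext i j
    fin_cases i <;> fin_cases j <;> simp [c]
  generalize A 0 0 = a, A 0 1 = b, A 1 0 = c, A 1 1 = d at e
  have t : a + d = 0 := by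
    simpa [e, trace, Fin.sum_univ_five] using (isNilpotent_trace_of_isNilpotent ⟨m, hu⟩).eq_zero
  have s : A ^ 2 = diagonal ![a * a + b * c, a * a + b * c, 0, 0, 0] := by
    rw [sq, e, show d = -a by linear_combination t]
    ext i j
    fin_cases i <;> fin_cases j <;> simp [mul_apply, Fin.sum_univ_five] <;> ring
  have z : a * a + b * c = 0 := by
    have := congrFun₂ (show (A ^ 2) ^ m = 0 by rw [← pow_mul, mul_comm, pow_mul, hu, zero_pow two_ne_zero]) 0 0
    rw [s, diagonal_pow] at this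
    exact IsNilpotent.eq_zero ⟨m, by simpa using this⟩
  by_cases hb : b = 0
  · have ha : a = 0 := by simpa [hb] using z
    refine h u (![0, c, 0, 0, 0], ![1, 0, 0, 0, 0]) (by simp) ?_
    rw [hA, e, show d = 0 by linear_combination t - ha, ha, hb]
    ext i j
    fin_cases i <;> fin_cases j <;> simp [N]
  · refine h u (![b, d, 0, 0, 0], ![a / b, 1, 0, 0, 0]) (by simp [hb, t]) ?_
    rw [hA, e, show c = d * (a / b) by field_simp; linear_combination z - a * t]
    ext i j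
    fin_cases i <;> fin_cases j <;> simp [N, mul_div_cancel₀, hb]

theorem perm_period : ∀ (π : Equiv.Perm (Fin 5)) (i : Fin 5), π i = i ∨ π (π i) = i ∨ π (π (π i)) = i ∨
    π (π (π (π i))) = i ∨ π (π (π (π (π i)))) = i := by decide +kernel

theorem perm_three : ∀ (π : Equiv.Perm (Fin 5)) (k l : Fin 5), π k ≠ k → π (π (π k)) = k →
    l = π k ∨ l = π (π k) ∨ l = k ∨ π (π l) = l := by decide +kernel

/-- the weights of a torus of rank two with Weyl group `S₃` and no element of order three -/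
theorem wt3 [IsAlgClosed K] (ρ : X →* Mt 5 K) {M : Type*} [CommGroup M] [Finite M]
    (hM : ((Nat.card M : ℕ) : K) ≠ 0) (h3 : (Nat.card M).Coprime 3) (t : M × M →* X) {σ τ : X}
    (hσ : ∀ a b, σ * t (a, b) = t ((a * b)⁻¹, a) * σ) (hτ : ∀ a b, τ * t (a, b) = t (b, a) * τ)
    (h0 : ∃ m, ρ (t m) ≠ 1) : ∃ (ρ' : X →* Mt 5 K) (r : M →* K), Sim ρ ρ' ∧
      ∀ a b, ρ' (t (a, b)) = diagonal ![r a, r b, r (a * b)⁻¹, 1, 1] := by
  obtain ⟨ρ, d, hs, hd⟩ := exists_diag ρ t (fun i j => by rw [← map_mul, mul_comm, map_mul]) fun m =>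
    ⟨_, hM, by rw [← map_pow, show m ^ Nat.card M = 1 from Prod.ext pow_card_eq_one' pow_card_eq_one',
      map_one, map_one]⟩
  have dm : ∀ m m' i, d (m * m') i = d m i * d m' i := fun m m' => diagonal_eq_diagonal_iff.1
    ((hd _).symm.trans (by rw [map_mul, diag_mul (hd _) (hd _)]))
  have d1 : ∀ i, d 1 i = 1 := (diag_one (hd 1)).1 (by rw [map_one, map_one])
  obtain ⟨π, hπ⟩ := exists_perm ρ σ
  obtain ⟨π', hπ'⟩ := exists_perm ρ τ
  let s : M × M → M × M := fun m => ((m.1 * m.2)⁻¹, m.1)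
  have s3 : ∀ m, s (s (s m)) = m := fun m => Prod.ext (by simp [s, mul_comm]) (by simp [s])
  have e1 : ∀ m i, d (s m) (π i) = d m i := fun m => hπ (hd _) (hd _) (congrArg ρ (hσ _ _))
  have e2 : ∀ a b i, d (b, a) (π' i) = d (a, b) i := fun a b => hπ' (hd _) (hd _) (congrArg ρ (hτ _ _))
  have T : ∀ i, (∀ m, d (s m) i = d m i) → ∀ m, d m i = 1 := fun i h m => by
    obtain ⟨a, ha⟩ := (powCoprime h3).surjective m.1
    obtain ⟨b, hb⟩ := (powCoprime h3).surjective m.2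
    rw [show m = (a, b) * ((a, b) * (a, b)) from Prod.ext (ha.symm.trans (pow_three a)) (hb.symm.trans (pow_three b)),
      dm, dm]
    nth_rewrite 2 [← h]
    nth_rewrite 3 [← h]
    nth_rewrite 3 [← h]
    rw [← dm, ← dm, ← d1 i]
    congr 1
    exact Prod.ext (by simp [s, mul_comm]) (by simp [s])
  have T2 : ∀ i, (∀ m, d (s (s m)) i = d m i) → ∀ m, d m i = 1 := fun i h => T i fun m => by rw [← h, s3]
  have N3 : ∀ i, (∃ m, d m i ≠ 1) → π i ≠ i ∧ π (π (π i)) = i := fun i ⟨m, hm⟩ => by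
    have k1 : π i ≠ i := fun k => hm (T i (fun m => by rw [← e1 m i, k]) m)
    refine ⟨k1, ?_⟩
    rcases perm_period π i with k | k | k | k | k
    · exact (k1 k).elim
    · exact (hm (T2 i (fun m => by rw [← e1 m i, ← e1 (s m) (π i), k]) m)).elim
    · exact k
    · exact (hm (T i (fun m => by
        have := e1 (s (s (s m))) (π (π (π i)))
        rwa [k, e1, e1, e1, s3] at this) m)).elim
    · exact (hm (T2 i (fun m => by
        have := e1 (s (s (s (s m)))) (π (π (π (π i))))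
        rwa [k, e1, e1, e1, e1, s3] at this) m)).elim
  have N1 : ∀ i, (∃ m, d m i ≠ 1) → ∃ m, d m (π i) ≠ 1 := fun i ⟨m, hm⟩ => ⟨s m, (e1 m i).symm ▸ hm⟩
  have N2 : ∀ l, π (π l) = l → ∀ m, d m l = 1 := fun l k => T2 l fun m => by rw [← e1 m l, ← e1 (s m) (π l), k]
  obtain ⟨k, hk, P⟩ : ∃ k, (∃ m, d m k ≠ 1) ∧ ∀ a b, d (b, a) k = d (a, b) k := by
    obtain ⟨m, hm⟩ := h0
    obtain ⟨i, hi⟩ := not_forall.1 (mt (diag_one (hd m)).2 fun k => hm (hs.symm.eq_one k))
    obtain ⟨n1, n3⟩ := N3 i ⟨m, hi⟩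
    rcases perm_three π i (π' i) n1 n3 with k | k | k | k
    · refine ⟨π (π i), N1 _ (N1 _ ⟨m, hi⟩), fun a b => ?_⟩
      have := e2 (a * b)⁻¹ a i
      rw [k, ← e1 _ i, ← e1 _ (π i), ← e1 (s _) (π i)] at this
      simpa [s, mul_comm] using this
    · refine ⟨π i, N1 _ ⟨m, hi⟩, fun a b => ?_⟩
      have := e2 b (a * b)⁻¹ i
      rw [k, ← e1 _ i, ← s3 (_, b), e1] at this
      simpa [s, mul_comm] using this
    · exact ⟨i, ⟨m, hi⟩, fun a b => by rw [← e2 a b i, k]⟩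
    · exact (hi ((e2 m.1 m.2 i).symm.trans (N2 _ k _))).elim
  obtain ⟨n1, n3⟩ := N3 k hk
  have n2 : π (π k) ≠ k := fun e => n1 (by rwa [e] at n3)
  obtain ⟨e, he⟩ := Equiv.Perm.exists_extending_pair (f := ![0, 1, 2]) (g := ![π k, π (π k), k])
    (by decide) (fun i j => by
      have := π.injective.ne n1
      fin_cases i <;> fin_cases j <;> simp [*, n1.symm, n2.symm, this.symm])
  obtain ⟨ρ', hs', h⟩ := exists_reindex ρ e
  have q : ∀ a b, d (a, b) k = d ((a * b)⁻¹⁻¹, 1) k := fun a b => by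
    rw [inv_inv, show (a * b, 1) = (a, 1) * (b, (1 : M)) by simp, dm, P 1 b, ← dm]
    simp
  have z : ∀ m j, j ≠ 0 → j ≠ 1 → j ≠ 2 → d m (e j) = 1 := fun m j a b c => by
    rcases perm_three π k (e j) n1 n3 with k | k | k | k
    exacts [(a (e.injective (k.trans (he 0).symm))).elim, (b (e.injective (k.trans (he 1).symm))).elim,
      (c (e.injective (k.trans (he 2).symm))).elim, N2 _ k _]
  refine ⟨ρ', ⟨⟨fun c => d (c⁻¹, 1) k, by rw [inv_one]; exact d1 k⟩, fun a b => by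
    simpa [mul_comm] using dm (a⁻¹, 1) (b⁻¹, 1) k⟩, hs.trans hs', fun a b => (h _ _ (hd _)).trans ?_⟩
  congr 1
  funext j
  fin_cases j
  · refine (congrArg _ (he 0)).trans ?_
    change d _ (π k) = d (a⁻¹, 1) k
    rw [← s3 (a, b), e1, q]
    simp [s, mul_comm]
  · refine (congrArg _ (he 1)).trans ?_
    change d _ (π (π k)) = d (b⁻¹, 1) k
    rw [← s3 (a, b), e1, e1, q]
    simp [mul_comm]
  · exact (congrArg _ (he 2)).trans (q a b)
  · exact z _ 3 (by decide) (by decide) (by decide)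
  · exact z _ 4 (by decide) (by decide) (by decide)

/-- the elements acting trivially on the image of `E` -/
def fixE (ρ : X →* Mt n K) (E : Mt n K) : Subgroup X where
  carrier := {g | ρ g * E = E}
  one_mem' := by simp
  mul_mem' {a b} ha hb := by
    change ρ (a * b) * E = E
    rw [map_mul, mul_assoc, hb, ha]
  inv_mem' {a} ha := by
    change ρ a⁻¹ * E = E
    nth_rewrite 1 [← ha]
    rw [← mul_assoc, ← map_mul, inv_mul_cancel, map_one, one_mul]

theorem fixE_conj {E : Mt n K} {g k : X} (hg : g ∈ fixE ρ E) (hk : ρ k * E = E * ρ k) :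
    k * g * k⁻¹ ∈ fixE ρ E := by
  change ρ _ * E = E
  have : ρ k⁻¹ * E = E * ρ k⁻¹ := by
    rw [← mul_one (ρ k⁻¹ * E), ← map_one ρ, ← mul_inv_cancel k, map_mul, ← mul_assoc, mul_assoc _ E, ← hk,
      ← mul_assoc, ← map_mul, inv_mul_cancel, map_one, one_mul]
  rw [map_mul, map_mul, mul_assoc, this, ← mul_assoc, mul_assoc _ _ E, hg, hk, mul_assoc, ← map_mul,
    mul_inv_cancel, map_one, mul_one]

/-- a group of type `A₂` has no module of dimension five in the defining characteristic -/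
theorem core3 [IsAlgClosed K] (p : ℕ) [Fact p.Prime] [CharP K p] {ρ : X →* Mt 5 K} (hi : Function.Injective ρ)
    (hT : NT ρ) {M : Type*} [CommGroup M] [Finite M] (hM : ((Nat.card M : ℕ) : K) ≠ 0)
    (h3 : (Nat.card M).Coprime 3) (t : M × M →* X) (ht : Function.Injective t) {σ τ : X}
    (hσ : ∀ a b, σ * t (a, b) = t ((a * b)⁻¹, a) * σ) (hτ : ∀ a b, τ * t (a, b) = t (b, a) * τ)
    {L : Type*} [Group L] (hq : IsQuasisimple L) (ι : L →* X) (hι : Function.Injective ι) {a : M}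
    (hc : ∀ g, ι g * t (a, a) = t (a, a) * ι g) {l u : L} (hl : ι l = t (a, a⁻¹)) (hz : l ∉ center L)
    (hu : u ^ p = 1) : u = 1 := by
  have a1 : a ≠ 1 := by
    rintro rfl
    rw [inv_one, ← Prod.one_eq_mk, map_one, ← map_one ι] at hl
    exact hz (hι hl ▸ one_mem _)
  have t1 : ∀ c : M, ρ (t (c, c⁻¹)) = 1 → c = 1 := fun c k =>
    congrArg Prod.fst (ht (hi (k.trans (by rw [map_one, map_one])) : t _ = t 1))
  obtain ⟨ρ', r, hs, h⟩ := wt3 ρ hM h3 t hσ hτ ⟨_, mt (t1 a) a1⟩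
  have r1 : ∀ c, r c = 1 → c = 1 := fun c k => t1 c (hs.symm.eq_one ((diag_one (h _ _)).2 fun i => by
    fin_cases i <;> simp [k]))
  have r3 : r a ≠ r (a * a)⁻¹ := fun k => a1 ((powCoprime h3).injective ((r1 _ (by
    rw [powCoprime_apply, pow_three', map_mul, k, ← map_mul, mul_inv_cancel, map_one])).trans (one_pow 3).symm))
  have c : ∀ g, ρ' (ι g) * diagonal ![0, 0, 1, 1, 1] = diagonal ![0, 0, 1, 1, 1] * ρ' (ι g) := fun g =>
    comm_diag (h a a) (congrArg ρ' (hc g)) fun i j => by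
      have := mt (r1 a) a1
      generalize r (a * a)⁻¹ = y at r3
      fin_cases i <;> fin_cases j <;> simp [this, r3, r3.symm, Ne.symm this]
  let Y := (fixE ρ' (diagonal ![0, 0, 1, 1, 1])).comap ι
  have : Y.Normal := ⟨fun g hg k => by
    rw [mem_comap, map_mul, map_mul, map_inv]; exact fixE_conj hg (c k)⟩
  have hY : Y = ⊤ := (H14.quasi_normal hq Y).resolve_right fun k => hz (k (by
    change ρ' (ι l) * _ = _
    rw [hl, h, diagonal_mul_diagonal]
    exact congrArg diagonal (funext fun i => by fin_cases i <;> simp)))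
  refine hι (hi (((hs.symm.eq_one ((hs.nt hT).eq_one (m := p) ?_ (hY.ge (mem_top u)) (c u))).trans ?_)))
  · rw [sub_pow_char_of_commute _ (Commute.one_right _), ← map_pow, ← map_pow, hu, map_one, map_one, one_pow,
      sub_self]
  · rw [map_one, map_one]

end H58.LD
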