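/- NG (rows S4338 to S4340), slot AR: the arithmetic of the degree equation. -/
import Cfsg.Agent.H36.NGSpec

set_option autoImplicit false

namespace H58.NGAr

open H36.NG

theorem one_of {r a : ℕ} (h2 : 2 ≤ r) (h : r ∣ a) (h' : r ∣ a + 1) : False := by
  have := Nat.le_of_dvd one_pos ((Nat.dvd_add_right h).1 h')
  omega

theorem jobAr1 : JobAr1 := by
  intro p U K n e t a1 a2 b2 r d h d1 r2 h1 h2 h3
  obtain ⟨odd, rfl, two, le, hn, te, e2, cnt, hd, eq, -⟩ := h
  obtain ⟨u, rfl⟩ : ∃ u, U = u + 1 := ⟨U - 1, by omega⟩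
  obtain rfl : n = u * (K + 1) + 1 := by nlinarith
  rw [Nat.add_sub_cancel] at h1
  have u1 : 1 ≤ u := by omega
  have te' : t * e = (u + 1) * K := by omega
  have t1 : 1 ≤ t := Nat.pos_of_ne_zero fun q => by rw [q] at te'; nlinarith
  have z : ∀ a x : ℕ, (0 < a → r ∣ x) → (r : ℤ) ∣ a * x := fun a x q => by
    rcases a.eq_zero_or_pos with rfl | l
    · simp
    · exact (Int.natCast_dvd_natCast.2 (q l)).mul_left _
  have k : (r : ℤ) ∣ d + 1 := by
    refine ((((z _ _ h1).add (z _ _ h2)).sub (z _ _ h3)).mul_left (-t)).trans (dvd_of_eq ?_)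
    push_cast at eq ⊢
    linear_combination -eq
  rcases hd with rfl | rfl | rfl | rfl
  · have k' : r ∣ u + 1 := Int.natCast_dvd_natCast.1 (by simpa using k)
    obtain rfl : a1 = 0 := by by_contra q; exact one_of r2 (h1 (by omega)) k'
    have eq' : t * (a2 * (u * (K + 1) + 1)) + (u + 1) = t * (b2 * (K + 1)) := by
      zify; push_cast at eq; linear_combination eq
    have b0 : 0 < b2 := Nat.pos_of_ne_zero fun q => by rw [q] at eq'; simp at eq'
    obtain rfl : a2 = 0 := by by_contra q; exact one_of r2 ((h3 b0).mul_left u) (h2 (by omega))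
    have : 1 * (1 * (K + 1)) ≤ t * (b2 * (K + 1)) := by gcongr; exact b0
    omega
  · have k' : r ∣ u * (K + 1) + 1 + 1 := Int.natCast_dvd_natCast.1 (by simpa using k)
    obtain rfl : a2 = 0 := by by_contra q; exact one_of r2 (h2 (by omega)) k'
    have eq' : t * (a1 * u) + (u * (K + 1) + 2) = t * (b2 * (K + 1)) := by
      zify; push_cast at eq; linear_combination eq
    have b0 : 0 < b2 := Nat.pos_of_ne_zero fun q => by rw [q] at eq'; simp at eq'
    obtain rfl : a1 = 0 := by
      by_contra q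
      have q1 := h1 (by omega)
      obtain rfl : r = 2 := le_antisymm
        (Nat.le_of_dvd two_pos ((Nat.dvd_add_right (q1.mul_right (K + 1))).1 k')) r2
      obtain ⟨x, rfl⟩ := q1
      obtain ⟨y, hy⟩ := h3 b0
      obtain ⟨w, hw⟩ := odd
      have : (2 * x + 1) * K = 2 * (x * K) + K := by ring
      omega
    obtain rfl : e = b2 + 1 := by omega
    have l1 : t ≤ t * b2 := Nat.le_mul_of_pos_right _ b0
    have l2 : t * b2 * 3 ≤ t * b2 * (K + 1) := by gcongr; omega
    nlinarith
  · exact d1 rfl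
  · have k' : r ∣ K := Int.natCast_dvd_natCast.1 (by simpa using k)
    obtain rfl : b2 = 0 := by by_contra q; exact one_of r2 k' (h3 (by omega))
    have eq' : t * (a1 * u) + t * (a2 * (u * (K + 1) + 1)) = K := by
      zify; push_cast at eq; linear_combination eq
    obtain rfl : a2 = 0 := by
      by_contra q
      have : 1 * (1 * (1 * (K + 1) + 1)) ≤ t * (a2 * (u * (K + 1) + 1)) := by gcongr; omega
      omega
    obtain rfl : e = a1 + 1 := by omega
    have u2 : 2 ≤ u := r2.trans (Nat.le_of_dvd u1 (h1 (by omega)))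
    have l1 : t ≤ t * a1 := Nat.le_mul_of_pos_right _ (by omega)
    have l2 : t * a1 * 2 ≤ t * a1 * u := by gcongr
    nlinarith

theorem ring_step {R : Type*} [CommRing R] {u k t : R} (h0 : u + 1 + k = 0) (h1 : k * u = 0)
    (h2 : u * ((u + 1) * k + 1 - t) + 1 = 0) : k = 0 := by
  obtain rfl : u = -1 - k := by linear_combination h0
  linear_combination (-(1 - t - k ^ 2)) * h1 + k * h2

theorem ar2 {u K f t a1 b2 J A B : ℕ} (u1 : 1 ≤ u) (le : u + 1 ≤ K) (te : t * (f + 1) = (u + 1) * K)
    (f1 : 1 ≤ f) (AB : A + B = t * f + 1) (eq : A * u + 1 = B * (K + 1)) (hA : A ≤ t * a1 + 1)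
    (hB : B ≤ t * b2 + 1) (d1 : 0 < a1 → t ∣ K) (d3 : 0 < b2 → t ∣ u + 1) (hJ : t * J = K * B)
    (hl : J ≤ f * ((u * K + 1) / (u + 1 + K)) + (u * (K + 1) + 1) / (u + 1 + K)) :
    (u = 1 ∧ f = 1 ∧ B = 1 ∧ 2 ≤ t) ∨ (K = u + 1 ∧ t = u + 1 ∧ f = u) := by
  have t1 : 1 ≤ t := Nat.pos_of_ne_zero fun q => by rw [q] at te; nlinarith
  have MB : (u + 1 + K) * B = u * (t * f + 1) + 1 := by rw [← AB]; nlinarith
  have JM : J * (u + 1 + K) = f * (u * K + 1) + 1 := by
    refine Nat.eq_of_mul_eq_mul_left t1 ?_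
    zify at hJ MB te ⊢
    linear_combination (u + 1 + K) * hJ + K * MB - te
  have dm := Nat.div_add_mod (u * K + 1) (u + 1 + K)
  have dn := Nat.div_mul_le_self (u * (K + 1) + 1) (u + 1 + K)
  generalize (u * K + 1) / (u + 1 + K) = q at dm hl
  generalize (u * K + 1) % (u + 1 + K) = r at dm
  generalize (u * (K + 1) + 1) / (u + 1 + K) = w at dn hl
  have l1 : f * r ≤ u * (K + 1) := by
    have := Nat.mul_le_mul_right (u + 1 + K) hl
    rw [JM, ← dm] at this
    nlinarith
  rcases Nat.lt_trichotomy B 1 with l | rfl | l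
  · obtain rfl : B = 0 := by omega
    omega
  · obtain rfl : A = t * f := by omega
    have k1 : t ≤ t * f := Nat.le_mul_of_pos_right _ f1
    have k2 : K = t * f * u := by omega
    obtain rfl : u = 1 := by
      by_contra q
      have : t * f * 2 ≤ t * f * u := by gcongr; omega
      have : 3 * K ≤ (u + 1) * K := by gcongr; omega
      nlinarith
    obtain rfl : f = 1 := Nat.eq_of_mul_eq_mul_left t1 (by nlinarith)
    exact Or.inl ⟨rfl, rfl, rfl, by omega⟩
  · obtain ⟨x, hx⟩ := d3 (Nat.pos_of_ne_zero fun q => by rw [q] at hB; omega)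
    obtain ⟨y, rfl⟩ := d1 (Nat.pos_of_ne_zero fun q => by
      rw [q] at hA
      have : A * u ≤ 1 * u := by gcongr; omega
      have : 2 * (K + 1) ≤ B * (K + 1) := by gcongr; omega
      omega)
    have ef : f + 1 = t * (x * y) := Nat.eq_of_mul_eq_mul_left t1 (by rw [te, hx]; ring)
    by_cases c : x * y = 1
    · obtain rfl := Nat.eq_one_of_mul_eq_one_right c
      obtain rfl := Nat.eq_one_of_mul_eq_one_left c
      exact Or.inr ⟨by omega, by omega, by omega⟩
    exfalso
    have c2 : 2 ≤ x * y := by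
      rcases Nat.eq_zero_or_pos (x * y) with q | q
      · rw [q] at ef; omega
      · omega
    have ft : t ≤ f := by
      have : t * 2 ≤ t * (x * y) := by gcongr
      omega
    have rt : r ≤ t := by
      by_contra q
      have : f * (t + 1) ≤ f * r := by gcongr; omega
      nlinarith
    have r1 : (t : ℤ) ∣ r - 1 := ⟨u * y - (x + y) * q, by
      zify at dm hx
      linear_combination dm - q * hx⟩
    rcases Nat.lt_trichotomy r 1 with l' | rfl | l'
    · obtain rfl : r = 0 := by omega
      have : u + 1 + t * y ∣ 1 := (Nat.dvd_add_right (Dvd.intro (f * q) rfl)).1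
        ⟨J, by rw [mul_comm _ J, JM, ← dm]; ring⟩
      have := Nat.le_of_dvd one_pos this
      omega
    · have k0 := ZMod.natCast_self (u + 1 + t * y)
      have k1 := congrArg (Nat.cast : ℕ → ZMod (u + 1 + t * y)) dm
      have k2 := congrArg (Nat.cast : ℕ → ZMod (u + 1 + t * y)) MB
      have k3 := congrArg (Nat.cast : ℕ → ZMod (u + 1 + t * y)) te
      rw [Nat.cast_add, Nat.cast_mul, k0] at k1
      rw [Nat.cast_mul, k0] at k2
      generalize t * y = K at k0 k1 k2 k3 le
      push_cast at k0 k1 k2 k3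
      have k4 : (K : ZMod (u + 1 + K)) = 0 := ring_step (t := t) k0 (by linear_combination -k1)
        (by linear_combination -k2 - u * k3)
      have := Nat.le_of_dvd (by omega) ((ZMod.natCast_eq_zero_iff _ _).1 k4)
      omega
    · have := Int.le_of_dvd (by omega) r1
      omega

theorem jobAr2 : JobAr2 := by
  intro p U K n e t a1 b2 J d h n1 n2 hJ hl
  obtain ⟨-, rfl, two, le, hn, te, e2, cnt, hd, eq, d1, -, d3, -⟩ := h
  obtain ⟨u, rfl⟩ : ∃ u, U = u + 1 := ⟨U - 1, by omega⟩
  obtain ⟨f, rfl⟩ : ∃ f, e = f + 1 := ⟨e - 1, by omega⟩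
  obtain rfl : n = u * (K + 1) + 1 := by nlinarith
  rw [Nat.add_sub_cancel, show (u + 1) * K + 1 - K = u * K + 1 by
    rw [add_mul, one_mul]; omega] at hl
  obtain rfl : f = a1 + b2 := by omega
  rcases hd with rfl | rfl | rfl | rfl
  · rw [if_neg (by push_cast; omega), add_zero] at hJ
    rcases ar2 (A := t * a1 + 1) (by omega) le (by omega) (by omega) (by ring)
      (by zify; push_cast at eq; linear_combination eq) le_rfl (Nat.le_succ _) d1 d3 hJ hl with
      ⟨-, -, k, k'⟩ | k
    · have := Nat.eq_one_of_mul_eq_one_right k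
      omega
    · exact Or.inr ⟨k.1, k.2.1, by omega⟩
  · exact absurd rfl n2
  · exact absurd rfl n1
  · rw [if_pos rfl] at hJ
    rcases ar2 (A := t * a1) (by omega) le (by omega) (by omega) (by ring)
      (by zify; push_cast at eq; linear_combination eq) (Nat.le_succ _) le_rfl d1 d3 hJ hl with
      ⟨k1, k2, k, k'⟩ | k
    · obtain rfl : b2 = 0 := (Nat.mul_eq_zero.1 (by omega : t * b2 = 0)).resolve_left (by omega)
      exact Or.inl ⟨by omega, by omega, by omega, rfl, rfl⟩
    · exact Or.inr ⟨k.1, k.2.1, by omega⟩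

theorem jobAr3 : JobAr3 := by
  intro p U K n e t a1 b1 b2 d h n1 b0 t2
  obtain ⟨-, rfl, two, le, hn, te, e2, cnt, hd, eq, d1, d2, d3, d4⟩ := h
  have te' : t * e = U * K := by omega
  have k : (t : ℤ) ∣ 1 + U - K := by
    refine ((Int.natCast_dvd_natCast.2 (d2 b0)).sub (dvd_mul_right (t : ℤ) e)).trans (dvd_of_eq ?_)
    zify at hn te'
    push_cast
    linear_combination hn - te'
  rcases hd with rfl | rfl | rfl | rfl
  · exfalso
    have eq' : t * (a1 * U) + U = t * a1 + t * (b1 + b2 * (K + 1)) := by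
      zify; push_cast at eq; linear_combination eq
    have k1 : t ∣ U := (Nat.dvd_add_right (dvd_mul_right _ _)).1
      (eq' ▸ (dvd_mul_right _ _).add (dvd_mul_right _ _))
    have k2 : ¬ t ∣ K := fun q => by
      have := (k.sub (Int.natCast_dvd_natCast.2 k1)).add (Int.natCast_dvd_natCast.2 q)
      have := Int.le_of_dvd (by omega) this
      omega
    obtain rfl : a1 = 0 := by by_contra q; exact k2 (d1 (by omega))
    obtain rfl : b2 = 0 := by
      by_contra q
      have : 1 * (0 + 1 * (K + 1)) ≤ t * (b1 + b2 * (K + 1)) := by gcongr <;> omega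
      omega
    obtain rfl : e = b1 + 1 := by omega
    have k3 := Nat.le_of_dvd (by omega) k1
    have k4 : t + U = U * K := by nlinarith
    obtain rfl : K = 2 := by
      by_contra q
      have : U * 3 ≤ U * K := by gcongr; omega
      omega
    exact k2 (by rw [show t = 2 by omega])
  · exact absurd rfl n1
  · exact absurd rfl (d4 t2)
  · have eq' : t * (a1 * U) = t * a1 + t * (b1 + b2 * (K + 1)) + K := by
      zify; push_cast at eq; linear_combination eq
    have k1 : t ∣ K := (Nat.dvd_add_right ((dvd_mul_right _ _).add (dvd_mul_right _ _))).1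
      (eq' ▸ dvd_mul_right _ _)
    have k2 : t ∣ U + 1 := Int.natCast_dvd_natCast.1
      ((k.add (Int.natCast_dvd_natCast.2 k1)).trans (dvd_of_eq (by push_cast; ring)))
    obtain rfl : b2 = 0 := by by_contra q; exact one_of t2 (d3 (by omega)) k2
    obtain ⟨κ, rfl⟩ := k1
    obtain rfl : e = U * κ := Nat.eq_of_mul_eq_mul_left (by omega : 0 < t) (by rw [te']; ring)
    refine ⟨rfl, rfl, k2, κ, rfl, rfl, ?_⟩
    have : a1 * U = a1 + b1 + κ := Nat.eq_of_mul_eq_mul_left (by omega : 0 < t) (by rw [eq']; ring)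
    nlinarith

end H58.NGAr
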