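import Cfsg.Agent.H58.SOTop
import Cfsg.Agent.H78.SORed
import Cfsg.Agent.H91.SOGl
import Cfsg.Agent.H97.SOGU
import Cfsg.Agent.H6.SimOutSp
import Cfsg.Agent.H80.SimO
import Cfsg.Agent.H12.SOOo
import Cfsg.Agent.H13.SOOp
import Cfsg.Agent.H30.SOOm

/-! Tower SIM (S3694), chapter OUT: closed. -/

set_option autoImplicit false

namespace H58.SO

theorem jobOutL : H0.Sim.JobOutL :=
  outL H78.SORed.jobRED H91.SOGl.jobGL H97.SOGU.jobGU H6.SimOutSp.jobSp H80.SimO.jobO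
    H12.SOO.jobOo H13.SOOp.jobOp H30.SOOm.jobOm

theorem jobOutU : H0.Sim.JobOutU :=
  outU H78.SORed.jobRED H97.SOGU.jobGU H6.SimOutSp.jobSp H80.SimO.jobO
    H12.SOO.jobOo H13.SOOp.jobOp H30.SOOm.jobOm

end H58.SO
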