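import Cfsg.Agent.H58.SOSpec
import Cfsg.Agent.H57.PslOut
import Cfsg.Agent.H59.AutMat
import Cfsg.Agent.S2697
import Cfsg.Agent.S2698
import Cfsg.Agent.S2699
import Cfsg.Agent.S2700
import Cfsg.Agent.S2704
import Cfsg.Agent.S2705
import Cfsg.Agent.S2706
import Cfsg.Agent.S2707
import Cfsg.Agent.S2711

/-! Tower SIM (S3694), chapter OUT: the top. -/

set_option autoImplicit false

namespace H58.SO

open Subgroup Cfsg H98 Matrix H0.Sim
open scoped commutatorElement

theorem conjC {X : Type} [Group X] {D : Subgroup X} {x y : X} (h : IsConjUnder D x y) :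
    Nonempty (↥(D ⊓ centralizer ({y} : Set X)) ≃* ↥(D ⊓ centralizer ({x} : Set X))) := by
  obtain ⟨h, hD, rfl⟩ := h
  have e : cj h (D ⊓ centralizer ({x} : Set X)) = D ⊓ centralizer ({h * x * h⁻¹} : Set X) := by
    rw [cj_inf, cj_eq_self_of_mem hD]
    congr 1
    ext g
    rw [mem_cj, mem_centralizer_singleton_iff, mem_centralizer_singleton_iff]
    constructor
    · intro c
      calc g * (h * x * h⁻¹) = h * (h⁻¹ * g * h * x) * h⁻¹ := by group
        _ = h * x * h⁻¹ * g := by rw [c]; group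
    · intro c
      calc h⁻¹ * g * h * x = h⁻¹ * (g * (h * x * h⁻¹)) * h := by group
        _ = x * (h⁻¹ * g * h) := by rw [c]; group
  exact ⟨(((MulAut.conj h).subgroupMap _).trans (MulEquiv.subgroupCongr e)).symm⟩

theorem comm_le_ker {X K : Type*} [Group X] [Group K] (π : X →* K) (h : ∀ a b : K, a * b = b * a) :
    ⁅(⊤ : Subgroup X), (⊤ : Subgroup X)⁆ ≤ π.ker :=
  commutator_le.2 fun a _ b _ => by
    rw [MonoidHom.mem_ker, map_commutatorElement]
    exact commutatorElement_eq_one_iff_mul_comm.2 (h _ _)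

theorem index_ker_le {X K : Type*} [Group X] [Group K] [Finite K] (π : X →* K) :
    π.ker.index ≤ Nat.card K := by
  rw [index_ker]
  exact card_le_card_group _

theorem le_one_of_pow_le {r k : ℕ} (hr : r.Prime) (h : r ^ k ≤ 3) : k ≤ 1 := by
  by_contra c
  have h1 : 2 ^ 2 ≤ r ^ k :=
    (Nat.pow_le_pow_left hr.two_le 2).trans (Nat.pow_le_pow_right hr.pos (by omega))
  omega

theorem le_three {p a b : ℕ} (hp : p.Prime) (h : p ∣ 2 ^ a * 3 ^ b) : p ≤ 3 := by
  rcases (Nat.Prime.dvd_mul hp).1 h with h | h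
  · exact (Nat.le_of_dvd two_pos (hp.dvd_of_dvd_pow h)).trans (by norm_num)
  · exact Nat.le_of_dvd (by norm_num) (hp.dvd_of_dvd_pow h)

theorem ringAut_comm {F : Type} [Field F] [Finite F] (a b : RingAut F) : a * b = b * a :=
  (IsCyclic.isMulCommutative (α := RingAut F)).is_comm.comm a b

theorem oOdd (jo : JobO) (oo : JobOo) {F C : Type} [Field F] [Fintype F] [Group C] {m : ℕ}
    (hF : Odd (Fintype.card F)) (hm : 1 ≤ m) (e : C ≃* PGO F (quadFormOdd m F))
    (h : ¬ HasComponent C) : Fintype.card F = 3 ∧ Nat.card C ≤ 2304 := by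
  rcases oo m F hF hm with c | ⟨c1, c2⟩
  · exact (h (hc_equiv e.symm ((jo _ F _).1 c))).elim
  · have := (jo _ F (quadFormOdd m F)).2
    rw [c1, c2, ← Nat.card_congr e.toEquiv] at this
    exact ⟨c1, by omega⟩

theorem oEven (sp : JobSp) (jo : JobO) (op : JobOp) (om : JobOm) {F C : Type} [Field F] [Fintype F]
    [Group C] {m : ℕ} {a b : F} (hF : Odd (Fintype.card F)) (hm : 2 ≤ m)
    (hab : ∀ z₁ z₂ : F, z₁ ^ 2 + a * z₁ * z₂ + b * z₂ ^ 2 = 0 → z₁ = 0 ∧ z₂ = 0)
    (e : Nonempty (C ≃* PGSp m F) ∨ Nonempty (C ≃* PGO F (quadFormPlus m F)) ∨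
      Nonempty (C ≃* PGO F (quadFormMinus (m - 1) F a b)))
    (h : ¬ HasComponent C) : Fintype.card F = 3 ∧ Nat.card C ≤ 2304 := by
  rcases e with ⟨⟨e⟩⟩ | ⟨⟨e⟩⟩ | ⟨⟨e⟩⟩
  · have h1 : 1 < Fintype.card F := Fintype.one_lt_card
    obtain ⟨k, hk⟩ := hF
    exact (h (hc_equiv e.symm (sp m F hm (by omega)))).elim
  · rcases op m F hF hm with c | ⟨c1, c2⟩
    · exact (h (hc_equiv e.symm ((jo _ F _).1 c))).elim
    · have := (jo _ F (quadFormPlus m F)).2
      rw [c1, c2, ← Nat.card_congr e.toEquiv] at this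
      exact ⟨c1, by omega⟩
  · exact (h (hc_equiv e.symm ((jo _ F _).1 (om m F a b hm hab)))).elim

theorem galois (r k : ℕ) [Fact r.Prime] (hk : k ≠ 0) :
    ∃ (K : Type) (_ : Field K) (_ : Fintype K), Fintype.card K = r ^ k :=
  ⟨GaloisField r k, inferInstance, Fintype.ofFinite _, by
    rw [← @Nat.card_eq_fintype_card _ (Fintype.ofFinite _), GaloisField.card r _ hk]⟩

theorem outU (red : JobRED) (gu : JobGU) (sp : JobSp) (jo : JobO) (oo : JobOo) (op : JobOp)
    (om : JobOm) : JobOutU := by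
  intro n F _ _ q P G H A p g hA hAD hp
  have hF : Fintype.card F = q ^ 2 := by simpa using P.card
  have hn : 3 ≤ n := by
    have h1 := P.two
    have h2 : n ≠ 2 := fun e => by simpa using (P.n2 e).1
    omega
  have hs := P.n3 rfl
  obtain ⟨r, hch, f, hr, hf⟩ := FiniteField.card' F
  have : Fact r.Prime := ⟨hr⟩
  rw [ringChar.eq F r] at hp
  obtain ⟨k, -, hq⟩ := (Nat.dvd_prime_pow hr).1 (show q ∣ r ^ (f : ℕ) by
    rw [← hf, hF]; exact dvd_pow_self q two_ne_zero)
  have hF2 : Fintype.card F = r ^ (2 * k) := by rw [hF, hq, ← pow_mul, mul_comm]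
  have hk : 1 ≤ k := by
    by_contra c
    have h1 : 1 < Fintype.card F := Fintype.one_lt_card
    rw [hF2, show k = 0 by omega] at h1
    simp at h1
  obtain ⟨π, hker, hπ⟩ := H59.exists_aut_psu_proj hF hn hs
  rw [← H59.inndiagPSU_eq_range] at hker
  obtain ⟨x, hxD, hx, hH, hC⟩ := red _ _ G H A (inndiagPSU n F q) p g hA (hker ▸ π.normal_ker)
    (hker ▸ comm_le_ker π ringAut_comm) (by
      rw [H59.inndiagPSU_eq_range, H59.inn_psu_eq, commutator_le]
      rintro _ ⟨a, rfl⟩ _ ⟨b, rfl⟩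
      rw [← map_commutatorElement]
      exact mem_map_of_mem _ (comm_le_ker _ mul_comm
        (commutator_mem_commutator (mem_top a) (mem_top b)))) hAD
  have hi : (inndiagPSU n F q).index ≤ 2 * k := by
    rw [← hker, ← H57.card_ringAut_finite_field hF2]
    exact index_ker_le π
  obtain ⟨d, τ, e⟩ := H59.psu_aut hF hn hs x
  have hd : H59.psuDiag n F q d ∈ inndiagPSU n F q := by
    rw [H59.inndiagPSU_eq_range]; exact ⟨d, rfl⟩
  have hπx : π x = τ := by
    rw [e, map_mul, hπ, show π (H59.psuDiag n F q d) = 1 from (hker ▸ hd : _ ∈ π.ker), one_mul]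
  have hτ : τ ≠ 1 := fun c => hxD (by rw [← hker, MonoidHom.mem_ker, hπx, c])
  have : Fact p.Prime := ⟨hA.pp⟩
  have hτp : orderOf τ = p :=
    orderOf_eq_prime (by rw [← hπx, ← map_pow, ← hx, pow_orderOf_eq_one, map_one]) hτ
  rcases hA.pp.eq_two_or_odd' with p2 | po
  · subst p2
    obtain ⟨K, _, _, hK⟩ := galois r k (by omega)
    rw [← hq] at hK
    have hqo : Odd q := hq ▸ (hr.odd_of_ne_two (Ne.symm hp)).pow
    have cl : IsGraphAutClassPSU x := ⟨hn, _, _, τ, by rw [hτp]; exact even_two,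
      (H59.isInnerDiagonalAutPSU_iff _).2 ⟨d, rfl⟩, (H59.isFieldAutPSUOf_iff τ _).2 rfl, e⟩
    have key : Fintype.card K = 3 ∧
        Nat.card ↥(inndiagPSU n F q ⊓ centralizer ({x} : Set _)) ≤ 2304 := by
      rcases Nat.even_or_odd' n with ⟨m, hm | hm⟩
      · obtain ⟨γ₁, γ₂, γ₃, a, b, hab, -, -, -, -, -, -, -, -, -, hall, ⟨e1⟩, ⟨e2⟩, ⟨e3⟩⟩ :=
          Cfsg.Agent.S2707.result hqo hF (show 2 ≤ m by omega) hm K hK
        refine oEven sp jo op om (hK ▸ hqo) (show 2 ≤ m by omega) hab ?_ hC.1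
        exact (hall x cl hx).imp (fun c => (conjC c).map fun z => z.trans e1)
          (Or.imp (fun c => (conjC c).map fun z => z.trans e2)
            fun c => (conjC c).map fun z => z.trans e3)
      · obtain ⟨⟨e1⟩, -⟩ := Cfsg.Agent.S2706.result hq hk hF hn hs hm K hK x x cl hx cl hx
        exact oOdd jo oo (hK ▸ hqo) (show 1 ≤ m by omega) e1 hC.1
    have h1 : k ≤ 1 := le_one_of_pow_le hr (by rw [← hq, ← hK, key.1])
    calc _ ≤ _ := hH
      _ ≤ 2304 * 2 := Nat.mul_le_mul key.2 (by omega)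
      _ ≤ 31104 := by norm_num
  · have hφ : orderOf (H59.psuField n F q τ) = p := by
      rw [orderOf_injective _ (H59.psuField_injective hF hn), hτp]
    have cl : IsFieldAutClassPSU (H59.psuField n F q τ) :=
      ⟨1, _, τ, hτ, hτp ▸ po, (H59.isFieldAutPSUOf_iff τ _).2 rfl, by simp⟩
    have hc := (Cfsg.Agent.S2711.result hq hk hF hn hs _ _ cl hA.pp hφ hd).1 (e ▸ hx)
    rw [← e] at hc
    have hpk : p ∣ k := by
      have h1 : p ∣ 2 * k := by
        rw [← H57.card_ringAut_finite_field hF2, ← hτp]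
        exact orderOf_dvd_natCard τ
      exact (Nat.coprime_two_right.2 po).dvd_of_dvd_mul_left h1
    have hkp : 1 ≤ k / p := Nat.div_pos (Nat.le_of_dvd hk hpk) hA.pp.pos
    obtain ⟨K, _, _, hK⟩ := galois r (2 * (k / p)) (by omega)
    obtain ⟨-, ⟨e1⟩, -⟩ := Cfsg.Agent.S2705.result hq hk hF hn hs _ cl hA.pp po hφ K hK
    obtain ⟨e0⟩ := conjC hc
    have hC' := hC.equiv (e0.trans e1)
    obtain ⟨-, h2, h3, h4⟩ := (gu n K (r ^ (k / p)) (by rw [hK, ← pow_mul, mul_comm]) hn).resolve_left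
      hC'.1
    have h5 : p ≤ 3 := le_three (a := 3) (b := 4) hA.pp ((hC'.2.resolve_left h4).trans h3)
    have h6 : k / p ≤ 1 := le_one_of_pow_le hr (by omega)
    have h7 : k ≤ 3 := by
      rw [← Nat.mul_div_cancel' hpk]
      exact (Nat.mul_le_mul h5 h6).trans (by norm_num)
    rw [Nat.card_congr (e0.trans e1).toEquiv] at hH
    calc _ ≤ _ := hH
      _ ≤ 648 * 6 := Nat.mul_le_mul (Nat.le_of_dvd (by norm_num) h3) (by omega)
      _ ≤ 31104 := by norm_num

theorem projL (n : ℕ) (F : Type) [Field F] [Fintype F] (hn : 2 ≤ n) :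
    ∃ π : MulAut (PL n F) →* RingAut F × Multiplicative (ZMod 2), π.ker = inndiagPSL n F ∧
      (∀ σ, π (H57.pslField (Fin n) F σ) = (σ, 1)) ∧
      (3 ≤ n → ∀ c, π (H57.pslFieldGraph (Fin n) F c) = c) := by
  rw [H57.inndiagPSL_eq_range]
  rcases hn.eq_or_lt with rfl | h3
  · obtain ⟨π, h1, h2⟩ := H57.exists_aut_psl_two_proj (F := F)
    refine ⟨(MonoidHom.inl _ _).comp π, ?_, fun σ => by simp [h2], fun c => by omega⟩
    rw [← h1]
    ext x
    simp [MonoidHom.mem_ker]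
  · obtain ⟨π, h1, h2⟩ := H57.exists_aut_psl_proj (F := F) (n := n) h3
    exact ⟨π, h1, fun σ => by rw [← H57.pslFieldGraph_one, h2], fun _ => h2⟩

theorem outL (red : JobRED) (gl : JobGL) (gu : JobGU) (sp : JobSp) (jo : JobO) (oo : JobOo)
    (op : JobOp) (om : JobOm) : JobOutL := by
  intro n F _ _ q P G H A p g hA hAD hp
  have hn := P.two
  have hs : n = 2 → 4 ≤ Fintype.card F := fun e => by
    have h1 := P.card
    simp only [Bool.false_eq_true, if_false] at h1
    rw [h1]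
    exact (P.n2 e).2
  obtain ⟨r, hch, ⟨f, hf⟩, hr, hF⟩ := FiniteField.card' F
  change Fintype.card F = r ^ f at hF
  have : Fact r.Prime := ⟨hr⟩
  rw [ringChar.eq F r] at hp
  obtain ⟨π, hker, hπ, hπ'⟩ := projL n F hn
  obtain ⟨x, hxD, hx, hH, hC⟩ := red _ _ G H A (inndiagPSL n F) p g hA (hker ▸ π.normal_ker)
    (hker ▸ comm_le_ker π fun a b => Prod.ext (ringAut_comm _ _) (mul_comm _ _)) (by
      rw [H57.inndiagPSL_eq_range, H57.inn_psl_eq, commutator_le]
      rintro _ ⟨a, rfl⟩ _ ⟨b, rfl⟩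
      rw [← map_commutatorElement]
      exact mem_map_of_mem _ (comm_le_ker _ mul_comm
        (commutator_mem_commutator (mem_top a) (mem_top b)))) hAD
  have hi : (inndiagPSL n F).index ≤ f * 2 := by
    have h1 := index_ker_le π
    rw [hker, Nat.card_prod, H57.card_ringAut_finite_field hF] at h1
    simpa using h1
  have hd : ∀ d, H57.pslDiag (Fin n) F d ∈ inndiagPSL n F := fun d => by
    rw [H57.inndiagPSL_eq_range]; exact ⟨d, rfl⟩
  have hd1 : ∀ d, π (H57.pslDiag (Fin n) F d) = 1 := fun d => (hker ▸ hd d : _ ∈ π.ker)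
  have : Fact p.Prime := ⟨hA.pp⟩
  have hxp : π x ^ p = 1 := by rw [← map_pow, ← hx, pow_orderOf_eq_one, map_one]
  obtain ⟨d, σ, e | ⟨h3, e⟩⟩ := H57.psl_aut x
  · have hπx : π x = (σ, 1) := by rw [e, map_mul, hd1, hπ, one_mul]
    have hσ : σ ≠ 1 := fun c => hxD (by rw [← hker, MonoidHom.mem_ker, hπx, c]; rfl)
    have hσp : orderOf σ = p := orderOf_eq_prime (by
      rw [hπx] at hxp; exact congrArg Prod.fst hxp) hσ
    have : Nontrivial (Fin n) := Fin.nontrivial_iff_two_le.2 hn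
    have hφ : orderOf (H57.pslField (Fin n) F σ) = p := by
      rw [orderOf_injective _ H57.pslField_injective, hσp]
    have cl : IsFieldAutClassPSL (H57.pslField (Fin n) F σ) :=
      ⟨1, σ, hσ, H57.isStdFieldAutPSL_iff.2 (by simp)⟩
    have hc := (Cfsg.Agent.S2697.result hF hf hn hs _ _ (Or.inl cl) hA.pp hφ (hd d)).1 (e ▸ hx)
    rw [← e] at hc
    have hpf : p ∣ f := by
      rw [← H57.card_ringAut_finite_field hF, ← hσp]
      exact orderOf_dvd_natCard σ
    have hkp : 1 ≤ f / p := Nat.div_pos (Nat.le_of_dvd hf hpf) hA.pp.pos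
    obtain ⟨K, _, _, hK⟩ := galois r (f / p) (by omega)
    obtain ⟨-, ⟨e1⟩, -⟩ := Cfsg.Agent.S2698.result hF hf hn hs _ cl hA.pp hφ K hK
    obtain ⟨e0⟩ := conjC hc
    have hC' := hC.equiv (e0.trans e1)
    obtain ⟨-, h2, h3, h4⟩ := (gl n K hn).resolve_left hC'.1
    have h5 : p ≤ 3 := le_three (a := 4) (b := 1) hA.pp ((hC'.2.resolve_left h4).trans h3)
    have h6 : f / p ≤ 1 := le_one_of_pow_le hr (by omega)
    have h7 : f ≤ 3 := by
      rw [← Nat.mul_div_cancel' hpf]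
      exact (Nat.mul_le_mul h5 h6).trans (by norm_num)
    rw [Nat.card_congr (e0.trans e1).toEquiv] at hH
    calc _ ≤ _ := hH
      _ ≤ 48 * 6 := Nat.mul_le_mul (Nat.le_of_dvd (by norm_num) h3) (by omega)
      _ ≤ 31104 := by norm_num
  · rw [mul_assoc, ← H57.pslFieldGraph_ofAdd_one] at e
    have hπx : π x = (σ, Multiplicative.ofAdd 1) := by rw [e, map_mul, hd1, hπ' h3, one_mul]
    rw [hπx] at hxp
    have p2 : p = 2 := by
      have h1 : (Multiplicative.ofAdd (1 : ZMod 2)) ^ p = 1 := congrArg Prod.snd hxp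
      have h2 : ((p : ℕ) : ZMod 2) = 0 := by
        rw [← ofAdd_nsmul, nsmul_one] at h1
        exact ofAdd_eq_one.1 h1
      exact ((Nat.prime_dvd_prime_iff_eq Nat.prime_two hA.pp).1
        ((ZMod.natCast_eq_zero_iff p 2).1 h2)).symm
    subst p2
    have hqo : Odd (Fintype.card F) := hF ▸ (hr.odd_of_ne_two (Ne.symm hp)).pow
    by_cases hσ : σ = 1
    · have cl : IsGraphAutClassPSL x := ⟨h3, _, _, H57.isInnerDiagonalAutPSL_iff.2 ⟨d, rfl⟩,
        H57.isInverseTransposeAutPSL_iff.2 rfl, by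
          rw [e, H57.pslFieldGraph_ofAdd_one, hσ, map_one, one_mul]⟩
      have key : Fintype.card F = 3 ∧
          Nat.card ↥(inndiagPSL n F ⊓ centralizer ({x} : Set _)) ≤ 2304 := by
        rcases Nat.even_or_odd' n with ⟨m, hm | hm⟩
        · obtain ⟨γ₁, γ₂, γ₃, a, b, hab, -, -, -, -, -, -, -, -, -, hall, ⟨e1⟩, ⟨e2⟩, ⟨e3⟩⟩ :=
            Cfsg.Agent.S2700.result hqo (show 2 ≤ m by omega) hm
          refine oEven sp jo op om hqo (show 2 ≤ m by omega) hab ?_ hC.1
          exact (hall x cl hx).imp (fun c => (conjC c).map fun z => z.trans e1)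
            (Or.imp (fun c => (conjC c).map fun z => z.trans e2)
              fun c => (conjC c).map fun z => z.trans e3)
        · obtain ⟨⟨e1⟩, -⟩ := Cfsg.Agent.S2699.result hF hf h3 hm x x cl hx cl hx
          exact oOdd jo oo hqo (show 1 ≤ m by omega) e1 hC.1
      have h1 : f ≤ 1 := le_one_of_pow_le hr (by rw [← hF, key.1])
      calc _ ≤ _ := hH
        _ ≤ 2304 * 2 := Nat.mul_le_mul key.2 (by omega)
        _ ≤ 31104 := by norm_num
    · have hφ : orderOf (H57.pslFieldGraph (Fin n) F (σ, Multiplicative.ofAdd 1)) = 2 :=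
        orderOf_eq_prime (by rw [← map_pow, hxp, map_one]) fun c => by
          have h1 := hπ' h3 (σ, Multiplicative.ofAdd 1)
          rw [c, map_one] at h1
          exact hσ (congrArg Prod.fst h1).symm
      have cl : IsGraphFieldAutClassPSL (H57.pslFieldGraph (Fin n) F (σ, Multiplicative.ofAdd 1)) :=
        ⟨h3, 1, _, _, σ, hσ, H57.isStdFieldAutPSL_iff.2 rfl, H57.isInverseTransposeAutPSL_iff.2 rfl,
          by rw [H57.pslFieldGraph_ofAdd_one]; simp⟩
      have hc := (Cfsg.Agent.S2697.result hF hf hn hs _ _ (Or.inr cl) hA.pp hφ (hd d)).1 (e ▸ hx)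
      rw [← e] at hc
      obtain ⟨hev, -, ⟨e1⟩, -⟩ := Cfsg.Agent.S2704.result hF hf h3 _ cl hφ
      obtain ⟨e0⟩ := conjC hc
      have hF2 : Fintype.card F = (r ^ (f / 2)) ^ 2 := by
        rw [hF, ← pow_mul, Nat.div_mul_cancel hev.two_dvd]
      obtain ⟨-, h2, -⟩ := (gu n F _ hF2 h3).resolve_left (hC.equiv (e0.trans e1)).1
      rw [hF2, h2] at hqo
      exact absurd hqo (by decide)

end H58.SO
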