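import Cfsg.Agent.H53.COrth
import Cfsg.Agent.H93.O2A

/-! Unipotent isometries `1 + T` of quadratic spaces in characteristic `2`: the calculus of the
values `B (T^a x) (T^b y)`, `Q (T^j x)` and normal forms of generators of blocks. -/

set_option autoImplicit false

namespace H58.W2

open Module QuadraticMap H93.O2

variable {F V : Type*} [Field F] [AddCommGroup V] [Module F V] {Q : QuadraticForm F V}
  {T : End F V} {x y z : V} {a b i j k m : ℕ} {U : Submodule F V}

/-- `1 + T` is an isometry of `Q`, characteristic `2`. -/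
structure U2 (Q : QuadraticForm F V) (T : End F V) : Prop where
  two : (2 : F) = 0
  inv : ∀ v, Q (T v) = polar Q v (T v)

/-- the values of the polar form on the iterates -/
def g (Q : QuadraticForm F V) (T : End F V) (a b : ℕ) (x y : V) : F :=
  polar Q ((T ^ a) x) ((T ^ b) y)

/-- the values of the quadratic form on the iterates -/
def n (Q : QuadraticForm F V) (T : End F V) (j : ℕ) (x : V) : F := Q ((T ^ j) x)

theorem pow_pow_apply (T : End F V) (a i : ℕ) (x : V) : (T ^ a) ((T ^ i) x) = (T ^ (a + i)) x := by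
  rw [pow_add, End.mul_apply]

theorem pow_zero_of_le (h : (T ^ m) x = 0) (hm : m ≤ a) : (T ^ a) x = 0 := by
  obtain ⟨c, rfl⟩ := Nat.exists_eq_add_of_le' hm
  rw [← pow_pow_apply, h, map_zero]

theorem pow_mem (hU : ∀ v ∈ U, T v ∈ U) (hx : x ∈ U) (i : ℕ) : (T ^ i) x ∈ U := by
  induction i with
  | zero => simpa
  | succ i ih => rw [pow_succ', End.mul_apply]; exact hU _ ih

theorem g_comm : g Q T a b x y = g Q T b a y x := polar_comm _ _ _

theorem g_add_left : g Q T a b (x + z) y = g Q T a b x y + g Q T a b z y := by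
  simp [g, polar_add_left]

theorem g_add_right : g Q T a b x (y + z) = g Q T a b x y + g Q T a b x z := by
  simp [g, polar_add_right]

theorem g_smul_left (c : F) : g Q T a b (c • x) y = c * g Q T a b x y := by
  simp [g, polar_smul_left]

theorem g_smul_right (c : F) : g Q T a b x (c • y) = c * g Q T a b x y := by
  simp [g, polar_smul_right]

theorem g_pow_left : g Q T a b ((T ^ i) x) y = g Q T (a + i) b x y := by
  rw [g, pow_pow_apply, g]

theorem g_pow_right : g Q T a b x ((T ^ i) y) = g Q T a (b + i) x y := by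
  rw [g, pow_pow_apply, g]

theorem n_add : n Q T j (x + y) = n Q T j x + n Q T j y + g Q T j j x y := by
  rw [n, map_add, H58.Q_add]; rfl

theorem n_smul (c : F) : n Q T j (c • x) = c * c * n Q T j x := by
  rw [n, map_smul, H56.Q_smul]; rfl

theorem n_pow : n Q T j ((T ^ i) x) = n Q T (j + i) x := by rw [n, pow_pow_apply, n]

namespace U2

variable (h : U2 Q T)
include h

theorem add_self (c : F) : c + c = 0 := by linear_combination c * h.two

theorem g_self : g Q T a a x x = 0 := polar_self2 h.two _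

theorem polar_rec (x y : V) : polar Q (T x) y = polar Q x (T y) + polar Q (T x) (T y) := by
  have h1 := h.inv (x + y)
  rw [map_add, H58.Q_add, h.inv, h.inv, polar_add_left, polar_add_right, polar_add_right,
    polar_comm Q y (T x)] at h1
  linear_combination -h1 - polar Q x (T y) * h.two

theorem g_rec : g Q T (a + 1) b x y = g Q T a (b + 1) x y + g Q T (a + 1) (b + 1) x y := by
  simp only [g, pow_succ', End.mul_apply]
  exact h.polar_rec _ _

theorem n_succ : n Q T (j + 1) x = g Q T j (j + 1) x x := by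
  simp only [g, n, pow_succ', End.mul_apply]
  exact h.inv _

theorem g_of_row (hy : (T ^ m) y = 0) {s : ℕ} (h0 : ∀ b, s ≤ b → g Q T 0 b x y = 0) (a b : ℕ)
    (hab : s ≤ a + b) : g Q T a b x y = 0 := by
  have key : ∀ k a b, m ≤ b + k → s ≤ a + b → g Q T a b x y = 0 := fun k => by
    induction k with
    | zero => exact fun a b h1 _ => by rw [g, pow_zero_of_le hy (by omega : m ≤ b), polar_zero_right]
    | succ k ih =>
      rintro (_ | a) b h1 h2
      · exact h0 b (by omega)
      · rw [h.g_rec, ih _ _ (by omega) (by omega), ih _ _ (by omega) (by omega), add_zero]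
  exact key m a b (by omega) hab

theorem g_zero (hy : (T ^ m) y = 0) (hab : m ≤ a + b) : g Q T a b x y = 0 :=
  h.g_of_row hy (fun b hb => by rw [g, pow_zero_of_le hy hb, polar_zero_right]) a b hab

theorem g_top (hy : (T ^ (m + 1)) y = 0) (hab : a + b = m) : g Q T a b x y = g Q T 0 m x y := by
  induction a generalizing b with
  | zero => rw [← hab, zero_add]
  | succ a ih =>
    rw [h.g_rec, ih (by omega), h.g_zero hy (a := a + 1) (b := b + 1) (by omega), add_zero]

theorem top_comm (hx : (T ^ (m + 1)) x = 0) : g Q T 0 m y x = g Q T 0 m x y := by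
  rw [← h.g_top hx (a := m) (b := 0) rfl, g_comm]

theorem g_alt (hy : (T ^ (m + 1)) y = 0) (h0 : g Q T 0 m y y = 0) (hab : m ≤ a + b) :
    g Q T a b y y = 0 := by
  rcases hab.eq_or_lt with h1 | h1
  · rw [h.g_top hy h1.symm, h0]
  · exact h.g_zero hy h1

theorem n_alt (hy : (T ^ (m + 1)) y = 0) (h0 : g Q T 0 m y y = 0) (hj : m < 2 * j) :
    n Q T j y = 0 := by
  obtain ⟨j, rfl⟩ : ∃ i, j = i + 1 := ⟨j - 1, by omega⟩
  rw [h.n_succ, h.g_alt hy h0 (by omega)]

theorem n_zero (hy : (T ^ m) y = 0) (hj : m < 2 * j) : n Q T j y = 0 := by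
  obtain ⟨j, rfl⟩ : ∃ i, j = i + 1 := ⟨j - 1, by omega⟩
  rw [h.n_succ, h.g_zero hy (by omega)]

theorem top_odd (hy : (T ^ (2 * k + 2)) y = 0) : g Q T 0 (2 * k + 1) y y = n Q T (k + 1) y := by
  rw [h.n_succ, h.g_top (m := 2 * k + 1) (a := k) (b := k + 1) hy (by omega)]

theorem top_even (hy : (T ^ (2 * k + 1)) y = 0) : g Q T 0 (2 * k) x y = g Q T k k x y := by
  rw [h.g_top (a := k) (b := k) hy (by omega)]

/-- the values on a cyclic submodule vanish if the norms do -/
theorem g_self_of_n (hn : ∀ j, n Q T (j + 1) x = 0) (a b : ℕ) : g Q T a b x x = 0 := by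
  have key : ∀ d a, g Q T a (a + d) x x = 0 ∧ g Q T a (a + d + 1) x x = 0 := fun d => by
    induction d with
    | zero => exact fun a => ⟨h.g_self, by rw [add_zero, ← h.n_succ, hn]⟩
    | succ d ih =>
      refine fun a => ⟨(ih a).2, ?_⟩
      have h1 := h.g_rec (a := a) (b := a + d + 1) (x := x) (y := x)
      have h2 := (ih (a + 1)).1
      have h3 := (ih (a + 1)).2
      rw [show a + 1 + d = a + d + 1 by omega] at h2 h3
      rw [h2, h3, add_zero] at h1
      exact h1.symm
  rcases le_total a b with h1 | h1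
  · obtain ⟨d, rfl⟩ := Nat.exists_eq_add_of_le h1
    exact (key d a).1
  · obtain ⟨d, rfl⟩ := Nat.exists_eq_add_of_le h1
    rw [g_comm]; exact (key d b).1

/-- normalising the generator of a cyclic block -/
theorem fixV (hU : ∀ v ∈ U, T v ∈ U) (hm : ∀ v ∈ U, (T ^ (2 * k + 2)) v = 0) (hx : x ∈ U)
    (h1 : n Q T (k + 1) x = 1) : ∃ x' ∈ U, n Q T (k + 1) x' = 1 ∧ n Q T k x' = n Q T k x ∧
      ∀ j < k, n Q T j x' = 0 := by
  have key : ∀ d i, i + d = k → ∃ x' ∈ U, n Q T (k + 1) x' = 1 ∧ n Q T k x' = n Q T k x ∧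
      ∀ j, i ≤ j → j < k → n Q T j x' = 0 := fun d => by
    induction d with
    | zero => exact fun i hi => ⟨x, hx, h1, rfl, fun j _ _ => by omega⟩
    | succ d ih =>
      intro i hi
      obtain ⟨y, hy, p1, p2, p3⟩ := ih (i + 1) (by omega)
      have e : ∀ j, i ≤ j → n Q T j (y + n Q T i y • (T ^ (2 * d + 3)) y) =
          n Q T j y + n Q T i y * g Q T j (j + (2 * d + 3)) y y := fun j hj => by
        rw [n_add, n_smul, n_pow, g_smul_right, g_pow_right,
          h.n_zero (j := j + (2 * d + 3)) (hm y hy) (by omega)]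
        ring
      have e' : ∀ j, i < j → n Q T j (y + n Q T i y • (T ^ (2 * d + 3)) y) = n Q T j y :=
        fun j hj => by rw [e j hj.le, h.g_zero (hm y hy) (by omega), mul_zero, add_zero]
      refine ⟨_, U.add_mem hy (U.smul_mem _ (pow_mem hU hy (2 * d + 3))), by
        rw [e' _ (by omega), p1], by rw [e' _ (by omega), p2], fun j h2 h3 => ?_⟩
      rcases h2.eq_or_lt with rfl | h2
      · rw [e _ le_rfl, h.g_top (m := 2 * k + 1) (hm y hy) (by omega), h.top_odd (hm y hy), p1,
          mul_one, h.add_self]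
      · rw [e' j h2, p3 j h2 h3]
  obtain ⟨x', p0, p1, p2, p3⟩ := key k 0 (zero_add k)
  exact ⟨x', p0, p1, p2, fun j hj => p3 j j.zero_le hj⟩

theorem fixY (hU : ∀ v ∈ U, T v ∈ U) (hm : ∀ v ∈ U, (T ^ (m + 1)) v = 0) (hx : x ∈ U) (hy : y ∈ U)
    (h1 : g Q T 0 m x y = 1) (h2 : g Q T 0 m x x = 0) (h3 : g Q T 0 m y y = 0) :
    ∃ y' ∈ U, g Q T 0 m x y' = 1 ∧ g Q T 0 m y' y' = 0 ∧ (∀ j < m, g Q T 0 j x y' = 0) ∧
      (∀ j, 2 * j < m → n Q T j y' = 0) ∧ ∀ j, 2 * j = m → n Q T j y' = n Q T j y := by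
  have alt : ∀ y ∈ U, ∀ z ∈ U, ∀ (c : F) s, g Q T 0 m y y = 0 →
      g Q T 0 m (y + c • (T ^ (s + 1)) z) (y + c • (T ^ (s + 1)) z) = 0 := fun y hy z hz c s h0 => by
    simp only [g_add_left, g_add_right, g_smul_left, g_smul_right, g_pow_left, g_pow_right, h0]
    rw [h.g_zero (hm z hz) (by omega), h.g_zero (hm y hy) (by omega),
      h.g_zero (hm z hz) (by omega)]
    simp
  have nn : ∀ y, ∀ z ∈ U, ∀ (c : F) s j, g Q T 0 m z z = 0 → m ≤ 2 * j + (s + 1) →
      n Q T j (y + c • (T ^ (s + 1)) z) = n Q T j y + c * g Q T j (j + (s + 1)) y z :=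
    fun y z hz c s j h0 hj => by
      rw [n_add, n_smul, n_pow, g_smul_right, g_pow_right, h.n_alt (hm z hz) h0 (by omega)]
      ring
  have key : ∀ s d, d + s = m → ∃ y' ∈ U, g Q T 0 m x y' = 1 ∧ g Q T 0 m y' y' = 0 ∧
      (∀ j, d ≤ j → j < m → g Q T 0 j x y' = 0) ∧ (∀ j, d ≤ 2 * j → 2 * j < m → n Q T j y' = 0) ∧
      ∀ j, 2 * j = m → n Q T j y' = n Q T j y := fun s => by
    induction s with
    | zero => exact fun d hd => ⟨y, hy, h1, h3, fun j _ _ => by omega, fun j _ _ => by omega,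
        fun _ _ => rfl⟩
    | succ s ih =>
      intro d hd
      obtain ⟨u, hu, p1, p2, p3, p4, p5⟩ := ih (d + 1) (by omega)
      obtain ⟨v, hv, q1, q2, q3, q4⟩ : ∃ v ∈ U, g Q T 0 m x v = 1 ∧ g Q T 0 m v v = 0 ∧
          (∀ j, d ≤ j → j < m → g Q T 0 j x v = 0) ∧ ∀ j, d ≤ 2 * j → n Q T j v = n Q T j u := by
        refine ⟨u + g Q T 0 d x u • (T ^ (s + 1)) u, U.add_mem hu (U.smul_mem _ (pow_mem hU hu _)),
          ?_, alt u hu u hu _ _ p2, fun j j1 j2 => ?_, fun j j1 => ?_⟩
        · rw [g_add_right, g_smul_right, g_pow_right, p1,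
            h.g_zero (b := m + (s + 1)) (hm u hu) (by omega)]; simp
        · rw [g_add_right, g_smul_right, g_pow_right]
          rcases j1.eq_or_lt with rfl | j1
          · rw [hd, p1, mul_one, h.add_self]
          · rw [p3 j j1 j2, h.g_zero (b := j + (s + 1)) (hm u hu) (by omega)]; simp
        · rw [nn u u hu _ s j p2 (by omega), h.g_alt (hm u hu) p2 (by omega)]; simp
      have e : ∀ (c : F) j, d < 2 * j → n Q T j (v + c • (T ^ (s + 1)) x) = n Q T j u :=
        fun c j hj => by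
          rw [nn v x hx c s j h2 (by omega), h.g_zero (hm x hx) (by omega), q4 j hj.le]; simp
      have e' : ∀ (c : F) j, d ≤ j → g Q T 0 j x (v + c • (T ^ (s + 1)) x) = g Q T 0 j x v :=
        fun c j hj => by
          rw [g_add_right, g_smul_right, g_pow_right, h.g_alt (hm x hx) h2 (by omega)]; simp
      refine ⟨v + n Q T (d / 2) v • (T ^ (s + 1)) x, U.add_mem hv (U.smul_mem _ (pow_mem hU hx _)),
        by rw [e' _ _ (by omega), q1], alt v hv x hx _ _ q2, fun j j1 j2 => by
          rw [e' _ _ j1, q3 j j1 j2], fun j j1 j2 => ?_, fun j j1 => by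
          rw [e _ j (by omega), p5 j j1]⟩
      rcases j1.eq_or_lt with j1 | j1
      · rw [nn v x hx _ s j h2 (by omega), h.g_top (hm x hx) (by omega), h.top_comm (hm x hx), q1,
          show d / 2 = j by omega, mul_one, h.add_self]
      · rw [e _ j j1, p4 j j1 j2]
  obtain ⟨y', p0, p1, p2, p3, p4, p5⟩ := key m 0 (zero_add m)
  exact ⟨y', p0, p1, p2, fun j => p3 j j.zero_le, fun j => p4 j (Nat.zero_le _), p5⟩

/-- normalising the two generators of a block of rank two -/
theorem fixW (hU : ∀ v ∈ U, T v ∈ U) (hm : ∀ v ∈ U, (T ^ (m + 1)) v = 0) (hx : x ∈ U) (hy : y ∈ U)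
    (h1 : g Q T 0 m x y = 1) (h2 : g Q T 0 m x x = 0) (h3 : g Q T 0 m y y = 0) :
    ∃ x' ∈ U, ∃ y' ∈ U, ∀ j, g Q T 0 j x' y' = (if j = m then 1 else 0) ∧
      n Q T j x' = (if 2 * j = m then n Q T j x else 0) ∧
      n Q T j y' = (if 2 * j = m then n Q T j y else 0) := by
  obtain ⟨x', hx', p1, p2, -, p4, p5⟩ := h.fixY hU hm hy hx (by rw [h.top_comm (hm x hx), h1]) h3 h2
  obtain ⟨y', hy', q1, q2, q3, q4, q5⟩ := h.fixY hU hm hx' hy
    (by rw [← h.top_comm (hm x' hx'), p1]) p2 h3
  refine ⟨x', hx', y', hy', fun j => ⟨?_, ?_, ?_⟩⟩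
  · split_ifs with h0
    · rw [h0, q1]
    · rcases lt_or_gt_of_ne h0 with h0 | h0
      · exact q3 j h0
      · exact h.g_zero (hm y' hy') (by omega)
  · split_ifs with h0
    · exact p5 j h0
    · rcases lt_or_gt_of_ne h0 with h0 | h0
      · exact p4 j h0
      · exact h.n_alt (hm x' hx') p2 h0
  · split_ifs with h0
    · exact q5 j h0
    · rcases lt_or_gt_of_ne h0 with h0 | h0
      · exact q4 j h0
      · exact h.n_alt (hm y' hy') q2 h0

end U2

end H58.W2
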