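import Cfsg.Agent.H58.W2A

/-! Blocks of a unipotent isometry in characteristic `2`: spans of iterates, nondegeneracy,
dimension, splitting off a block. -/

set_option autoImplicit false

namespace H58.W2

open Module QuadraticMap H93.O2 H56 Submodule

variable {F V : Type*} [Field F] [AddCommGroup V] [Module F V] {Q : QuadraticForm F V}
  {T : End F V} {x y z v w : V} {a b i j k m r s : ℕ} {U : Submodule F V}

/-- the span of the iterates of `x` and `y` from the `r`-th on -/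
def sp (T : End F V) (r : ℕ) (x y : V) : Submodule F V :=
  span F {v | ∃ j, r ≤ j ∧ (v = (T ^ j) x ∨ v = (T ^ j) y)}

theorem sp_x (h : r ≤ j) : (T ^ j) x ∈ sp T r x y := subset_span ⟨j, h, .inl rfl⟩

theorem sp_y (h : r ≤ j) : (T ^ j) y ∈ sp T r x y := subset_span ⟨j, h, .inr rfl⟩

theorem sp_le (h : ∀ j, r ≤ j → (T ^ j) x ∈ U ∧ (T ^ j) y ∈ U) : sp T r x y ≤ U :=
  span_le.2 (by rintro _ ⟨j, hj, rfl | rfl⟩; exacts [(h j hj).1, (h j hj).2])

theorem sp_anti (h : r ≤ s) : sp T s x y ≤ sp T r x y :=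
  sp_le fun _ hj => ⟨sp_x (h.trans hj), sp_y (h.trans hj)⟩

theorem sp_eq : sp T r x y = span F {(T ^ r) x, (T ^ r) y} ⊔ sp T (r + 1) x y := by
  refine le_antisymm (sp_le fun j hj => ?_) (sup_le (span_le.2 ?_) (sp_anti r.le_succ))
  · rcases hj.eq_or_lt with rfl | hj
    · exact ⟨mem_sup_left (subset_span (by simp)), mem_sup_left (subset_span (by simp))⟩
    · exact ⟨mem_sup_right (sp_x hj), mem_sup_right (sp_y hj)⟩
  · rintro _ (rfl | rfl)
    exacts [sp_x le_rfl, sp_y le_rfl]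

theorem sp_succ (hv : v ∈ sp T r x y) :
    ∃ (c d : F), ∃ w ∈ sp T (r + 1) x y, v = c • (T ^ r) x + d • (T ^ r) y + w := by
  rw [sp_eq, mem_sup] at hv
  obtain ⟨u, hu, w, hw, rfl⟩ := hv
  obtain ⟨c, d, rfl⟩ := mem_span_pair.1 hu
  exact ⟨c, d, w, hw, rfl⟩

theorem sp_inv (hv : v ∈ sp T r x y) : T v ∈ sp T r x y :=
  sp_le (U := (sp T r x y).comap T) (fun j hj => by
    simp only [mem_comap, ← End.mul_apply, ← pow_succ']
    exact ⟨sp_x (by omega), sp_y (by omega)⟩) hv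

theorem sp_eq_bot (hx : (T ^ m) x = 0) (hy : (T ^ m) y = 0) : sp T m x y = ⊥ :=
  le_bot_iff.1 (sp_le fun _ hj => ⟨pow_zero_of_le hx hj, pow_zero_of_le hy hj⟩)

theorem polar_sp (hv : v ∈ sp T r x y)
    (h : ∀ j, r ≤ j → polar Q ((T ^ j) x) z = 0 ∧ polar Q ((T ^ j) y) z = 0) : polar Q v z = 0 :=
  mem_perp_span_singleton.1 (sp_le (U := perp Q (span F {z})) (fun j hj => by
    simp only [mem_perp_span_singleton, polar_comm Q z]; exact h j hj) hv) ▸ polar_comm Q v z

theorem sp_ortho (h : ∀ i j, r ≤ i → s ≤ j → g Q T i j x x = 0 ∧ g Q T i j x y = 0 ∧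
    g Q T i j y x = 0 ∧ g Q T i j y y = 0) (hv : v ∈ sp T r x y) (hw : w ∈ sp T s x y) :
    polar Q v w = 0 :=
  polar_sp hv fun i hi => ⟨polar_comm Q _ w ▸ polar_sp hw fun j hj =>
    ⟨g_comm.trans (h i j hi hj).1, g_comm.trans (h i j hi hj).2.1⟩,
    polar_comm Q _ w ▸ polar_sp hw fun j hj =>
    ⟨g_comm.trans (h i j hi hj).2.2.1, g_comm.trans (h i j hi hj).2.2.2⟩⟩

theorem sp_sing (h : ∀ v ∈ sp T r x y, ∀ w ∈ sp T r x y, polar Q v w = 0)
    (hn : ∀ j, r ≤ j → n Q T j x = 0 ∧ n Q T j y = 0) (hv : v ∈ sp T r x y) : Q v = 0 := by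
  induction hv using span_induction with
  | mem v hv => obtain ⟨j, hj, rfl | rfl⟩ := hv; exacts [(hn j hj).1, (hn j hj).2]
  | zero => exact map_zero Q
  | add v w hv hw h1 h2 => rw [H56.Q_add, h1, h2, h v hv w hw]; simp
  | smul c v _ h1 => rw [H56.Q_smul, h1, mul_zero]

/-- `x`, `y` generate a block of Jordan size `m + 1`. -/
structure Top (Q : QuadraticForm F V) (T : End F V) (m : ℕ) (x y : V) : Prop where
  hx : (T ^ (m + 1)) x = 0
  hy : (T ^ (m + 1)) y = 0
  nd : g Q T 0 m x x = 0 ∧ g Q T 0 m y y = 0 ∧ g Q T 0 m x y = 1 ∨ y = 0 ∧ g Q T 0 m x x = 1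

/-- an invariant nondegenerate subspace -/
structure Gd (Q : QuadraticForm F V) (T : End F V) (U : Submodule F V) : Prop where
  inv : ∀ v ∈ U, T v ∈ U
  nd : ∀ v ∈ U, v ∈ perp Q U → v = 0

namespace U2

variable (h : U2 Q T)
include h

theorem coef (t : Top Q T m x y) (hm : r + s = m) {c d : F} (hw : w ∈ sp T (r + 1) x y)
    (h1 : polar Q (c • (T ^ r) x + d • (T ^ r) y + w) ((T ^ s) x) = 0)
    (h2 : polar Q (c • (T ^ r) x + d • (T ^ r) y + w) ((T ^ s) y) = 0) :
    c = 0 ∧ (d = 0 ∨ y = 0) := by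
  have e : ∀ z, (T ^ (m + 1)) z = 0 → polar Q (c • (T ^ r) x + d • (T ^ r) y + w) ((T ^ s) z) =
      c * g Q T 0 m x z + d * g Q T 0 m y z := fun z hz => by
    rw [polar_add_left, polar_add_left, polar_smul_left, polar_smul_left, ← h.g_top hz hm,
      ← h.g_top hz hm, polar_sp hw fun j hj =>
        ⟨h.g_zero (a := j) (b := s) hz (by omega), h.g_zero (a := j) (b := s) hz (by omega)⟩]
    simp [g]
  rw [e _ t.hx, h.top_comm (y := y) t.hx] at h1
  rw [e _ t.hy] at h2
  rcases t.nd with ⟨p1, p2, p3⟩ | ⟨p1, p2⟩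
  · simp only [p1, p2, p3] at h1 h2
    exact ⟨by simpa using h2, .inl (by simpa using h1)⟩
  · subst p1
    rw [p2] at h1
    exact ⟨by simpa [g] using h1, .inr rfl⟩

theorem depth (t : Top Q T m x y) (hv : v ∈ sp T 0 x y) (hp : v ∈ perp Q (sp T s x y))
    (hr : r + s ≤ m + 1) : v ∈ sp T r x y := by
  induction r with
  | zero => exact hv
  | succ r ih =>
    obtain ⟨c, d, w, hw, rfl⟩ := sp_succ (ih (by omega))
    obtain ⟨rfl, rfl | rfl⟩ := h.coef t (r := r) (s := m - r) (by omega) hw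
      (mem_perp'.1 hp _ (sp_x (by omega))) (mem_perp'.1 hp _ (sp_y (by omega))) <;> simpa using hw

theorem gd_sp (t : Top Q T m x y) : Gd Q T (sp T 0 x y) :=
  ⟨fun _ => sp_inv, fun _ hv hp => by
    simpa [sp_eq_bot t.hx t.hy] using h.depth t hv hp (r := m + 1) le_rfl⟩

open Classical in
theorem finrank_sp [FiniteDimensional F V] (t : Top Q T m x y) :
    finrank F (sp T 0 x y) = (if y = 0 then 1 else 2) * (m + 1) := by
  have key : ∀ d r, r + d = m + 1 → finrank F (sp T r x y) = (if y = 0 then 1 else 2) * d :=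
    fun d => by
    induction d with
    | zero => exact fun r hr => by rw [show r = m + 1 from hr, sp_eq_bot t.hx t.hy]; simp
    | succ d ih =>
      intro r hr
      have c0 : ∀ c e : F, c • (T ^ r) x + e • (T ^ r) y ∈ sp T (r + 1) x y →
          c = 0 ∧ (e = 0 ∨ y = 0) := fun c e h0 =>
        h.coef t (s := d) (by omega) (neg_mem h0) (by simp) (by simp)
      have h1 : span F {(T ^ r) x, (T ^ r) y} ⊓ sp T (r + 1) x y = ⊥ := by
        refine le_bot_iff.1 fun u hu => ?_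
        obtain ⟨c, e, rfl⟩ := mem_span_pair.1 hu.1
        obtain ⟨rfl, rfl | rfl⟩ := c0 c e hu.2 <;> simp
      have h2 := finrank_sup_add_finrank_inf_eq (span F {(T ^ r) x, (T ^ r) y}) (sp T (r + 1) x y)
      rw [← sp_eq, h1, finrank_bot, ih (r + 1) (by omega), add_zero] at h2
      rw [h2, mul_add, mul_one, add_comm]
      congr 1
      split_ifs with h0
      · subst h0
        rw [map_zero, Set.pair_comm, span_insert_zero]
        exact finrank_span_singleton fun h3 => one_ne_zero (c0 1 0 (by simp [h3])).1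
      · exact finrank_span_pair (LinearIndependent.pair_iff.2 fun c e h3 =>
          (c0 c e (h3 ▸ zero_mem _)).imp_right fun h4 => h4.resolve_right h0)
  exact key (m + 1) 0 (zero_add _)

theorem perp_inv (hx : (T ^ m) x = 0) (hy : (T ^ m) y = 0) (hv : v ∈ perp Q (sp T 0 x y)) :
    T v ∈ perp Q (sp T 0 x y) := by
  have e : ∀ z, (T ^ m) z = 0 → (∀ j, (T ^ j) z ∈ sp T 0 x y) → ∀ j,
      polar Q ((T ^ j) z) (T v) = 0 := fun z hz h1 j => by
    have := h.g_of_row (x := v) hz (s := 0) (fun b _ => mem_perp'.1 hv _ (h1 b)) 1 j (by omega)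
    rwa [g_comm, g, pow_one] at this
  exact mem_perp.2 fun w hw => polar_sp hw fun j _ =>
    ⟨e x hx (fun j => sp_x j.zero_le) j, e y hy (fun j => sp_y j.zero_le) j⟩

/-- splitting off a block -/
theorem peel [FiniteDimensional F V] (hU : Gd Q T U) (t : Top Q T m x y) (hx : x ∈ U) (hy : y ∈ U) :
    Gd Q T (U ⊓ perp Q (sp T 0 x y)) ∧ sp T 0 x y ⊔ U ⊓ perp Q (sp T 0 x y) = U ∧
      finrank F (U ⊓ perp Q (sp T 0 x y) : Submodule F V) < finrank F U := by
  have hA : sp T 0 x y ≤ U := sp_le fun j _ => ⟨pow_mem hU.inv hx j, pow_mem hU.inv hy j⟩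
  have hc : IsCompl (sp T 0 x y) (perp Q (sp T 0 x y)) :=
    (LinearMap.BilinForm.isCompl_orthogonal_iff_disjoint fun u w h0 =>
      (polar_comm Q w u).trans h0).2 (disjoint_def.2 (h.gd_sp t).nd)
  have e : sp T 0 x y ⊔ U ⊓ perp Q (sp T 0 x y) = U := by
    rw [inf_comm, ← sup_inf_assoc_of_le _ hA, hc.sup_eq_top, top_inf_eq]
  refine ⟨⟨fun v hv => ⟨hU.inv v hv.1, h.perp_inv t.hx t.hy hv.2⟩, fun v hv h1 =>
    hU.nd v hv.1 (mem_perp.2 fun w hw => ?_)⟩, e, finrank_lt_finrank_of_lt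
    (lt_of_le_of_ne inf_le_left fun h1 => ?_)⟩
  · rw [← e] at hw
    obtain ⟨u, hu, w, hw', rfl⟩ := mem_sup.1 hw
    rw [polar_add_left, mem_perp.1 hv.2 u hu, mem_perp.1 h1 w hw', add_zero]
  · have h2 : x = 0 := (h.gd_sp t).nd x (sp_x (j := 0) le_rfl) (h1.ge hx).2
    rcases t.nd with ⟨-, -, p⟩ | ⟨-, p⟩ <;> simp [h2, g] at p

end U2

theorem Gd.pow_eq_zero (hU : Gd Q T U) (h0 : ∀ u ∈ U, ∀ v ∈ U, g Q T 0 m u v = 0) :
    ∀ v ∈ U, (T ^ m) v = 0 := fun v hv =>
  hU.nd _ (pow_mem hU.inv hv m) (mem_perp.2 fun u hu => h0 u hu v hv)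

/-- the types of blocks -/
inductive Blk
  | W (m : ℕ) (e : Bool)
  | V (k : ℕ) (e : Bool)

namespace Blk

/-- Jordan size minus one -/
def top : Blk → ℕ
  | .W m _ => m
  | .V k _ => 2 * k + 1

/-- half the dimension -/
def deg : Blk → ℕ
  | .W m _ => m + 1
  | .V k _ => k + 1

/-- the block has rank one -/
def cyc : Blk → Prop
  | .W _ _ => False
  | .V _ _ => True

/-- the block is of minus type -/
def bit : Blk → Bool
  | .W m e => e && decide (Even m)
  | .V _ e => e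

/-- forgetting the invariants not seen by the polar form -/
def er : Blk → Blk
  | .W 0 _ => .W 0 false
  | .V 0 _ => .V 0 false
  | b => b

/-- the values `B x (T^j y)`, `Q (T^j x)`, `Q (T^j y)` -/
def val (α : F) : Blk → ℕ → F × F × F
  | .W m e, j => (if j = m then 1 else 0, if 2 * j = m ∧ e then 1 else 0,
      if 2 * j = m ∧ e then α else 0)
  | .V k e, j => (0, if j = k + 1 then 1 else if j = k ∧ e then α else 0, 0)

theorem val_er (α : F) (b : Blk) (j : ℕ) :
    (b.er.val α j).1 = (b.val α j).1 ∧ (b.er.val α (j + 1)).2 = (b.val α (j + 1)).2 := by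
  rcases b with ⟨_ | m, e⟩ | ⟨_ | k, e⟩ <;> simp [er, val]

theorem deg_er (b : Blk) : b.er.deg = b.deg := by
  rcases b with ⟨_ | m, e⟩ | ⟨_ | k, e⟩ <;> rfl

end Blk

/-- `x`, `y` generate a block of type `b`. -/
structure IsB (Q : QuadraticForm F V) (T : End F V) (α : F) (b : Blk) (x y : V) : Prop where
  hx : (T ^ (b.top + 1)) x = 0
  hy : (T ^ (b.top + 1)) y = 0
  cyc : b.cyc → y = 0
  val : ∀ j, (g Q T 0 j x y, n Q T j x, n Q T j y) = b.val α j

variable {α : F} {c : Blk}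

theorem IsB.top (h : U2 Q T) (t : IsB Q T α c x y) : Top Q T c.top x y := by
  refine ⟨t.hx, t.hy, ?_⟩
  rcases c with ⟨m, e⟩ | ⟨k, e⟩
  · have e1 : ∀ z, (T ^ (m + 1)) z = 0 → (∀ j, 2 * j ≠ m → n Q T j z = 0) → g Q T 0 m z z = 0 :=
      fun z h1 h2 => by
        obtain ⟨k, rfl | rfl⟩ := m.even_or_odd'
        · rw [h.top_even h1, h.g_self]
        · rw [h.top_odd h1, h2 _ (by omega)]
    have hv := t.val
    simp only [Blk.val, Prod.mk.injEq] at hv
    exact .inl ⟨e1 x t.hx fun j hj => by simp [(hv j).2.1, hj],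
      e1 y t.hy fun j hj => by simp [(hv j).2.2, hj], by simp [Blk.top, (hv m).1]⟩
  · have hv := t.val (k + 1)
    simp only [Blk.val, Prod.mk.injEq] at hv
    exact .inr ⟨t.cyc trivial, by simpa [hv.2.1, Blk.top] using h.top_odd (k := k) t.hx⟩

theorem IsB.finrank [FiniteDimensional F V] (h : U2 Q T) (t : IsB Q T α c x y) :
    finrank F (sp T 0 x y) = 2 * c.deg := by
  rw [h.finrank_sp (t.top h)]
  rcases c with ⟨m, e⟩ | ⟨k, e⟩
  · rw [if_neg fun h0 => by simpa [h0, g, Blk.val] using congr_arg Prod.fst (t.val m)]; rfl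
  · rw [if_pos (t.cyc trivial), Blk.top, Blk.deg]; ring

/-- orthogonal decompositions into blocks -/
inductive Dec (Q : QuadraticForm F V) (T : End F V) (α : F) : Submodule F V → List Blk → Prop
  | nil : Dec Q T α ⊥ []
  | cons {c : Blk} {x y : V} {U : Submodule F V} {L : List Blk} : IsB Q T α c x y → Dec Q T α U L →
      U ≤ perp Q (sp T 0 x y) → Dec Q T α (sp T 0 x y ⊔ U) (c :: L)

/-- half the dimension -/
def deg (L : List Blk) : ℕ := (L.map Blk.deg).sum

theorem Dec.finrank [FiniteDimensional F V] (h : U2 Q T) {L : List Blk} (d : Dec Q T α U L) :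
    finrank F U = 2 * deg L := by
  induction d with
  | nil => simp [deg]
  | @cons c x y U L t _ hU ih =>
    have h1 := finrank_sup_add_finrank_inf_eq (sp T 0 x y) U
    rw [(Submodule.eq_bot_iff (sp T 0 x y ⊓ U)).2 fun v hv =>
      (h.gd_sp (t.top h)).nd v hv.1 (hU hv.2), finrank_bot, ih, t.finrank h] at h1
    simp only [deg, List.map_cons, List.sum_cons] at h1 ⊢
    omega

end H58.W2
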