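import Cfsg.Agent.H58.W2B

/-! Decompositions into blocks: the sign of the Gauss sum, and uniqueness up to isometry. -/

set_option autoImplicit false

namespace H58.W2

open Module QuadraticMap H93.O2 H56 Submodule

variable {F V : Type*} [Field F] [AddCommGroup V] [Module F V] {Q : QuadraticForm F V}
  {T : End F V} {x y z u v w : V} {a b i j k m r s : ℕ} {U A X : Submodule F V} {α : F}
  {c : Blk} {L : List Blk}

section gauss

variable [Finite F] [Fintype V]

open Classical in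
/-- the Gauss sum over a subspace -/
noncomputable def G (Q : QuadraticForm F V) (U : Submodule F V) : ℤ := ∑ v : U, psi (Q v)

theorem G_sup (h2 : (2 : F) = 0) (hU : U ≤ perp Q A) (hd : ∀ v ∈ A, v ∈ U → v = 0) :
    G Q (A ⊔ U) = G Q A * G Q U := by
  classical
  rw [G, G, G, Finset.sum_mul_sum, ← Fintype.sum_prod_type']
  refine (Fintype.sum_bijective (fun p : A × U => (⟨p.1 + p.2, add_mem_sup p.1.2 p.2.2⟩ : ↥(A ⊔ U)))
    ⟨fun p q e => ?_, fun v => ?_⟩ _ _ fun p => ?_).symm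
  · have e1 : (p.1 : V) - q.1 = q.2 - p.2 := by
      rw [sub_eq_sub_iff_add_eq_add, add_comm (q.2 : V)]; exact congr_arg Subtype.val e
    have e2 := hd _ (sub_mem p.1.2 q.1.2) (e1 ▸ sub_mem q.2.2 p.2.2)
    exact Prod.ext (Subtype.ext (sub_eq_zero.1 e2)) (Subtype.ext (sub_eq_zero.1 (e1 ▸ e2)).symm)
  · obtain ⟨a, ha, b, hb, e⟩ := mem_sup.1 v.2
    exact ⟨(⟨a, ha⟩, ⟨b, hb⟩), Subtype.ext e⟩
  · rw [H56.Q_add, mem_perp.1 (hU p.2.2) _ p.1.2, add_zero, psi_add h2]

omit [Finite F] in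
theorem G_pos (hX : ∀ v ∈ X, Q v = 0) : 0 < G Q X := by
  classical
  simp [G, hX _ (Subtype.prop _), psi_zero, Fintype.card_pos]

theorem G_perp (h2 : (2 : F) = 0) (hA : X ≤ A) (hX : ∀ v ∈ X, Q v = 0) :
    G Q A = G Q (A ⊓ perp Q X) := by
  classical
  have h1 := sum_perp_of_singular (Q := Q.restrict A) h2 (X.comap A.subtype) fun w hw => hX w hw
  have e : ∀ v : A, v ∈ perp (Q.restrict A) (X.comap A.subtype) ↔ (v : V) ∈ perp Q X := fun v => by
    rw [mem_perp, mem_perp]
    exact ⟨fun h w hw => h ⟨w, hA hw⟩ hw, fun h w hw => h w hw⟩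
  rw [G, G]
  refine h1.symm.trans (Fintype.sum_bijective
    (fun v : perp (Q.restrict A) (X.comap A.subtype) =>
      (⟨v.1, v.1.2, (e _).1 v.2⟩ : ↥(A ⊓ perp Q X))) ⟨fun p q h => ?_, fun v => ?_⟩ _ _ fun _ => rfl)
  · exact Subtype.ext (Subtype.ext (congr_arg (fun z : ↥(A ⊓ perp Q X) => (z : V)) h))
  · exact ⟨⟨⟨v.1, v.2.1⟩, (e _).2 v.2.2⟩, rfl⟩

theorem sum_binary [Fintype F] (h2 : (2 : F) = 0) (c d : F) :
    ∑ p : F × F, psi (p.1 * p.1 * c + p.2 * p.2 * d + p.1 * p.2) =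
      Fintype.card F * psi (c * d) := by
  classical
  obtain ⟨e, rfl⟩ := exists_sqrt h2 c
  rw [Fintype.sum_prod_type_right, Finset.sum_eq_single e _ (by simp)]
  · have : ∀ a : F, psi (a * a * (e * e) + e * e * d + a * e) = psi (e * e * d) := fun a => by
      rw [add_right_comm, psi_add h2, psi_eq_one_iff.2 ⟨a * e, by ring⟩, one_mul]
    simp [this]
  · intro b _ hb
    have : ∀ a : F, psi (a * a * (e * e) + b * b * d + a * b) =
        psi (LinearMap.mulRight F (e + b) a) * psi (b * b * d) := fun a => by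
      rw [add_right_comm, psi_add h2, psi_add h2, LinearMap.mulRight_apply, mul_add, psi_add h2,
        ← psi_sq h2 (a * e), mul_mul_mul_comm]
    simp only [this]
    rw [← Finset.sum_mul, sum_psi_lin h2 _ fun h0 => hb ?_, zero_mul]
    have h1 := LinearMap.congr_fun h0 1
    simp only [LinearMap.mulRight_apply, one_mul, LinearMap.zero_apply] at h1
    linear_combination h1 - e * h2

theorem G_two (h2 : (2 : F) = 0) (hX : ∀ v ∈ X, Q v = 0) (hu : u ∈ perp Q X) (hw : w ∈ perp Q X)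
    (h1 : polar Q u w = 1) : 0 < psi (Q u * Q w) * G Q (span F {u, w} ⊔ X) := by
  classical
  have := Fintype.ofFinite F
  have c0 : ∀ a b : F, polar Q (a • u + b • w) u = 0 → polar Q (a • u + b • w) w = 0 →
      a = 0 ∧ b = 0 := fun a b => by
    simp +contextual [polar_add_left, polar_smul_left, polar_self2 h2, h1, polar_comm Q w u]
  have e : G Q (span F {u, w}) = Fintype.card F * psi (Q u * Q w) := by
    rw [← sum_binary h2, G]
    refine (Fintype.sum_bijective (fun p : F × F => (⟨p.1 • u + p.2 • w,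
      mem_span_pair.2 ⟨_, _, rfl⟩⟩ : span F ({u, w} : Set V))) ⟨fun p q e => ?_, fun v => ?_⟩ _ _
      fun p => ?_).symm
    · have e1 : (p.1 - q.1) • u + (p.2 - q.2) • w = 0 := by
        have : p.1 • u + p.2 • w = q.1 • u + q.2 • w := congr_arg Subtype.val e
        linear_combination (norm := module) this
      have := c0 (p.1 - q.1) (p.2 - q.2) (by rw [e1, polar_zero_left]) (by rw [e1, polar_zero_left])
      exact Prod.ext (sub_eq_zero.1 this.1) (sub_eq_zero.1 this.2)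
    · obtain ⟨a, b, e⟩ := mem_span_pair.1 v.2
      exact ⟨(a, b), Subtype.ext e⟩
    · simp [H56.Q_add, H56.Q_smul, polar_smul_left, polar_smul_right, h1, mul_comm p.2 p.1]
  rw [G_sup h2 (fun v hv => mem_perp_span_pair.2 ⟨mem_perp'.1 hu v hv, mem_perp'.1 hw v hv⟩), e]
  · have := psi_mul_self (Q u * Q w)
    have h3 : (0 : ℤ) < Fintype.card F * G Q X :=
      mul_pos (by exact_mod_cast Fintype.card_pos) (G_pos hX)
    calc (0 : ℤ) < psi (Q u * Q w) * psi (Q u * Q w) * (Fintype.card F * G Q X) := by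
          rwa [this, one_mul]
      _ = _ := by ring
  · intro v hv hx
    obtain ⟨a, b, rfl⟩ := mem_span_pair.1 hv
    obtain ⟨rfl, rfl⟩ := c0 a b (mem_perp.1 hu _ hx) (mem_perp.1 hw _ hx)
    simp

theorem U2.G_sp (h : U2 Q T) (t : Top Q T m x y) (hr : r + s = m + 1) (hs : r ≤ s)
    (hn : ∀ j, s ≤ j → n Q T j x = 0 ∧ n Q T j y = 0) : G Q (sp T 0 x y) = G Q (sp T r x y) ∧
      sp T r x y ≤ perp Q (sp T s x y) ∧ ∀ v ∈ sp T s x y, Q v = 0 := by
  have h1 : ∀ v ∈ sp T r x y, ∀ w ∈ sp T s x y, polar Q v w = 0 := fun v hv w hw =>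
    sp_ortho (fun i j hi hj => ⟨h.g_zero t.hx (by omega), h.g_zero t.hy (by omega),
      h.g_zero t.hx (by omega), h.g_zero t.hy (by omega)⟩) hv hw
  have h2 : ∀ v ∈ sp T s x y, Q v = 0 := fun v hv =>
    sp_sing (fun v hv => h1 v (sp_anti hs hv)) hn hv
  have h3 : sp T r x y ≤ perp Q (sp T s x y) := fun v hv => mem_perp'.2 (h1 v hv)
  refine ⟨?_, h3, h2⟩
  rw [G_perp h.two (sp_anti s.zero_le) h2]
  congr 1
  exact le_antisymm (fun v hv => h.depth t hv.1 hv.2 hr.le) (le_inf (sp_anti r.zero_le) h3)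

theorem IsB.sign (h : U2 Q T) (hα : psi α = -1) (t : IsB Q T α c x y) :
    0 < (if c.bit then -1 else 1) * G Q (sp T 0 x y) := by
  have t' := t.top h
  have hv := t.val
  rcases c with ⟨m, e⟩ | ⟨k, e⟩ <;> simp only [Blk.val, Prod.mk.injEq, Blk.top] at hv t'
  · obtain ⟨l, rfl | rfl⟩ := m.even_or_odd'
    · obtain ⟨h1, h2, h3⟩ := h.G_sp t' (r := l) (s := l + 1) (by omega) (by omega) fun j hj => by
        rw [(hv j).2.1, (hv j).2.2, if_neg (by omega), if_neg (by omega)]; simp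
      have := G_two h.two h3 (h2 (sp_x le_rfl)) (h2 (sp_y le_rfl))
        ((h.top_even t'.hy).symm.trans (by simp [(hv _).1]))
      rw [← sp_eq, ← h1] at this
      convert this using 2
      have e1 := (hv l).2.1
      have e2 := (hv l).2.2
      rw [n] at e1 e2
      cases e <;> simp [e1, e2, Blk.bit, psi_zero, hα]
    · obtain ⟨h1, -, h3⟩ := h.G_sp t' (r := l + 1) (s := l + 1) (by omega) (by omega) fun j hj => by
        rw [(hv j).2.1, (hv j).2.2, if_neg (by omega), if_neg (by omega)]; simp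
      simpa [Blk.bit, h1] using G_pos h3
  · obtain rfl := t.cyc trivial
    obtain ⟨h1, h2, h3⟩ := h.G_sp t' (r := k) (s := k + 2) (by omega) (by omega) fun j hj => by
      rw [(hv j).2.1, (hv j).2.2, if_neg (by omega), if_neg (by omega)]; simp
    have := G_two h.two h3 (h2 (sp_x le_rfl)) (h2 (sp_x k.le_succ))
      ((h.n_succ (j := k) (x := x)).symm.trans (by simp [(hv _).2.1]))
    have e0 : sp T k x 0 = span F {(T ^ k) x, (T ^ (k + 1)) x} ⊔ sp T (k + 2) x 0 := by
      rw [sp_eq, sp_eq (r := k + 1), ← sup_assoc, span_insert ((T ^ k) x) {(T ^ (k + 1)) x}]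
      simp [Set.pair_comm _ (0 : V)]
    rw [← e0, ← h1] at this
    convert this using 2
    have e1 := (hv k).2.1
    have e2 := (hv (k + 1)).2.1
    rw [n] at e1 e2
    cases e <;> simp [e1, e2, Blk.bit, psi_zero, hα]

/-- the parity of the number of blocks of minus type -/
def par : List Blk → Bool
  | [] => false
  | c :: L => xor c.bit (par L)

theorem Dec.sign (h : U2 Q T) (hα : psi α = -1) (d : Dec Q T α U L) :
    0 < (if par L then -1 else 1) * G Q U := by
  induction d with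
  | nil => simpa [par] using G_pos (Q := Q) (X := ⊥) (by simp)
  | @cons c x y U L t _ hU ih =>
    rw [G_sup h.two hU fun v hv hu => (h.gd_sp (t.top h)).nd v hv (hU hu)]
    have := mul_pos (t.sign h hα) ih
    rw [par]
    revert this
    cases c.bit <;> cases par L <;> simp

end gauss

section graph

variable {W : Type*} [AddCommGroup W] [Module F W] {Q' : QuadraticForm F W} {T' : End F W}
  {x' y' : W} {c' : Blk}

theorem prod_pow (T : End F V) (T' : End F W) (j : ℕ) (x : V) (x' : W) :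
    ((T.prodMap T' : End F (V × W)) ^ j) (x, x') = ((T ^ j) x, (T' ^ j) x') := by
  induction j with
  | zero => rfl
  | succ j ih => simp only [pow_succ', End.mul_apply, ih, LinearMap.prodMap_apply]

theorem g_prod : g (Q.prod Q') (T.prodMap T') a b (x, x') (y, y') =
    g Q T a b x y + g Q' T' a b x' y' := by
  simp only [g, prod_pow, polar_prod]

theorem n_prod : n (Q.prod Q') (T.prodMap T') j (x, x') = n Q T j x + n Q' T' j x' := by
  simp only [n, prod_pow, prod_apply]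

theorem U2.prod (h : U2 Q T) (h' : U2 Q' T') : U2 (Q.prod Q') (T.prodMap T') :=
  ⟨h.two, fun v => by simp only [prod_apply, polar_prod, LinearMap.prodMap_apply, h.inv, h'.inv]⟩

theorem map_fst_sp : (sp (T.prodMap T') r (x, x') (y, y')).map (LinearMap.fst F V W) = sp T r x y :=
  le_antisymm (map_le_iff_le_comap.2 (sp_le fun j hj => by
      simp only [prod_pow, mem_comap, LinearMap.fst_apply]; exact ⟨sp_x hj, sp_y hj⟩))
    (sp_le fun j hj => ⟨⟨_, sp_x hj, by simp [prod_pow]⟩, ⟨_, sp_y hj, by simp [prod_pow]⟩⟩)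

theorem map_snd_sp :
    (sp (T.prodMap T') r (x, x') (y, y')).map (LinearMap.snd F V W) = sp T' r x' y' :=
  le_antisymm (map_le_iff_le_comap.2 (sp_le fun j hj => by
      simp only [prod_pow, mem_comap, LinearMap.snd_apply]; exact ⟨sp_x hj, sp_y hj⟩))
    (sp_le fun j hj => ⟨⟨_, sp_x hj, by simp [prod_pow]⟩, ⟨_, sp_y hj, by simp [prod_pow]⟩⟩)

theorem IsB.graph (h : U2 Q T) (h' : U2 Q' T') (t : IsB Q T α c x y) (t' : IsB Q' T' α c' x' y')
    (he : c.er = c'.er) : (∀ v ∈ sp (T.prodMap T') 0 (x, x') (y, y'),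
      ∀ w ∈ sp (T.prodMap T') 0 (x, x') (y, y'), polar (Q.prod Q') v w = 0) ∧
      (c = c' → ∀ v ∈ sp (T.prodMap T') 0 (x, x') (y, y'), Q.prod Q' v = 0) := by
  have H := h.prod h'
  have e1 : ∀ j, g Q T 0 j x y = g Q' T' 0 j x' y' := fun j => by
    have := (c.val_er α j).1
    rwa [he, (c'.val_er α j).1, ← t.val, ← t'.val, eq_comm] at this
  have e2 : ∀ j, n Q T (j + 1) x = n Q' T' (j + 1) x' ∧ n Q T (j + 1) y = n Q' T' (j + 1) y' :=
    fun j => by
      have := (c.val_er α j).2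
      rwa [he, (c'.val_er α j).2, ← t.val, ← t'.val, eq_comm, Prod.mk.injEq] at this
  have e3 : ∀ a b, g (Q.prod Q') (T.prodMap T') a b (x, x') (y, y') = 0 := fun a b =>
    H.g_of_row (m := c.top + 1 + (c'.top + 1)) (s := 0) (by
      rw [prod_pow, pow_zero_of_le t.hy (by omega), pow_zero_of_le t'.hy (by omega)]; rfl)
      (fun b _ => by rw [g_prod, e1, h.add_self]) a b (Nat.zero_le _)
  have e4 : ∀ v ∈ sp (T.prodMap T') 0 (x, x') (y, y'),
      ∀ w ∈ sp (T.prodMap T') 0 (x, x') (y, y'), polar (Q.prod Q') v w = 0 := fun v hv w hw =>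
    sp_ortho (fun i j _ _ => ⟨H.g_self_of_n (fun j => by rw [n_prod, (e2 j).1, h.add_self]) i j,
      e3 i j, g_comm.trans (e3 j i),
      H.g_self_of_n (fun j => by rw [n_prod, (e2 j).2, h.add_self]) i j⟩) hv hw
  refine ⟨e4, ?_⟩
  rintro rfl v hv
  refine sp_sing e4 (fun j _ => ?_) hv
  have := (t.val j).trans (t'.val j).symm
  simp only [Prod.mk.injEq] at this
  rw [n_prod, n_prod, this.2.1, this.2.2]
  exact ⟨h.add_self _, h.add_self _⟩

theorem Dec.graph (h : U2 Q T) (h' : U2 Q' T') (d : Dec Q T α U L) {U' : Submodule F W}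
    {L' : List Blk} (d' : Dec Q' T' α U' L') (he : L.map Blk.er = L'.map Blk.er) :
    ∃ Γ : Submodule F (V × W), (∀ v ∈ Γ, T.prodMap T' v ∈ Γ) ∧ Γ.map (LinearMap.fst F V W) = U ∧
      Γ.map (LinearMap.snd F V W) = U' ∧ (∀ v ∈ Γ, ∀ w ∈ Γ, polar (Q.prod Q') v w = 0) ∧
      (L = L' → ∀ v ∈ Γ, Q.prod Q' v = 0) := by
  induction d generalizing U' L' with
  | nil =>
    cases d' with
    | nil => exact ⟨⊥, by simp, by simp, by simp, by simp, by simp⟩
    | cons => simp at he
  | @cons c x y U L t _ hU ih =>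
    cases d' with
    | nil => simp at he
    | @cons c' x' y' U' L' t' d' hU' =>
      simp only [List.map_cons, List.cons.injEq] at he
      obtain ⟨Γ, p1, p2, p3, p4, p5⟩ := ih d' he.2
      obtain ⟨q1, q2⟩ := t.graph h h' t' he.1
      have q3 : ∀ v ∈ sp (T.prodMap T') 0 (x, x') (y, y'), ∀ w ∈ Γ, polar (Q.prod Q') v w = 0 :=
        fun v hv w hw => by
          rw [polar_prod, mem_perp.1 (hU (p2.le ⟨w, hw, rfl⟩ : w.1 ∈ U)) v.1
            (map_fst_sp.le ⟨v, hv, rfl⟩), mem_perp.1 (hU' (p3.le ⟨w, hw, rfl⟩ : w.2 ∈ U')) v.2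
            (map_snd_sp.le ⟨v, hv, rfl⟩), add_zero]
      refine ⟨sp (T.prodMap T') 0 (x, x') (y, y') ⊔ Γ, fun v hv => ?_,
        by rw [Submodule.map_sup, p2, map_fst_sp], by rw [Submodule.map_sup, p3, map_snd_sp],
        fun v hv w hw => ?_, fun e v hv => ?_⟩ <;> obtain ⟨a, ha, b, hb, rfl⟩ := mem_sup.1 hv
      · rw [map_add]; exact add_mem_sup (sp_inv ha) (p1 b hb)
      · obtain ⟨a', ha', b', hb', rfl⟩ := mem_sup.1 hw
        rw [polar_add_left, polar_add_right, polar_add_right, q1 a ha a' ha', q3 a ha b' hb',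
          polar_comm _ b, q3 a' ha' b hb, p4 b hb b' hb']
        simp
      · rw [List.cons.injEq] at e
        rw [H56.Q_add, q2 e.1 a ha, p5 e.2 b hb, q3 a ha b hb]
        simp

/-- the list of blocks determines the isometry class -/
theorem Dec.iso (h : U2 Q T) (h' : U2 Q' T') (hQ : Gd Q T ⊤) (hQ' : Gd Q' T' ⊤) (d : Dec Q T α ⊤ L)
    {L' : List Blk} (d' : Dec Q' T' α ⊤ L') (he : L.map Blk.er = L'.map Blk.er) :
    ∃ e : V ≃ₗ[F] W, (∀ v, e (T v) = T' (e v)) ∧ (∀ v w, polar Q' (e v) (e w) = polar Q v w) ∧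
      (L = L' → ∀ v, Q' (e v) = Q v) := by
  obtain ⟨Γ, p1, p2, p3, p4, p5⟩ := d.graph h h' d' he
  have s1 : ∀ v, ∃ z ∈ Γ, z.1 = v := fun v => (p2.ge mem_top :)
  have s2 : ∀ v, ∃ z ∈ Γ, z.2 = v := fun v => (p3.ge mem_top :)
  obtain ⟨e, rfl⟩ := Γ.exists_equiv_eq_graph
    ⟨fun p q h0 => Subtype.ext (Prod.ext h0 (sub_eq_zero.1 (hQ'.nd _ mem_top (mem_perp.2 fun w _ => by
      obtain ⟨z, hz, rfl⟩ := s2 w
      have := p4 z hz _ (sub_mem p.2 q.2)
      have h1 : p.1.1 = q.1.1 := h0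
      simpa [polar_prod, h1] using this)))), fun v => by
      obtain ⟨z, hz, rfl⟩ := s1 v; exact ⟨⟨z, hz⟩, rfl⟩⟩
    ⟨fun p q h0 => Subtype.ext (Prod.ext (sub_eq_zero.1 (hQ.nd _ mem_top (mem_perp.2 fun w _ => by
      obtain ⟨z, hz, rfl⟩ := s1 w
      have := p4 z hz _ (sub_mem p.2 q.2)
      have h1 : p.1.2 = q.1.2 := h0
      simpa [polar_prod, h1] using this))) h0), fun v => by
      obtain ⟨z, hz, rfl⟩ := s2 v; exact ⟨⟨z, hz⟩, rfl⟩⟩
  have m : ∀ v, (v, e v) ∈ e.toLinearMap.graph := fun v => rfl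
  refine ⟨e, fun v => (p1 _ (m v)).symm, fun v w => ?_, fun h0 v => ?_⟩
  · have := p4 _ (m v) _ (m w)
    rw [polar_prod] at this
    linear_combination this - polar Q v w * h.two
  · have := p5 h0 _ (m v)
    rw [prod_apply] at this
    linear_combination this - Q v * h.two

end graph

end H58.W2
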