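import Cfsg.Agent.H58.W2C

/-! The greedy decomposition of a unipotent isometry in characteristic `2` into blocks. -/

set_option autoImplicit false

namespace H58.W2

open Module QuadraticMap H93.O2 H56 Submodule

/-- prefixing a block -/
def cons (c : Blk) (S : Set (List Blk)) : Set (List Blk) := (c :: ·) '' S

/-- prefixing any number of copies of a block -/
def rep (c : Blk) (S : Set (List Blk)) : Set (List Blk) := ⋃ a : ℕ, (List.replicate a c ++ ·) '' S

/-- the normal forms with Jordan sizes at most `2K + 1` -/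
def stepO (K : ℕ) (S : Bool → Set (List Blk)) : Set (List Blk) :=
  rep (.W (2 * K) false) (S false ∪ S true ∪ cons (.W (2 * K) true) (S false))

/-- the normal forms starting with the last cyclic block of size `2K + 2` -/
def stepV (K : ℕ) (S : Bool → Set (List Blk)) : Set (List Blk) :=
  cons (.V K false) (stepO K S) ∪ cons (.V K true) (S false)

/-- the normal forms with Jordan sizes at most `2K + 2`, without or with a cyclic block of that
size -/
def step (K : ℕ) (S : Bool → Set (List Blk)) : Bool → Set (List Blk)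
  | false => rep (.W (2 * K + 1) false) (stepO K S)
  | true => rep (.W (2 * K + 1) false) (stepV K S ∪ cons (.V K false) (stepV K S))

/-- the normal forms with Jordan sizes at most `2K` -/
def NF : ℕ → Bool → Set (List Blk)
  | 0 => fun f => if f then ∅ else {[]}
  | K + 1 => step K (NF K)

theorem rep_union (c : Blk) (S R : Set (List Blk)) : rep c (S ∪ R) = rep c S ∪ rep c R := by
  simp only [rep, Set.image_union, Set.iUnion_union_distrib]

variable {F V : Type*} [Field F] [AddCommGroup V] [Module F V] {Q : QuadraticForm F V}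
  {T : End F V} {x y z : V} {K m : ℕ} {U : Submodule F V} {α : F} {c : Blk}
  {R R' : Set (List Blk)} {S : Bool → Set (List Blk)}

/-- `U` has a decomposition with list of blocks in `R`. -/
def D (Q : QuadraticForm F V) (T : End F V) (α : F) (U : Submodule F V) (R : Set (List Blk)) :
    Prop := ∃ L ∈ R, Dec Q T α U L

theorem D.mono (h : D Q T α U R) (h' : R ⊆ R') : D Q T α U R' :=
  h.imp fun _ h => ⟨h' h.1, h.2⟩

/-- the classification up to Jordan size `2K` -/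
def Cl (Q : QuadraticForm F V) (T : End F V) (α : F) (K : ℕ) (S : Bool → Set (List Blk)) : Prop :=
  ∀ U, Gd Q T U → (∀ v ∈ U, (T ^ (2 * K)) v = 0) →
    D Q T α U (S false ∪ S true) ∧ ((∀ v ∈ U, n Q T K v = 0) → D Q T α U (S false))

theorem g_perp (hz : z ∈ perp Q (sp T 0 x y)) (i : ℕ) :
    g Q T i 0 x z = 0 ∧ g Q T i 0 y z = 0 :=
  ⟨mem_perp.1 hz _ (sp_x i.zero_le), mem_perp.1 hz _ (sp_y i.zero_le)⟩

namespace U2

variable (h : U2 Q T)
include h

theorem g_perp' (hx : (T ^ m) x = 0) (hy : (T ^ m) y = 0) (hz : z ∈ perp Q (sp T 0 x y)) (i j : ℕ) :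
    g Q T i j x z = 0 ∧ g Q T i j y z = 0 := by
  have := g_perp (pow_mem (fun _ => h.perp_inv hx hy) hz j) i
  simpa only [g_pow_right, zero_add] using this

theorem isB_W (hU : Gd Q T U) (hT : ∀ v ∈ U, (T ^ (m + 1)) v = 0) (hx : x ∈ U) (hy : y ∈ U)
    (h1 : g Q T 0 m x y = 1) (h2 : g Q T 0 m x x = 0) (h3 : g Q T 0 m y y = 0) {e : Bool}
    (h4 : ∀ j, 2 * j = m → n Q T j x = (if e then 1 else 0) ∧ n Q T j y = if e then α else 0) :
    ∃ x ∈ U, ∃ y ∈ U, IsB Q T α (.W m e) x y := by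
  obtain ⟨x', hx', y', hy', p⟩ := h.fixW hU.inv hT hx hy h1 h2 h3
  refine ⟨x', hx', y', hy', hT _ hx', hT _ hy', False.elim, fun j => ?_⟩
  rw [(p j).1, (p j).2.1, (p j).2.2, Blk.val]
  by_cases h0 : 2 * j = m
  · simp [h0, h4 j h0]
  · simp [h0]

theorem isB_V (hU : Gd Q T U) (hT : ∀ v ∈ U, (T ^ (2 * K + 2)) v = 0) (hx : x ∈ U)
    (h1 : n Q T (K + 1) x = 1) {e : Bool} (h2 : n Q T K x = if e then α else 0) :
    ∃ x ∈ U, IsB Q T α (.V K e) x 0 := by
  obtain ⟨x', hx', p1, p2, p3⟩ := h.fixV hU.inv hT hx h1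
  refine ⟨x', hx', hT _ hx', map_zero _, fun _ => rfl, fun j => ?_⟩
  have : n Q T j x' = if j = K + 1 then 1 else if j = K ∧ e then α else 0 := by
    rcases lt_trichotomy j K with h0 | rfl | h0
    · rw [p3 j h0, if_neg (by omega), if_neg (by omega)]
    · simp [p2, h2]
    · split_ifs with h3 h4
      · rw [h3, p1]
      · omega
      · exact h.n_zero (hT _ hx') (by omega)
  rw [this]
  simp [g, n, Blk.val]

theorem pow_even (hU : Gd Q T U) (hT : ∀ v ∈ U, (T ^ (2 * K + 1)) v = 0)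
    (hn : ∀ v ∈ U, n Q T K v = 0) : ∀ v ∈ U, (T ^ (2 * K)) v = 0 :=
  hU.pow_eq_zero fun u hu v hv => by
    have := hn _ (add_mem hu hv)
    rwa [n_add, hn u hu, hn v hv, zero_add, zero_add, ← h.top_even (hT v hv)] at this

variable [FiniteDimensional F V]

theorem peel_cons (hU : Gd Q T U) (hx : x ∈ U) (hy : y ∈ U) (t : IsB Q T α c x y)
    (H : ∀ U' ≤ U, Gd Q T U' → U' ≤ perp Q (sp T 0 x y) → finrank F U' < finrank F U →
      D Q T α U' R) : D Q T α U (cons c R) := by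
  obtain ⟨p1, p2, p3⟩ := h.peel hU (t.top h) hx hy
  obtain ⟨L, hL, d⟩ := H _ inf_le_left p1 inf_le_right p3
  exact ⟨_, ⟨L, hL, rfl⟩, p2 ▸ .cons t d inf_le_right⟩

theorem peel_rep (P : V → Prop) (H : ∀ U, Gd Q T U → (∀ v ∈ U, P v) →
    (¬ ∃ x ∈ U, ∃ y ∈ U, IsB Q T α c x y) → D Q T α U R) (hU : Gd Q T U) (hP : ∀ v ∈ U, P v) :
    D Q T α U (rep c R) := by
  induction hd : finrank F U using Nat.strong_induction_on generalizing U with
  | _ d ih =>
    by_cases h0 : ∃ x ∈ U, ∃ y ∈ U, IsB Q T α c x y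
    · obtain ⟨x, hx, y, hy, t⟩ := h0
      refine (h.peel_cons hU hx hy t fun U' h1 h2 _ h3 =>
        ih _ (hd ▸ h3) h2 (fun v hv => hP v (h1 hv)) rfl).mono ?_
      rintro _ ⟨_, h1, rfl⟩
      obtain ⟨a, L, hL, rfl⟩ := Set.mem_iUnion.1 h1
      exact Set.mem_iUnion.2 ⟨a + 1, L, hL, rfl⟩
    · exact (H U hU hP h0).mono fun L hL => Set.mem_iUnion.2 ⟨0, L, hL, rfl⟩

variable [Finite F] (hα : psi α = -1)
include hα

omit [FiniteDimensional F V] in
theorem exists_norm (a : F) : ∃ d : F, a + d * d + d = 0 ∨ a + d * d + d = α := by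
  rcases psi_eq_or a with h0 | h0
  · obtain ⟨d, hd⟩ := psi_eq_one_iff.1 h0
    exact ⟨d, .inl (by linear_combination hd + a * h.two)⟩
  · obtain ⟨d, hd⟩ := psi_eq_one_iff.1 (show psi (a + α) = 1 by rw [psi_add h.two, h0, hα]; rfl)
    exact ⟨d, .inr (by linear_combination hd + a * h.two)⟩

theorem odd_stage (hS : Cl Q T α K S) (hU : Gd Q T U) (hT : ∀ v ∈ U, (T ^ (2 * K + 1)) v = 0) :
    D Q T α U (stepO K S) := by
  refine h.peel_rep _ (fun U hU hT h0 => ?_) hU hT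
  have alt : ∀ x ∈ U, g Q T 0 (2 * K) x x = 0 := fun x hx => by rw [h.top_even (hT x hx), h.g_self]
  have nn : ∀ x ∈ U, ∀ y ∈ U, ∀ d : F, n Q T K (y + d • x) =
      n Q T K y + d * d * n Q T K x + d * g Q T 0 (2 * K) x y := fun x hx y hy d => by
    rw [n_add, n_smul, g_smul_right, h.top_even (hT y hy), g_comm]
  have gg : ∀ x ∈ U, ∀ y, ∀ d : F, g Q T 0 (2 * K) x (y + d • x) = g Q T 0 (2 * K) x y :=
    fun x hx y d => by rw [g_add_right, g_smul_right, alt x hx, mul_zero, add_zero]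
  have hyp : ∀ x ∈ U, ∀ y ∈ U, g Q T 0 (2 * K) x y = 1 → n Q T K x ≠ 0 := fun x hx y hy h1 h2 => by
    have h3 := add_mem hy (smul_mem U (n Q T K y) hx)
    refine h0 (h.isB_W hU hT hx h3 (by rw [gg x hx, h1]) (alt x hx) (alt _ h3) fun j hj => ?_)
    obtain rfl : j = K := by omega
    simp [h2, nn x hx y hy, h1, h.add_self]
  by_cases h1 : ∀ u ∈ U, ∀ v ∈ U, g Q T 0 (2 * K) u v = 0
  · exact (hS U hU (hU.pow_eq_zero h1)).1.mono Set.subset_union_left
  push Not at h1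
  obtain ⟨u, hu, v, hv, h1⟩ := h1
  obtain ⟨x, hx, y, hy, p1, p2⟩ : ∃ x ∈ U, ∃ y ∈ U, g Q T 0 (2 * K) x y = 1 ∧ n Q T K x = 1 := by
    have h2 := hyp u hu _ (smul_mem U (g Q T 0 (2 * K) u v)⁻¹ hv)
      (by rw [g_smul_right, inv_mul_cancel₀ h1])
    obtain ⟨s, hs⟩ := exists_sqrt h.two (n Q T K u)⁻¹
    have h3 : s ≠ 0 := by rintro rfl; exact inv_ne_zero h2 (by simpa using hs.symm)
    exact ⟨_, smul_mem U s hu, _, smul_mem U (s * g Q T 0 (2 * K) u v)⁻¹ hv, by
      rw [g_smul_left, g_smul_right]; field_simp, by rw [n_smul, hs, inv_mul_cancel₀ h2]⟩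
  obtain ⟨d, hd⟩ := h.exists_norm hα (n Q T K y)
  have h3 := add_mem hy (smul_mem U d hx)
  have h4 := nn x hx y hy d
  rw [p1, p2, mul_one, mul_one] at h4
  rcases hd with hd | hd
  · exact (hyp _ h3 x hx (by rw [h.top_comm (hT x hx), gg x hx, p1]) (h4.trans hd)).elim
  obtain ⟨x, hx, y, hy, t⟩ := h.isB_W (α := α) (e := true) hU hT hx h3 (by rw [gg x hx, p1])
    (alt x hx) (alt _ h3) fun j hj => by
      obtain rfl : j = K := by omega
      simp [p2, h4, hd]
  refine (h.peel_cons hU hx hy t fun U' h5 hU' h6 _ => ?_).mono Set.subset_union_right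
  have hn : ∀ v ∈ U', n Q T K v = 0 := fun z hz => by
    by_contra h7
    obtain ⟨s, hs⟩ := exists_sqrt h.two (n Q T K z)⁻¹
    have e := fun i j => h.g_perp' t.hx t.hy (h6 hz) i j
    have e1 := t.val K
    have e2 := congr_arg Prod.fst (t.val (2 * K))
    simp only [Blk.val, Prod.mk.injEq, and_self, if_true] at e1 e2
    refine hyp _ (add_mem hx (smul_mem U s (h5 hz))) y hy ?_ ?_
    · rw [g_add_left, g_smul_left, e2, g_comm, (e _ _).2, mul_zero, add_zero]
    · rw [nn z (h5 hz) x hx, g_comm, (e _ _).1, hs, inv_mul_cancel₀ h7, e1.2.1, h.add_self]; simp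
  exact (hS U' hU' (h.pow_even hU' (fun v hv => hT v (h5 hv)) hn)).2 hn

omit [FiniteDimensional F V] hα in
theorem exists_one (hz : z ∈ U) (h0 : n Q T K z ≠ 0) : ∃ x ∈ U, n Q T K x = 1 := by
  obtain ⟨s, hs⟩ := exists_sqrt h.two (n Q T K z)⁻¹
  exact ⟨_, smul_mem U s hz, by rw [n_smul, hs, inv_mul_cancel₀ h0]⟩

theorem cyc_stage (hS : Cl Q T α K S) (hU : Gd Q T U) (hT : ∀ v ∈ U, (T ^ (2 * K + 2)) v = 0)
    (hW : ∀ x ∈ U, ∀ y ∈ U, n Q T (K + 1) x = 0 → n Q T (K + 1) y = 0 →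
      g Q T 0 (2 * K + 1) x y = 0) (hz : ¬ ∀ z ∈ U, n Q T (K + 1) z = 0)
    (H : ∀ x ∈ U, n Q T (K + 1) x = 1 → ∀ U' ≤ U, Gd Q T U' → U' ≤ perp Q (sp T 0 x 0) →
      D Q T α U' R) : D Q T α U (cons (.V K false) R ∪ cons (.V K true) (S false)) := by
  have v1 : ∀ {e x}, IsB Q T α (.V K e) x 0 → n Q T (K + 1) x = 1 := fun t => by
    simpa [Blk.val] using congr_arg (·.2.1) (t.val (K + 1))
  by_cases h0 : ∃ x ∈ U, n Q T (K + 1) x = 1 ∧ n Q T K x = 0
  · obtain ⟨x, hx, p1, p2⟩ := h0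
    obtain ⟨x, hx, t⟩ := h.isB_V (α := α) (e := false) hU hT hx p1 p2
    exact (h.peel_cons hU hx (zero_mem U) t fun U' h1 h2 h3 _ => H x hx (v1 t) U' h1 h2 h3).mono
      Set.subset_union_left
  push Not at hz h0
  obtain ⟨z, hz, h1⟩ := hz
  obtain ⟨u, hu, p1⟩ := h.exists_one hz h1
  obtain ⟨d, hd⟩ := h.exists_norm hα (n Q T K u)
  have h3 := add_mem hu (smul_mem U d (pow_mem hU.inv hu 1))
  have h4 : n Q T (K + 1) (u + d • (T ^ 1) u) = 1 := by
    rw [n_add, n_smul, n_pow, g_smul_right, g_pow_right, p1, h.n_zero (hT u hu) (by omega),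
      h.g_zero (hT u hu) (by omega)]; simp
  have h5 : n Q T K (u + d • (T ^ 1) u) = n Q T K u + d * d + d := by
    rw [n_add, n_smul, n_pow, g_smul_right, g_pow_right, ← h.n_succ, p1]; simp
  obtain ⟨x, hx, t⟩ := h.isB_V (α := α) (e := true) hU hT h3 h4
    (h5.trans (hd.resolve_left fun h6 => h0 _ h3 h4 (h5.trans h6)))
  refine (h.peel_cons hU hx (zero_mem U) t fun U' h6 hU' h7 _ => ?_).mono Set.subset_union_right
  have k1 : ∀ z ∈ U', n Q T (K + 1) z = 0 → n Q T K z = 0 := fun z hz h8 => by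
    by_contra h9
    obtain ⟨s, hs⟩ := exists_sqrt h.two (α * (n Q T K z)⁻¹)
    have e := fun i j => (h.g_perp' t.hx t.hy (h7 hz) i j).1
    have e1 : n Q T K x = α := by simpa [Blk.val] using congr_arg (·.2.1) (t.val K)
    refine h0 _ (add_mem hx (smul_mem U s (h6 hz))) ?_ ?_
    · rw [n_add, n_smul, g_smul_right, e, h8, v1 t]; simp
    · rw [n_add, n_smul, g_smul_right, e, hs, inv_mul_cancel_right₀ h9, e1, h.add_self]; simp
  have k2 : ∀ z ∈ U', n Q T (K + 1) z = 0 := fun z hz => by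
    have := k1 _ (pow_mem hU'.inv hz 1) (by rw [n_pow, h.n_zero (hT z (h6 hz)) (by omega)])
    rwa [n_pow] at this
  have k3 := fun z hz => k1 z hz (k2 z hz)
  exact (hS U' hU' (h.pow_even hU' (hU'.pow_eq_zero fun u hu v hv =>
    hW u (h6 hu) v (h6 hv) (k2 u hu) (k2 v hv)) k3)).2 k3

theorem cl_step (hS : Cl Q T α K S) : Cl Q T α (K + 1) (step K S) := by
  have hW : ∀ U, Gd Q T U → (∀ v ∈ U, (T ^ (2 * K + 2)) v = 0) →
      (¬ ∃ x ∈ U, ∃ y ∈ U, IsB Q T α (.W (2 * K + 1) false) x y) → ∀ x ∈ U, ∀ y ∈ U,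
      n Q T (K + 1) x = 0 → n Q T (K + 1) y = 0 → g Q T 0 (2 * K + 1) x y = 0 :=
    fun U hU hT h0 x hx y hy h1 h2 => by
      by_contra h3
      have h4 := smul_mem U (g Q T 0 (2 * K + 1) x y)⁻¹ hy
      exact h0 (h.isB_W hU hT hx h4 (by rw [g_smul_right, inv_mul_cancel₀ h3])
        (by rw [h.top_odd (hT x hx), h1]) (by rw [h.top_odd (hT _ h4), n_smul, h2, mul_zero])
        fun j hj => by omega)
  refine fun U hU hT => ⟨?_, fun hn => h.peel_rep
    (fun v => (T ^ (2 * K + 2)) v = 0 ∧ n Q T (K + 1) v = 0) (fun U hU hT h0 => h.odd_stage hα hS hU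
      (hU.pow_eq_zero fun u hu v hv => hW U hU (fun v hv => (hT v hv).1) h0 u hu v hv (hT u hu).2
        (hT v hv).2)) hU fun v hv => ⟨hT v hv, hn v hv⟩⟩
  rw [step, step, ← rep_union]
  refine h.peel_rep (fun v => (T ^ (2 * K + 2)) v = 0) (fun U hU hT h0 => ?_) hU hT
  replace hW := hW U hU hT h0
  have hO : ∀ U' ≤ U, Gd Q T U' → (∀ z ∈ U', n Q T (K + 1) z = 0) → D Q T α U' (stepO K S) :=
    fun U' h1 hU' hn => h.odd_stage hα hS hU' (hU'.pow_eq_zero fun u hu v hv =>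
      hW u (h1 hu) v (h1 hv) (hn u hu) (hn v hv))
  by_cases h1 : ∀ z ∈ U, n Q T (K + 1) z = 0
  · exact (hO U le_rfl hU h1).mono Set.subset_union_left
  refine (h.cyc_stage hα hS hU hT hW h1 (R := stepO K S ∪ stepV K S)
    fun x hx p1 U1 l1 hU1 o1 => ?_).mono ?_
  · by_cases h2 : ∀ z ∈ U1, n Q T (K + 1) z = 0
    · exact (hO U1 l1 hU1 h2).mono Set.subset_union_left
    refine (h.cyc_stage hα hS hU1 (fun v hv => hT v (l1 hv))
      (fun u hu v hv => hW u (l1 hu) v (l1 hv)) h2 fun y hy p2 U2 l2 hU2 o2 =>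
        hO U2 (l2.trans l1) hU2 fun z hz => ?_).mono Set.subset_union_right
    by_contra h3
    obtain ⟨z, hz, p3⟩ := h.exists_one hz h3
    have e : ∀ u ∈ U, ∀ v ∈ perp Q (sp T 0 u 0), ∀ i j, g Q T i j u v = 0 := fun u hu v hv i j =>
      (h.g_perp' (hT u hu) (map_zero _) hv i j).1
    have := hW _ (add_mem hx (l1 hy)) _ (add_mem hx (l1 (l2 hz)))
      (by rw [n_add, p1, p2, e x hx y (o1 hy), h.add_self, add_zero])
      (by rw [n_add, p1, p3, e x hx z (o1 (l2 hz)), h.add_self, add_zero])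
    rw [g_add_left, g_add_right, g_add_right, h.top_odd (hT x hx), p1, e x hx z (o1 (l2 hz)),
      g_comm, e x hx y (o1 hy), e y (l1 hy) z (o2 hz)] at this
    simp at this
  · rw [cons, Set.image_union, stepV]
    rintro L ((h2 | h2) | h2)
    exacts [.inr (.inl (.inl h2)), .inr (.inr h2), .inr (.inl (.inr h2))]

theorem cl_NF (K : ℕ) : Cl Q T α K (NF K) := by
  induction K with
  | zero =>
    intro U _ hT
    obtain rfl : U = ⊥ := (Submodule.eq_bot_iff U).2 hT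
    exact ⟨⟨[], .inl rfl, .nil⟩, fun _ => ⟨[], rfl, .nil⟩⟩
  | succ K ih => exact h.cl_step hα ih

end U2

end H58.W2
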