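import Cfsg.Agent.H58.W2D

/-! The total weight `∑ 2 ^ (- deg L)` of the normal forms. -/

set_option autoImplicit false

namespace H58.W2

open Set

variable {S S' : Set (List Blk)} {ρ ρ' : ℝ} {c : Blk} {K : ℕ}

/-- `S` has total weight at most `ρ`. -/
def Wt (S : Set (List Blk)) (ρ : ℝ) : Prop :=
  0 ≤ ρ ∧ ∑' L : S, ENNReal.ofReal ((1 / 2) ^ deg L) ≤ ENNReal.ofReal ρ

theorem Wt.mono (h : Wt S ρ) (h1 : S' ⊆ S) (h2 : ρ ≤ ρ') : Wt S' ρ' :=
  ⟨h.1.trans h2, (ENNReal.tsum_mono_subtype (fun L => ENNReal.ofReal ((1 / 2) ^ deg L)) h1).trans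
    (h.2.trans (ENNReal.ofReal_le_ofReal h2))⟩

theorem Wt.union (h : Wt S ρ) (h' : Wt S' ρ') : Wt (S ∪ S') (ρ + ρ') :=
  ⟨add_nonneg h.1 h'.1, (ENNReal.tsum_union_le (fun L => ENNReal.ofReal ((1 / 2) ^ deg L)) S S').trans
    (ENNReal.ofReal_add h.1 h'.1 ▸ add_le_add h.2 h'.2)⟩

theorem wt_empty : Wt ∅ 0 := ⟨le_rfl, by simp⟩

theorem wt_nil : Wt {[]} 1 := ⟨zero_le_one, by simp [deg]⟩

theorem Wt.image (h : Wt S ρ) (φ : List Blk → List Blk) {d : ℕ} (hφ : ∀ L, deg (φ L) = d + deg L) :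
    Wt (φ '' S) ((1 / 2) ^ d * ρ) := by
  refine ⟨mul_nonneg (by positivity) h.1, (ENNReal.tsum_le_tsum_comp_of_surjective
    (imageFactorization_surjective (f := φ) (s := S)) _).trans ?_⟩
  have : ∀ L : S, ENNReal.ofReal ((1 / 2) ^ deg (imageFactorization φ S L : List Blk)) =
      ENNReal.ofReal ((1 / 2) ^ d) * ENNReal.ofReal ((1 / 2) ^ deg L) := fun L => by
    rw [← ENNReal.ofReal_mul (by positivity), ← pow_add, ← hφ]
    rfl
  rw [tsum_congr this, ENNReal.tsum_mul_left, ENNReal.ofReal_mul (by positivity)]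
  exact mul_le_mul_right h.2 _

theorem half_pow_lt (c : Blk) : (1 / 2 : ℝ) ^ c.deg < 1 :=
  pow_lt_one₀ (by norm_num) (by norm_num) (by cases c <;> simp [Blk.deg])

theorem wt_rep {R : ℕ → Set (List Blk)} (h : ∀ a, Wt (R a) ρ) (c : Blk) :
    Wt (⋃ a, (List.replicate a c ++ ·) '' R a) (ρ / (1 - (1 / 2) ^ c.deg)) := by
  have h0 := half_pow_lt c
  refine ⟨div_nonneg (h 0).1 (by linarith), (ENNReal.tsum_iUnion_le_tsum
    (fun L => ENNReal.ofReal ((1 / 2) ^ deg L)) _).trans ((ENNReal.tsum_le_tsum fun a =>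
      ((h a).image _ (d := c.deg * a) (by simp [deg, mul_comm])).2).trans (le_of_eq ?_))⟩
  have hs := (hasSum_geometric_of_lt_one (by positivity) h0).mul_right ρ
  simp only [pow_mul]
  rw [← ENNReal.ofReal_tsum_of_nonneg (fun a => mul_nonneg (by positivity) (h 0).1) hs.summable,
    hs.tsum_eq, div_eq_inv_mul ρ]

theorem Wt.sum_le (h : Wt S ρ) (s : Finset (List Blk)) (hs : ↑s ⊆ S) :
    ∑ L ∈ s, (1 / 2 : ℝ) ^ deg L ≤ ρ := by
  have := (h.mono hs le_rfl).2
  rwa [Finset.tsum_subtype' s fun L => ENNReal.ofReal ((1 / 2) ^ deg L),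
    ← ENNReal.ofReal_sum_of_nonneg fun _ _ => by positivity,
    ENNReal.ofReal_le_ofReal_iff h.1] at this

/-- the weight of the elements of `S` whose colour is a given function of the degree -/
def WP (κ : List Blk → Bool) (S : Set (List Blk)) (ρ : ℝ) : Prop :=
  ∀ τ : ℕ → Bool, Wt (S ∩ {L | κ L = τ (deg L)}) ρ

variable {κ : List Blk → Bool} {a b a' b' ν : ℝ} {N : Bool → Set (List Blk)}

theorem WP.mono (h : WP κ S a) (h1 : S' ⊆ S) (h2 : a ≤ b) : WP κ S' b :=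
  fun τ => (h τ).mono (inter_subset_inter_left _ h1) h2

theorem WP.union (h : WP κ S a) (h' : WP κ S' b) : WP κ (S ∪ S') (a + b) :=
  fun τ => union_inter_distrib_right .. ▸ (h τ).union (h' τ)

theorem Wt.wp (h : Wt S a) : WP κ S a := fun _ => h.mono inter_subset_left le_rfl

theorem WP.wt (h : WP (fun _ => false) S a) : Wt S a :=
  (h fun _ => false).mono (fun _ h => ⟨h, rfl⟩) le_rfl

theorem deg_append (L M : List Blk) : deg (L ++ M) = deg L + deg M := by simp [deg]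

theorem par_append (L M : List Blk) : par (L ++ M) = xor (par L) (par M) := by
  induction L with
  | nil => simp [par]
  | cons c L ih => simp [par, ih]

theorem Wt.pair (h : Wt S ν) {c' : Blk} (h1 : c'.deg = c.deg) (h2 : c'.bit = !c.bit) :
    WP par (cons c S ∪ cons c' S) ((1 / 2) ^ c.deg * ν) := fun τ => by
  refine (h.image (fun L => if par (c :: L) = τ (deg (c :: L)) then c :: L else c' :: L)
    fun L => by split_ifs <;> simp [deg, h1]).mono ?_ le_rfl
  rintro _ ⟨⟨L, hL, rfl⟩ | ⟨L, hL, rfl⟩, h3⟩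
  · exact ⟨L, hL, if_pos h3⟩
  · refine ⟨L, hL, if_neg fun h4 => ?_⟩
    have : par (c' :: L) = par (c :: L) := h3.trans (h4.trans (by simp [deg, h1])).symm
    simp [par, h2] at this

section par

variable (hP : ∀ L M, κ (L ++ M) = xor (κ L) (κ M))
include hP

theorem WP.append (h : WP κ S a) (M : List Blk) (τ : ℕ → Bool) :
    ∃ R, Wt R a ∧ (M ++ ·) '' S ∩ {L | κ L = τ (deg L)} ⊆ (M ++ ·) '' R :=
  ⟨_, h fun d => xor (κ M) (τ (deg M + d)), by
    rintro _ ⟨⟨L, hL, rfl⟩, h1⟩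
    refine ⟨L, ⟨hL, ?_⟩, rfl⟩
    simp only [mem_ofPred_eq, hP, deg_append] at h1 ⊢
    simp [← h1]⟩

theorem WP.cons (h : WP κ S a) (c : Blk) : WP κ (cons c S) ((1 / 2) ^ c.deg * a) := fun τ => by
  obtain ⟨R, h1, h2⟩ := h.append hP [c] τ
  exact (h1.image _ (by simp [deg])).mono h2 le_rfl

theorem WP.rep (h : WP κ S a) (c : Blk) : WP κ (rep c S) (a / (1 - (1 / 2) ^ c.deg)) := fun τ => by
  choose R h1 h2 using fun i => h.append hP (List.replicate i c) τ
  exact (wt_rep h1 c).mono (iUnion_inter .. ▸ iUnion_mono h2) le_rfl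

theorem wp_step' {o v x : ℝ} (hO : WP κ (stepO K N) o) (hV : WP κ (stepV K N) (x / 2 * v))
    (hx : (1 / 2) ^ K = x) (h1 : o / (1 - x ^ 2 / 4) ≤ a')
    (h2 : (1 + x / 2) * (x / 2) * v / (1 - x ^ 2 / 4) ≤ b') :
    WP κ (step K N false) a' ∧ WP κ (step K N true) b' := by
  have e2 : (1 / 2 : ℝ) ^ (2 * K + 1 + 1) = x ^ 2 / 4 := by rw [← hx]; ring
  have e3 : (1 / 2 : ℝ) ^ (K + 1) = x / 2 := by rw [← hx]; ring
  refine ⟨(hO.rep hP _).mono le_rfl ((le_of_eq ?_).trans h1),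
    ((hV.union (hV.cons hP (.V K false))).rep hP _).mono le_rfl ((le_of_eq ?_).trans h2)⟩
  · rw [Blk.deg, e2]
  · rw [Blk.deg, Blk.deg, e2, e3]; ring

theorem wp_step (ha : WP κ (N false) a) (hb : WP κ (N true) b) {x : ℝ} (hx : (1 / 2) ^ K = x)
    (h1 : (a + b + x ^ 2 / 2 * a) / (1 - x ^ 2 / 2) / (1 - x ^ 2 / 4) ≤ a')
    (h2 : (1 + x / 2) * (x / 2) * ((a + b + x ^ 2 / 2 * a) / (1 - x ^ 2 / 2) + a) /
      (1 - x ^ 2 / 4) ≤ b') : WP κ (step K N false) a' ∧ WP κ (step K N true) b' := by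
  have e1 : (1 / 2 : ℝ) ^ (2 * K + 1) = x ^ 2 / 2 := by rw [← hx]; ring
  have e3 : (1 / 2 : ℝ) ^ (K + 1) = x / 2 := by rw [← hx]; ring
  have hO : WP κ (stepO K N) _ := ((ha.union hb).union (ha.cons hP (.W (2 * K) true))).rep hP _
  have hV : WP κ (stepV K N) _ := (hO.cons hP (.V K false)).union (ha.cons hP (.V K true))
  simp only [Blk.deg, e1, e3] at hO hV
  exact wp_step' hP hO (mul_add (x / 2) _ a ▸ hV) hx h1 h2

theorem wp_tail {C : ℝ} (hC0 : 0 ≤ C) {M : ℕ → Bool → Set (List Blk)} {K0 : ℕ}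
    (hM : ∀ K, M (K + 1) = step (K + K0) (M K)) {a b : ℝ} (ha : WP κ (M 0 false) a)
    (hb : WP κ (M 0 true) b) (hC : a + b ≤ C * (1 - 2 * (1 / 2) ^ K0)) (K : ℕ) :
    WP κ (M K false ∪ M K true) C := by
  obtain ⟨a, b, ha, hb, h1⟩ : ∃ a b : ℝ, WP κ (M K false) a ∧ WP κ (M K true) b ∧
      a + b ≤ C * (1 - 2 * (1 / 2) ^ (K + K0)) := by
    induction K with
    | zero => exact ⟨a, b, ha, hb, by rwa [zero_add]⟩
    | succ K ih =>
      obtain ⟨a, b, ha, hb, h1⟩ := ih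
      obtain ⟨p1, p2⟩ := wp_step hP (K := K + K0) ha hb rfl le_rfl le_rfl
      refine ⟨_, _, hM K ▸ p1, hM K ▸ p2, ?_⟩
      have a0 := (ha fun _ => true).1
      have b0 := (hb fun _ => true).1
      rw [add_right_comm K 1, pow_succ (1 / 2 : ℝ) (K + K0)]
      have x0 : (0 : ℝ) < (1 / 2) ^ (K + K0) := by positivity
      have x1 : (1 / 2 : ℝ) ^ (K + K0) ≤ 1 := pow_le_one₀ (by norm_num) (by norm_num)
      generalize (1 / 2 : ℝ) ^ (K + K0) = x at *
      have u0 : 0 < 1 - x ^ 2 / 2 := by nlinarith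
      have w0 : 0 < 1 - x ^ 2 / 4 := by nlinarith
      have e : (a + b + x ^ 2 / 2 * a) / (1 - x ^ 2 / 2) / (1 - x ^ 2 / 4) + (1 + x / 2) * (x / 2) *
          ((a + b + x ^ 2 / 2 * a) / (1 - x ^ 2 / 2) + a) / (1 - x ^ 2 / 4) =
          ((1 + x + x ^ 2) * (a + b) - b * (x ^ 2 / 2 + (1 + x / 2) * (x / 2))) /
            ((1 - x ^ 2 / 2) * (1 - x ^ 2 / 4)) := by
        rw [← add_div, ← div_div, div_left_inj' w0.ne', eq_div_iff u0.ne', add_mul,
          div_mul_cancel₀ _ u0.ne', mul_assoc, add_mul _ a, div_mul_cancel₀ _ u0.ne']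
        ring
      rw [e, div_le_iff₀ (mul_pos u0 w0)]
      have k1 : 0 ≤ b * (x ^ 2 / 2 + (1 + x / 2) * (x / 2)) := by positivity
      have k2 := mul_le_mul_of_nonneg_left h1 (by positivity : 0 ≤ 1 + x + x ^ 2)
      have k3 : 0 ≤ C * (x ^ 2 / 4 + 11 * x ^ 3 / 4 + x ^ 4 * (1 - x) / 8) :=
        mul_nonneg hC0 (by have := sub_nonneg.2 x1; positivity)
      nlinarith
  refine (ha.union hb).mono le_rfl (h1.trans ?_)
  have : (0 : ℝ) ≤ C * (1 / 2) ^ (K + K0) := by positivity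
  linarith

end par

theorem rep_subset (c : Blk) (S : Set (List Blk)) : rep c S ⊆ S ∪ rep c (cons c S) := fun _ h => by
  obtain ⟨_ | i, L, hL, rfl⟩ := mem_iUnion.1 h
  · exact .inl hL
  · exact .inr (mem_iUnion.2 ⟨i, _, ⟨L, hL, rfl⟩, by simp [List.replicate_succ']⟩)

theorem wp_step_par (ha : WP par (N false) a) (hb : WP par (N true) b) (hν : Wt (N false) ν) {x : ℝ}
    (hx : (1 / 2) ^ K = x) (h1 : (a + (b + x ^ 2 / 2 * ν) / (1 - x ^ 2 / 2)) / (1 - x ^ 2 / 4) ≤ a')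
    (h2 : (1 + x / 2) * (x / 2) * ((b + x ^ 2 / 2 * ν) / (1 - x ^ 2 / 2) + ν) /
      (1 - x ^ 2 / 4) ≤ b') : WP par (step K N false) a' ∧ WP par (step K N true) b' := by
  have e1 : (1 / 2 : ℝ) ^ (2 * K + 1) = x ^ 2 / 2 := by rw [← hx]; ring
  have e3 : (1 / 2 : ℝ) ^ (K + 1) = x / 2 := by rw [← hx]; ring
  have h3 := (hb.union (hν.pair (c := .W (2 * K) false) (c' := .W (2 * K) true) rfl
    (by simp [Blk.bit]))).rep par_append (.W (2 * K) false)
  have h4 : stepO K N ⊆ N false ∪ rep (.W (2 * K) false) (N true ∪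
      (cons (.W (2 * K) false) (N false) ∪ cons (.W (2 * K) true) (N false))) := by
    simp only [stepO, rep_union]
    rintro L ((h | h) | h)
    exacts [(rep_subset _ _ h).imp_right fun h => .inr (.inl h), .inr (.inl h), .inr (.inr (.inr h))]
  have h5 := (h3.cons par_append (.V K false)).union
    (hν.pair (c := .V K false) (c' := .V K true) rfl rfl)
  simp only [Blk.deg, e1, e3] at h3 h5
  refine wp_step' par_append ((ha.union h3).mono h4 le_rfl) (h5.mono ?_ (mul_add ..).ge) hx h1 h2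
  rintro _ (⟨L, hL, rfl⟩ | h)
  exacts [(h4 hL).symm.imp (fun h => ⟨L, h, rfl⟩) fun h => .inl ⟨L, h, rfl⟩, .inr (.inr h)]

/-- the weight of the normal forms of a given parity -/
theorem wt_par (K : ℕ) : WP par (NF (K + 3) false ∪ NF (K + 3) true) 15 := by
  have hP : ∀ L M : List Blk, (fun _ => false) (L ++ M) =
      xor ((fun _ => false) L) ((fun _ => false) M) := fun _ _ => rfl
  have n0 : Wt (NF 0 false) 1 := wt_nil
  have m0 : Wt (NF 0 true) 0 := wt_empty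
  obtain ⟨n1, m1⟩ := wp_step (κ := fun _ => false) hP (K := 0) n0.wp m0.wp rfl (a' := 4) (b' := 4) (by norm_num)
    (by norm_num)
  obtain ⟨n2, -⟩ := wp_step (κ := fun _ => false) hP (K := 1) n1 m1 rfl (a' := 10.362) (by norm_num) le_rfl
  obtain ⟨a1, b1⟩ := wp_step_par (K := 0) n0.wp m0.wp n0 rfl (a' := 8 / 3) (b' := 2) (by norm_num)
    (by norm_num)
  obtain ⟨a2, b2⟩ := wp_step_par (K := 1) a1 b1 n1.wt rfl (a' := 5.893) (b' := 2.286) (by norm_num)
    (by norm_num)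
  obtain ⟨a3, b3⟩ := wp_step_par (K := 2) (N := NF 2) a2 b2 n2.wt rfl (a' := 8.73) (b' := 1.87)
    (by norm_num) (by norm_num)
  exact wp_tail par_append (by norm_num) (M := fun K => NF (K + 3)) (K0 := 3) (fun _ => rfl) a3 b3
    (by norm_num) K

/-- the normal forms for the polar form alone -/
def NE : ℕ → Bool → Set (List Blk)
  | 0, false => rep (.W 1 false) (rep (.W 0 false) {[]})
  | 0, true => rep (.W 1 false) (cons (.V 0 false) (rep (.W 0 false) {[]}) ∪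
      cons (.V 0 false) (cons (.V 0 false) (rep (.W 0 false) {[]})))
  | K + 1, f => step (K + 1) (NE K) f

theorem wt_NE (K : ℕ) : WP (fun _ => false) (NE (K + 5) false ∪ NE (K + 5) true) 15.2 := by
  have hP : ∀ L M : List Blk, (fun _ => false) (L ++ M) =
      xor ((fun _ => false) L) ((fun _ => false) M) := fun _ _ => rfl
  have r := WP.rep (κ := fun _ => false) hP wt_nil.wp (.W 0 false)
  have a1 : WP _ (NE 0 false) (8 / 3) := (r.rep hP _).mono le_rfl (by norm_num [Blk.deg])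
  have b1 : WP _ (NE 0 true) 2 := (((r.cons hP _).union ((r.cons hP _).cons hP _)).rep hP _).mono
    le_rfl (by norm_num [Blk.deg])
  obtain ⟨a2, b2⟩ := wp_step hP (K := 1) a1 b1 rfl (a' := 6.096) (b' := 2.794)
    (by norm_num) (by norm_num)
  obtain ⟨a3, b3⟩ := wp_step hP (K := 2) (N := NE 1) a2 b2 rfl (a' := 9.523) (b' := 2.21)
    (by norm_num) (by norm_num)
  obtain ⟨a4, b4⟩ := wp_step hP (K := 3) (N := NE 2) a3 b3 rfl (a' := 11.948) (b' := 1.429)
    (by norm_num) (by norm_num)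
  obtain ⟨a5, b5⟩ := wp_step hP (K := 4) (N := NE 3) a4 b4 rfl (a' := 13.44) (b' := 0.819)
    (by norm_num) (by norm_num)
  obtain ⟨a6, b6⟩ := wp_step hP (K := 5) (N := NE 4) a5 b5 rfl (a' := 14.277) (b' := 0.44)
    (by norm_num) (by norm_num)
  exact wp_tail hP (by norm_num) (M := fun K => NE (K + 5)) (K0 := 6) (fun _ => rfl) a6 b6
    (by norm_num) K

theorem mt_cons {c' : Blk} (h : MapsTo (List.map Blk.er) S S') (hc : c.er = c') :
    MapsTo (List.map Blk.er) (cons c S) (cons c' S') := by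
  rintro _ ⟨L, hL, rfl⟩
  exact ⟨_, h hL, by simp [hc]⟩

theorem mt_rep (h : MapsTo (List.map Blk.er) S S') (hc : c.er = c) :
    MapsTo (List.map Blk.er) (rep c S) (rep c S') := fun _ h1 => by
  obtain ⟨i, L, hL, rfl⟩ := mem_iUnion.1 h1
  exact mem_iUnion.2 ⟨i, _, h hL, by simp [hc]⟩

theorem mt_NF (K : ℕ) (f : Bool) : MapsTo (List.map Blk.er) (NF (K + 1) f) (NE K f) := by
  induction K generalizing f with
  | zero =>
    have h0 : [] ∈ rep (.W 0 false) {[]} := mem_iUnion.2 ⟨0, _, rfl, rfl⟩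
    have hO : MapsTo (List.map Blk.er) (stepO 0 (NF 0)) (rep (.W 0 false) {[]}) := fun _ h1 => by
      obtain ⟨i, L, (rfl | h2) | ⟨_, rfl, rfl⟩, rfl⟩ := mem_iUnion.1 h1
      · exact mem_iUnion.2 ⟨i, _, rfl, by simp [Blk.er]⟩
      · exact h2.elim
      · exact mem_iUnion.2 ⟨i + 1, _, rfl, by simp [Blk.er, List.replicate_succ']⟩
    have hV : MapsTo (List.map Blk.er) (stepV 0 (NF 0)) (cons (.V 0 false) (rep (.W 0 false) {[]})) :=
      (mt_cons hO rfl).union (mt_cons (by rintro _ rfl; exact h0) rfl)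
    cases f
    · exact mt_rep hO rfl
    · exact mt_rep (hV.union_union (mt_cons hV rfl)) rfl
  | succ K ih =>
    have hO : MapsTo (List.map Blk.er) (stepO (K + 1) (NF (K + 1))) (stepO (K + 1) (NE K)) :=
      mt_rep (((ih _).union_union (ih _)).union_union (mt_cons (ih _) rfl)) rfl
    have hV : MapsTo (List.map Blk.er) (stepV (K + 1) (NF (K + 1))) (stepV (K + 1) (NE K)) :=
      (mt_cons hO rfl).union_union (mt_cons (ih _) rfl)
    cases f
    · exact mt_rep hO rfl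
    · exact mt_rep (hV.union_union (mt_cons hV rfl)) rfl

open Finset in
/-- the counting lemma -/
theorem count_le {X Y : Type*} [Finite X] (ℓ : X → List Blk) (s : X → Y) (hS : ∀ x, ℓ x ∈ S)
    (hW : WP κ S ρ) (inj : ∀ x y, ℓ x = ℓ y → s x = s y → x = y)
    (hκ : ∀ x y, s x = s y → κ (ℓ x) = κ (ℓ y)) {q n : ℕ} (hq : 2 ≤ q) (hd : ∀ x, deg (ℓ x) ≤ n)
    (hY : ∀ d ≤ n, ∀ t : Finset Y, (∀ y ∈ t, ∃ x, deg (ℓ x) = d ∧ s x = y) → #t ≤ q ^ (n - d)) :
    (Nat.card X : ℝ) ≤ ρ * q ^ n := by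
  classical
  have := Fintype.ofFinite X
  let Λ : ℕ → Bool → Finset (List Blk) := fun d π => {L ∈ Finset.univ.image ℓ | deg L = d ∧ κ L = π}
  let τ : ℕ → Bool := fun d => decide (#(Λ d false) ≤ #(Λ d true))
  have h1 : ∀ d π, #(Λ d π) ≤ #(Λ d (τ d)) := fun d π => by
    by_cases h : #(Λ d false) ≤ #(Λ d true) <;> cases π <;> simp only [τ, h] <;> simp <;> omega
  have h2 : ∀ d ≤ n, #{x | deg (ℓ x) = d} ≤ #(Λ d (τ d)) * q ^ (n - d) := fun d hd =>
    (card_le_mul_card_image (f := s) _ _ fun y hy => by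
      obtain ⟨x, hx, rfl⟩ := Finset.mem_image.1 hy
      refine (card_le_card_of_injOn ℓ (fun z hz => ?_) fun z hz w hw e => inj z w e ?_).trans
        (h1 d (κ (ℓ x)))
      · simp only [coe_filter, mem_filter, Finset.mem_univ, true_and, mem_ofPred_eq] at hz
        simp [Λ, hz.1, hκ _ _ hz.2]
      · simp only [coe_filter, mem_filter, mem_ofPred_eq] at hz hw
        rw [hz.2, hw.2]).trans
      (Nat.mul_le_mul_left _ (hY d hd _ fun y hy => by simpa using hy))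
  have h3 := (hW τ).sum_le {L ∈ Finset.univ.image ℓ | κ L = τ (deg L)} fun L hL => by
    simp only [coe_filter, Finset.mem_image, Finset.mem_univ, true_and, mem_ofPred_eq] at hL
    obtain ⟨⟨x, rfl⟩, h⟩ := hL
    exact ⟨hS x, h⟩
  rw [← sum_fiberwise_of_maps_to (t := Finset.range (n + 1)) (g := deg) fun L hL => by
    obtain ⟨x, -, rfl⟩ := Finset.mem_image.1 (mem_filter.1 hL).1
    exact Finset.mem_range.2 (Nat.lt_succ_of_le (hd x))] at h3
  rw [Nat.card_eq_fintype_card, ← card_univ, card_eq_sum_card_fiberwise (f := fun x => deg (ℓ x))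
    (t := Finset.range (n + 1)) fun x _ => mem_coe.2 (Finset.mem_range.2 (Nat.lt_succ_of_le (hd x))), Nat.cast_sum]
  refine le_trans (sum_le_sum fun d hd => ?_) ((sum_mul ..).ge.trans
    (mul_le_mul_of_nonneg_right h3 (by positivity)))
  have h4 : d ≤ n := Nat.le_of_lt_succ (Finset.mem_range.1 hd)
  have h5 : {L ∈ {L ∈ Finset.univ.image ℓ | κ L = τ (deg L)} | deg L = d} = Λ d (τ d) := by
    ext L
    simp only [Λ, mem_filter, and_assoc]
    exact and_congr_right fun _ => ⟨fun h => ⟨h.2, h.2 ▸ h.1⟩, fun h => ⟨h.1 ▸ h.2, h.1⟩⟩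
  rw [sum_congr rfl fun L hL => by rw [(mem_filter.1 hL).2], sum_const, h5, nsmul_eq_mul, mul_assoc]
  refine (Nat.cast_le.2 (h2 d h4)).trans ?_
  push_cast
  refine mul_le_mul_of_nonneg_left ?_ (by positivity)
  obtain ⟨e, rfl⟩ := Nat.exists_eq_add_of_le h4
  rw [Nat.add_sub_cancel_left, pow_add, ← mul_assoc, ← mul_pow]
  have : (2 : ℝ) ≤ q := by exact_mod_cast hq
  exact le_mul_of_one_le_left (by positivity) (one_le_pow₀ (by linarith))

end H58.W2
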