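import Cfsg.Agent.H58.W2E

/-! Upper bounds for the class numbers of symplectic and orthogonal groups in characteristic `2`. -/

set_option autoImplicit false

namespace H58.W2

open Module Polynomial H53 H93.O2
open H59 (perp)

variable {F : Type*} [Field F]

/-- self-dual multisets of elementary divisors without the eigenvalues `±1` -/
structure Rg (s : Multiset F[X]) : Prop where
  pp : ∀ P ∈ s, IsPP P
  ne : ∀ P ∈ s, P.coeff 0 ≠ 0
  st : s.map (pstar (RingHom.id F)) = s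
  co : ∀ P ∈ s, IsCoprime P (X ^ 2 - 1)

theorem Rg.pal {s : Multiset F[X]} (h : Rg s) (k : ℕ) : Pal (lay s k) ∧ (lay s k).eval 1 ≠ 0 := by
  classical
  have h3 := coeff_zero_lay h.pp h.ne k
  have h4 := pstar_lay (σ := RingHom.id F) (fun _ => rfl) h.pp h.st k
  have h5 : IsCoprime (lay s k) (X ^ 2 - 1) := by
    rw [lay]
    refine (isCoprime_multiset_prod (t := {X ^ 2 - 1}) fun P hP R hR => ?_).of_isCoprime_of_dvd_right
      (by simp)
    obtain ⟨φ, h6, rfl⟩ := Multiset.mem_map.1 hP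
    have h7 := Multiset.mem_of_mem_filter h6
    have h8 := h.co φ h7
    rw [(h.pp φ h7).spec.2.2.2, IsCoprime.pow_left_iff (h.pp φ h7).spec.2.2.1] at h8
    exact Multiset.mem_singleton.1 hR ▸ h8
  have h6 : (lay s k).eval 1 ≠ 0 := fun h0 => by
    obtain ⟨a, b, h9⟩ := h5
    simpa [h0] using congrArg (eval 1) h9
  refine ⟨⟨monic_lay h.pp k, ?_, Cfsg.Agent.S2385.coeff_zero_of_rigid h3 h4 h6, h4⟩, h6⟩
  obtain ⟨t, ht, e⟩ := exists_prod_eq (monic_lay h.pp k)
  rw [← e] at h3 h4 h5 ⊢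
  rw [natDegree_multiset_prod_of_monic _ fun P hP => (ht P hP).1]
  refine even_sum_natDegree_of_rigid (fun P h => isPP_of_irreducible (ht P h).1 (ht P h).2)
    (coeff_zero_ne_of_prod h3) (eq_of_prod_eq (fun P hP => ?_) ht (by rw [← pstar_multiset_prod, h4]))
    fun P hP => h5.of_isCoprime_of_dvd_left (Multiset.dvd_prod hP)
  obtain ⟨R, hR, rfl⟩ := Multiset.mem_map.1 hP
  exact ⟨monic_pstar (ht R hR).1.ne_zero, irreducible_pstar (fun _ => rfl) (ht R hR).1 (ht R hR).2⟩

theorem co_rg {s : Multiset F[X]} {P : F[X]} (h : P ∈ rg s) : IsCoprime P (X ^ 2 - 1) := by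
  classical
  exact (Multiset.mem_filter.1 h).2

variable [Finite F]

theorem card_pal_ne (j : ℕ) : Nat.card {P : F[X] // P.Monic ∧ P.natDegree = 2 * (j + 1) ∧
    Pal P ∧ P.eval 1 ≠ 0} ≤ (Nat.card F - 1) * Nat.card F ^ j := by
  have hm : ((X - C 1) ^ (2 * 1) : F[X]).Monic := (monic_X_sub_C 1).pow _
  have h1 := Nat.card_le_card_of_injective (Sum.elim
    (fun P : {P : F[X] // P.Monic ∧ P.natDegree = 2 * (j + 1) ∧ Pal P ∧ P.eval 1 ≠ 0} =>
      (⟨P.1, P.2.1, P.2.2.1, P.2.2.2.1.2.2⟩ : {P : F[X] // P.Monic ∧ P.natDegree = 2 * (j + 1) ∧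
        P.coeff 0 = 1 ∧ pstar (RingHom.id F) P = P}))
    fun P : {P : F[X] // P.Monic ∧ P.natDegree = 2 * j ∧ P.coeff 0 = 1 ∧
        pstar (RingHom.id F) P = P} => ⟨(X - C 1) ^ (2 * 1) * P.1, hm.mul P.2.1, by
      rw [hm.natDegree_mul P.2.1, P.2.2.1, natDegree_pow, natDegree_X_sub_C]; ring,
      ((pal_pow (one_mul 1) 1).mul ⟨P.2.1, P.2.2.1.symm ▸ even_two_mul j, P.2.2.2⟩).2.2⟩) (by
    rintro (P | P) (R | R) h <;> have h2 := congrArg Subtype.val h <;>
      simp only [Sum.elim_inl, Sum.elim_inr] at h2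
    · exact congrArg _ (Subtype.ext h2)
    · exact (P.2.2.2.2 (by simp [h2])).elim
    · exact (R.2.2.2.2 (by simp [← h2])).elim
    · exact congrArg _ (Subtype.ext (mul_left_cancel₀ hm.ne_zero h2)))
  rw [Nat.card_sum, Cfsg.Agent.S2385.card_palin, Cfsg.Agent.S2385.card_palin, pow_succ'] at h1
  rw [Nat.sub_mul, one_mul]
  omega

theorem card_rg (N : ℕ) (t : Finset (Multiset F[X]))
    (ht : ∀ s ∈ t, Rg s ∧ (s.map natDegree).sum = 2 * N) : t.card ≤ Nat.card F ^ N := by
  have h := count_lay0 (A := PUnit) (X := t) (n := 2 * N) (α := Nat.card F - 1) (q := Nat.card F)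
    two_pos (·.1) (fun x => (ht _ x.2).1.pp) (fun x => (ht _ x.2).2) (fun _ => 1)
    (fun P => Pal P ∧ P.eval 1 ≠ 0) (fun x => (ht _ x.2).1.pal) (fun m a hm => by
      split_ifs with h
      · obtain ⟨_ | j, rfl⟩ := h
        · omega
        · simpa using card_pal_ne (F := F) j
      · have : IsEmpty {P : F[X] // P.Monic ∧ P.natDegree = m ∧ (1 : PUnit) = a ∧ Pal P ∧
            P.eval 1 ≠ 0} := ⟨fun P => h (P.2.2.1 ▸ P.2.2.2.2.1.2.1.two_dvd)⟩
        rw [Nat.card_of_isEmpty (α := Subtype _), mul_zero]) 1 rfl (fun _ => rfl) fun x => ⟨⊤, by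
      rw [Subgroup.index_top, Finite.card_le_one_iff_subsingleton]
      exact ⟨fun a b => Subtype.ext (Subtype.ext (a.2.trans b.2.symm))⟩, by simp⟩
  simp only [SB, Nat.card_unique, one_mul, Nat.gcd_one_left, Nat.divisors_one, Finset.sum_singleton,
    mul_one, dvd_mul_right, if_true, Nat.div_one, one_pow, Nat.sub_self, zero_le, max_eq_left,
    Nat.card_eq_fintype_card (α := t), Fintype.card_coe, Nat.mul_div_cancel_left N two_pos] at h
  rcases N.eq_zero_or_pos with rfl | hN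
  · simpa [PC] using h
  · exact (Nat.le_succ_of_le h).trans (PC_gl Nat.card_pos (by omega) hN)

variable {V W : Type*} [AddCommGroup V] [Module F V] [AddCommGroup W] [Module F W]
  [FiniteDimensional F V] [FiniteDimensional F W] {Q : QuadraticForm F V} {Q' : QuadraticForm F W}
  {f : End F V} {g : End F W} {α : F} {L L' : List Blk}

omit [Finite F] [FiniteDimensional F V] in
theorem u2_of_qinv (h2 : (2 : F) = 0) (hf : QInv Q f) : U2 Q (f - 1) := ⟨h2, fun v => by
  have := hf v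
  rw [show f v = v + (f - 1) v by simp, H56.Q_add] at this
  linear_combination this - QuadraticMap.polar Q v ((f - 1) v) * h2⟩

omit [Finite F] [FiniteDimensional F V] in
theorem gd_top (hQ : Q.polarBilin.Nondegenerate) (T : End F V) : Gd Q T ⊤ :=
  ⟨fun _ _ => trivial, fun v _ hv => hQ.1 v fun w => H56.mem_perp'.1 hv w trivial⟩

/-- the unipotent part of `f` has the normal form `L` -/
def Nf (α : F) (Q : QuadraticForm F V) (f : End F V) (L : List Blk) : Prop :=
  ∃ (A : Submodule F V) (hA : ∀ v ∈ A, f v ∈ A) (hC : ∀ v ∈ perp Q.polarBilin A,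
    f v ∈ perp Q.polarBilin A), Disjoint A (perp Q.polarBilin A) ∧
    Dec (Q.restrict A) (f.restrict hA - 1) α ⊤ L ∧ ed (f.restrict hC) = rg (ed f)

theorem exists_nf (h2 : (2 : F) = 0) (hα : psi α = -1) (hQ : Q.polarBilin.Nondegenerate)
    (hf : QInv Q f) {K : ℕ} (hK : finrank F V ≤ 2 * K) :
    ∃ L ∈ NF K false ∪ NF K true, Nf α Q f L := by
  classical
  have hB := isSF_polar hQ
  let u := (ed f).filter fun P => ¬ IsCoprime P (X ^ 2 - 1)
  have e : ed f = u + rg (ed f) := by rw [add_comm]; exact (Multiset.filter_add_not _ _).symm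
  have e1 : (X + 1 : F[X]) = X - 1 := by
    rw [sub_eq_add_neg, ← C_1, ← C_neg, show (-1 : F) = 1 by linear_combination -h2]
  have hu : ∀ P ∈ u, P = (X - 1) ^ P.natDegree := fun P hP => by
    obtain ⟨h3, h4⟩ := Multiset.mem_filter.1 hP
    obtain ⟨k, -, h5⟩ := (ed_isPP f P h3).isCoprime_or.resolve_left h4
    rw [e1, or_self] at h5
    rw [h5, natDegree_pow, ← C_1, natDegree_X_sub_C, mul_one]
  have hc : ∀ P ∈ u, ∀ R ∈ rg (ed f), IsCoprime P R := fun P hP R hR => by
    rw [hu P hP]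
    exact ((co_rg hR).of_isCoprime_of_dvd_right ⟨X + 1, by ring⟩).symm.pow_left
  have hs : u.map (pstar (RingHom.id F)) = u := by
    conv_rhs => rw [← u.map_id]
    exact Multiset.map_congr rfl fun P hP => by rw [hu P hP, pstar_pow, pstar_X_sub_one, id]
  obtain ⟨-, h3⟩ := hf.inv.disjoint_ker_of_add hB e hc hs
  have h5 := (ed_restrict_ker_of_add e hc).2.1
  have h7 := hf.inv.ed_eq_add hB (ker_aeval_mapsTo f _) h3
  rw [h5] at h7
  have h8 : u.prod = (X - 1) ^ (u.map natDegree).sum := by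
    clear_value u
    clear e hc hs h3 h5 h7
    induction u using Multiset.induction_on with
    | empty => simp
    | cons P u ih =>
      obtain ⟨p1, p2⟩ := Multiset.forall_mem_cons.1 hu
      rw [Multiset.prod_cons, Multiset.map_cons, Multiset.sum_cons, pow_add, ← p1, ih p2]
  have h9 : (u.map natDegree).sum ≤ 2 * K := by
    rw [← sum_natDegree_ed f, e, Multiset.map_add, Multiset.sum_add] at hK
    omega
  obtain ⟨L, hL, d⟩ := ((u2_of_qinv h2 (hf.restrict (ker_aeval_mapsTo f u.prod))).cl_NF hα K ⊤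
    (gd_top (nondeg_restrict hQ h3) _) fun v _ => pow_zero_of_le (by
      have := (congrArg (aeval _) h8).symm.trans (aeval_restrict_ker f u.prod)
      rw [map_pow, map_sub, aeval_X, map_one] at this
      rw [this, LinearMap.zero_apply]) h9).1
  exact ⟨L, hL, _, _, _, h3, d, (add_left_cancel (e.symm.trans h7)).symm⟩

omit [Finite F] in
theorem rg_ed (hQ : Q.polarBilin.Nondegenerate) (hf : QInv Q f) (h : Nf α Q f L) :
    Rg (rg (ed f)) := by
  classical
  obtain ⟨A, hA, hC, h1, -, h3⟩ := h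
  have h4 := (isSF_polar hQ).restrict ((isSF_polar hQ).disjoint_perp h1)
  have h5 := hf.inv.restrict hC
  exact ⟨h3 ▸ ed_isPP _, h3 ▸ (isUnit_iff_ed _).1 (h5.isUnit h4), h3 ▸ h5.map_pstar_ed h4,
    fun P => co_rg⟩

omit [Finite F] in
theorem Nf.deg (h2 : (2 : F) = 0) (hQ : Q.polarBilin.Nondegenerate) (hf : QInv Q f)
    (h : Nf α Q f L) : 2 * deg L + ((rg (ed f)).map natDegree).sum = finrank F V := by
  obtain ⟨A, hA, hC, h1, d, h3⟩ := h
  rw [← h3, sum_natDegree_ed, ← d.finrank (u2_of_qinv h2 (hf.restrict hA)), finrank_top]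
  exact (isSF_polar hQ).finrank_add_finrank_perp A

theorem Nf.iso (h2 : (2 : F) = 0) (hQ : Q.polarBilin.Nondegenerate)
    (hQ' : Q'.polarBilin.Nondegenerate) (hf : QInv Q f) (hg : QInv Q' g) (h : Nf α Q f L)
    (h' : Nf α Q' g L') (hs : rg (ed f) = rg (ed g)) (he : L.map Blk.er = L'.map Blk.er) :
    Iso (σ := RingHom.id F) Q.polarBilin f Q'.polarBilin g ∧ (L = L' → QIso Q f Q' g) := by
  classical
  obtain ⟨A, hA, hC, h1, d, h3⟩ := h
  obtain ⟨A', hA', hC', h1', d', h3'⟩ := h'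
  have q := qiso_of_rigid (nondeg_restrict hQ ((isSF_polar hQ).disjoint_perp h1))
    (nondeg_restrict hQ' ((isSF_polar hQ').disjoint_perp h1')) (hf.restrict hC) (hg.restrict hC')
    (sim_of_ed_eq (h3.trans (hs.trans h3'.symm))) fun P hP => co_rg (h3 ▸ hP)
  obtain ⟨e, p1, p2, p3⟩ := d.iso (u2_of_qinv h2 (hf.restrict hA)) (u2_of_qinv h2 (hg.restrict hA'))
    (gd_top (nondeg_restrict hQ h1) _) (gd_top (nondeg_restrict hQ' h1') _) d' he
  have p4 : ∀ v, e (f.restrict hA v) = g.restrict hA' (e v) := fun v => by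
    simpa using p1 v
  have r := hf.qiso_prod hQ hA h1
  have r' := hg.qiso_prod hQ' hA' h1'
  refine ⟨r.iso.symm.trans (Iso.trans ?_ r'.iso), fun h0 =>
    r.symm.trans ((QIso.prodMap ⟨e, p4, p3 h0⟩ q).trans r')⟩
  rw [polarBilin_prod', polarBilin_prod']
  exact Iso.prodMap ⟨e, p4, p2⟩ q.iso

omit [FiniteDimensional F V] [FiniteDimensional F W] in
theorem gs_prod [Fintype V] [Fintype W] (h2 : (2 : F) = 0) : gs (Q.prod Q') = gs Q * gs Q' := by
  simp only [gs, Finset.sum_mul_sum, Fintype.sum_prod_type, QuadraticMap.prod_apply, psi_add h2]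

omit [FiniteDimensional F V] [Finite F] in
theorem G_top [Fintype V] : G Q ⊤ = gs Q := by
  classical
  exact Fintype.sum_equiv Submodule.topEquiv.toEquiv _ _ fun _ => rfl

theorem Nf.par (h2 : (2 : F) = 0) (hα : psi α = -1) (hQ : Q.polarBilin.Nondegenerate)
    {g : End F V} (hf : QInv Q f) (hg : QInv Q g) (h : Nf α Q f L) (h' : Nf α Q g L')
    (hs : rg (ed f) = rg (ed g)) : par L = par L' := by
  classical
  have := Module.finite_of_finite F (M := V)
  have := Fintype.ofFinite V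
  obtain ⟨A, hA, hC, h1, d, h3⟩ := h
  obtain ⟨A', hA', hC', h1', d', h3'⟩ := h'
  have n1 := nondeg_restrict hQ ((isSF_polar hQ).disjoint_perp h1)
  obtain ⟨e, -, q⟩ := qiso_of_rigid n1 (nondeg_restrict hQ ((isSF_polar hQ).disjoint_perp h1'))
    (hf.restrict hC) (hg.restrict hC') (sim_of_ed_eq (h3.trans (hs.trans h3'.symm)))
    fun P hP => co_rg (h3 ▸ hP)
  obtain ⟨r, -, p⟩ := hf.qiso_prod hQ hA h1
  obtain ⟨r', -, p'⟩ := hg.qiso_prod hQ hA' h1'
  have e1 := (gs_congr r.toEquiv p).symm.trans (gs_congr r'.toEquiv p')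
  rw [gs_prod h2, gs_prod h2, gs_congr e.toEquiv q, mul_left_inj' (gs_ne_zero h2 n1)] at e1
  have s1 := d.sign (u2_of_qinv h2 (hf.restrict hA)) hα
  have s2 := d'.sign (u2_of_qinv h2 (hg.restrict hA')) hα
  rw [G_top] at s1 s2
  rw [e1] at s1
  revert s1 s2
  cases W2.par L <;> cases W2.par L' <;> simp <;> omega

variable {Γ : Type*} [Group Γ] [Finite Γ] (φ : Γ → End F V) {n : ℕ}

theorem classes_sp (h2 : (2 : F) = 0) {B : V →ₗ[F] V →ₗ[F] F}
    (hB : IsSF (σ := RingHom.id F) (-1) B) (ha : ∀ x, B x x = 0) (hφ : ∀ g, Inv B (φ g))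
    (hc : ∀ a b, Iso (σ := RingHom.id F) B (φ a) B (φ b) → IsConj a b) (hV : finrank F V = 2 * n) :
    5 * Nat.card (ConjClasses Γ) ≤ 76 * Nat.card F ^ n := by
  obtain ⟨α, hα⟩ := exists_psi_neg h2
  choose Q h1 h3 using fun C : ConjClasses Γ => exists_qinv_of_char_two h2 hB ha (hφ (H53.rep C))
  have hQ : ∀ C, (Q C).polarBilin.Nondegenerate := fun C => (h1 C).symm ▸ hB.nondegenerate
  choose L h4 h5 using fun C => exists_nf h2 hα (hQ C) (h3 C) (K := n + 5 + 1) (by omega)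
  have h6 : ∀ C, deg ((L C).map Blk.er) = deg (L C) := fun C => by
    simp [deg, Function.comp_def, Blk.deg_er]
  have h7 := fun C => (h5 C).deg h2 (hQ C) (h3 C)
  have := count_le (fun C => (L C).map Blk.er) (fun C => rg (ed (φ (H53.rep C))))
    (fun C => (h4 C).imp (mt_NF _ _ ·) (mt_NF _ _ ·)) (wt_NE n) (fun a b e1 e2 => by
      have := ((h5 a).iso h2 (hQ a) (hQ b) (h3 a) (h3 b) (h5 b) e2 e1).1
      rw [h1, h1] at this
      rw [← mk_rep a, ← mk_rep b, ConjClasses.mk_eq_mk_iff_isConj]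
      exact hc _ _ this) (fun _ _ _ => rfl) (q := Nat.card F) (n := n) Finite.one_lt_card
    (fun C => by have := h7 C; rw [h6]; omega) fun d hd t ht => card_rg _ t fun s hs => by
      obtain ⟨C, e, rfl⟩ := ht s hs
      have := h7 C
      rw [h6] at e
      exact ⟨rg_ed (hQ C) (h3 C) (h5 C), by omega⟩
  have h8 : (5 : ℝ) * Nat.card (ConjClasses Γ) ≤ 76 * Nat.card F ^ n := by linarith
  exact_mod_cast h8

theorem classes_O_le (h2 : (2 : F) = 0) (hQ : Q.polarBilin.Nondegenerate)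
    (hV : finrank F V = 2 * n) : Nat.card (ConjClasses (H56.O Q)) ≤ 15 * Nat.card F ^ n := by
  obtain ⟨α, hα⟩ := exists_psi_neg h2
  have h3 := fun C : ConjClasses (H56.O Q) => qinv_lin (H53.rep C)
  choose L h4 h5 using fun C => exists_nf h2 hα hQ (h3 C) (K := n + 3) (by omega)
  have h7 := fun C => (h5 C).deg h2 hQ (h3 C)
  have := count_le L (fun C => rg (ed (H53.rep C).lin)) h4 (wt_par n) (fun a b e1 e2 => by
      obtain ⟨e, p1, p2⟩ := ((h5 a).iso h2 hQ hQ (h3 a) (h3 b) (h5 b) e2 (by rw [e1])).2 e1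
      rw [← mk_rep a, ← mk_rep b, ConjClasses.mk_eq_mk_iff_isConj]
      exact isConj_iff.2 ⟨⟨e, p2⟩, mul_inv_eq_iff_eq_mul.2 (H56.O.ext p1)⟩)
    (fun a b e => (h5 a).par h2 hα hQ (h3 a) (h3 b) (h5 b) e) (q := Nat.card F) (n := n)
    Finite.one_lt_card (fun C => by have := h7 C; omega) fun d hd t ht => card_rg _ t fun s hs => by
      obtain ⟨C, e, rfl⟩ := ht s hs
      have := h7 C
      exact ⟨rg_ed hQ (h3 C) (h5 C), by omega⟩
  exact_mod_cast this

end H58.W2
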