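import Cfsg.Agent.H58.W2F

/-! The lower bound for the class numbers of the orthogonal groups in characteristic `2`. -/

set_option autoImplicit false

namespace H58.W2

open Module Polynomial H53 H93.O2 QuadraticMap

universe u

variable {F : Type u} [Field F] [Finite F] {p p' : F[X]} {c c' : F}

omit [Finite F] in
theorem two_alg (h2 : (2 : F) = 0) (A : Type*) [Ring A] [Algebra F A] : (2 : A) = 0 := by
  rw [← map_ofNat (algebraMap F A), h2, map_zero]

section ext

variable {K : Type*} [Field K] [Algebra F K] [Fintype K]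

omit [Finite F] in
theorem trace_mul_self (h2 : (2 : F) = 0) (a : K) :
    Algebra.trace F K (a * a) = Algebra.trace F K a * Algebra.trace F K a := by
  have : CharP K 2 := CharTwo.of_one_ne_zero_of_two_eq_zero one_ne_zero (two_alg h2 K)
  refine (algebraMap F K).injective ?_
  simp only [map_mul, FiniteField.algebraMap_trace_eq_sum_pow, CharTwo.sum_mul_self, mul_pow]

theorem trace_mul_ne {a : K} (ha : a ≠ 0) : (Algebra.trace F K).comp (LinearMap.mulRight F a) ≠ 0 :=
  fun h => ha ((traceForm_nondegenerate F K).2 a fun b => LinearMap.congr_fun h b)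

/-- the trace of a binary form over an extension field -/
noncomputable def qf (F : Type u) [Field F] [Algebra F K] (s t : K) : QuadraticForm F (K × K) :=
  (Algebra.trace F K).compQuadraticMap (linMulLin (LinearMap.fst F K K) (LinearMap.fst F K K) +
    linMulLin (LinearMap.fst F K K) (s • LinearMap.snd F K K) +
    linMulLin (LinearMap.snd F K K) (t • LinearMap.snd F K K))

omit [Finite F] [Fintype K] in
theorem qf_apply (s t : K) (v : K × K) :
    qf F s t v = Algebra.trace F K (v.1 * v.1 + v.1 * (s * v.2) + v.2 * (t * v.2)) := rfl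

theorem qf_nondeg (h2 : (2 : F) = 0) {s : K} (hs : s ≠ 0) (t : K) :
    (qf F s t).polarBilin.Nondegenerate := by
  have h3 := two_alg h2 K
  have e : ∀ v w : K × K, polar (qf F s t) v w =
      Algebra.trace F K (w.1 * (s * v.2) + w.2 * (s * v.1)) := fun v w => by
    rw [polar, qf_apply, qf_apply, qf_apply, ← map_sub, ← map_sub]
    congr 1
    simp only [Prod.fst_add, Prod.snd_add]
    linear_combination (v.1 * w.1 + t * v.2 * w.2) * h3
  have : ∀ v, (∀ w, polar (qf F s t) v w = 0) → v = 0 := fun v hv => by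
    refine Prod.ext ?_ ?_ <;> by_contra h
    · exact trace_mul_ne (F := F) (mul_ne_zero hs h) (LinearMap.ext fun b => by
        simpa [e, mul_assoc] using hv (0, b))
    · exact trace_mul_ne (F := F) (mul_ne_zero hs h) (LinearMap.ext fun b => by
        simpa [e, mul_assoc] using hv (b, 0))
  exact ⟨this, fun v hv => this v fun w => (polar_comm _ _ _).trans (hv w)⟩

theorem gs_qf (h2 : (2 : F) = 0) {s : K} (hs : s ≠ 0) (t : K) :
    gs (qf F s t) = Fintype.card K * psi (Algebra.trace F K (s⁻¹ * (t * s⁻¹))) := by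
  classical
  have h3 := two_alg h2 K
  have e : ∀ a b : K, psi (qf F s t (a, b)) = psi (((Algebra.trace F K).comp
      (LinearMap.mulRight F (1 + s * b))) a) * psi (Algebra.trace F K (b * (t * b))) := fun a b => by
    simp only [qf_apply, map_add, psi_add h2, trace_mul_self h2, psi_sq h2, LinearMap.comp_apply,
      LinearMap.mulRight_apply, mul_add, mul_one]
  rw [gs, Fintype.sum_prod_type_right, Finset.sum_eq_single s⁻¹ _ (by simp)]
  · simp [e, mul_inv_cancel₀ hs, one_add_one_eq_two, h3, psi_zero]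
  · intro b _ hb
    simp only [e]
    rw [← Finset.sum_mul, sum_psi_lin h2 _ (trace_mul_ne fun h0 =>
      hb (eq_inv_of_mul_eq_one_right (by linear_combination h0 - h3))), zero_mul]

omit [Finite F] in
theorem charpoly_lmul {x : K} {φ : F[X]} (hm : φ.Monic) (hi : Irreducible φ) (hx : aeval x φ = 0)
    (hd : φ.natDegree = finrank F K) : (Algebra.lmul F K x).charpoly = φ := by
  refine eq_of_monic_of_dvd_of_natDegree_le hm (LinearMap.charpoly_monic _) ?_
    (by rw [LinearMap.charpoly_natDegree, hd])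
  rw [minpoly.eq_of_irreducible_of_monic hi hx hm,
    ← minpoly.algHom_eq (Algebra.lmul F K) Algebra.lmul_injective]
  exact LinearMap.minpoly_dvd_charpoly _

omit [Finite F] in
theorem trace_eq_nextCoeff (x : K) :
    Algebra.trace F K x = -(Algebra.lmul F K x).charpoly.nextCoeff := by
  classical
  rw [Algebra.trace_eq_matrix_trace (finBasis F K), Matrix.trace_eq_neg_charpoly_nextCoeff,
    Algebra.leftMulMatrix_apply, LinearMap.charpoly_toMatrix]

end ext

/-- There is an isometry `f` of a space of type `c` with `f + f⁻¹` of characteristic polynomial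
`p ^ 2`. -/
def RS (p : F[X]) (c : F) : Prop :=
  ∃ (W : Type u) (_ : AddCommGroup W) (_ : Module F W) (_ : Fintype W) (Q : QuadraticForm F W)
    (f h : End F W), Q.polarBilin.Nondegenerate ∧ QInv Q f ∧ f * f + 1 = h * f ∧
      h.charpoly = p * p ∧ 0 < psi c * gs Q

theorem RS.mul (h2 : (2 : F) = 0) (h : RS p c) (h' : RS p' c') : RS (p * p') (c + c') := by
  obtain ⟨W, _, _, _, Q, f, h, p1, p2, p3, p4, p5⟩ := h
  obtain ⟨W', _, _, _, Q', f', h', q1, q2, q3, q4, q5⟩ := h'
  refine ⟨W × W', inferInstance, inferInstance, inferInstance, Q.prod Q', f.prodMap f', h.prodMap h',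
    nondeg_prod p1 q1, p2.prodMap q2, LinearMap.ext fun v => Prod.ext (LinearMap.congr_fun p3 v.1)
      (LinearMap.congr_fun q3 v.2), by rw [LinearMap.charpoly_prodMap, p4, q4]; ring, ?_⟩
  rw [gs_prod h2, psi_add h2, mul_mul_mul_comm]
  exact mul_pos p5 q5

omit [Finite F] in
theorem rs_one : RS (1 : F[X]) 0 :=
  ⟨PUnit, inferInstance, inferInstance, inferInstance, 0, 1, 0,
    ⟨fun _ _ => rfl, fun _ _ => rfl⟩, QInv.one, Subsingleton.elim _ _,
    by simp [LinearMap.charpoly_zero, finrank_zero_of_subsingleton], by simp [gs, psi_zero]⟩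

theorem rs_X (h2 : (2 : F) = 0) (c : F) : RS X c := by
  have := Fintype.ofFinite F
  refine ⟨F × F, inferInstance, inferInstance, inferInstance, qf F 1 c, 1, 0,
    qf_nondeg h2 one_ne_zero c, QInv.one, LinearMap.ext fun v => add_self2 h2 v,
    by simp [LinearMap.charpoly_zero, pow_two], ?_⟩
  rw [gs_qf h2 one_ne_zero, mul_left_comm]
  simp [psi_mul_self, Fintype.card_pos]

theorem rs_irr (h2 : (2 : F) = 0) (hm : p.Monic) (hi : Irreducible p) (h0 : p.coeff 0 ≠ 0) :
    RS p (p.coeff 1 / p.coeff 0) := by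
  have := Fact.mk hi
  have := (AdjoinRoot.powerBasis hm.ne_zero).finite
  have := Module.finite_of_finite F (M := AdjoinRoot p)
  have := Fintype.ofFinite (AdjoinRoot p)
  have hd : p.natDegree = finrank F (AdjoinRoot p) := (AdjoinRoot.powerBasis hm.ne_zero).finrank.symm
  have hx : aeval (AdjoinRoot.root p) p = 0 := by simp
  generalize AdjoinRoot.root p = s at hx
  have hs : s ≠ 0 := by
    rintro rfl
    exact h0 (by simpa [← coeff_zero_eq_aeval_zero'] using hx)
  have h3 := two_alg h2 (AdjoinRoot p)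
  refine ⟨AdjoinRoot p × AdjoinRoot p, inferInstance, inferInstance, inferInstance, qf F s 1,
    (LinearMap.snd F _ _).prod (LinearMap.fst F _ _ + s • LinearMap.snd F _ _),
    (Algebra.lmul F _ s).prodMap (Algebra.lmul F _ s), qf_nondeg h2 hs 1, fun v => ?_,
    LinearMap.ext fun v => Prod.ext ?_ ?_,
    by rw [LinearMap.charpoly_prodMap, charpoly_lmul hm hi hx hd], ?_⟩
  · rw [qf_apply, qf_apply]
    congr 1
    simp
    linear_combination (s * v.1 * v.2 + s ^ 2 * v.2 ^ 2) * h3
  · simp
    linear_combination v.1 * h3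
  · simp
    linear_combination v.2 * h3
  · have h4 : p.natDegree - 1 ≤ p.natDegree := Nat.sub_le _ _
    have h5 := hi.natDegree_pos
    rw [gs_qf h2 hs, one_mul, trace_mul_self h2, psi_sq h2, trace_eq_nextCoeff,
      charpoly_lmul (monic_pstar (σ := RingHom.id F) hm.ne_zero)
        (irreducible_pstar (fun _ => rfl) hm hi)
        (by rw [aeval_pstar (inv_mul_cancel₀ hs) h0, Polynomial.map_id, hx]; simp)
        (by rw [natDegree_pstar, hd]),
      nextCoeff_of_natDegree_pos (by rwa [natDegree_pstar]), natDegree_pstar, coeff_pstar h0 h4,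
      show p.natDegree - (p.natDegree - 1) = 1 by omega, mul_left_comm,
      show -(((RingHom.id F) (p.coeff 0))⁻¹ * (RingHom.id F) (p.coeff 1)) = p.coeff 1 / p.coeff 0 by
        simp only [RingHom.id_apply]; linear_combination -(p.coeff 1 / p.coeff 0) * h2]
    simp [psi_mul_self, Fintype.card_pos]

theorem exists_rs (h2 : (2 : F) = 0) (hm : p.Monic) :
    ∃ c, RS p c ∧ (p.coeff 0 ≠ 0 → c = p.coeff 1 / p.coeff 0) := by
  obtain ⟨t, ht, rfl⟩ := exists_prod_eq hm
  clear hm
  induction t using Multiset.induction_on with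
  | empty => exact ⟨0, rs_one, fun _ => by simp [coeff_one]⟩
  | cons φ t ih =>
    obtain ⟨h3, h4⟩ := Multiset.forall_mem_cons.1 ht
    obtain ⟨c, p1, p2⟩ := ih h4
    rw [Multiset.prod_cons]
    by_cases h0 : φ.coeff 0 = 0
    · obtain rfl : X = φ := eq_of_monic_of_associated monic_X h3.1
        (irreducible_X.associated_of_dvd h3.2 (X_dvd_iff.2 h0))
      exact ⟨_, (rs_X h2 0).mul h2 p1, fun h => by simp at h⟩
    · refine ⟨_, (rs_irr h2 h3.1 h3.2 h0).mul h2 p1, fun h => ?_⟩
      rw [mul_coeff_zero] at h ⊢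
      rw [p2 (right_ne_zero_of_mul h), mul_coeff_one, div_add_div _ _ h0 (right_ne_zero_of_mul h),
        add_comm]

theorem le_classes_O (h2 : (2 : F) = 0) {V : Type*} [AddCommGroup V] [Module F V]
    [FiniteDimensional F V] {Q : QuadraticForm F V} (hQ : Q.polarBilin.Nondegenerate) {n : ℕ}
    (hn : 2 ≤ n) (hV : finrank F V = 2 * n) :
    Nat.card F ^ n ≤ 2 * Nat.card (ConjClasses (H56.O Q)) := by
  classical
  have := Module.finite_of_finite F (M := V)
  have := Fintype.ofFinite V
  obtain ⟨α, hα⟩ := exists_psi_neg h2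
  obtain ⟨c, hc⟩ : ∃ c : F, 0 < psi c * gs Q := by
    rcases (gs_ne_zero h2 hQ).lt_or_gt with h | h
    exacts [⟨α, by simpa [hα]⟩, ⟨0, by simpa [psi_zero]⟩]
  let y : F[X] → Prop := fun P => P.coeff 0 = 0 ∨ psi (P.coeff 1 / P.coeff 0) = psi c
  have h1 : ∀ P : {P : F[X] // P.Monic ∧ P.natDegree = n ∧ y P}, ∃ g : H56.O Q,
      (g.lin + g⁻¹.lin).charpoly = P.1 * P.1 := by
    rintro ⟨P, hm, hd, hy⟩
    obtain ⟨d, ⟨W, _, _, _, R, f, h, p1, p2, p3, p4, p5⟩, hd⟩ : ∃ d, RS P d ∧ psi d = psi c := by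
      by_cases h0 : P.coeff 0 = 0
      · obtain ⟨P, rfl⟩ := X_dvd_iff.2 h0
        obtain ⟨d, h3, -⟩ := exists_rs h2 (monic_X.of_mul_monic_left hm)
        exact ⟨_, (rs_X h2 (c - d)).mul h2 h3, by rw [sub_add_cancel]⟩
      · obtain ⟨d, h3, h4⟩ := exists_rs h2 hm
        exact ⟨d, h3, h4 h0 ▸ hy.resolve_left h0⟩
    have h3 : finrank F W = 2 * n := by
      rw [← LinearMap.charpoly_natDegree h, p4, hm.natDegree_mul hm]; omega
    obtain ⟨e, he⟩ := exists_equiv_of_isPlus_iff p1 hQ (h3.trans hV.symm) (h3 ▸ even_two_mul n) (by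
      rw [isPlus_iff_gs h2 p1, isPlus_iff_gs h2 hQ]
      rw [hd] at p5
      rcases psi_eq_or c with h | h <;> rw [h] at p5 hc <;> omega)
    obtain ⟨g, hg⟩ := ((exists_qiso_of_isometry e he f).symm.qinv p2).exists_lin_eq hQ
    refine ⟨g, ((Sim.ed_eq (f := h) ⟨e, fun v => ?_⟩).symm ▸ charpoly_eq_prod_ed _).trans
      ((charpoly_eq_prod_ed h).symm.trans p4)⟩
    obtain ⟨v, rfl⟩ := ((End.isUnit_iff _).1 (p2.isUnit p1)).2 v
    have h4 : ∀ v, e (f v) = g (e v) := fun v => by simpa using (LinearMap.congr_fun hg (e v)).symm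
    rw [← End.mul_apply, ← p3]
    simp [h4]
  choose g hg using h1
  have h3 := Nat.card_le_card_of_injective (fun P => ConjClasses.mk (g P)) fun a b hab => by
    obtain ⟨z, hz⟩ := isConj_iff.1 (ConjClasses.mk_eq_mk_iff_isConj.1 hab)
    have h4 : a.1 * a.1 = b.1 * b.1 := by
      rw [← hg, ← hg, charpoly_eq_prod_ed, charpoly_eq_prod_ed, Sim.ed_eq
        (f := (g a).lin + (g a)⁻¹.lin) (g := (g b).lin + (g b)⁻¹.lin) ⟨z.1, fun v => by simp [← hz]⟩]
    have h5 := two_alg h2 F[X]
    exact Subtype.ext (sub_eq_zero.1 (mul_self_eq_zero.1 (by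
      linear_combination h4 + (b.1 * b.1 - a.1 * b.1) * h5)))
  have h4 : ∀ P : F[X], ∀ a : F, P.Monic → P.natDegree = n → (P + C a * X).Monic ∧
      (P + C a * X).natDegree = n := fun P a hm hd => by
    have : (C a * X).natDegree < P.natDegree := (natDegree_C_mul_le a X).trans_lt (by
      rw [natDegree_X]; omega)
    exact ⟨hm.add_of_left (degree_lt_degree this), by rw [natDegree_add_eq_left_of_natDegree_lt this, hd]⟩
  have h5 := Nat.card_le_card_of_surjective (Sum.elim
    (fun P : {P : F[X] // P.Monic ∧ P.natDegree = n ∧ y P} =>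
      (⟨P.1, P.2.1, P.2.2.1⟩ : {P : F[X] // P.Monic ∧ P.natDegree = n}))
    fun P : {P : F[X] // P.Monic ∧ P.natDegree = n ∧ y P} =>
      ⟨P.1 + C (α * P.1.coeff 0) * X, h4 _ _ P.2.1 P.2.2.1⟩) fun ⟨P, hm, hd⟩ => by
    by_cases h : y P
    · exact ⟨.inl ⟨P, hm, hd, h⟩, rfl⟩
    · simp only [y, not_or] at h
      refine ⟨.inr ⟨P + C (-(α * P.coeff 0)) * X, (h4 _ _ hm hd).1, (h4 _ _ hm hd).2, .inr ?_⟩,
        Subtype.ext (by simp)⟩
      have : (P + C (-(α * P.coeff 0)) * X).coeff 1 / (P + C (-(α * P.coeff 0)) * X).coeff 0 =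
          P.coeff 1 / P.coeff 0 + α := by
        have := h.1
        simp only [coeff_add, coeff_C_mul, coeff_X_one, coeff_X_zero, mul_zero, add_zero]
        field_simp
        linear_combination -α * P.coeff 0 * h2
      rw [this, psi_add h2, hα]
      rcases psi_eq_or c with h6 | h6 <;> rcases psi_eq_or (P.coeff 1 / P.coeff 0) with h7 | h7 <;>
        simp_all
  rw [card_monic, Nat.card_sum] at h5
  omega

end H58.W2
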